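import Cfsg.Agent.H6.SUC2
import Cfsg.Agent.Asch.Uni

/-!
Recognising `SU₃(q)` from three groups of transvections.
-/

set_option autoImplicit false
set_option linter.unusedSectionVars false
set_option linter.unusedVariables false

namespace Cfsg.Agent.H6.SU

open Module Cfsg.Agent.Form Cfsg.Agent.H7
open scoped MatrixGroups Matrix

section abstract

variable {F : Type*} [Field F] {σ : F →+* F} {hσ : ∀ a, σ (σ a) = a}
  {V : Type*} [AddCommGroup V] [Module F V] {S : PQ (FP.unit σ hσ) V} {M : Subgroup (V ≃ₗ[F] V)}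
  [FiniteDimensional F V] [Finite F]

/-- `SU₃(q)`, `q ≥ 3`, is generated by its transvections. -/
theorem Full.sisom_le_three (hne : ∃ a, σ a ≠ a) (h3 : ∃ a : F, σ a = a ∧ a ≠ 0 ∧ a ≠ 1)
    (hS : S.Nondeg) (hd : finrank F V = 3) (h : Full S M ⊤) : sisom S ≤ M := by
  have hT := S.nondegOn_top.2 hS
  have hd' : finrank F (⊤ : Submodule F V) = 3 := by simpa using hd
  have h' : Full S (M ⊓ sisom S) ⊤ := fun v hv hs =>
    ⟨sing hs, fun c hc => ⟨(h v hv hs).2 c hc, tau_mem_sisom S (sing hs) c hc⟩⟩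
  have hE := h'.ef hne h3 hT
  obtain ⟨d, -, e, -, hdd, hee, hde⟩ := exists_hyp_on hne hT (by omega)
  have hed : S.B e d = 1 := by rw [← Bs, hde, map_one]
  obtain ⟨w, -, hww, hwd, hwe⟩ := exists_nonsing_perp hne hT hd'.ge (e := d) (f := e) trivial trivial
    hdd hee (by rw [hde]; exact one_ne_zero)
  intro g hg
  have hd0 : d ≠ 0 := by rintro rfl; simp at hde
  obtain ⟨k, hk, hk', e1⟩ := hE.trans hne hT hd'.ge (x := g d) (y := d) (r := 0) trivial trivial
    (by simpa using hd0) hd0 (PQ.B_isom hg.1 d d) (zero_mem _)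
  rw [add_zero, add_zero] at e1
  have hkg : ∀ x y, S.B (k (g x)) (k (g y)) = S.B x y := fun x y => by
    rw [PQ.B_isom hk', PQ.B_isom hg.1]
  have a1 : S.B (k (g e)) d = S.B e d := by rw [← hkg e d, e1]
  obtain ⟨w', r, hok, -, e2⟩ := exists_eich_map S (x := k (g e)) (y := e) (sing hdd) a1
    (by rw [a1, hed]; exact one_ne_zero) ((S.unit_Q_sub_mem S _ _).2 (hkg e e).symm)
  have hm := (hE d trivial w' trivial r hok).2
  set m := S.eich d w' r hok with hmdef
  have e3 : m d = d := by rw [hmdef, eich_ap, S.B_comm_zero hok.perp, hdd]; simp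
  have ht : m * k * g ∈ sisom S := mul_mem (mul_mem hm.2 hk.2) hg
  have t1 : (m * k * g) d = d := by rw [LinearEquiv.mul_apply, LinearEquiv.mul_apply, e1, e3]
  have t2 : (m * k * g) e = e := by rw [LinearEquiv.mul_apply, LinearEquiv.mul_apply, e2]
  have hw0 : w ≠ 0 := by rintro rfl; simp at hww
  have key : m * k * g = 1 := by
    generalize m * k * g = t at ht t1 t2
    obtain ⟨a, ha⟩ := decomp3 hT hd' (y := d) (f := e) (w := w) trivial trivial trivial hdd hee hde hw0
      hwd hwe (t := t w) trivial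
    have b1 : S.B (t w) e = 0 := by rw [← t2, PQ.B_isom ht.1, hwe]
    have b2 : S.B (t w) d = 0 := by rw [← t1, PQ.B_isom ht.1, hwd]
    rw [b1, b2, zero_smul, zero_smul, zero_add, zero_add] at ha
    have e4 : ∀ x, t x = x + (((a - 1) / S.B w w) • S.lin w) x • w := by
      intro x
      obtain ⟨c, hc⟩ := decomp3 hT hd' (y := d) (f := e) (w := w) trivial trivial trivial hdd hee hde
        hw0 hwd hwe (t := x) trivial
      have : S.B x w = c * S.B w w := by
        rw [hc]; simp [S.B_comm_zero hwd, S.B_comm_zero hwe]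
      rw [LinearMap.smul_apply, PQ.lin_apply, this]
      nth_rewrite 1 [hc]
      nth_rewrite 3 [hc]
      rw [map_add, map_add, map_smul, map_smul, map_smul, t1, t2, ha]
      match_scalars
      · ring
      · ring
      · simp only [smul_eq_mul]; field_simp; ring
    have e5 := det_of_rank_one e4
    rw [(mem_sisom.1 ht).2] at e5
    have e6 : 1 = a := by simpa [hww] using e5
    ext x
    rw [e4, ← e6]; simp
  have : g = (m * k)⁻¹ := by rw [eq_inv_iff_mul_eq_one, ← mul_eq_one_iff_inv_eq.1 key]; simp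
  rw [this]
  exact inv_mem (mul_mem hm.1 hk.1)

end abstract

/-- the skew-Hermitian matrix of the triangle -/
def triX {K : Type*} [Field K] (β β' : K) : Matrix (Fin 3) (Fin 3) K := !![0, 1, 1; -1, 0, β; -1, -β', 0]

section overF
variable {F : Type*} [Field F] [Fintype F] {q : ℕ} (hF : Fintype.card F = q ^ 2)

theorem triX_herm {β ε : F} (hε : ε + ε ^ q = 0) :
    ((ε • (triX β (β ^ q))ᵀ).map (frobQ hF))ᵀ = ε • (triX β (β ^ q))ᵀ := by
  have h1 : frobQ hF ε = -ε := by rw [frobQ_apply]; linear_combination hε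
  have h2 : frobQ hF (β ^ q) = β := pow_q_pow_q hF β
  have h3 : frobQ hF β = β ^ q := rfl
  ext i j
  fin_cases i <;> fin_cases j <;>
    simp [-frobQ_apply, triX, h1, h2, h3]

theorem triX_det {β ε : F} (hε : ε ≠ 0) (hβ : β ^ q ≠ β) : (ε • (triX β (β ^ q))ᵀ).det ≠ 0 := by
  rw [Matrix.det_smul, Matrix.det_transpose]
  refine mul_ne_zero (pow_ne_zero _ hε) ?_
  have : (triX β (β ^ q)).det = β ^ q - β := by simp [triX, Matrix.det_fin_three]; ring
  rw [this]; exact sub_ne_zero.2 hβ

include hF in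
theorem su_of_triangle (hq : 3 ≤ q) {β ε : F} (hε0 : ε ≠ 0) (hε : ε + ε ^ q = 0) (hβ : β ^ q ≠ β)
    (M : Subgroup (GL (Fin 3) F))
    (ha : ∀ i, ∀ e : F, e ^ q = e → ∃ g ∈ M,
      g.val = 1 + Matrix.vecMulVec (Pi.single i 1) (e • triX β (β ^ q) i))
    (g : GL (Fin 3) F) (h1 : g.val.det = 1)
    (h2 : g.valᵀ * (ε • (triX β (β ^ q))ᵀ) * g.val.map (frobQ hF) = ε • (triX β (β ^ q))ᵀ) : g ∈ M := by
  have hf := Asch.isUnitaryForm_ofG (σ := frobQ hF) (pow_q_pow_q hF) (exists_pow_q_ne hF)
    (triX_herm hF (β := β) hε) (triX_det hε0 hβ)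
  have hne := unit_ne hf
  have hS := unitPQ_nondeg hf
  have hB : ∀ x i, (unitPQ hf).B x (Pi.single i 1) = ε * (triX β (β ^ q) i ⬝ᵥ x) := by
    intro x i
    simp only [unitPQ_B, Asch.ofG_eq_sum, Pi.single_apply, apply_ite (frobQ hF : F →+* F), map_one,
      map_zero, mul_ite, mul_one, mul_zero, Finset.sum_ite_eq', Finset.mem_univ, if_true,
      Matrix.smul_apply, Matrix.transpose_apply, smul_eq_mul, dotProduct, Finset.mul_sum]
    exact Finset.sum_congr rfl fun _ _ => by ring
  have hc : ∀ i, Ctr (unitPQ hf) (M.map (toLE (ι := Fin 3) (F := F)).toMonoidHom) (Pi.single i 1) := by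
    intro i
    refine ctr_iff.2 ⟨?_, fun c hc => ?_⟩
    · rw [hB]; fin_cases i <;> simp [triX]
    · have h3 : c ^ q = -c := by
        have : c + c ^ q = 0 := hc
        linear_combination this
      have h4 : ε ^ q = -ε := by linear_combination hε
      obtain ⟨t, ht, e⟩ := ha i (c * ε) (by rw [mul_pow, h3, h4]; ring)
      refine ⟨_, ⟨t, ht, rfl⟩, fun x => ?_⟩
      change toLE t x = _
      rw [toLE_apply, e, hB, Matrix.add_mulVec, Matrix.one_mulVec, Matrix.vecMulVec_mulVec]
      ext j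
      simp [mul_assoc, mul_comm, mul_left_comm]
  have hT := (unitPQ hf).nondegOn_top.2 hS
  have hfull := full_three hne hT (by simp) (d := Pi.single 0 1) (e := Pi.single 1 1)
    (x := Pi.single 2 1) trivial trivial trivial (hc 0) (hc 1) (hc 2)
    (by rw [hB]; simp [triX, hε0]) (by
      rw [Submodule.mem_span_pair]
      rintro ⟨a, b, h⟩
      simpa using congrFun h 2)
  have hle := hfull.sisom_le_three hne (exists_real hF hq) hS (by simp)
  have hg : toLE g ∈ sisom (unitPQ hf) := by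
    refine mem_sisom.2 ⟨(PQ.unit_mem_isom _ _).2 fun x y => ?_, ?_⟩
    · exact (Asch.fix_iff _ _ _).2 h2 x y
    · rw [det_toLE]; exact Units.ext h1
  obtain ⟨g', hg', e⟩ := hle hg
  rwa [← toLE.injective e]

end overF

/-- glue lemma: a perfect subgroup of projective similitudes containing three full transvection groups
is a conjugate of `SU₃(q)`. -/
theorem su_glue {K : Type*} [Field K] [Finite K] (L : Subgroup (GL (Fin 3) K)) (hperf : ⁅L, L⁆ = L)
    (E : Subfield K) (q : ℕ) (hq : 3 ≤ q) (hE : Nat.card E = q ^ 2) (β : K) (hβ : β ∈ E)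
    (hβ' : β ^ q ≠ β) (P : GL (Fin 3) K)
    (ha : ∀ i, ∀ e : K, e ^ q = e → ∃ g ∈ L, ∃ c : K, Asch.cj P⁻¹ g.val =
      c • (1 + Matrix.vecMulVec (Pi.single i 1)
        (e • (!![0, 1, 1; -1, 0, β; -1, -β ^ q, 0] : Matrix (Fin 3) (Fin 3) K) i)))
    (hb : ∀ g ∈ L, ∃ (c f : K) (G : Matrix (Fin 3) (Fin 3) K), Asch.Over E G ∧
      Asch.cj P⁻¹ g.val = c • G ∧
      (G.map (· ^ q))ᵀ * (!![0, 1, 1; -1, 0, β; -1, -β ^ q, 0] : Matrix (Fin 3) (Fin 3) K) * G =
        f • (!![0, 1, 1; -1, 0, β; -1, -β ^ q, 0] : Matrix (Fin 3) (Fin 3) K)) :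
    ∃ P' : GL (Fin 3) K, ∀ g, g ∈ L ↔ g.val.det = 1 ∧ Asch.Over E (Asch.cj P'⁻¹ g.val) ∧
      (Asch.cj P'⁻¹ g.val)ᵀ * (Asch.cj P'⁻¹ g.val).map (· ^ q) = 1 := by
  classical
  have := Fintype.ofFinite K
  have := Fintype.ofFinite E
  have hF : Fintype.card E = q ^ 2 := by rw [← Nat.card_eq_fintype_card, hE]
  obtain ⟨b, rfl⟩ : ∃ b : E, (b : K) = β := ⟨⟨β, hβ⟩, rfl⟩
  have hb' : b ^ q ≠ b := fun h => hβ' (by rw [← SubmonoidClass.coe_pow, h])
  obtain ⟨ε, hε0, hε⟩ := exists_tr_zero (σ := (frobQ hF : E →+* E)) (exists_pow_q_ne hF) (pow_q_pow_q hF)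
  replace hε : ε + ε ^ q = 0 := hε
  have hX : (!![0, 1, 1; -1, 0, (b : K); -1, -(b : K) ^ q, 0] : Matrix (Fin 3) (Fin 3) K) =
      (triX b (b ^ q)).map E.subtype := by
    ext i j; fin_cases i <;> fin_cases j <;> simp [triX]
  rw [hX] at ha hb
  set X := triX b (b ^ q) with hXdef
  set H := ε • Xᵀ with hH
  let φ : GL (Fin 3) E →* GL (Fin 3) K :=
    (MulAut.conj P).toMonoidHom.comp (Matrix.GeneralLinearGroup.map E.subtype)
  have hφ : ∀ G g, φ G = g ↔ Asch.cj P⁻¹ g.val = G.val.map E.subtype := by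
    intro G g
    rw [Asch.cj_coe]
    constructor
    · rintro rfl
      have : P⁻¹ * φ G * P⁻¹⁻¹ = Matrix.GeneralLinearGroup.map E.subtype G := by
        simp [φ, mul_assoc]
      rw [this]; rfl
    · intro h
      have : P⁻¹ * g * P⁻¹⁻¹ = Matrix.GeneralLinearGroup.map E.subtype G := Units.ext h
      simp [φ, ← this, mul_assoc]
  have hmap : ∀ G : Matrix (Fin 3) (Fin 3) E,
      (G.map E.subtype).map (· ^ q) = (G.map (frobQ hF)).map E.subtype := fun G => by
    ext i j; simp
  have hinj : ∀ G G' : Matrix (Fin 3) (Fin 3) E, G.map E.subtype = G'.map E.subtype → G = G' :=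
    fun G G' h => Matrix.map_injective E.subtype.injective h
  have hdet : ∀ G : GL (Fin 3) E, (φ G).val.det = (G.val.det : K) := fun G => by
    have h1 := congrArg Matrix.det ((hφ G _).1 rfl)
    rw [Asch.cj_apply, Matrix.det_units_conj] at h1
    rw [h1]; exact (RingHom.map_det E.subtype G.val).symm
  have hone : (1 : Matrix (Fin 3) (Fin 3) E).map (frobQ hF) = 1 :=
    Matrix.map_one _ (map_zero _) (map_one _)
  -- the special unitary group of `H`
  let N : Subgroup (GL (Fin 3) E) :=
    { carrier := {G | G.val.det = 1 ∧ G.valᵀ * H * G.val.map (frobQ hF) = H}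
      one_mem' := ⟨by simp, by simp [hone]⟩
      mul_mem' := by
        rintro x y ⟨h1, h2⟩ ⟨h3, h4⟩
        refine ⟨by simp [h1, h3], ?_⟩
        rw [Units.val_mul, Matrix.transpose_mul, Matrix.map_mul, ← h4]
        nth_rewrite 2 [← h2]
        simp only [mul_assoc, h4]
      inv_mem' := by
        rintro x ⟨h1, h2⟩
        refine ⟨by simp [h1], ?_⟩
        nth_rewrite 1 [← h2]
        rw [← mul_assoc, ← mul_assoc, ← Matrix.transpose_mul, mul_assoc, ← Matrix.map_mul]
        simp [hone] }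
  have hN : ∀ G, G ∈ N ↔ G.val.det = 1 ∧ G.valᵀ * H * G.val.map (frobQ hF) = H := fun G => Iff.rfl
  have hle : N.map φ ≤ L := by
    rintro _ ⟨G, hG, rfl⟩
    refine su_of_triangle hF hq hε0 hε hb' (L.comap φ) (fun i e he => ?_) G hG.1 hG.2
    obtain ⟨g, hg, c, hc⟩ := ha i (-e) (by
      have := congrArg (fun x : E => (x : K)) (show (-e) ^ q = -e by
        rw [← frobQ_apply hF, map_neg, frobQ_apply, he])
      simpa using this)
    have hc0 : c ≠ 0 := by
      rintro rfl
      have := congrArg Matrix.det hc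
      rw [Asch.cj_apply, Matrix.det_units_conj] at this
      exact g.det_ne_zero (by simpa using this)
    have hsq : ∀ s : E, Matrix.vecMulVec (Pi.single i 1) (s • X i) *
        Matrix.vecMulVec (Pi.single i 1) (e • X i) = 0 := fun s => by
      rw [Matrix.vecMulVec_mul_vecMulVec]
      have : X i i = 0 := by fin_cases i <;> simp [hXdef, triX]
      simp [this]
    have hmul : ∀ s : E, (1 + Matrix.vecMulVec (Pi.single i 1) ((s * e) • X i)) *
        (1 + Matrix.vecMulVec (Pi.single i 1) (-e • X i)) =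
        1 + Matrix.vecMulVec (Pi.single i 1) (((s - 1) * e) • X i) := fun s => by
      rw [neg_smul, Matrix.vecMulVec_neg, add_mul, mul_add, mul_add, mul_neg, mul_neg, hsq, sub_mul,
        sub_smul, Matrix.vecMulVec_sub]
      simp; abel
    have hpow : ∀ m : ℕ, (1 + Matrix.vecMulVec (Pi.single i 1) (-e • X i)) ^ m =
        1 + Matrix.vecMulVec (Pi.single i 1) ((-(m : E) * e) • X i) := by
      intro m
      induction m with
      | zero => simp
      | succ m ih => rw [pow_succ, ih, hmul]; congr 3; push_cast; ring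
    have hT : (1 + Matrix.vecMulVec (Pi.single i 1) (e • X i)) *
        (1 + Matrix.vecMulVec (Pi.single i 1) (-e • X i)) = 1 := by
      simpa using hmul 1
    refine ⟨Matrix.GeneralLinearGroup.mkOfDetNeZero _ (Matrix.det_ne_zero_of_right_inverse hT), ?_, rfl⟩
    rw [Subgroup.mem_comap, (hφ _ (g ^ (Fintype.card K - 1))).2]
    · exact pow_mem hg _
    have e1 : (1 + Matrix.vecMulVec (Pi.single i 1) (-(e : K) • (X.map E.subtype) i)) =
        (1 + Matrix.vecMulVec (Pi.single i 1) (-e • X i)).map E.subtype := by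
      ext a b
      simp [Matrix.vecMulVec_apply, Matrix.one_apply, Pi.single_apply, apply_ite ((↑) : E → K)]
    have e2 : ((Fintype.card K - 1 : ℕ) : E) = -1 := by
      apply E.subtype.injective
      rw [map_natCast, Nat.cast_sub Fintype.card_pos, FiniteField.cast_card_eq_zero]; simp
    rw [Units.val_pow_eq_pow_val, map_pow, hc, smul_pow, FiniteField.pow_card_sub_one_eq_one c hc0,
      one_smul, e1, ← RingHom.mapMatrix_apply, ← map_pow, hpow, e2]
    simp
  have hge : L ≤ N.map φ := by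
    have key : ∀ g ∈ L, ∃ (c : Kˣ) (f : E) (G : GL (Fin 3) E), f ≠ 0 ∧ g = Asch.sc (Fin 3) c * φ G ∧
        G.valᵀ * H * G.val.map (frobQ hF) = f • H := by
      intro g hg
      obtain ⟨c, f, G, h1, h2, h3⟩ := hb g hg
      obtain ⟨G, rfl⟩ := h1.exists_map
      have h4 := congrArg Matrix.det h2
      rw [Asch.cj_apply, Matrix.det_units_conj, Matrix.det_smul] at h4
      have h5 := g.det_ne_zero
      rw [h4] at h5
      have hc0 : c ≠ 0 := by rintro rfl; simp at h5
      have hG0 : G.det ≠ 0 := by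
        intro h
        apply right_ne_zero_of_mul h5
        rw [← RingHom.mapMatrix_apply, ← RingHom.map_det, h, map_zero]
      rw [hmap, ← Matrix.transpose_map, ← Matrix.map_mul, ← Matrix.map_mul] at h3
      have hf : f ∈ E := by
        have := congrFun (congrFun h3 0) 1
        simp only [Matrix.map_apply, Matrix.smul_apply, hXdef, triX] at this
        simp only [Matrix.of_apply, Matrix.cons_val', Matrix.cons_val_one, Matrix.cons_val_zero,
          map_one, smul_eq_mul, mul_one] at this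
        rw [← this]; exact SetLike.coe_mem _
      obtain ⟨f, rfl⟩ : ∃ f' : E, (f' : K) = f := ⟨⟨f, hf⟩, rfl⟩
      have h6 : (G.map (frobQ hF))ᵀ * X * G = f • X := hinj _ _ (by rw [h3]; ext i j; simp)
      have h7 : Gᵀ * H * G.map (frobQ hF) = f • H := by
        have := congrArg Matrix.transpose h6
        rw [Matrix.transpose_mul, Matrix.transpose_mul, Matrix.transpose_transpose, ← mul_assoc] at this
        rw [hH, Matrix.mul_smul, Matrix.smul_mul, this, Matrix.transpose_smul, smul_comm]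
      refine ⟨Units.mk0 c hc0, f, Matrix.GeneralLinearGroup.mkOfDetNeZero G hG0, ?_, ?_, h7⟩
      · rintro rfl
        have := congrArg Matrix.det h7
        rw [Matrix.det_mul, Matrix.det_mul, Matrix.det_transpose, zero_smul, Matrix.det_zero] at this
        refine mul_ne_zero (mul_ne_zero hG0 (triX_det hε0 hb')) ?_ this
        have := RingHom.map_det (frobQ hF : E →+* E) G
        rw [RingHom.mapMatrix_apply] at this
        exact fun h => hG0 ((map_eq_zero _).1 (this.trans h))
      · apply Units.ext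
        apply (Asch.cj P⁻¹).injective
        rw [h2, Units.val_mul, Asch.coe_sc, Matrix.smul_mul, one_mul, map_smul, (hφ _ _).1 rfl]
        rfl
    rw [← hperf, Subgroup.commutator_le]
    intro g hg g' hg'
    obtain ⟨c, f, G, hf, rfl, h1⟩ := key g hg
    obtain ⟨c', f', G', hf', rfl, h2⟩ := key g' hg'
    have inv : ∀ (G : GL (Fin 3) E) (f : E), f ≠ 0 → G.valᵀ * H * G.val.map (frobQ hF) = f • H →
        (G⁻¹).valᵀ * H * (G⁻¹).val.map (frobQ hF) = f⁻¹ • H := by
      intro G f hf h
      have : H = f⁻¹ • (G.valᵀ * H * G.val.map (frobQ hF)) := by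
        rw [h, smul_smul, inv_mul_cancel₀ hf, one_smul]
      nth_rewrite 1 [this]
      rw [Matrix.mul_smul, Matrix.smul_mul, ← mul_assoc, ← mul_assoc, ← Matrix.transpose_mul, mul_assoc,
        ← Matrix.map_mul]
      simp [hone]
    have mul : ∀ (G G' : GL (Fin 3) E) (f f' : E), G.valᵀ * H * G.val.map (frobQ hF) = f • H →
        G'.valᵀ * H * G'.val.map (frobQ hF) = f' • H →
        (G * G').valᵀ * H * (G * G').val.map (frobQ hF) = (f * f') • H := by
      intro G G' f f' h h'
      rw [Units.val_mul, Matrix.transpose_mul, Matrix.map_mul]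
      calc _ = G'.valᵀ * (G.valᵀ * H * G.val.map (frobQ hF)) * G'.val.map (frobQ hF) := by
            simp only [mul_assoc]
        _ = _ := by rw [h, Matrix.mul_smul, Matrix.smul_mul, h', smul_smul]
    refine ⟨G * G' * G⁻¹ * G'⁻¹, ⟨?_, ?_⟩, ?_⟩
    · have : Matrix.GeneralLinearGroup.det (G * G' * G⁻¹ * G'⁻¹) = 1 := by
        simp only [map_mul, map_inv]; rw [mul_comm (Matrix.GeneralLinearGroup.det G)]; simp
      exact congrArg Units.val this
    · rw [mul _ _ _ _ (mul _ _ _ _ (mul _ _ _ _ h1 h2) (inv _ _ hf h1)) (inv _ _ hf' h2)]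
      rw [show f * f' * f⁻¹ * f'⁻¹ = 1 by field_simp, one_smul]
    · have hz : ∀ (c : Kˣ) (x : GL (Fin 3) K), Commute (Asch.sc (Fin 3) c) x := fun c x => by
        apply Units.ext; simp
      rw [commutatorElement_def]
      simp only [map_mul, map_inv, mul_inv_rev]
      generalize φ G = x
      generalize φ G' = y
      have a1 := hz c
      have a2 := hz c'
      generalize Asch.sc (Fin 3) c = z at a1
      generalize Asch.sc (Fin 3) c' = z' at a2
      calc x * y * x⁻¹ * y⁻¹ = (z * z⁻¹) * x * ((z' * z'⁻¹) * y) * x⁻¹ * y⁻¹ := by simp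
        _ = _ := by
          simp only [mul_assoc]
          congr 1
          rw [(a1 _).inv_left.eq]
          simp only [mul_assoc]
          congr 2
          rw [(a2 _).inv_left.eq]
          simp only [mul_assoc]
          congr 2
          rw [← mul_assoc, ← (a1 _).inv_left.eq, mul_assoc]
  obtain ⟨a, ha'⟩ := Asch.exists_orthonormal (hq := hF) (G := H) (triX_herm hF hε) (triX_det hε0 hb')
  replace ha' : a.valᵀ * H * a.val.map (frobQ hF) = 1 := ha'
  refine ⟨P * Matrix.GeneralLinearGroup.map E.subtype a, fun g => ?_⟩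
  have hcj : ∀ G : GL (Fin 3) E, Asch.cj (P * Matrix.GeneralLinearGroup.map E.subtype a)⁻¹ (φ G).val =
      (a⁻¹ * G * a).val.map E.subtype := fun G => by
    rw [mul_inv_rev, Asch.cj_mul, (hφ _ _).1 rfl, ← map_inv, Asch.cj_apply, ← map_inv]
    simp only [Units.val_mul, Matrix.map_mul, inv_inv]; rfl
  have hiff : ∀ G : GL (Fin 3) E, G.valᵀ * H * G.val.map (frobQ hF) = H ↔
      (a⁻¹ * G * a).valᵀ * (a⁻¹ * G * a).val.map (frobQ hF) = 1 := fun G => by
    have e1 : (a⁻¹ * G * a).valᵀ * (a⁻¹ * G * a).val.map (frobQ hF) =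
        a.valᵀ * (G.valᵀ * H * G.val.map (frobQ hF)) * a.val.map (frobQ hF) := by
      rw [← mul_one (a⁻¹ * G * a).valᵀ, ← ha', ← mul_assoc, ← mul_assoc, ← Matrix.transpose_mul,
        mul_assoc, ← Matrix.map_mul, ← Units.val_mul]
      simp [mul_assoc, Matrix.map_mul]
    rw [e1]
    refine ⟨fun h => by rw [h, ha'], fun h => ?_⟩
    rw [← ha'] at h
    have h1 : IsUnit a.valᵀ := by rw [Matrix.isUnit_transpose]; exact a.isUnit
    have h2 : IsUnit (a.val.map (frobQ hF)) := a.isUnit.map (frobQ hF : E →+* E).mapMatrix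
    exact h1.mul_left_cancel (h2.mul_right_cancel h)
  constructor
  · intro hg
    obtain ⟨G, hG, rfl⟩ := hge hg
    rw [hcj, hdet, hG.1, hmap, ← Matrix.transpose_map, ← Matrix.map_mul, (hiff G).1 hG.2]
    exact ⟨rfl, Asch.over_map _, by simp⟩
  · rintro ⟨h1, h2, h3⟩
    rw [Asch.cj_coe] at h2
    obtain ⟨G, hG⟩ := h2.exists_gl
    have : g = φ (a * G * a⁻¹) := by
      simp only [φ, MonoidHom.comp_apply, map_mul, hG, map_inv]
      simp [mul_assoc]
    subst this
    rw [hcj, hmap, ← Matrix.transpose_map, ← Matrix.map_mul] at h3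
    rw [hdet] at h1
    exact hle ⟨_, ⟨by exact_mod_cast h1, (hiff _).2 (hinj _ _ (by rw [h3]; simp))⟩, rfl⟩

end Cfsg.Agent.H6.SU
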