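import Cfsg.Agent.H9.DG0

set_option autoImplicit false

/-! Regular abelian subgroups of permutation groups. -/

namespace Cfsg.Agent.H6.DG
open MulAction Subgroup Cfsg.Agent.H9.DG

universe u v

theorem pr : PR.{u, v} := fun G Ω _ _ _ _ _ P p hp hG hN hP tr => by
  have := Fact.mk hp
  let Z : Subgroup G :=
    { carrier := {z | z ∈ P ∧ z ^ p = 1 ∧ ∀ y ∈ P, z * y = y * z}
      one_mem' := by simp
      mul_mem' := fun {a b} ha hb => ⟨mul_mem ha.1 hb.1, by rw [Commute.mul_pow (ha.2.2 b hb.1), ha.2.1, hb.2.1, one_mul],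
        fun y hy => Commute.mul_left (ha.2.2 y hy) (hb.2.2 y hy)⟩
      inv_mem' := fun {a} ha => ⟨inv_mem ha.1, by rw [inv_pow, ha.2.1, inv_one], fun y hy => Commute.inv_left (ha.2.2 y hy)⟩ }
  have nZ : Z.Normal := ⟨fun z hz g => ⟨hN.conj_mem _ hz.1 g, by rw [conj_pow, hz.2.1]; simp, fun y hy => by
    have := congrArg (fun x => g * x * g⁻¹) (hz.2.2 _ (hN.conj_mem' _ hy g))
    simpa [mul_assoc] using this⟩⟩
  have key : (∀ y ∈ P, ∀ a : Ω, y • a = a → y = 1) ∧ P ≤ Z := by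
    rcases P.bot_or_nontrivial with rfl | h
    · exact ⟨fun y hy _ _ => hy, bot_le⟩
    have := hP.center_nontrivial
    obtain ⟨z, hz⟩ := exists_prime_orderOf_dvd_card' (G := center P) p
      ((hP.to_subgroup _).card_eq_or_dvd.resolve_left Finite.one_lt_card.ne')
    have z1 : (z.1.1 : G) ≠ 1 := fun e => hp.one_lt.ne' (by rw [← hz, orderOf_eq_one_iff]; exact Subtype.ext (Subtype.ext e))
    have mz : (z.1.1 : G) ∈ Z := ⟨z.1.2, by rw [← hz]; exact congrArg (fun x : center P => (x.1.1 : G)) (pow_orderOf_eq_one z),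
      fun y hy => congrArg Subtype.val (mem_center_iff.1 z.2 ⟨y, hy⟩).symm⟩
    have t := IsQuasiPreprimitive.isPretransitive_of_normal (G := G) (X := Ω) (N := Z) fun e => z1
      (eq_of_smul_eq_smul (α := Ω) fun a => by simpa using (e ▸ Set.mem_univ a : a ∈ fixedPoints Z Ω) ⟨_, mz⟩)
    have sr : ∀ y ∈ P, ∀ a : Ω, y • a = a → y = 1 := fun y hy a e => eq_of_smul_eq_smul (α := Ω) fun b => by
      obtain ⟨w, rfl⟩ := exists_smul_eq Z a b
      rw [one_smul, Subgroup.smul_def, ← mul_smul, ← w.2.2.2 y hy, mul_smul, e]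
    refine ⟨sr, fun y hy => ?_⟩
    rcases isEmpty_or_nonempty Ω with _ | ⟨⟨a⟩⟩
    · exact (eq_of_smul_eq_smul (α := Ω) (m₁ := y) (m₂ := 1) fun a => isEmptyElim a) ▸ one_mem _
    obtain ⟨w, e⟩ := exists_smul_eq Z a (y • a)
    have := sr _ (mul_mem (inv_mem w.2.1) hy) a (by rw [mul_smul, ← e, Subgroup.smul_def, inv_smul_smul])
    exact inv_mul_eq_one.1 this ▸ w.2
  exact ⟨⟨fun x hx => (key.2 hx).2.2, tr, key.1⟩, fun y hy => (key.2 hy).2.1⟩

theorem pc : PC.{u, v} := fun G Ω _ _ _ _ _ p hp P a h hN y hy y1 g hg => by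
  have le : (P : Subgroup G) ≤ centralizer {y} := fun x hx => mem_centralizer_singleton_iff.2 (h.comm x hx y hy)
  have hP : normalizer ((P.subtype le : Subgroup (centralizer {y})) : Set (centralizer {y})) ≤
      centralizer ((P.subtype le : Subgroup (centralizer {y})) : Set (centralizer {y})) := fun x hx w hw => by
    obtain ⟨u, hu, e⟩ := h.tr (x.1 • a) a
    have nx : x.1 ∈ normalizer ((P : Subgroup G) : Set G) := mem_normalizer_fintype fun n hn =>
      (mem_normalizer_iff.1 hx ⟨n, le hn⟩).1 hn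
    have := hN (u * x.1) (mul_mem (le_normalizer hu) nx) (y • a) (by rw [mul_smul, e]) (by
      rw [← mul_smul, mem_centralizer_singleton_iff.1 (mul_mem (le hu) x.2), mul_smul, mul_smul, e])
      fun k => y1 (h.sr y hy a k)
    exact Subtype.ext (h.comm _ hw _ (eq_inv_of_mul_eq_one_right this ▸ inv_mem hu))
  have cp := MonoidHom.ker_transferSylow_isComplement' (P.subtype le) hP
  generalize MonoidHom.transferSylow (P.subtype le) hP = φ at cp
  have k : ∀ (x : centralizer {y}) (b : Ω), x.1 • b = b → x ∈ φ.ker := fun x b e => by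
    obtain ⟨k, m, hm, e1⟩ := Nat.exists_eq_pow_mul_and_not_dvd (orderOf_pos x.1).ne' p hp.out.ne_one
    obtain ⟨Q, hQ⟩ := IsPGroup.exists_le_sylow (p := p) (P := zpowers (x.1 ^ m)) (by
      rintro ⟨_, n, rfl⟩
      exact ⟨k, Subtype.ext (by
        simp only [SubgroupClass.coe_pow, OneMemClass.coe_one]
        rw [← zpow_natCast, ← zpow_mul, mul_comm, zpow_mul, zpow_natCast, ← pow_mul, mul_comm, ← e1, pow_orderOf_eq_one,
          one_zpow])⟩)
    obtain ⟨c, rfl⟩ := exists_smul_eq G P Q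
    obtain ⟨w, hw, e2⟩ := hQ (mem_zpowers _)
    have e3 : c * w * c⁻¹ = x.1 ^ m := e2
    have : w = 1 := h.sr w hw (c⁻¹ • b) (by
      rw [smul_eq_iff_eq_inv_smul, eq_comm, inv_smul_eq_iff, eq_comm, ← mul_smul, ← smul_left_cancel_iff c, smul_inv_smul,
        ← mul_smul, ← mul_assoc, e3]
      exact pow_mem (show x.1 ∈ stabilizer G b from e) m)
    have e4 : x ^ m = 1 := Subtype.ext (by simpa [this] using e3.symm)
    obtain ⟨j, hj⟩ := (P.subtype le).2 (φ x)
    exact orderOf_eq_one_iff.1 (Nat.eq_one_of_dvd_coprimes (((Nat.Prime.coprime_iff_not_dvd hp.out).2 hm).pow_left j)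
      (orderOf_dvd_of_pow_eq_one hj) (orderOf_dvd_of_pow_eq_one (by rw [← map_pow, e4, map_one])))
  obtain ⟨⟨n, w⟩, e⟩ := cp.2 ⟨g, mem_centralizer_singleton_iff.2 hg⟩
  have : n.1.1 = 1 := eq_of_smul_eq_smul (α := Ω) fun b => by
    obtain ⟨u, hu, e⟩ := h.tr (n.1.1 • b) b
    have := disjoint_def.1 cp.disjoint ((mul_mem_cancel_right n.2).1 (k (⟨u, le hu⟩ * n.1) b (by simpa [mul_smul]))) hu
    simpa [show u = 1 from congrArg Subtype.val this] using e
  have e' : n.1.1 * w.1.1 = g := congrArg Subtype.val e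
  rw [← e', this, one_mul]
  exact w.2

theorem rep (h4 : P4.{u}) {p : ℕ} [Fact p.Prime] {H M : Type u} [Group H] [Finite H] [CommGroup M] [Finite M]
    (pw : ∀ m : M, m ^ p = 1) (φ : H →* MulAut M) (K : Subgroup H) (x : H) (v : M) (hc : 2 ^ 256 ≤ Nat.card M)
    (inj : ∀ g, (∀ m, φ g m = m) → g = 1) (nK : K.Normal) (fpf : ∀ g, g ∉ K → ∀ m, φ g m = m → m = 1)
    (x1 : x ≠ 1) (v1 : v ≠ 1) (e : φ x v = v) : (K.index + 1) ^ 2 ≤ Nat.card M := by
  obtain ⟨_⟩ : Nonempty (Module (ZMod p) (Additive M)) := ⟨AddCommGroup.zmodModule fun m => pw m.toMul⟩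
  let ρ : Representation (ZMod p) H (Additive M) :=
    { toFun := fun g => (MonoidHom.toAdditive (φ g).toMonoidHom).toZModLinearMap p
      map_one' := LinearMap.ext fun m => show φ 1 m.toMul = m.toMul by simp
      map_mul' := fun g k => LinearMap.ext fun m => show φ (g * k) m.toMul = φ g (φ k m.toMul) by simp }
  exact h4 p H (Additive M) ρ K x (.ofMul v) hc ⟨(injective_iff_map_eq_one ρ).2 fun g k => inj g fun m =>
    LinearMap.congr_fun k (.ofMul m), nK, fun g hg m k => fpf g hg m.toMul k⟩ x1 v1 e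

theorem pa (h4 : P4.{u}) : PA.{u, v} := fun G Ω _ _ _ _ _ D P p x a b hp hE hN le h pw hc x1 xa xb ne => by
  have := Fact.mk hp
  have := hE.1
  have act : ∀ (g : stabilizer G a) (y : G), (g.1 * y * g.1⁻¹) • a = g.1 • y • a := fun g y => by
    rw [mul_smul, mul_smul, show g.1⁻¹ • a = a from (inv_mem g.2 : g.1⁻¹ ∈ stabilizer G a)]
  have inj : ∀ y ∈ P, ∀ z ∈ P, y • a = z • a → y = z := fun y hy z hz k =>
    (inv_mul_eq_one.1 (h.sr _ (mul_mem (inv_mem hz) hy) a (by rw [mul_smul, k, inv_smul_smul]))).symm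
  have card : Nat.card P = Nat.card Ω := Nat.card_eq_of_bijective (fun v => v.1 • a)
    ⟨fun v w k => Subtype.ext (inj _ v.2 _ w.2 k), fun c => (h.tr a c).elim fun y k => ⟨⟨y, k.1⟩, k.2⟩⟩
  obtain ⟨y, hy, ya⟩ := h.tr a b
  have := @rep h4 p _ (stabilizer G a) P _ _
    { (inferInstance : Group P) with mul_comm := fun x y => Subtype.ext (h.comm _ x.2 _ y.2) } _
    (fun m => Subtype.ext (pw _ m.2)) ((MulAut.conjNormal : G →* MulAut P).comp (stabilizer G a).subtype)
    (D.subgroupOf _) ⟨x, xa⟩ ⟨y, hy⟩ (card ▸ hc) (fun g k =>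
      Subtype.ext (eq_of_smul_eq_smul (α := Ω) fun c => by
        obtain ⟨z, hz, rfl⟩ := h.tr a c
        rw [← act, show g.1 * z * g.1⁻¹ = z from congrArg Subtype.val (k ⟨z, hz⟩)]; simp)) inferInstance (fun g hg v k => by
      obtain ⟨c, -, hc⟩ := hE.2 g.1 hg
      exact Subtype.ext (h.sr _ v.2 a ((hc _ ((act g v.1).symm.trans (by
        rw [show g.1 * v.1 * g.1⁻¹ = v.1 from congrArg Subtype.val k]))).trans (hc a g.2).symm)))
    (fun k => x1 (congrArg Subtype.val k)) (fun k => ne (by rw [← ya, show y = 1 from congrArg Subtype.val k, one_smul]))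
    (Subtype.ext (inj _ (hN.conj_mem _ hy x) _ hy ((act ⟨x, xa⟩ y).trans (by simp [ya, xb]))))
  have top : stabilizer G a ⊔ D = ⊤ := eq_top_iff.2 fun g _ => by
    obtain ⟨u, hu, k⟩ := h.tr (g • a) a
    exact (mul_mem_cancel_left (mem_sup_right (le hu))).1 (mem_sup_left (by rwa [mem_stabilizer_iff, mul_smul]))
  rwa [card, ← relIndex, ← relIndex_sup_right, top, relIndex_top_right] at this

end Cfsg.Agent.H6.DG
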