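import Cfsg.Agent.H3.DR0

set_option autoImplicit false

/-! Derangements in imprimitive groups. -/

namespace Cfsg.Agent.H6.DR
open MulAction Finset Cfsg.Agent.H3.DR
open scoped Pointwise

universe u v

theorem fx_zero {G : Type u} {Ω : Type v} [Group G] [MulAction G Ω] [Fintype Ω] {g : G} :
    fx Ω g = 0 ↔ ∀ c : Ω, g • c ≠ c := by simp [fx]

theorem orb_lt {G : Type u} {Ω : Type v} [Group G] [MulAction G Ω] [Finite Ω] {a b : Ω} (h : a ≠ b) {B : Set Ω} (ha : a ∈ B)
    (hB : ∀ g : G, g • a = a → g • b ∈ B) : Nat.card (orbit (stabilizer G a) b) + 1 ≤ B.ncard :=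
  Set.ncard_lt_ncard (s := orbit (stabilizer G a) b) ⟨fun _ ⟨g, e⟩ => e ▸ hB g g.2, fun k => by
    obtain ⟨g, e⟩ := k ha
    exact h ((smul_left_cancel_iff g).1 ((show g • a = a from g.2).trans e.symm))⟩

theorem p1 (pa : PA.{u, v}) : P1.{u, v} := fun G Ω _ _ _ _ t hn h => by
  classical
  obtain ⟨B, hB, nt⟩ : ∃ B : Set Ω, IsBlock G B ∧ ¬ IsTrivialBlock B := by
    by_contra c
    exact h ⟨fun {B} hB => by_contra fun n => c ⟨B, hB, n⟩⟩
  obtain ⟨h1, h2⟩ := not_or.1 nt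
  obtain ⟨a, ha, b, hb, ab⟩ := Set.not_subsingleton_iff.1 h1
  have h4 := hB.ncard_block_mul_ncard_orbit_eq ⟨a, ha⟩
  have := Fintype.ofFinite (orbit G B)
  have d0 : 0 ≤ dl G Ω := by unfold dl; positivity
  have e1 : 1 ≤ dl G Ω * B.ncard := (pa G Ω a b t ab).trans (mul_le_mul_of_nonneg_left (by
    exact_mod_cast orb_lt ab ha fun g hg => hB.smul_eq_of_mem ha (hg.symm ▸ ha) ▸ Set.smul_mem_smul_set hb) d0)
  obtain ⟨c, hc⟩ := (Set.ne_univ_iff_exists_notMem B).1 h2
  obtain ⟨k, rfl⟩ := t.exists_smul_eq a c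
  have ne : (⟨B, mem_orbit_self _⟩ : orbit G B) ≠ ⟨k • B, mem_orbit _ _⟩ := fun e =>
    hc ((show B = k • B from congrArg Subtype.val e) ▸ Set.smul_mem_smul_set ha)
  have le : dl G (orbit G B) ≤ dl G Ω := div_le_div_of_nonneg_right (by
    exact_mod_cast card_le_card fun g hg => by
      simp only [mem_filter, mem_univ, true_and, fx_zero] at hg ⊢
      intro x hx
      obtain ⟨j, rfl⟩ := t.exists_smul_eq a x
      exact hg ⟨j • B, mem_orbit _ _⟩ (Subtype.ext ((hB.translate j).smul_eq_of_mem (Set.smul_mem_smul_set ha)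
        (hx.symm ▸ Set.smul_mem_smul_set ha)))) (by positivity)
  have e2 : 1 ≤ dl G Ω * (orbit G B).ncard := (pa G _ _ _ inferInstance ne).trans (mul_le_mul le (by
    have := orb_lt (G := G) ne (Set.mem_univ _) fun _ _ => trivial
    rw [Set.ncard_univ, Nat.card_coe_set_eq (orbit G B)] at this
    exact_mod_cast this) (by positivity) d0)
  have e3 : (B.ncard : ℝ) * (orbit G B).ncard = Fintype.card Ω := by rw [← Nat.card_eq_fintype_card, ← h4]; simp
  have n1 : (1 : ℝ) ≤ Fintype.card Ω := by exact_mod_cast le_trans (by norm_num) hn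
  have s1 := Real.one_le_sqrt.2 n1
  have s2 := Real.mul_self_sqrt (zero_le_one.trans n1)
  unfold Tg
  generalize √(Fintype.card Ω : ℝ) = s at *
  have e4 : 1 ≤ (dl G Ω * s) ^ 2 := by nlinarith [mul_le_mul e1 e2 zero_le_one (zero_le_one.trans e1)]
  have e5 : 1 ≤ dl G Ω * s := by by_contra c; nlinarith [mul_nonneg d0 (zero_le_one.trans s1)]
  rw [div_le_iff₀ (by positivity), ← s2]
  nlinarith

end Cfsg.Agent.H6.DR
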