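import Cfsg.Agent.H3.DR0

set_option autoImplicit false

/-! Derangements when the fixity is at most the square root of the degree. -/

namespace Cfsg.Agent.H6.DR
open MulAction Finset Cfsg.Agent.H3.DR

universe u v

open Classical in
theorem fib {G : Type u} {Ω : Type v} [Group G] [Fintype G] [MulAction G Ω] (a b c d : Ω) :
    #{t : G | t • a = c ∧ t • b = d} ≤ Nat.card (stabilizer (stabilizer G a) b) := by
  rcases eq_empty_or_nonempty {t : G | t • a = c ∧ t • b = d} with e | ⟨s, hs⟩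
  · simp [e]
  have hs := (mem_filter.1 hs).2
  rw [← Nat.card_eq_finsetCard]
  refine Nat.card_le_card_of_injective (fun t => ⟨⟨s⁻¹ * t.1, ?_⟩, ?_⟩) fun t t' e =>
    Subtype.ext (mul_left_cancel (congrArg (fun x : stabilizer (stabilizer G a) b => x.1.1) e))
  · rw [mem_stabilizer_iff, mul_smul, (mem_filter.1 t.2).2.1, ← hs.1, inv_smul_smul]
  · change (s⁻¹ * t.1) • b = b
    rw [mul_smul, (mem_filter.1 t.2).2.2, ← hs.2, inv_smul_smul]

theorem p2 (pb : PB.{u, v}) : P2.{u, v} := fun G Ω _ _ _ _ _ t hn hF h => by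
  classical
  have : Nonempty Ω := Fintype.card_pos_iff.1 (by omega)
  obtain ⟨b1, b2, -, -, b5, b6⟩ := pb G Ω t
  have n1 : (100 : ℝ) ≤ Fintype.card Ω := by exact_mod_cast hn
  have s2 := Real.mul_self_sqrt (show (0 : ℝ) ≤ Fintype.card Ω by positivity)
  have s1 : 10 ≤ √(Fintype.card Ω : ℝ) := Real.le_sqrt_of_sq_le (by linarith)
  have N0 : (0 : ℝ) < Fintype.card G := by exact_mod_cast Fintype.card_pos
  have f1 : (fx Ω (1 : G) : ℝ) = Fintype.card Ω := by simp [fx]
  rw [← add_sum_erase _ _ (mem_univ 1), f1] at b1 b2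
  rw [max_eq_left (by linarith)] at b2
  unfold Tg
  rw [div_le_iff₀ (by positivity)]
  rcases h with h | ⟨x, x1, h⟩
  · rw [sum_eq_zero fun g hg => by simp [h g (ne_of_mem_erase hg)], add_zero] at b1 b2
    rw [← b1] at b2
    nlinarith
  obtain ⟨a, ha, b, hb, ab⟩ := one_lt_card.1 (show 1 < fx Ω x from h)
  have ha := (mem_filter.1 ha).2
  have hb := (mem_filter.1 hb).2
  rcases le_or_gt 3 (Nat.card (stabilizer (stabilizer G a) b)) with l | l
  · have := (b6 a b ab l).trans (b5 _ hF)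
    nlinarith
  have c1 : Fintype.card G ≤ 2 * #(univ : Finset Ω).offDiag := card_le_mul_card_image_of_maps_to (s := univ)
    (f := fun g : G => (g • a, g • b)) (fun g _ => by simpa using ab) 2 fun p _ =>
      ((card_le_card fun g hg => by simpa [Prod.ext_iff] using hg).trans (fib a b p.1 p.2)).trans (by omega)
  have c2 : Fintype.card G ≤ 2 * #((univ.erase (1 : G)).sigma fun g => ({c : Ω | g • c = c} : Finset Ω).offDiag) :=
    card_le_mul_card_image_of_maps_to (s := univ) (f := fun g : G => (⟨g * x * g⁻¹, g • a, g • b⟩ : Σ _ : G, Ω × Ω))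
      (fun g _ => by simp [mul_smul, ha, hb, ab, x1]) 2 fun p _ =>
      ((card_le_card fun g hg => by
        have := (mem_filter.1 hg).2
        subst this; simp).trans (fib a b p.2.1 p.2.2)).trans (by omega)
  rw [offDiag_card, card_univ] at c1
  rw [card_sigma] at c2
  have c3 : (Fintype.card G : ℝ) ≤ 2 * (Fintype.card Ω * Fintype.card Ω - Fintype.card Ω) := by
    have : (Fintype.card G : ℝ) ≤ ((2 * (Fintype.card Ω * Fintype.card Ω - Fintype.card Ω) : ℕ) : ℝ) := by exact_mod_cast c1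
    rwa [Nat.cast_mul, Nat.cast_sub (Nat.le_mul_self _), Nat.cast_mul, Nat.cast_ofNat] at this
  have c4 : (Fintype.card G : ℝ) ≤ 2 * (√(Fintype.card Ω : ℝ) * ∑ g ∈ univ.erase (1 : G), max ((fx Ω g : ℝ) - 1) 0) := by
    refine le_trans (Nat.cast_le.2 c2) ?_
    rw [Nat.cast_mul, Nat.cast_ofNat, Nat.cast_sum]
    refine mul_le_mul_of_nonneg_left ?_ zero_le_two
    rw [mul_sum]
    refine sum_le_sum fun g hg => ?_
    have k := hF g (ne_of_mem_erase hg)
    rw [offDiag_card, Nat.cast_sub (Nat.le_mul_self _), Nat.cast_mul]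
    change (fx Ω g : ℝ) * fx Ω g - fx Ω g ≤ _
    have k0 : (0 : ℝ) ≤ fx Ω g := by positivity
    nlinarith [le_max_left ((fx Ω g : ℝ) - 1) 0, le_max_right ((fx Ω g : ℝ) - 1) 0]
  generalize ∑ g ∈ univ.erase (1 : G), max ((fx Ω g : ℝ) - 1) 0 = S at *
  generalize √(Fintype.card Ω : ℝ) = s at *
  refine le_of_mul_le_mul_right ?_ N0
  have : dl G Ω * (2 * Fintype.card Ω) * Fintype.card G = 2 * (Fintype.card Ω * Fintype.card Ω - Fintype.card Ω) +
      s * (2 * (s * S)) := by
    rw [mul_right_comm, b2, ← mul_assoc s, mul_comm s 2, mul_assoc 2, ← mul_assoc s, s2]; ring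
  rw [this]
  nlinarith

end Cfsg.Agent.H6.DR
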