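import Cfsg.Agent.H3.DR0

set_option autoImplicit false

/-! Assembly of the bound on the proportion of derangements. -/

namespace Cfsg.Agent.H6.DR
open MulAction Finset Cfsg.Agent.H3.DR

universe u v

theorem lo {G : Type u} {Ω : Type v} [Group G] [Finite G] [MulAction G Ω] [IsPretransitive G Ω] (a b : Ω) :
    Nat.card (stabilizer (stabilizer G a) b) * Nat.card (orbit (stabilizer G a) b) * Nat.card Ω = Nat.card G := by
  rw [Nat.card_coe_set_eq (orbit _ b), ← index_stabilizer, Subgroup.card_mul_index, ← index_stabilizer_of_transitive G a,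
    Subgroup.card_mul_index]

theorem core (pb : PB.{u, v}) (pa : PA.{u, v}) (pm : PM.{u, v}) (pj : PJ.{u, v}) (pp : PP.{u, v}) (pk : PK.{u, v})
    (ps : PS.{u, v}) (pn : PN) : ∃ N : ℕ, ∀ (G : Type u) (Ω : Type v) [Group G] [Fintype G] [MulAction G Ω] [FaithfulSMul G Ω]
    [Fintype Ω], IsPretransitive G Ω → N ≤ Fintype.card Ω → (∃ g : G, g ≠ 1 ∧ √(Fintype.card Ω) < fx Ω g) →
    (∃ a b : Ω, a ≠ b ∧ 3 ≤ Nat.card (stabilizer (stabilizer G a) b)) → Tg G Ω := by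
  obtain ⟨N, hN⟩ := pn
  refine ⟨max N (10 ^ 16), fun G Ω _ _ _ _ _ t hn ⟨x, x1, hx⟩ ⟨a0, b0, ab0, l0⟩ => by_contra fun nT => ?_⟩
  classical
  have n1 := le_of_max_le_left hn
  have n2 := le_of_max_le_right hn
  have : Nonempty Ω := ⟨a0⟩
  obtain ⟨⟨a, b⟩, hab, mn⟩ := exists_min_image (univ : Finset Ω).offDiag
    (fun p => Nat.card (orbit (stabilizer G p.1) p.2)) ⟨(a0, b0), by simpa using ab0⟩
  have ab : a ≠ b := by simpa using hab
  obtain ⟨m, hm⟩ : ∃ m, m = Nat.card (orbit (stabilizer G a) b) := ⟨_, rfl⟩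
  have sub : Sub G Ω m := fun c d h => hm ▸ mn (c, d) (by simpa using h)
  have m0 : 0 < m := by
    have : Nonempty (orbit (stabilizer G a) b) := ⟨⟨b, mem_orbit_self b⟩⟩
    exact hm ▸ Nat.card_pos
  have l : 3 ≤ Nat.card (stabilizer (stabilizer G a) b) := by
    have e := Nat.eq_of_mul_eq_mul_right Nat.card_pos ((lo (G := G) a b).trans (lo a0 b0).symm)
    rw [← hm] at e
    exact Nat.le_of_mul_le_mul_right (e ▸ Nat.mul_le_mul l0 (sub _ _ ab0)) m0
  obtain ⟨g, hg, mx⟩ := exists_max_image (univ.erase (1 : G)) (fx Ω) ⟨x, by simpa using x1⟩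
  have r2 : (10 : ℝ) ^ 16 ≤ Fintype.card Ω := by exact_mod_cast n2
  have r0 : (0 : ℝ) < Fintype.card Ω := by linarith
  have s2 := Real.mul_self_sqrt r0.le
  have s1 : 1000 ≤ √(Fintype.card Ω : ℝ) := Real.le_sqrt_of_sq_le (by linarith)
  obtain ⟨φ, hφ⟩ : ∃ φ, φ = (fx Ω g : ℝ) / Fintype.card Ω := ⟨_, rfl⟩
  have e1 : φ * Fintype.card Ω = fx Ω g := by rw [hφ]; field_simp
  have mx' : ∀ y : G, y ≠ 1 → (fx Ω y : ℝ) ≤ φ * Fintype.card Ω := fun y h => by
    rw [e1]; exact_mod_cast mx y (by simpa using h)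
  have f1 : 1 / √(Fintype.card Ω : ℝ) ≤ φ := by
    rw [div_le_iff₀ (by linarith)]
    have := hx.le.trans (mx' x x1)
    nlinarith
  have f0 : 0 < φ := lt_of_lt_of_le (by positivity) f1
  have f2 : φ < 1 := by
    rw [hφ, div_lt_one r0]
    exact_mod_cast (card_lt_card (filter_ssubset.2 (by
      by_contra c
      exact ne_of_mem_erase hg (eq_of_smul_eq_smul (α := Ω) fun y => by
        rw [one_smul]; by_contra k; exact c ⟨y, mem_univ _, k⟩)))).trans_eq card_univ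
  have d0 : 0 ≤ dl G Ω := by unfold dl; positivity
  have d1 : dl G Ω * √(Fintype.card Ω : ℝ) ≤ 0.501 := by
    have := (lt_div_iff₀ (by positivity)).1 (not_le.1 nT)
    by_contra c
    nlinarith
  obtain ⟨-, -, b3, b4, b5, b6⟩ := pb G Ω t
  have q : √(0.36 : ℝ) = 0.6 := by rw [show (0.36 : ℝ) = 0.6 ^ 2 by norm_num, Real.sqrt_sq (by norm_num)]
  have mix := pm G Ω m 0.36 t m0 sub (by norm_num) (by
    have := (div_le_one r0).2 (b3 m sub)
    rw [q]; nlinarith)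
  rw [q] at mix
  have m1 : (0 : ℝ) < m := by exact_mod_cast m0
  obtain ⟨ρ, hρ⟩ : ∃ ρ, ρ = √(Fintype.card Ω : ℝ) / (0.6 * m) := ⟨_, rfl⟩
  rw [← hρ] at mix
  have ρ0 : 0 ≤ ρ := by rw [hρ]; positivity
  obtain ⟨s3, s4⟩ := ps G Ω m φ (1 + (1 - φ) * ρ / φ) (by omega) m0 f1 f2
    (le_add_of_nonneg_right (div_nonneg (mul_nonneg (by linarith) ρ0) f0.le)) mx' fun k => by
      obtain ⟨Θ, _, y, J, h⟩ := pp G Ω g m k ρ φ t m0 sub ρ0 mix hφ
      rw [show φ ^ 2 * (1 + (1 - φ) * ρ / φ) = φ ^ 2 + φ * (1 - φ) * ρ by field_simp]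
      exact pk G Ω Θ y J m _ _ t m0 (by positivity) (pow_le_one₀ f0.le f2.le) h
  exact hN _ m _ _ _ φ ρ _ (by exact_mod_cast n1) m1 d0 d1 (hm ▸ pa G Ω a b t ab) (pj G Ω a b m t n2 ab hm sub l d1)
    (b6 a b ab l) b4 (b5 _ mx') f1 f2 hρ rfl s3 s4

theorem main (pb : PB.{u, v}) (pa : PA.{u, v}) (p1 : P1.{u, v}) (p2 : P2.{u, v}) (p3 : P3.{u, v}) (pm : PM.{u, v})
    (pj : PJ.{u, v}) (pp : PP.{u, v}) (pk : PK.{u, v}) (ps : PS.{u, v}) (pn : PN) :
    ∃ N : ℕ, ∀ (G : Type u) (Ω : Type v) [Group G] [Finite G] [MulAction G Ω] [FaithfulSMul G Ω] [Fintype Ω],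
      MulAction.IsPretransitive G Ω → N ≤ Fintype.card Ω →
      (MulAction.IsPreprimitive G Ω ∧ (MulAction.IsPretransitive G Ω ∧ (∃ g : G, g ≠ 1 ∧ ∃ ω : Ω, g • ω = ω) ∧ ∀ g : G, g ≠ 1 → Nat.card (MulAction.fixedBy Ω g) ≤ 1)) ∨
      (Real.sqrt (Fintype.card Ω) + 1) / (2 * Fintype.card Ω) * (Nat.card G : ℝ) ≤ Nat.card {g : G // ∀ ω : Ω, g • ω ≠ ω} := by
  obtain ⟨N, hN⟩ := core pb pa pm pj pp pk ps pn
  refine ⟨max N 10000, fun G Ω _ _ _ _ _ t hn => ?_⟩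
  classical
  have := Fintype.ofFinite G
  have n1 := le_of_max_le_left hn
  have n2 := le_of_max_le_right hn
  refine or_iff_not_imp_left.2 fun nF => ?_
  have T : Tg G Ω := by
    by_cases pr : IsPreprimitive G Ω
    swap
    · exact p1 G Ω t (by omega) pr
    by_cases h : ∃ g : G, g ≠ 1 ∧ √(Fintype.card Ω) < fx Ω g
    · by_cases l : ∃ a b : Ω, a ≠ b ∧ 3 ≤ Nat.card (stabilizer (stabilizer G a) b)
      · exact hN G Ω t n1 h l
      · exact p3 G Ω pr n2 (fun a b ab => by_contra fun c => l ⟨a, b, ab, by omega⟩) h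
    refine p2 G Ω t (by omega) (fun g g1 => not_lt.1 fun c => h ⟨g, g1, c⟩) (or_iff_not_imp_right.2 fun c g g1 => ?_)
    by_contra k
    refine nF ⟨pr, t, ⟨g, g1, by simpa [fx] using k⟩, fun y y1 => ?_⟩
    have e : Nat.card (fixedBy Ω y) = fx Ω y := by
      rw [fx, ← Nat.card_eq_finsetCard]
      exact Nat.card_congr (Equiv.subtypeEquivRight fun w => by simp)
    exact e ▸ not_lt.1 fun j => c ⟨y, y1, j⟩
  unfold Tg dl at T
  rw [le_div_iff₀ (by exact_mod_cast Fintype.card_pos), ← Nat.card_eq_finsetCard, ← Nat.card_eq_fintype_card (α := G)] at T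
  exact T.trans_eq (congrArg _ (Nat.card_congr (Equiv.subtypeEquivRight fun g => by simp [fx])))

end Cfsg.Agent.H6.DR
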