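import Cfsg.Agent.H1.E8a

/-!
The 56-dimensional module of `E₇` in characteristic two.  The weights are the roots of `E₈` with last
coordinate one, the roots of `E₇` are those with last coordinate zero.
-/

set_option autoImplicit false
set_option linter.unusedSectionVars false
set_option linter.unusedSimpArgs false

namespace Cfsg.Agent.H6.E7

open Cfsg.Agent.H1.E8 Matrix

attribute [-simp] zsmul_eq_mul Matrix.mulVec_mulVec

/-- weights -/
def IsW (v : L) : Prop := B v v = 2 ∧ v 7 = 1

/-- roots -/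
def IsR (v : L) : Prop := B v v = 2 ∧ v 7 = 0

instance instDecIsW : DecidablePred IsW := fun v => inferInstanceAs (Decidable (B v v = 2 ∧ v 7 = 1))

instance instDecIsR : DecidablePred IsR := fun v => inferInstanceAs (Decidable (B v v = 2 ∧ v 7 = 0))

/-- the type of weights -/
abbrev Wt : Type := {v : L // IsW v}

instance instFiniteWt : Finite Wt :=
  Finite.of_injective (fun t : Wt => (⟨t.1, t.2.1⟩ : Rt)) fun _ _ h => Subtype.ext (congrArg (fun z : Rt => z.1) h)

noncomputable instance instFintypeWt : Fintype Wt := Fintype.ofFinite _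

/-- the highest root of `E₈` -/
def θ : L := ![2, 3, 4, 6, 5, 4, 3, 2]

theorem B_θ (v : L) : B θ v = v 7 := by simp [B, θ]; ring

variable {r s t : L}

theorem IsR.neg (hr : IsR r) : IsR (-r) := ⟨by simpa using hr.1, by simp [hr.2]⟩

theorem IsR.al {j : Fin 8} (hj : j ≠ 7) : IsR (al j) := ⟨B_al j, by simp [al_apply, hj.symm]⟩

theorem IsR.add (hr : IsR r) (hs : IsR s) (h : B r s = -1) : IsR (r + s) :=
  ⟨(root_add hr.1 hs.1).2 h, by simp [hr.2, hs.2]⟩

theorem cases3 (hr : IsR r) (ht : IsW t) : B r t = 1 ∨ B r t = 0 ∨ B r t = -1 := by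
  have h1 := B_le hr.1 ht.1
  have h2 := le_B hr.1 ht.1
  have h3 : B r t ≠ 2 := fun h => by
    have := congrFun (eq_of_B hr.1 ht.1 h) 7
    rw [hr.2, ht.2] at this; omega
  have h4 : B r t ≠ -2 := fun h => by
    have := congrFun (eq_neg_of_B hr.1 ht.1 h) 7
    rw [Pi.neg_apply, hr.2, ht.2] at this; omega
  omega

theorem isW_add (hr : IsR r) (ht : IsW t) : IsW (r + t) ↔ B r t = -1 := by
  rw [IsW, root_add hr.1 ht.1]; simp [hr.2, ht.2]

section
variable {K : Type*} [Field K]

variable (K) in
/-- basis vector -/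
def e (v : L) : Wt → K := fun a => if a.1 = v then 1 else 0

theorem e_eq_zero {v : L} (hv : ¬ IsW v) : e K v = 0 := by
  funext a; rw [e, if_neg]; · rfl
  rintro rfl; exact hv a.2

theorem e_single (t : Wt) : e K t.1 = Pi.single t 1 := by
  funext a; simp [e, Pi.single_apply, Subtype.ext_iff]

theorem mulVec_e (M : Matrix Wt Wt K) (a t : Wt) : (M *ᵥ e K t.1) a = M a t := by
  rw [e_single]; simp

theorem mext {M M' : Matrix Wt Wt K} (h : ∀ t, IsW t → M *ᵥ e K t = M' *ᵥ e K t) : M = M' := by
  ext a t; rw [← mulVec_e M, ← mulVec_e M', h _ t.2]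

@[local simp] theorem mul_mulVec' (M M' : Matrix Wt Wt K) (v : Wt → K) : (M * M') *ᵥ v = M *ᵥ M' *ᵥ v :=
  (mulVec_mulVec ..).symm

variable (K) in
/-- root vector -/
def E (r : L) : Matrix Wt Wt K := of fun a b => if a.1 = r + b.1 then 1 else 0

theorem E_e' (r : L) (ht : IsW t) : E K r *ᵥ e K t = e K (r + t) := by
  funext a; exact mulVec_e _ a ⟨t, ht⟩

theorem E_e (hr : IsR r) (ht : IsW t) : E K r *ᵥ e K t = if B r t = -1 then e K (r + t) else 0 := by
  rw [E_e' r ht]
  split_ifs with h
  · rfl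
  · exact e_eq_zero fun h' => h ((isW_add hr ht).1 h')

variable (K) in
/-- Cartan element -/
def H (v : L) : Matrix Wt Wt K := diagonal fun a => (B v a.1 : K)

theorem H_e (v t : L) : H K v *ᵥ e K t = (B v t : K) • e K t := by
  funext a
  simp only [H, mulVec_diagonal, e, Pi.smul_apply, smul_eq_mul]
  split_ifs with h
  · rw [h]
  · simp

theorem E_E (hr : IsR r) (hs : IsR s) (h : 1 ≤ B r s) : E K r * E K s = 0 := by
  refine mext fun t ht => ?_
  rcases cases3 hr ht with h1 | h1 | h1 <;> rcases cases3 hs ht with h2 | h2 | h2 <;>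
    simp [E_e, hr, hs, ht, isW_add, h1, h2] <;> omega

theorem E_comm (hr : IsR r) (hs : IsR s) (h : 0 ≤ B r s) : E K r * E K s = E K s * E K r := by
  rcases h.eq_or_lt with h | h
  · refine mext fun t ht => ?_
    have h' : B s r = 0 := by rw [B_comm, h]
    rcases cases3 hr ht with h1 | h1 | h1 <;> rcases cases3 hs ht with h2 | h2 | h2 <;>
      simp [E_e, hr, hs, ht, isW_add, h1, h2, ← h, h', add_left_comm]
  · rw [E_E hr hs h, E_E hs hr (by rwa [B_comm])]

theorem E_br (hr : IsR r) (hs : IsR s) (h : B r s = -1) : E K r * E K s + E K s * E K r = E K (r + s) := by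
  refine mext fun t ht => ?_
  have h' : B s r = -1 := by rw [B_comm, h]
  have h3 := cases3 (hr.add hs h) ht
  rw [B_add_left] at h3
  rcases cases3 hr ht with h1 | h1 | h1 <;> rcases cases3 hs ht with h2 | h2 | h2 <;>
    simp [add_mulVec, E_e, hr, hs, hr.add hs h, ht, isW_add, h1, h2, h, h', add_left_comm, add_assoc]

theorem E_E_E (hr : IsR r) (hs : IsR s) (h : B r s = -1) : E K r * E K s * E K r = 0 := by
  have h1 := congrArg (E K r * ·) (E_br (K := K) hr hs h)
  simpa only [mul_add, ← mul_assoc, E_E hr hr (by rw [hr.1]; omega), E_E hr (hr.add hs h) (by simp [h, hr.1]),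
    zero_mul, zero_add] using h1

variable [CharP K 2]

/-- root element -/
def x (r : L) (a : K) : Matrix Wt Wt K := 1 + a • E K r

theorem x_e (hr : IsR r) (ht : IsW t) (a : K) :
    x r a *ᵥ e K t = e K t + if B r t = -1 then a • e K (r + t) else 0 := by
  simp [x, add_mulVec, smul_mulVec, E_e hr ht]

theorem x_add (hr : IsR r) (a b : K) : x r a * x r b = x r (a + b) := by
  simp only [x, mul_add, add_mul, mul_one, one_mul, smul_mul_assoc, mul_smul_comm,
    E_E hr hr (by rw [hr.1]; omega), smul_zero, add_zero, add_smul, add_assoc]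

theorem x_zero (r : L) : x r (0 : K) = 1 := by simp [x]

theorem x_x (hr : IsR r) (a : K) : x r a * x r a = 1 := by
  rw [x_add hr, CharTwo.add_self_eq_zero, x_zero]

theorem x_comm (hr : IsR r) (hs : IsR s) (h : 0 ≤ B r s) (a b : K) : x r a * x s b = x s b * x r a := by
  simp only [x, mul_add, add_mul, mul_one, one_mul, smul_mul_assoc, mul_smul_comm, E_comm hr hs h]
  module

theorem add_self_M (M : Matrix Wt Wt K) : M + M = 0 := by
  ext a b; simp [CharTwo.add_self_eq_zero]

theorem x_E_x (hr : IsR r) (hs : IsR s) (h : B r s = -1) (a : K) :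
    x r a * E K s * x r a = E K s + a • E K (r + s) := by
  simp only [x, mul_add, add_mul, mul_one, one_mul, smul_mul_assoc, mul_smul_comm, E_E_E hr hs h, ← E_br hr hs h]
  module

theorem x_conj (hr : IsR r) (hs : IsR s) (h : B r s = -1) (a b : K) :
    x r a * x s b * x r a = x (r + s) (a * b) * x s b := by
  have h1 : E K (r + s) * E K s = 0 := E_E (hr.add hs h) hs (by simp [h, hs.1])
  rw [x.eq_1 s, mul_add, add_mul, mul_one, x_x hr, mul_smul_comm, smul_mul_assoc, x_E_x hr hs h]
  simp only [x, mul_add, add_mul, mul_one, one_mul, smul_mul_assoc, mul_smul_comm, h1]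
  module

theorem n_e (hr : IsR r) (ht : IsW t) {a : K} (ha : a ≠ 0) :
    (x r a * x (-r) a⁻¹ * x r a) *ᵥ e K t = a ^ (-B r t) • e K (rf r t) := by
  have h0 := hr.1
  have hn := hr.neg
  rcases cases3 hr ht with h1 | h1 | h1
  · have ht' : IsW (t - r) := by simpa [neg_add_eq_sub] using (isW_add hn ht).2 (by simp [h1])
    simp [x_e, hr, hn, ht, ht', h1, rf, h0, mulVec_add, mulVec_smul, smul_smul, ha, neg_add_eq_sub]
    funext z; simp only [Pi.add_apply, Pi.smul_apply, smul_eq_mul]; grind
  · simp [x_e, hr, hn, ht, h1, rf]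
  · simp [x_e, hr, hn, ht, h1, rf, isW_add, h0, mulVec_add, mulVec_smul, smul_smul, ha, add_comm t r]
    funext z; simp only [Pi.add_apply, Pi.smul_apply, smul_eq_mul, Pi.zero_apply]; grind

theorem x_H_x (hr : IsR r) (v : L) : x r (1 : K) * H K v = (H K v + (B r v : K) • E K r) * x r 1 := by
  refine mext fun t ht => ?_
  have h0 := hr.1
  rcases cases3 hr ht with h1 | h1 | h1 <;>
    simp [add_mulVec, smul_mulVec, x_e, E_e, H_e, hr, ht, h1, isW_add, h0, mulVec_add, mulVec_smul, B_comm v r]
  funext z; simp only [Pi.add_apply, Pi.smul_apply, smul_eq_mul]; grind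

theorem x_E_neg (hr : IsR r) : x r (1 : K) * E K (-r) = (E K (-r) + E K r + H K r) * x r 1 := by
  refine mext fun t ht => ?_
  have h0 := hr.1
  have hn := hr.neg
  rcases cases3 hr ht with h1 | h1 | h1 <;>
    simp [add_mulVec, x_e, E_e, H_e, hr, hn, ht, h1, isW_add, h0, mulVec_add]
  funext z; simp only [Pi.add_apply, Pi.smul_apply, smul_eq_mul, Pi.neg_apply, Pi.zero_apply]; grind

end

end Cfsg.Agent.H6.E7
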