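import Cfsg.Agent.H6.E7a

/-!
The group generated by the root elements and the torus of `E₇` on the 56-dimensional module: Bruhat
decomposition.
-/

set_option autoImplicit false
set_option linter.unusedSectionVars false
set_option linter.unusedSimpArgs false

namespace Cfsg.Agent.H6.E7

open Cfsg.Agent.H1.E8 Matrix

attribute [-simp] zsmul_eq_mul Matrix.mulVec_mulVec
attribute [local simp] mul_mulVec'

variable {K : Type*} [Field K] [CharP K 2] {r s t : L}

/-- root element in the general linear group -/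
noncomputable def X (r : L) (a : K) : GL Wt K :=
  if h : IsR r then ⟨x r a, x r a, x_x h a, x_x h a⟩ else 1

theorem coe_X (hr : IsR r) (a : K) : (X r a : Matrix Wt Wt K) = x r a := by rw [X, dif_pos hr]

theorem X_add (r : L) (a b : K) : X r a * X r b = X r (a + b) := by
  by_cases hr : IsR r
  · exact Units.ext (by simp only [Units.val_mul, coe_X hr, x_add hr])
  · simp [X, hr]

theorem X_zero (r : L) : X r (0 : K) = 1 := by
  by_cases hr : IsR r
  · exact Units.ext (by simp only [coe_X hr, x_zero, Units.val_one])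
  · simp [X, hr]

theorem X_X (r : L) (a : K) : X r a * X r a = 1 := by rw [X_add, CharTwo.add_self_eq_zero, X_zero]

@[simp] theorem X_inv (r : L) (a : K) : (X r a)⁻¹ = X r a := inv_eq_of_mul_eq_one_right (X_X r a)

theorem X_comm (hr : IsR r) (hs : IsR s) (h : 0 ≤ B r s) (a b : K) : X r a * X s b = X s b * X r a :=
  Units.ext (by simp only [Units.val_mul, coe_X hr, coe_X hs, x_comm hr hs h])

theorem X_conj (hr : IsR r) (hs : IsR s) (h : B r s = -1) (a b : K) :
    X r a * X s b * X r a = X (r + s) (a * b) * X s b :=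
  Units.ext (by simp only [Units.val_mul, coe_X hr, coe_X hs, coe_X (hr.add hs h), x_conj hr hs h])

/-- characters of the weight lattice of `E₇` -/
structure IsCh (χ : L → K) : Prop where
  add : ∀ u v, χ (u + v) = χ u * χ v
  ne : ∀ v, χ v ≠ 0
  hθ : χ θ = 1

/-- isometries fixing the highest root of `E₈` -/
structure IsIso (w : L ≃+ L) : Prop where
  iso : ∀ u v, B (w u) (w v) = B u v
  hθ : w θ = θ

namespace IsIso
variable {w w' : L ≃+ L}

theorem h7 (a : IsIso w) (v : L) : w v 7 = v 7 := by rw [← B_θ (w v), ← B_θ v, ← a.iso θ v, a.hθ]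

theorem isW (a : IsIso w) : IsW (w t) ↔ IsW t := by rw [IsW, IsW, a.iso, a.h7]

theorem isR (a : IsIso w) : IsR (w t) ↔ IsR t := by rw [IsR, IsR, a.iso, a.h7]

theorem refl : IsIso (AddEquiv.refl L) := ⟨fun _ _ => rfl, rfl⟩

theorem trans (a : IsIso w) (b : IsIso w') : IsIso (w.trans w') :=
  ⟨fun u v => by simp [a.iso, b.iso], by simp [a.hθ, b.hθ]⟩

theorem symm (a : IsIso w) : IsIso w.symm :=
  ⟨fun u v => by rw [← a.iso]; simp, by rw [AddEquiv.symm_apply_eq, a.hθ]⟩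

/-- the permutation of the weights -/
def perm (a : IsIso w) : Equiv.Perm Wt := w.toEquiv.subtypeEquiv fun _ => a.isW.symm

@[simp] theorem coe_perm (a : IsIso w) (t : Wt) : (a.perm t).1 = w t.1 := rfl

end IsIso

/-- reflection as an additive equivalence -/
def rfE (hr : IsR r) : L ≃+ L := ⟨⟨rf r, rf r, rf_rf hr.1, rf_rf hr.1⟩, rf_add r⟩

@[simp] theorem rfE_apply (hr : IsR r) (v : L) : rfE hr v = rf r v := rfl

theorem isIso_rfE (hr : IsR r) : IsIso (rfE hr) :=
  ⟨B_rf hr.1, by simp [rf, B_comm r θ, B_θ, hr.2]⟩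

/-- monomial elements -/
structure Act (g : GL Wt K) (w : L ≃+ L) (χ : L → K) : Prop where
  iso : IsIso w
  ch : IsCh χ
  he : ∀ t, IsW t → g.1 *ᵥ e K t = χ t • e K (w t)

namespace Act
variable {g g' : GL Wt K} {w w' : L ≃+ L} {χ χ' : L → K}

theorem he' (a : Act g w χ) (v : L) : g.1 *ᵥ e K v = χ v • e K (w v) := by
  by_cases hv : IsW v
  · exact a.he v hv
  · rw [e_eq_zero hv, e_eq_zero (mt a.iso.isW.1 hv)]; simp

theorem one : Act (1 : GL Wt K) (AddEquiv.refl L) fun _ => 1 :=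
  ⟨IsIso.refl, ⟨by simp, by simp, rfl⟩, fun _ _ => by simp⟩

theorem mul (a : Act g w χ) (b : Act g' w' χ') : Act (g * g') (w'.trans w) fun v => χ' v * χ (w' v) :=
  ⟨b.iso.trans a.iso, ⟨fun u v => by rw [map_add, a.ch.add, b.ch.add]; ring,
    fun v => mul_ne_zero (b.ch.ne _) (a.ch.ne _), by rw [b.iso.hθ, a.ch.hθ, b.ch.hθ, mul_one]⟩,
    fun t _ => by simp [b.he', a.he', mulVec_smul, smul_smul]⟩

theorem inv (a : Act g w χ) : Act g⁻¹ w.symm fun v => (χ (w.symm v))⁻¹ :=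
  ⟨a.iso.symm, ⟨fun u v => by rw [map_add, a.ch.add, mul_inv], fun v => inv_ne_zero (a.ch.ne _),
    by rw [a.iso.symm.hθ, a.ch.hθ, inv_one]⟩, fun t _ => by
    have := congrArg ((g⁻¹).1 *ᵥ ·) (a.he' (w.symm t))
    simp only [← mul_mulVec', Units.inv_mul, one_mulVec, mulVec_smul, AddEquiv.apply_symm_apply] at this
    rw [this, smul_smul, inv_mul_cancel₀ (a.ch.ne _), one_smul]⟩

theorem X_mul (a : Act g w χ) (hs : IsR s) (c : K) : g * X s c = X (w s) (χ s * c) * g := by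
  refine Units.ext (mext fun t ht => ?_)
  simp only [Units.val_mul, coe_X hs, coe_X (a.iso.isR.2 hs), mul_mulVec', x, add_mulVec, smul_mulVec, one_mulVec,
    E_e' _ ht, mulVec_add, mulVec_smul, a.he', E_e' _ (a.iso.isW.2 ht), map_add, a.ch.add, smul_add, smul_smul]
  congr 2; ring

theorem conj (a : Act g w χ) (hs : IsR s) (c : K) : g * X s c * g⁻¹ = X (w s) (χ s * c) := by
  rw [a.X_mul hs, mul_inv_cancel_right]

end Act

/-- the monomial element of a root -/
noncomputable def N (r : L) (a : K) : GL Wt K := X r a * X (-r) a⁻¹ * X r a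

theorem act_N (hr : IsR r) {a : K} (ha : a ≠ 0) : Act (N r a) (rfE hr) fun v => a ^ (-B r v) :=
  ⟨isIso_rfE hr, ⟨fun u v => by rw [B_add_right, neg_add, zpow_add₀ ha], fun v => zpow_ne_zero _ ha,
    by simp [B_comm r θ, B_θ, hr.2]⟩, fun t ht => by
    simp only [N, Units.val_mul, coe_X hr, coe_X hr.neg]
    exact n_e hr ht ha⟩

variable (K) in
/-- the group generated by a set of root subgroups -/
noncomputable def gp (S : L → Prop) : Subgroup (GL Wt K) :=
  Subgroup.closure {g | ∃ r a, IsR r ∧ S r ∧ g = X r a}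

variable {S S' : L → Prop}

theorem X_mem (hr : IsR r) (h : S r) (a : K) : X r a ∈ gp K S := Subgroup.subset_closure ⟨r, a, hr, h, rfl⟩

theorem gp_le {M : Subgroup (GL Wt K)} (h : ∀ r a, IsR r → S r → X r a ∈ M) : gp K S ≤ M := by
  rw [gp, Subgroup.closure_le]
  rintro _ ⟨r, a, hr, hS, rfl⟩
  exact h r a hr hS

theorem gp_mono (h : ∀ r, IsR r → S r → S' r) : gp K S ≤ gp K S' :=
  gp_le fun r a hr hS => X_mem hr (h r hr hS) a

theorem gp_ind {p : GL Wt K → Prop} (h1 : p 1)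
    (hm : ∀ r a, IsR r → S r → ∀ g ∈ gp K S, p g → p (X r a * g)) {g : GL Wt K} (hg : g ∈ gp K S) : p g := by
  induction hg using Subgroup.closure_induction_left with
  | one => exact h1
  | mul_left a ha b hb ih =>
    obtain ⟨r, c, hr, hS, rfl⟩ := ha
    exact hm r c hr hS b hb ih
  | inv_mul_cancel a ha b hb ih =>
    obtain ⟨r, c, hr, hS, rfl⟩ := ha
    rw [X_inv]
    exact hm r c hr hS b hb ih

theorem conj_mem {g : GL Wt K} (h : ∀ r a, IsR r → S r → g * X r a * g⁻¹ ∈ gp K S') {k : GL Wt K}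
    (hk : k ∈ gp K S) : g * k * g⁻¹ ∈ gp K S' := by
  refine gp_ind (p := fun k => g * k * g⁻¹ ∈ gp K S') (by simp) (fun r a hr hS k _ ih => ?_) hk
  have := (gp K S').mul_mem (h r a hr hS) ih
  simpa [mul_assoc] using this

theorem X_norm (hs : IsR s) (h : ∀ r, IsR r → S r → r ≠ -s ∧ (B s r = -1 → S (s + r))) (c : K)
    {k : GL Wt K} (hk : k ∈ gp K S) : X s c * k * X s c ∈ gp K S := by
  have := conj_mem (g := X s c) (S' := S) (fun r a hr hS => ?_) hk
  · simpa using this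
  · obtain ⟨h1, h2⟩ := h r hr hS
    rw [X_inv]
    by_cases h3 : B s r = -1
    · rw [X_conj hs hr h3]
      exact (gp K S).mul_mem (X_mem (hs.add hr h3) (h2 h3) _) (X_mem hr hS _)
    · have h4 := le_B hs.1 hr.1
      have h5 : B s r ≠ -2 := fun e => h1 (eq_neg_of_B hs.1 hr.1 e)
      rw [X_comm hs hr (by omega), mul_assoc, X_X, mul_one]
      exact X_mem hr hS _

theorem exists_split (hs : IsR s) (h : ∀ r, IsR r → S r → r ≠ -s ∧ (B s r = -1 → S (s + r)))
    (hS : ∀ r, IsR r → S' r → S r ∨ r = s) {g : GL Wt K} (hg : g ∈ gp K S') :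
    ∃ c, X s c * g ∈ gp K S := by
  refine gp_ind (p := fun g => ∃ c, X s c * g ∈ gp K S) ⟨0, by simp [X_zero]⟩ (fun r a hr hr' k _ ih => ?_) hg
  obtain ⟨c, hc⟩ := ih
  rcases hS r hr hr' with h1 | rfl
  · refine ⟨c, ?_⟩
    have := (gp K S).mul_mem (X_norm hs h c (X_mem hr h1 a)) hc
    rwa [mul_assoc, ← mul_assoc (X s c) (X s c), X_X, one_mul, mul_assoc] at this
  · refine ⟨c + a, ?_⟩
    rwa [← mul_assoc, X_add, add_assoc, CharTwo.add_self_eq_zero, add_zero]

theorem Act.conj_mem {g : GL Wt K} {w : L ≃+ L} {χ : L → K} (a : Act g w χ) (h : ∀ r, IsR r → S r → S' (w r))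
    {k : GL Wt K} (hk : k ∈ gp K S) : g * k * g⁻¹ ∈ gp K S' :=
  E7.conj_mem (fun r c hr hS => by rw [a.conj hr]; exact X_mem (a.iso.isR.2 hr) (h r hr hS) _) hk

theorem all_mem {M : Subgroup (GL Wt K)} (hU : gp K Pos ≤ M) (hN : ∀ i, i ≠ 7 → N (al i) 1 ∈ M) (hr : IsR r)
    (c : K) : X r c ∈ M := by
  have key : ∀ n : ℕ, ∀ r, IsR r → Pos r → ht r = n → X (-r) c ∈ M := by
    intro n
    induction n using Nat.strong_induction_on with
    | _ n ih =>
      intro r hr hp hn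
      obtain ⟨i, hi0, hi⟩ := exists_pos_B hr.1 hp
      have hi7 : i ≠ 7 := by rintro rfl; rw [hr.2] at hi0; omega
      have h4 : IsR (rf (al i) r) := (isIso_rfE (IsR.al hi7)).isR.2 hr
      have h1 := (act_N (IsR.al hi7) (one_ne_zero (α := K))).conj h4.neg c
      rw [rfE_apply, ← rf_neg, rf_rf (B_al i), _root_.one_zpow, one_mul] at h1
      rw [← h1]
      refine M.mul_mem (M.mul_mem (hN i hi7) ?_) (M.inv_mem (hN i hi7))
      by_cases h2 : r = al i
      · rw [h2, rf_neg, rf_self (B_al i), neg_neg]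
        exact hU (X_mem (IsR.al hi7) (pos_al i) _)
      · have h3 := pos_rf hr.1 hp h2
        rw [rf_neg]
        have h5 := ht_nonneg h3
        have h6 : ht (rf (al i) r) < ht r := by
          rw [rf, ht_sub, ht_smul, ht_al, B_comm]; omega
        exact ih (ht (rf (al i) r)).toNat (by omega) _ h4 h3 (by omega)
  rcases pos_or_neg hr.1 with h | h
  · exact hU (X_mem hr h _)
  · have := key (ht (-r)).toNat (-r) hr.neg h (by have := ht_nonneg h; omega)
    rwa [neg_neg] at this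

variable (K) in
/-- the monomial group -/
def Mon : Subgroup (GL Wt K) where
  carrier := {g | ∃ w χ, Act g w χ}
  one_mem' := ⟨_, _, Act.one⟩
  mul_mem' := fun ⟨_, _, a⟩ ⟨_, _, b⟩ => ⟨_, _, a.mul b⟩
  inv_mem' := fun ⟨_, _, a⟩ => ⟨_, _, a.inv⟩

variable (K) in
/-- the torus -/
def Tor : Subgroup (GL Wt K) where
  carrier := {g | ∃ χ, Act g (AddEquiv.refl L) χ}
  one_mem' := ⟨_, Act.one⟩
  mul_mem' := fun ⟨_, a⟩ ⟨_, b⟩ => ⟨_, a.mul b⟩
  inv_mem' := fun ⟨_, a⟩ => ⟨_, a.inv⟩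

variable (K) in
/-- the group -/
noncomputable def G : Subgroup (GL Wt K) := gp K (fun _ => True) ⊔ Tor K

theorem pos_add (h1 : Pos r) (h2 : Pos s) : Pos (r + s) := fun i => add_nonneg (h1 i) (h2 i)

theorem bruhat {g : GL Wt K} (hg : g ∈ G K) : ∃ u ∈ gp K Pos, ∃ n ∈ Mon K, ∃ u' ∈ gp K Pos, g = u * n * u' := by
  let D : GL Wt K → Prop := fun g => ∃ u ∈ gp K Pos, ∃ n ∈ Mon K, ∃ u' ∈ gp K Pos, g = u * n * u'
  let M : Subgroup (GL Wt K) :=
    { carrier := {g | ∀ d, D d ↔ D (g * d)}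
      one_mem' := fun d => by simp
      mul_mem' := fun {a b} ha hb d => by rw [mul_assoc, ← ha, ← hb]
      inv_mem' := fun {a} ha d => by rw [ha (a⁻¹ * d), mul_inv_cancel_left] }
  have hM : ∀ g, (∀ d, D d → D (g * d)) → (∀ d, D d → D (g⁻¹ * d)) → g ∈ M := fun g h1 h2 d =>
    ⟨h1 d, fun h => by simpa using h2 _ h⟩
  have hU : ∀ u ∈ gp K Pos, ∀ d, D d → D (u * d) := by
    rintro u hu _ ⟨a, ha, l, hl, b, hb, rfl⟩
    exact ⟨u * a, (gp K Pos).mul_mem hu ha, l, hl, b, hb, by simp [mul_assoc]⟩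
  have hT : ∀ u ∈ Tor K, ∀ d, D d → D (u * d) := by
    rintro u ⟨χ, hu⟩ _ ⟨a, ha, l, hl, b, hb, rfl⟩
    exact ⟨_, hu.conj_mem (S' := Pos) (fun _ _ h => h) ha, u * l, (Mon K).mul_mem ⟨_, _, hu⟩ hl, b, hb,
      by simp [mul_assoc]⟩
  have hN : ∀ i (hi : i ≠ 7) n χ, Act n (rfE (IsR.al hi)) χ → ∀ d, D d → D (n * d) := by
    rintro i hi n χ hn _ ⟨a, ha, l, ⟨w, ψ, hl⟩, b, hb, rfl⟩
    have hα := IsR.al hi
    obtain ⟨c, h2⟩ := exists_split (S := fun r => Pos r ∧ r ≠ al i) (S' := Pos) hα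
      (fun r hr hS => ⟨fun e => not_pos_neg hr.1 hS.1 (by rw [e, neg_neg]; exact pos_al i),
        fun _ => ⟨pos_add (pos_al i) hS.1, fun e => root_ne_zero hr.1 (by simpa using e)⟩⟩)
      (fun r _ hp => by tauto) ((gp K Pos).inv_mem ha)
    have h3 := hn.conj_mem (S' := Pos) (fun r hr hS => pos_rf hr.1 hS.1 hS.2) ((gp K _).inv_mem h2)
    simp only [_root_.mul_inv_rev, inv_inv, X_inv] at h3
    have e1 : n * (a * l * b) = (n * (a * X (al i) c) * n⁻¹) * (n * X (al i) c * l * b) := by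
      simp only [mul_assoc, inv_mul_cancel_left]
      rw [← mul_assoc (X (al i) c) (X (al i) c), X_X, one_mul]
    rw [e1]
    refine hU _ h3 _ ?_
    have hr : IsR (w.symm (al i)) := hl.iso.symm.isR.2 hα
    have hmem : n * l ∈ Mon K := ⟨_, _, hn.mul hl⟩
    by_cases hc : c = 0
    · exact ⟨1, (gp K _).one_mem, n * l, hmem, b, hb, by simp [hc, X_zero]⟩
    rcases pos_or_neg hr.1 with h4 | h4
    · have := hl.inv.X_mul hα c
      refine ⟨1, (gp K _).one_mem, n * l, hmem, _, (gp K Pos).mul_mem (X_mem hr h4 ((ψ (w.symm (al i)))⁻¹ * c)) hb,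
        ?_⟩
      rw [← mul_inv_eq_iff_eq_mul, inv_inv] at this
      rw [← this]; simp [mul_assoc]
    · have h5 : X (al i) c = X (-al i) c⁻¹ * N (-al i) c⁻¹ * X (-al i) c⁻¹ := by
        simp only [N, neg_neg, inv_inv, mul_assoc, X_X, mul_one]
        rw [← mul_assoc, X_X, one_mul]
      have h6 := hn.X_mul hα.neg c⁻¹
      rw [rfE_apply, rf_neg, rf_self (B_al i), neg_neg] at h6
      have := hl.inv.X_mul hα.neg c⁻¹
      rw [← mul_inv_eq_iff_eq_mul, inv_inv, map_neg] at this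
      refine ⟨_, X_mem hα (pos_al i) (χ (-al i) * c⁻¹), n * N (-al i) c⁻¹ * l,
        ⟨_, _, (hn.mul (act_N hα.neg (inv_ne_zero hc))).mul hl⟩, _,
        (gp K Pos).mul_mem (X_mem hr.neg h4 ((ψ (-w.symm (al i)))⁻¹ * c⁻¹)) hb, ?_⟩
      rw [← this, h5, ← mul_assoc n, ← mul_assoc n, h6]; simp [mul_assoc]
  have hUM : gp K Pos ≤ M := fun u hu => hM u (hU u hu) (hU _ ((gp K Pos).inv_mem hu))
  have hG : G K ≤ M := sup_le (gp_le fun r a hr _ => all_mem hUM (fun i hi => hM _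
      (hN i hi _ _ (act_N (IsR.al hi) one_ne_zero)) (hN i hi _ _ (act_N (IsR.al hi) one_ne_zero).inv)) hr a)
    fun u hu => hM u (hT u hu) (hT _ ((Tor K).inv_mem hu))
  have h1 : D 1 := ⟨1, (gp K _).one_mem, 1, (Mon K).one_mem, 1, (gp K _).one_mem, by simp⟩
  simpa using (hG hg 1).1 h1

end Cfsg.Agent.H6.E7
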