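import Cfsg.Agent.H6.E7b

/-!
Elements of prime power order of the group of type `E₇` are conjugate into the torus: a Sylow argument.
-/

set_option autoImplicit false
set_option linter.unusedSectionVars false
set_option linter.unusedSimpArgs false

namespace Cfsg.Agent.H6.E7

open Cfsg.Agent.H1.E8 Matrix Polynomial

attribute [-simp] zsmul_eq_mul Matrix.mulVec_mulVec
attribute [local simp] mul_mulVec'

theorem conj_into {Γ : Type*} [Group Γ] [Finite Γ] {p : ℕ} [Fact p.Prime] {C P : Subgroup Γ} (hPC : P ≤ C)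
    (hP : IsPGroup p P) (h : ∀ x ∈ C, ∀ k, x ^ p ^ k = 1 →
      (∀ t ∈ P, x * t * x⁻¹ ∈ P ∧ x⁻¹ * t * x ∈ P) → x ∈ P) {y : Γ} (hy : y ∈ C) {k : ℕ}
    (hk : y ^ p ^ k = 1) : ∃ c ∈ C, c * y * c⁻¹ ∈ P := by
  obtain ⟨S, hS⟩ := (hP.comap_subtype (K := C)).exists_le_sylow
  have hS' : (S : Subgroup C) ≤ P.comap C.subtype := by
    have := S.isPGroup'.isNilpotent
    by_contra hne
    have h1 : (P.comap C.subtype).subgroupOf S < ⊤ := lt_top_iff_ne_top.2 fun e =>
      hne (Subgroup.subgroupOf_eq_top.1 e)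
    obtain ⟨x, hx, hx'⟩ := SetLike.exists_of_lt (Group.normalizerCondition_of_isNilpotent _ h1)
    obtain ⟨j, hj⟩ := S.isPGroup' x
    refine hx' (h x.1.1 x.1.2 j (congrArg (fun z : S => z.1.1) hj) fun t ht => ?_)
    exact ⟨(Subgroup.mem_normalizer_iff.1 hx ⟨⟨t, hPC ht⟩, hS ht⟩).1 ht,
      (Subgroup.mem_normalizer_iff''.1 hx ⟨⟨t, hPC ht⟩, hS ht⟩).1 ht⟩
  have h2 : IsPGroup p (Subgroup.zpowers (⟨y, hy⟩ : C)) := by
    rintro ⟨_, n, rfl⟩
    refine ⟨k, Subtype.ext (Subtype.ext ?_)⟩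
    simp only [SubmonoidClass.mk_pow, SubgroupClass.coe_zpow, OneMemClass.coe_one, SubmonoidClass.coe_pow]
    rw [← zpow_natCast, ← _root_.zpow_mul, mul_comm, _root_.zpow_mul, zpow_natCast, hk, _root_.one_zpow]
  obtain ⟨S', hS2⟩ := h2.exists_le_sylow
  obtain ⟨c, hc⟩ := MulAction.exists_smul_eq C S' S
  refine ⟨c, c.2, hS' (x := c * ⟨y, hy⟩ * c⁻¹) ?_⟩
  rw [← hc, Sylow.coe_subgroup_smul]
  exact Subgroup.smul_mem_pointwise_smul _ _ _ (hS2 (Subgroup.mem_zpowers _))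

theorem eq_one_of_pow_thirteen {A : Matrix (Fin 8) (Fin 8) ℚ} {k : ℕ} (h : A ^ 13 ^ k = 1) : A = 1 := by
  have key : ∀ A : Matrix (Fin 8) (Fin 8) ℚ, A ^ 13 = 1 → A = 1 := fun A h => by
    have : Fact (Nat.Prime 13) := ⟨by norm_num⟩
    have h1 : IsCoprime (cyclotomic 13 ℚ) A.charpoly :=
      (cyclotomic.irreducible_rat (by norm_num)).coprime_iff_not_dvd.2 fun hd => by
        have := natDegree_le_of_dvd hd A.charpoly_monic.ne_zero
        rw [natDegree_cyclotomic, charpoly_natDegree_eq_dim, Nat.totient_prime (by norm_num)] at this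
        simp at this
    obtain ⟨a, b, hab⟩ := h1
    have h2 := congrArg (aeval A) (cyclotomic_prime_mul_X_sub_one ℚ 13)
    have h3 := congrArg (aeval A) hab
    simp only [map_mul, map_sub, map_add, aeval_X, map_one, map_pow, h, sub_self, aeval_self_charpoly, mul_zero,
      add_zero] at h2 h3
    have h4 := congrArg (aeval A a * ·) h2
    simpa only [← mul_assoc, h3, one_mul, mul_zero, sub_eq_zero] using h4
  induction k with
  | zero => simpa using h
  | succ k ih => exact ih (key _ (by rwa [← pow_mul, ← pow_succ]))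

theorem span_al {S : AddSubgroup L} (h : ∀ j, al j ∈ S) (v : L) : v ∈ S := by
  rw [pi_eq_sum_univ' v]
  exact sum_mem fun j _ => S.zsmul_mem (h j) _

theorem span_W {S : AddSubgroup L} (h : ∀ t, IsW t → t ∈ S) (v : L) : v ∈ S := by
  have h1 : ∀ j, IsW (al j) ∨ ∃ a ∈ [![0, 0, 0, 0, 0, 0, 0, 1], ![0, 0, 0, 0, 0, 0, 1, 1], ![0, 0, 0, 0, 0, 1, 1, 1],
      ![0, 0, 0, 0, 1, 1, 1, 1], ![0, 0, 0, 1, 1, 1, 1, 1], ![0, 0, 1, 1, 1, 1, 1, 1]],
      IsW a ∧ IsW (al j + a) := by decide +kernel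
  refine span_al (fun j => ?_) v
  rcases h1 j with h2 | ⟨a, -, h2, h3⟩
  · exact h _ h2
  · simpa using S.sub_mem (h _ h3) (h _ h2)

theorem refl_of_pow_thirteen {w : L ≃+ L} {k : ℕ} (h : ∀ t, IsW t → w^[13 ^ k] t = t) : w = AddEquiv.refl L := by
  let W : Module.End ℤ L := w.toAddMonoidHom.toIntLinearMap
  let φ : Module.End ℤ L →+* Matrix (Fin 8) (Fin 8) ℚ :=
    (Int.castRingHom ℚ).mapMatrix.comp (LinearMap.toMatrixAlgEquiv' (R := ℤ) (n := Fin 8)).toRingEquiv.toRingHom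
  have hφ : Function.Injective φ :=
    (Matrix.map_injective Int.cast_injective).comp (LinearMap.toMatrixAlgEquiv' (R := ℤ) (n := Fin 8)).injective
  have h1 : W ^ 13 ^ k = 1 := LinearMap.ext fun v =>
    span_W (S := (LinearMap.eqLocus (W ^ 13 ^ k) 1).toAddSubgroup)
      (fun t ht => (Module.End.pow_apply W _ t).trans (h t ht)) v
  have h2 : W = 1 := hφ (by rw [map_one]; exact eq_one_of_pow_thirteen (k := k) (by rw [← map_pow, h1, map_one]))
  exact AddEquiv.ext fun v => LinearMap.congr_fun h2 v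

variable {K : Type*} [Field K] [CharP K 2] {r s t : L}

/-- unitriangular elements -/
def Tri (u : Matrix Wt Wt K) : Prop := ∀ a b : Wt, ht a.1 ≤ ht b.1 → u a b = (1 : Matrix Wt Wt K) a b

theorem Tri.mul {u u' : Matrix Wt Wt K} (h : Tri u) (h' : Tri u') : Tri (u * u') := fun a b hab => by
  rw [mul_apply, Finset.sum_eq_single a, h a a le_rfl, h' a b hab, one_apply_eq, one_mul]
  · intro c _ hc
    rcases le_or_gt (ht a.1) (ht c.1) with h1 | h1
    · rw [h a c h1, one_apply_ne hc.symm, zero_mul]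
    · rw [h' c b (by omega), one_apply_ne (by rintro rfl; omega), mul_zero]
  · simp

theorem tri_of_mem {u : GL Wt K} (hu : u ∈ gp K Pos) : Tri u.1 := by
  refine gp_ind (p := fun u => Tri u.1) (fun _ _ _ => rfl) (fun r c hr hp g _ ih => Tri.mul (fun a b hab => ?_) ih) hu
  rw [coe_X hr, x, Matrix.add_apply, Matrix.smul_apply, E, of_apply, if_neg, smul_zero, add_zero]
  intro e
  have := ht_pos hr.1 hp
  rw [e, ht_add] at hab; omega

theorem Act.entry {g : GL Wt K} {w : L ≃+ L} {χ : L → K} (h : Act g w χ) (a b : Wt) :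
    g.1 a b = if a = h.iso.perm b then χ b.1 else 0 := by
  rw [← mulVec_e g.1, h.he']; simp [e, Subtype.ext_iff]

theorem mem_mon {g : GL Wt K} (hg : g ∈ G K) (h1 : ∀ a a' b, g.1 a b ≠ 0 → g.1 a' b ≠ 0 → a = a')
    (h2 : ∀ a b b', g.1 a b ≠ 0 → g.1 a b' ≠ 0 → b = b') : g ∈ Mon K := by
  obtain ⟨u, hu, n, ⟨w, χ, hn⟩, u', hu', e⟩ := bruhat hg
  have h3 : ∀ b, ∃ a, g.1 a b ≠ 0 := fun b => by
    by_contra! hc
    have := congrFun (congrFun g.inv_mul b) b
    simp [mul_apply, hc] at this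
  choose σ hσ using h3
  have hσi : Function.Injective σ := fun b b' h => h2 _ _ _ (hσ b) (h ▸ hσ b')
  have h4 : ∀ b, (u⁻¹).1 (hn.iso.perm b) (σ b) * g.1 (σ b) b = χ b.1 := fun b => by
    have : (u⁻¹).1 * g.1 = n.1 * u'.1 := by rw [← Units.val_mul, e, ← Units.val_mul]; simp [mul_assoc]
    have := congrFun (congrFun this (hn.iso.perm b)) b
    rwa [mul_apply, mul_apply, Finset.sum_eq_single (σ b) (fun c _ hc => by
      rw [of_not_not (mt (fun h => h1 _ _ _ h (hσ b)) hc), mul_zero]) (by simp),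
      Finset.sum_eq_single b (fun c _ hc => by simp [hn.entry, hc.symm]) (by simp), hn.entry, if_pos rfl,
      tri_of_mem hu' b b le_rfl, one_apply_eq, mul_one] at this
  have h5 : ∀ b, ht (hn.iso.perm b).1 ≤ ht (σ b).1 → hn.iso.perm b = σ b := fun b hb => by
    by_contra hc
    have := h4 b
    rw [tri_of_mem ((gp K Pos).inv_mem hu) _ _ hb, one_apply_ne hc, zero_mul] at this
    exact hn.ch.ne _ this.symm
  have h6 : ∀ b, ht (σ b).1 ≤ ht (hn.iso.perm b).1 := fun b => by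
    by_contra! hc
    rw [h5 b hc.le] at hc; omega
  have h7 : ∑ b, ht (σ b).1 = ∑ b, ht (hn.iso.perm b).1 :=
    ((Finite.injective_iff_bijective.1 hσi).sum_comp fun b => ht b.1).trans
      (Equiv.sum_comp hn.iso.perm fun b => ht b.1).symm
  have h8 : ∀ b, hn.iso.perm b = σ b := fun b =>
    h5 b ((Finset.sum_eq_sum_iff_of_le fun b _ => h6 b).1 h7 b (Finset.mem_univ b)).ge
  have : g = n := Units.ext (Matrix.ext fun a b => by
    rw [hn.entry]
    split_ifs with h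
    · have := h4 b
      rwa [h8, tri_of_mem ((gp K Pos).inv_mem hu) _ _ le_rfl, one_apply_eq, one_mul, ← h8, ← h] at this
    · exact of_not_not fun h' => h ((h1 _ _ _ h' (hσ b)).trans (h8 b).symm))
  exact this ▸ ⟨w, χ, hn⟩

theorem Act.diag {g : GL Wt K} {χ : L → K} (h : Act g (AddEquiv.refl L) χ) : g.1 = diagonal fun a => χ a.1 := by
  ext a b
  rw [h.entry, diagonal_apply]
  refine ite_congr (by simp [Subtype.ext_iff]) (fun e => by rw [e]) fun _ => rfl

theorem exists_act {χ : L → K} (h : IsCh χ) : ∃ g : GL Wt K, Act g (AddEquiv.refl L) χ :=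
  ⟨⟨diagonal fun a => χ a.1, diagonal fun a => (χ a.1)⁻¹, by simp [h.ne], by simp [h.ne]⟩, IsIso.refl, h,
    fun t ht => funext fun a => by
      simp only [mulVec_diagonal, e, Pi.smul_apply, smul_eq_mul, AddEquiv.refl_apply]
      split_ifs with h
      · rw [h]
      · simp⟩

theorem tor_comm {g g' : GL Wt K} (h : g ∈ Tor K) (h' : g' ∈ Tor K) : g * g' = g' * g := by
  obtain ⟨χ, h⟩ := h
  obtain ⟨χ', h'⟩ := h'
  exact Units.ext (by simp [h.diag, h'.diag, mul_comm])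

variable (K) in
/-- the elements of order dividing `p` of the torus -/
def TorP (p : ℕ) : Subgroup (GL Wt K) where
  carrier := {g | g ∈ Tor K ∧ g ^ p = 1}
  one_mem' := ⟨(Tor K).one_mem, one_pow p⟩
  mul_mem' := fun h h' => ⟨(Tor K).mul_mem h.1 h'.1, by
    rw [Commute.mul_pow (tor_comm h.1 h'.1), h.2, h'.2, mul_one]⟩
  inv_mem' := fun h => ⟨(Tor K).inv_mem h.1, by rw [inv_pow, h.2, inv_one]⟩

theorem isPGroup_torP (p : ℕ) : IsPGroup p (TorP K p) := fun g => ⟨1, Subtype.ext (by simpa using g.2.2)⟩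

theorem Act.pow_eq_one_iff {g : GL Wt K} {χ : L → K} (h : Act g (AddEquiv.refl L) χ) (n : ℕ) :
    g ^ n = 1 ↔ ∀ t : Wt, χ t.1 ^ n = 1 := by
  rw [Units.ext_iff, Units.val_pow_eq_pow_val, h.diag, diagonal_pow, Units.val_one, ← diagonal_one,
    diagonal_eq_diagonal_iff]
  simp

theorem exists_sep {p : ℕ} (hp : 4 < p) {ζ : K} (hζ : IsPrimitiveRoot ζ p) {a b : Wt} (hab : a ≠ b) :
    ∃ g ∈ TorP K p, g.1 a a ≠ g.1 b b := by
  have h0 : ζ ≠ 0 := hζ.ne_zero (by omega)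
  obtain ⟨j, hj, hj'⟩ : ∃ j, j ≠ 7 ∧ B (al j) a.1 ≠ B (al j) b.1 := by
    by_contra! hc
    refine hab (Subtype.ext (sub_eq_zero.1 (eq_zero_of_B ?_)))
    rw [B_sum]
    refine Finset.sum_eq_zero fun j _ => ?_
    by_cases hj : j = 7
    · simp [hj, a.2.2, b.2.2]
    · rw [B_comm, B_sub_right, hc j hj, sub_self, mul_zero]
  obtain ⟨g, hg⟩ := exists_act (act_N (IsR.al hj) h0).ch
  refine ⟨g, ⟨⟨_, hg⟩, (hg.pow_eq_one_iff p).2 fun t => ?_⟩, ?_⟩
  · rw [← zpow_natCast, ← _root_.zpow_mul, mul_comm, _root_.zpow_mul, zpow_natCast, hζ.pow_eq_one, _root_.one_zpow]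
  · rw [hg.diag, diagonal_apply_eq, diagonal_apply_eq]
    intro e
    rw [← div_eq_one_iff_eq (zpow_ne_zero _ h0), ← zpow_sub₀ h0, hζ.zpow_eq_one_iff_dvd] at e
    have h1 := cases3 (IsR.al hj) a.2
    have h2 := cases3 (IsR.al hj) b.2
    have := Int.eq_zero_of_abs_lt_dvd e (by rw [abs_lt]; omega)
    omega

theorem mem_mon_of_norm {p : ℕ} (hp : 4 < p) {ζ : K} (hζ : IsPrimitiveRoot ζ p) {g : GL Wt K} (hg : g ∈ G K)
    (h : ∀ t ∈ TorP K p, g * t * g⁻¹ ∈ TorP K p ∧ g⁻¹ * t * g ∈ TorP K p) : g ∈ Mon K := by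
  refine mem_mon hg (fun a a' b h1 h2 => of_not_not fun hne => ?_) fun a b b' h1 h2 => of_not_not fun hne => ?_
  · obtain ⟨t, ht, ht'⟩ := exists_sep hp hζ hne
    obtain ⟨χ, hχ⟩ := ht.1
    obtain ⟨ψ, hψ⟩ := (h t ht).2.1
    have e : g.1 * (g⁻¹ * t * g).1 = t.1 * g.1 := by rw [← Units.val_mul, ← Units.val_mul]; simp [mul_assoc]
    rw [hχ.diag, hψ.diag] at e
    have e1 := congrFun (congrFun e a) b
    have e2 := congrFun (congrFun e a') b
    simp only [mul_diagonal, diagonal_mul, hχ.diag, diagonal_apply_eq] at e1 e2 ht'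
    exact ht' (((mul_right_cancel₀ h1 (e1.symm.trans (mul_comm ..))).trans
      (mul_right_cancel₀ h2 (e2.symm.trans (mul_comm ..))).symm))
  · obtain ⟨t, ht, ht'⟩ := exists_sep hp hζ hne
    obtain ⟨χ, hχ⟩ := ht.1
    obtain ⟨ψ, hψ⟩ := (h t ht).1.1
    have e : (g * t * g⁻¹).1 * g.1 = g.1 * t.1 := by rw [← Units.val_mul, ← Units.val_mul]; simp [mul_assoc]
    rw [hχ.diag, hψ.diag] at e
    have e1 := congrFun (congrFun e a) b
    have e2 := congrFun (congrFun e a) b'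
    simp only [mul_diagonal, diagonal_mul, hχ.diag, diagonal_apply_eq] at e1 e2 ht'
    exact ht' (((mul_left_cancel₀ h1 (e1.symm.trans (mul_comm ..))).trans
      (mul_left_cancel₀ h2 (e2.symm.trans (mul_comm ..))).symm))

theorem Act.iterate {g : GL Wt K} {w : L ≃+ L} {χ : L → K} (h : Act g w χ) {n : ℕ} (hn : g ^ n = 1) (ht : IsW t) :
    w^[n] t = t := by
  have key : ∀ n : ℕ, ∃ c : K, (g ^ n).1 *ᵥ e K t = c • e K (w^[n] t) := fun n => by
    induction n with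
    | zero => exact ⟨1, by simp⟩
    | succ n ih =>
      obtain ⟨c, hc⟩ := ih
      exact ⟨_, by rw [pow_succ', Units.val_mul, mul_mulVec', hc, mulVec_smul, h.he', smul_smul,
        Function.iterate_succ_apply']⟩
  obtain ⟨c, hc⟩ := key n
  have := congrFun hc ⟨t, ht⟩
  by_contra hne
  simp [hn, e, Ne.symm hne] at this

theorem tor_le : Tor K ≤ G K := le_sup_right

theorem mem_torP {p k : ℕ} (hK : ∀ a : K, a ^ p ^ k = 1 → a ^ p = 1) {g : GL Wt K} {χ : L → K}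
    (h : Act g (AddEquiv.refl L) χ) (hk : g ^ p ^ k = 1) : g ∈ TorP K p :=
  ⟨⟨_, h⟩, (h.pow_eq_one_iff p).2 fun t => hK _ ((h.pow_eq_one_iff _).1 hk t)⟩

variable [Finite K]

theorem conj_thirteen {ζ : K} (hζ : IsPrimitiveRoot ζ 13) (hK : ∀ (k : ℕ) (a : K), a ^ 13 ^ k = 1 → a ^ 13 = 1)
    {g : GL Wt K} (hg : g ∈ G K) {k : ℕ} (hk : g ^ 13 ^ k = 1) : ∃ c ∈ G K, c * g * c⁻¹ ∈ TorP K 13 := by
  have : Fact (Nat.Prime 13) := ⟨by norm_num⟩
  refine conj_into (P := TorP K 13) (fun t ht => tor_le ht.1) (isPGroup_torP 13) (fun y hy k hk h => ?_) hg hk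
  obtain ⟨w, χ, hw⟩ := mem_mon_of_norm (by norm_num) hζ hy h
  obtain rfl := refl_of_pow_thirteen fun t ht => hw.iterate hk ht
  exact mem_torP (hK k) hw hk

theorem conj_five {ζ : K} (hζ : IsPrimitiveRoot ζ 5) (hK : ∀ (k : ℕ) (a : K), a ^ 5 ^ k = 1 → a ^ 5 = 1)
    {s : GL Wt K} {ψ : L → K} (hs : Act s (AddEquiv.refl L) ψ) {S : L → Prop}
    (h1 : ∀ t : Wt, S t.1 → {a : Wt | ψ a.1 = ψ t.1}.ncard < 5)
    (h2 : ∀ A : AddSubgroup L, (∀ t, IsW t → S t → t ∈ A) → ∀ v, v ∈ A)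
    {g : GL Wt K} (hg : g ∈ G K) (hgs : g * s = s * g) {k : ℕ} (hk : g ^ 5 ^ k = 1) :
    ∃ c : GL Wt K, c * s = s * c ∧ c * g * c⁻¹ ∈ TorP K 5 := by
  have : Fact (Nat.Prime 5) := ⟨by norm_num⟩
  suffices h : ∃ c ∈ G K ⊓ Subgroup.centralizer {s}, c * g * c⁻¹ ∈ TorP K 5 by
    obtain ⟨c, hc, hc'⟩ := h
    exact ⟨c, Subgroup.mem_centralizer_singleton_iff.1 hc.2, hc'⟩
  refine conj_into (C := G K ⊓ Subgroup.centralizer {s}) (P := TorP K 5)
    (fun t ht => ⟨tor_le ht.1, Subgroup.mem_centralizer_singleton_iff.2 (tor_comm ht.1 ⟨_, hs⟩)⟩)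
    (isPGroup_torP 5) (fun y hy k hk h => ?_) ⟨hg, Subgroup.mem_centralizer_singleton_iff.2 hgs⟩ hk
  obtain ⟨w, χ, hw⟩ := mem_mon_of_norm (by norm_num) hζ hy.1 h
  have h3 : ∀ t : Wt, ψ (hw.iso.perm t).1 = ψ t.1 := fun t => by
    have e := congrArg Units.val (Subgroup.mem_centralizer_singleton_iff.1 hy.2)
    rw [Units.val_mul, Units.val_mul, hs.diag] at e
    have := congrFun (congrFun e (hw.iso.perm t)) t
    rw [mul_diagonal, diagonal_mul, hw.entry, if_pos rfl, mul_comm] at this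
    exact (mul_right_cancel₀ (hw.ch.ne _) this).symm
  have h4 : ∀ t : Wt, S t.1 → w t.1 = t.1 := fun t hS => by
    have h5 : ∀ n, ((hw.iso.perm)^[n] t).1 = w^[n] t.1 := fun n => by
      induction n with
      | zero => rfl
      | succ n ih => rw [Function.iterate_succ_apply', Function.iterate_succ_apply', ← ih]; rfl
    have h6 : Function.IsPeriodicPt hw.iso.perm (5 ^ k) t := Subtype.ext ((h5 _).trans (hw.iterate hk t.2))
    obtain ⟨j, -, hj⟩ := (Nat.dvd_prime_pow this.out).1 h6.minimalPeriod_dvd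
    have h8 : ∀ n, ψ ((hw.iso.perm)^[n] t).1 = ψ t.1 := fun n => by
      induction n with
      | zero => rfl
      | succ n ih => rw [Function.iterate_succ_apply', h3, ih]
    have h7 : (Set.Iio (Function.minimalPeriod hw.iso.perm t)).ncard ≤ {a : Wt | ψ a.1 = ψ t.1}.ncard :=
      Set.ncard_le_ncard_of_injOn _ (fun n _ => h8 n) Function.iterate_injOn_Iio_minimalPeriod
    have h9 := h1 t hS
    rw [Set.ncard_Iio_nat, hj] at h7
    have : j = 0 := by
      by_contra h0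
      have := Nat.pow_le_pow_right (show 0 < 5 by norm_num) (Nat.one_le_iff_ne_zero.2 h0)
      omega
    rw [this, pow_zero, Function.minimalPeriod_eq_one_iff_isFixedPt] at hj
    exact congrArg Subtype.val hj
  have h5 : w = AddEquiv.refl L := AddEquiv.ext fun v =>
    h2 (w.toAddMonoidHom.eqLocus (AddMonoidHom.id L)) (fun t ht hS => h4 ⟨t, ht⟩ hS) v
  subst h5
  exact mem_torP (hK k) hw hk

end Cfsg.Agent.H6.E7
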