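import Cfsg.Agent.H6.E7c

/-!
Characters of order 13 and 65 of the weight lattice of `E₇` whose values on the 56 weights form a multiset
invariant under squaring.
-/

set_option autoImplicit false
set_option linter.unusedSectionVars false
set_option linter.unusedSimpArgs false

namespace Cfsg.Agent.H6.E7

open Cfsg.Agent.H1.E8

attribute [-simp] zsmul_eq_mul

/-- the weights -/
def tbl : List (List ℕ) := [[0, 0, 0, 0, 0, 0, 0, 1], [0, 0, 0, 0, 0, 0, 1, 1], [0, 0, 0, 0, 0, 1, 1, 1], [0, 0, 0, 0, 1, 1, 1, 1],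
  [0, 0, 0, 1, 1, 1, 1, 1], [0, 1, 0, 1, 1, 1, 1, 1], [0, 0, 1, 1, 1, 1, 1, 1], [0, 1, 1, 1, 1, 1, 1, 1],
  [1, 0, 1, 1, 1, 1, 1, 1], [1, 1, 1, 1, 1, 1, 1, 1], [0, 1, 1, 2, 1, 1, 1, 1], [1, 1, 1, 2, 1, 1, 1, 1],
  [0, 1, 1, 2, 2, 1, 1, 1], [1, 1, 2, 2, 1, 1, 1, 1], [1, 1, 1, 2, 2, 1, 1, 1], [0, 1, 1, 2, 2, 2, 1, 1],
  [1, 1, 2, 2, 2, 1, 1, 1], [1, 1, 1, 2, 2, 2, 1, 1], [0, 1, 1, 2, 2, 2, 2, 1], [1, 1, 2, 3, 2, 1, 1, 1],
  [1, 1, 2, 2, 2, 2, 1, 1], [1, 1, 1, 2, 2, 2, 2, 1], [1, 2, 2, 3, 2, 1, 1, 1], [1, 1, 2, 3, 2, 2, 1, 1],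
  [1, 1, 2, 2, 2, 2, 2, 1], [1, 2, 2, 3, 2, 2, 1, 1], [1, 1, 2, 3, 3, 2, 1, 1], [1, 1, 2, 3, 2, 2, 2, 1],
  [1, 2, 2, 3, 3, 2, 1, 1], [1, 2, 2, 3, 2, 2, 2, 1], [1, 1, 2, 3, 3, 2, 2, 1], [1, 2, 2, 4, 3, 2, 1, 1],
  [1, 2, 2, 3, 3, 2, 2, 1], [1, 1, 2, 3, 3, 3, 2, 1], [1, 2, 3, 4, 3, 2, 1, 1], [1, 2, 2, 4, 3, 2, 2, 1],
  [1, 2, 2, 3, 3, 3, 2, 1], [2, 2, 3, 4, 3, 2, 1, 1], [1, 2, 3, 4, 3, 2, 2, 1], [1, 2, 2, 4, 3, 3, 2, 1],
  [2, 2, 3, 4, 3, 2, 2, 1], [1, 2, 3, 4, 3, 3, 2, 1], [1, 2, 2, 4, 4, 3, 2, 1], [2, 2, 3, 4, 3, 3, 2, 1],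
  [1, 2, 3, 4, 4, 3, 2, 1], [2, 2, 3, 4, 4, 3, 2, 1], [1, 2, 3, 5, 4, 3, 2, 1], [2, 2, 3, 5, 4, 3, 2, 1],
  [1, 3, 3, 5, 4, 3, 2, 1], [2, 3, 3, 5, 4, 3, 2, 1], [2, 2, 4, 5, 4, 3, 2, 1], [2, 3, 4, 5, 4, 3, 2, 1],
  [2, 3, 4, 6, 4, 3, 2, 1], [2, 3, 4, 6, 5, 3, 2, 1], [2, 3, 4, 6, 5, 4, 2, 1], [2, 3, 4, 6, 5, 4, 3, 1]]

/-- a list as a lattice vector -/
def toL (l : List ℕ) : L := fun j => (l.getD j 0 : ℕ)

theorem tbl_isW : ∀ l ∈ tbl, IsW (toL l) := by decide +kernel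

theorem tbl_nodup : (tbl.map toL).Nodup := by decide +kernel

theorem tbl_closed : ∀ l ∈ tbl, ∀ j : Fin 8, j ≠ 7 → B (al j) (toL l) = -1 → al j + toL l ∈ tbl.map toL := by
  decide +kernel

theorem mem_tbl {t : L} (h : IsW t) : t ∈ tbl.map toL := by
  have key : ∀ n : ℕ, ∀ t, IsW t → ht t = n → t ∈ tbl.map toL := fun n => by
    induction n using Nat.strong_induction_on with
    | _ n ih =>
      intro t h hn
      by_cases h1 : ∃ j, j ≠ 7 ∧ B (al j) t = 1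
      · obtain ⟨j, hj, h1⟩ := h1
        have h2 : IsW (-al j + t) := (isW_add (IsR.al hj).neg h).2 (by simp [h1])
        have h3 := ht_nonneg (pos_of_coord h2.1 (i := 7) (by rw [h2.2]; omega))
        have h4 : ht (-al j + t) = ht t - 1 := by rw [ht_add, ht_neg, ht_al]; omega
        obtain ⟨l, hl, e⟩ := List.mem_map.1 (ih (ht (-al j + t)).toNat (by omega) _ h2 (by omega))
        simpa [e] using tbl_closed l hl j hj (by simp [e, h1, B_al])
      · push Not at h1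
        have hp : Pos t := pos_of_coord h.1 (i := 7) (by rw [h.2]; omega)
        have h3 := B_sum t t
        rw [← Finset.add_sum_erase _ _ (Finset.mem_univ (7 : Fin 8)), h.1, h.2] at h3
        have h4 : ∑ a ∈ Finset.univ.erase (7 : Fin 8), t a * B t (al a) ≤ 0 :=
          Finset.sum_nonpos fun a ha => mul_nonpos_of_nonneg_of_nonpos (hp a) (by
            have := cases3 (IsR.al (Finset.ne_of_mem_erase ha)) h
            have := h1 a (Finset.ne_of_mem_erase ha)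
            rw [B_comm]; omega)
        have h5 := B_le h.1 (B_al 7)
        rw [← eq_of_B h.1 (B_al 7) (by omega)]
        decide +kernel
  have := ht_nonneg (pos_of_coord h.1 (i := 7) (by rw [h.2]; omega))
  exact key (ht t).toNat t h (by omega)

theorem sum_W {M : Type*} [AddCommMonoid M] (f : L → M) : ∑ t : Wt, f t.1 = (tbl.map fun l => f (toL l)).sum := by
  rw [← Finset.sum_subtype (tbl.map toL).toFinset (p := IsW) (fun t => by
    rw [List.mem_toFinset]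
    refine ⟨fun h => ?_, mem_tbl⟩
    obtain ⟨l, hl, rfl⟩ := List.mem_map.1 h
    exact tbl_isW l hl) f, List.sum_toFinset _ tbl_nodup, List.map_map]
  rfl

/-- the multiset of values on the weights is invariant under doubling -/
def Inv {A : Type} [AddCommGroup A] (y : L → A) : Prop :=
  ∀ (M : Type) [AddCommMonoid M] (f : A → M), ∑ t : Wt, f (2 • y t.1) = ∑ t : Wt, f (y t.1)

theorem Inv.comp {A : Type} [AddCommGroup A] {y : L → A} (h : Inv y) {w : L ≃+ L} (hw : IsIso w) :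
    Inv fun v => y (w v) := fun M _ f =>
  (Equiv.sum_comp hw.perm fun t => f (2 • y t.1)).trans ((h M f).trans (Equiv.sum_comp hw.perm fun t => f (y t.1)).symm)

/-- the properties of the rational class of elements of order 13 -/
structure Good (y : L → ZMod 13) : Prop where
  card : ∀ t : Wt, y t.1 ≠ 0 → {a : Wt | y a.1 = y t.1}.ncard < 5
  span : ∀ A : AddSubgroup L, (∀ t, IsW t → y t ≠ 0 → t ∈ A) → ∀ v, v ∈ A
  five : ∀ b : L →+ ZMod 5, b θ = 0 → Inv (fun v => (y v, b v)) → ∀ v, b v = 0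

theorem Good.of_comp {y : L → ZMod 13} {w : L ≃+ L} (hw : IsIso w) (h : Good fun v => y (w v)) : Good y := by
  refine ⟨fun t ht => ?_, fun A hA v => ?_, fun b hb hy v => ?_⟩
  · obtain ⟨t, rfl⟩ := hw.perm.surjective t
    have := h.card t ht
    rwa [← Set.ncard_preimage_of_injective_subset_range hw.perm.injective (by simp [hw.perm.surjective.range_eq])]
  · simpa using h.span (A.comap w.toAddMonoidHom) (fun t ht h1 => hA _ (hw.isW.2 ht) h1) (w.symm v)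
  · simpa using h.five (b.comp w.toAddMonoidHom) (by simpa [hw.hθ] using hb) (hy.comp hw) (w.symm v)

/-- the character given by a lattice vector -/
def yv (v : L) : L → ZMod 13 := fun t => (B v t : ℤ)

/-- the rational class -/
def ys : L → ZMod 13 := yv ![11, 15, 21, 30, 23, 16, 8, 0]

theorem filt1 : (tbl.filter fun l => ys (toL l) = 1) =
    [[1, 2, 2, 4, 3, 2, 1, 1], [1, 1, 2, 3, 3, 3, 2, 1], [1, 2, 2, 4, 3, 2, 2, 1], [1, 2, 2, 3, 3, 3, 2, 1]] := by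
  decide +kernel

theorem filt2 : (tbl.filter fun l => ys (toL l) = 2) =
    [[1, 2, 3, 4, 3, 2, 1, 1], [1, 2, 3, 4, 3, 2, 2, 1], [1, 2, 2, 4, 3, 3, 2, 1], [1, 2, 2, 4, 4, 3, 2, 1]] := by
  decide +kernel

theorem filt3 : (tbl.filter fun l => ys (toL l) = 3) =
    [[2, 2, 3, 4, 3, 2, 1, 1], [2, 2, 3, 4, 3, 2, 2, 1], [1, 2, 3, 4, 3, 3, 2, 1], [1, 2, 3, 4, 4, 3, 2, 1]] := by
  decide +kernel

theorem filt4 : (tbl.filter fun l => ys (toL l) = 4) =
    [[2, 2, 3, 4, 3, 3, 2, 1], [2, 2, 3, 4, 4, 3, 2, 1], [1, 2, 3, 5, 4, 3, 2, 1], [1, 3, 3, 5, 4, 3, 2, 1]] := by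
  decide +kernel

theorem filt5 : (tbl.filter fun l => ys (toL l) = 5) =
    [[0, 0, 0, 0, 0, 0, 0, 1], [0, 0, 0, 0, 0, 0, 1, 1], [2, 2, 3, 5, 4, 3, 2, 1], [2, 3, 3, 5, 4, 3, 2, 1]] := by
  decide +kernel

theorem filt6 : (tbl.filter fun l => ys (toL l) = 6) =
    [[0, 0, 0, 0, 0, 1, 1, 1], [0, 0, 0, 0, 1, 1, 1, 1], [2, 2, 4, 5, 4, 3, 2, 1], [2, 3, 4, 5, 4, 3, 2, 1]] := by
  decide +kernel

theorem filt10 : (tbl.filter fun l => ys (toL l) = 10) =
    [[1, 1, 1, 2, 1, 1, 1, 1], [1, 1, 1, 2, 2, 1, 1, 1], [0, 1, 1, 2, 2, 2, 1, 1], [0, 1, 1, 2, 2, 2, 2, 1]] := by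
  decide +kernel

theorem hom_apply {A : Type*} [Ring A] (b : L →+ A) (v : L) : b v = ∑ j, v j * b (al j) := by
  conv_lhs => rw [pi_eq_sum_univ' v]
  simp only [map_sum, map_zsmul]
  simp only [zsmul_eq_mul, al]

theorem sum_ite_eq_filter {α M : Type*} [AddCommMonoid M] (l : List α) (p : α → Prop) [DecidablePred p] (f : α → M) :
    (l.map fun a => if p a then f a else 0).sum = ((l.filter fun a => p a).map f).sum := by
  induction l with
  | nil => rfl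
  | cons a l ih => by_cases h : p a <;> simp [h, ih]

theorem good_ys : Good ys := by
  refine ⟨fun t ht => ?_, fun A hA => span_al fun j => ?_, fun b hb hy => ?_⟩
  · have h1 : ∀ c : ZMod 13, c ≠ 0 → (tbl.map fun l => if ys (toL l) = c then 1 else 0).sum < 5 := by decide +kernel
    rw [Set.ncard_eq_toFinset_card', Set.toFinset_ofPred, Finset.card_filter,
      sum_W fun a => if ys a = ys t.1 then 1 else 0]
    exact h1 _ ht
  · have h1 : ∀ j, IsW (al j) ∧ ys (al j) ≠ 0 ∨ ∃ l ∈ tbl, ys (toL l) ≠ 0 ∧ IsW (al j + toL l) ∧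
        ys (al j + toL l) ≠ 0 := by decide +kernel
    rcases h1 j with h2 | ⟨l, hl, h2, h3, h4⟩
    · exact hA _ h2.1 h2.2
    · simpa using A.sub_mem (hA _ h3 h4) (hA _ (tbl_isW l hl) h2)
  · have key : ∀ (c : ZMod 13) (n : ℕ), ((tbl.filter fun l => ys (toL l) = c).map fun l => (2 * b (toL l)) ^ n).sum =
        ((tbl.filter fun l => ys (toL l) = 2 * c).map fun l => b (toL l) ^ n).sum := fun c n => by
      have := hy (ZMod 5) fun z => if z.1 = 2 * c then z.2 ^ n else 0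
      have h2 : ∀ x y : ZMod 13, 2 * x = 2 * y ↔ x = y := by decide
      simp only [Prod.smul_mk, nsmul_eq_mul, Nat.cast_ofNat, h2] at this
      rwa [sum_W fun t => if ys t = c then (2 * b t) ^ n else 0, sum_W fun t => if ys t = 2 * c then b t ^ n else 0,
        sum_ite_eq_filter, sum_ite_eq_filter] at this
    have e1 := key 1 1
    have e2 := key 2 1
    have e3 := key 3 1
    have e4 := key 5 1
    have e5 := key 1 2
    have e6 := key 2 2
    have e7 := key 3 2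
    rw [show (2 * 1 : ZMod 13) = 2 from rfl, filt1, filt2] at e1 e5
    rw [show (2 * 2 : ZMod 13) = 4 from rfl, filt2, filt4] at e2 e6
    rw [show (2 * 3 : ZMod 13) = 6 from rfl, filt3, filt6] at e3 e7
    rw [show (2 * 5 : ZMod 13) = 10 from rfl, filt5, filt10] at e4
    simp only [List.map_cons, List.map_nil, List.sum_cons, List.sum_nil, hom_apply b (toL _), hom_apply b θ,
      Fin.sum_univ_eight] at e1 e2 e3 e4 e5 e6 e7 hb
    intro v
    rw [hom_apply, Fin.sum_univ_eight]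
    generalize b (al 0) = b0, b (al 1) = b1, b (al 2) = b2, b (al 3) = b3, b (al 4) = b4, b (al 5) = b5,
      b (al 6) = b6, b (al 7) = b7 at *
    simp [toL, θ] at e1 e2 e3 e4 e5 e6 e7 hb
    obtain ⟨h0, h2, h3, h5, h7⟩ : b0 = 0 ∧ b2 = 0 ∧ b3 = 2 * b1 + 2 * b4 ∧ b5 = 2 * b4 + 2 * b6 ∧ b7 = 2 * b6 := by
      have : Fact (Nat.Prime 5) := ⟨by norm_num⟩
      clear e5 e6 e7 key hy
      refine ⟨?_, ?_, ?_, ?_, ?_⟩ <;> grind
    subst h0 h2 h3 h5 h7
    have : b1 = 0 ∧ b4 = 0 ∧ b6 = 0 := by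
      revert e5 e6 e7; generalize b1 = a, b4 = b, b6 = c; revert a b c; decide +kernel
    simp [this]

theorem yv_comp {r : L} (hr : IsR r) (v : L) : yv (rf r v) = fun t => yv v (rfE hr t) := by
  funext t
  rw [yv, yv, ← B_rf hr.1, rf_rf hr.1, rfE_apply]

theorem yv_add (v u : L) : yv (v + (13 : ℤ) • u) = yv v := by
  funext t
  simp only [yv, B_add_left, B_smul_left, Int.cast_add, Int.cast_mul]
  rw [show ((13 : ℤ) : ZMod 13) = 0 from rfl, zero_mul, add_zero]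

/-- value of a character on a weight -/
def val (a0 a1 a2 a3 a4 a5 a6 : ℕ) (l : List ℕ) : ℕ :=
  ((l.getD 0 0 + 12) * a0 + (l.getD 1 0 + 18) * a1 + (l.getD 2 0 + 24) * a2 + (l.getD 3 0 + 36) * a3 +
    (l.getD 4 0 + 30) * a4 + (l.getD 5 0 + 24) * a5 + (l.getD 6 0 + 18) * a6) % 13

/-- the test for one point of the alcove -/
def Pt (a0 a1 a2 a3 a4 a5 a6 : ℕ) : Prop :=
  4 * a3 + 3 * a2 + 3 * a4 + 2 * a0 + 2 * a1 + 2 * a5 + a6 ≤ 13 → (a1 + a4 + a6) % 2 = 0 →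
    (tbl.map fun l => 64 ^ (2 * val a0 a1 a2 a3 a4 a5 a6 l % 13)).sum =
      (tbl.map fun l => 64 ^ val a0 a1 a2 a3 a4 a5 a6 l).sum →
    [a0, a1, a2, a3, a4, a5, a6] = [0, 0, 0, 0, 0, 0, 0] ∨ [a0, a1, a2, a3, a4, a5, a6] = [1, 0, 1, 1, 0, 1, 0]

instance instDecPt (a0 a1 a2 a3 a4 a5 a6 : ℕ) : Decidable (Pt a0 a1 a2 a3 a4 a5 a6) := by
  unfold Pt; infer_instance

/-- the test for a slice of the alcove -/
def Sl (a2 a3 a4 : ℕ) : Prop := 4 * a3 + 3 * a2 + 3 * a4 ≤ 13 → ∀ a0 < 7, ∀ a1 < 7,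
  4 * a3 + 3 * a2 + 3 * a4 + 2 * a0 + 2 * a1 ≤ 13 → ∀ a5 < 7, ∀ a6 < 14, Pt a0 a1 a2 a3 a4 a5 a6

instance instDecSl (a2 a3 a4 : ℕ) : Decidable (Sl a2 a3 a4) := by
  unfold Sl; infer_instance

theorem alcove_chk : ∀ a3 < 4, ∀ a2 < 5, ∀ a4 < 5, Sl a2 a3 a4 := by decide +kernel

/-- the highest root of `E₇` -/
def θ₇ : L := ![2, 2, 3, 4, 3, 2, 1, 0]

theorem alcove {v : L} (h7 : v 7 = 0) (h1 : ∀ j, j ≠ 7 → 0 ≤ B (al j) v) (h2 : B θ₇ v ≤ 13) (h : Inv (yv v)) :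
    v = 0 ∨ yv v = ys := by
  obtain ⟨a0, e0⟩ := Int.eq_ofNat_of_zero_le (h1 0 (by decide))
  obtain ⟨a1, e1⟩ := Int.eq_ofNat_of_zero_le (h1 1 (by decide))
  obtain ⟨a2, e2⟩ := Int.eq_ofNat_of_zero_le (h1 2 (by decide))
  obtain ⟨a3, e3⟩ := Int.eq_ofNat_of_zero_le (h1 3 (by decide))
  obtain ⟨a4, e4⟩ := Int.eq_ofNat_of_zero_le (h1 4 (by decide))
  obtain ⟨a5, e5⟩ := Int.eq_ofNat_of_zero_le (h1 5 (by decide))
  obtain ⟨a6, e6⟩ := Int.eq_ofNat_of_zero_le (h1 6 (by decide))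
  have hv : ∀ l ∈ tbl, yv v (toL l) = (val a0 a1 a2 a3 a4 a5 a6 l : ℕ) := fun l hl => by
    have h8 := (tbl_isW l hl).2
    rw [val, ZMod.natCast_mod, yv, ← Int.cast_natCast, ZMod.intCast_eq_intCast_iff_dvd_sub]
    refine ⟨-B (al 7) v, ?_⟩
    rw [B_sum, Fin.sum_univ_eight, h8]
    simp only [B_comm v, toL]
    push_cast
    rw [← e0, ← e1, ← e2, ← e3, ← e4, ← e5, ← e6]
    simp [B, al_apply, h7]; ring
  have h3 := h ℕ fun z => 64 ^ z.val
  rw [sum_W fun t => 64 ^ (2 • yv v t).val, sum_W fun t => 64 ^ (yv v t).val,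
    List.map_congr_left (g := fun l => 64 ^ (2 * val a0 a1 a2 a3 a4 a5 a6 l % 13)) fun l hl => by
      rw [hv l hl, nsmul_eq_mul, ← Nat.cast_mul, ZMod.val_natCast],
    List.map_congr_left (f := fun l => 64 ^ (yv v (toL l)).val) (g := fun l => 64 ^ val a0 a1 a2 a3 a4 a5 a6 l)
      fun l hl => by rw [hv l hl, ZMod.val_natCast, val, Nat.mod_mod]] at h3
  simp [B, al_apply, θ₇, h7] at e0 e1 e2 e3 e4 e5 e6 h2
  rcases alcove_chk a3 (by omega) a2 (by omega) a4 (by omega) (by omega) a0 (by omega) a1 (by omega) (by omega)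
    a5 (by omega) a6 (by omega) (by omega) (by omega) h3 with h4 | h4 <;>
    simp only [List.cons.injEq, and_true] at h4 <;> obtain ⟨rfl, rfl, rfl, rfl, rfl, rfl, rfl⟩ := h4
  · left; funext j; fin_cases j <;> simp <;> omega
  · right; rw [ys]; congr 1; funext j; fin_cases j <;> simp <;> omega

/-- the Weyl vector of `E₈` -/
def ρ₈ : L := ![46, 68, 91, 135, 110, 84, 57, 29]

theorem B_ρ (v : L) : B ρ₈ v = ht v := by simp [B, ρ₈, ht, Fin.sum_univ_eight]; ring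

theorem good_yv {v : L} (h7 : v 7 = 0) (h : Inv (yv v)) (h0 : yv v ≠ 0) : Good (yv v) := by
  have hF : ∀ v : L, 0 ≤ 9 * B v v - 13 * ht v + 3000 := fun v => by
    have := B_nonneg ((18 : ℤ) • v - (13 : ℤ) • ρ₈)
    have h1 : ht ρ₈ = 620 := by decide +kernel
    simp only [B_sub_left, B_sub_right, B_smul_left, B_smul_right, B_comm v ρ₈, B_ρ, h1] at this
    omega
  have key : ∀ n : ℕ, ∀ v : L, 9 * B v v - 13 * ht v + 3000 = n → v 7 = 0 → Inv (yv v) → yv v ≠ 0 → Good (yv v) := by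
    intro n
    induction n using Nat.strong_induction_on with
    | _ n ih =>
      intro v hn h7 h h0
      have step : ∀ r (hr : IsR r) (v' : L), yv v' = yv (rf r v) → v' 7 = 0 →
          9 * B v' v' - 13 * ht v' < 9 * B v v - 13 * ht v → Good (yv v) := fun r hr v' e h7' hlt => by
        rw [yv_comp hr] at e
        have := hF v'
        refine Good.of_comp (isIso_rfE hr) (e ▸ ih _ (by omega) v' (Int.toNat_of_nonneg this).symm h7'
          (e ▸ h.comp (isIso_rfE hr)) fun e' => h0 (funext fun t => ?_))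
        simpa [rf_rf hr.1] using congrFun (e.symm.trans e') (rf r t)
      by_cases h1 : ∃ j, j ≠ 7 ∧ B (al j) v < 0
      · obtain ⟨j, hj, h1⟩ := h1
        refine step _ (IsR.al hj) _ rfl (((isIso_rfE (IsR.al hj)).h7 v).trans h7) ?_
        rw [B_rf (B_al j), rf, ht_sub, ht_smul, ht_al]; omega
      by_cases h2 : 13 < B θ₇ v
      · have hr : IsR θ₇ := by decide +kernel
        have h3 : ht θ₇ = 17 := by decide +kernel
        refine step _ hr _ (yv_add _ θ₇) (by simp [rf, h7, hr.2]) ?_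
        simp only [B_add_left, B_add_right, B_smul_left, B_smul_right, B_rf hr.1, hr.1, ht_add, ht_smul, h3]
        simp only [rf, B_sub_left, B_sub_right, B_smul_left, B_smul_right, hr.1, ht_sub, ht_smul, h3, B_comm v θ₇]
        omega
      push Not at h1 h2
      rcases alcove h7 h1 h2 h with rfl | e
      · exact absurd (funext fun t => by simp [yv]) h0
      · exact e ▸ good_ys
  exact key _ v (Int.toNat_of_nonneg (hF v)).symm h7 h h0

/-- the fundamental weights of `E₈` -/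
def om : Fin 8 → L := ![![4, 5, 7, 10, 8, 6, 4, 2], ![5, 8, 10, 15, 12, 9, 6, 3], ![7, 10, 14, 20, 16, 12, 8, 4], ![10, 15, 20, 30, 24, 18, 12, 6], ![8, 12, 16, 24, 20, 15, 10, 5], ![6, 9, 12, 18, 15, 12, 8, 4], ![4, 6, 8, 12, 10, 8, 6, 3], ![2, 3, 4, 6, 5, 4, 3, 2]]

theorem B_om : ∀ i j, B (om i) (al j) = if i = j then 1 else 0 := by decide +kernel

theorem good_of_inv {y : L →+ ZMod 13} (hθ : y θ = 0) (h : Inv y) (h0 : y ≠ 0) : Good y := by
  have B_sum_left : ∀ (f : Fin 8 → L) (v : L), B (∑ i, f i) v = ∑ i, B (f i) v := fun f v => by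
    simp [Fin.sum_univ_eight]
  let v : L := ∑ i, ((y (al i)).val : ℤ) • om i
  have h1 : yv v = y := funext fun t => by
    rw [hom_apply y, yv, B_sum]
    simp [v, B_sum_left, B_om]
  obtain ⟨m, hm⟩ : (13 : ℤ) ∣ v 7 := by
    have := (ZMod.intCast_zmod_eq_zero_iff_dvd (B v θ) 13).1 ((congrFun h1 θ).trans hθ)
    rwa [B_comm, B_θ] at this
  have h2 : yv (v + (13 : ℤ) • (-m • al 7)) = y := (yv_add ..).trans h1
  exact h2 ▸ good_yv (by simp [hm, al_apply]) (h2 ▸ h) fun e => h0 (AddMonoidHom.ext (congrFun (h2.symm.trans e)))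

end Cfsg.Agent.H6.E7
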