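import Cfsg.Agent.H6.E7d

/-!
No rational element of order 65 in the group of type `E₇`.
-/

set_option autoImplicit false
set_option linter.unusedSectionVars false
set_option linter.unusedSimpArgs false

namespace Cfsg.Agent.H6.E7

open Cfsg.Agent.H1.E8 Matrix Polynomial

variable {K : Type*} [Field K] [CharP K 2]

/-- the characteristic polynomial has coefficients in the prime field -/
def Rat (g : GL Wt K) : Prop := g.1.charpoly.map (frobenius K 2) = g.1.charpoly

theorem Rat.conj {g : GL Wt K} (h : Rat g) (c : GL Wt K) : Rat (c * g * c⁻¹) := by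
  rwa [Rat, Units.val_mul, Units.val_mul, coe_units_inv, charpoly_units_conj]

theorem inv_of_rat {A : Type} [AddCommGroup A] {Z : A → K} (hZ : Function.Injective Z)
    (h2 : ∀ a, Z (2 • a) = Z a ^ 2) {y : L → A} {g : GL Wt K} (hg : Act g (AddEquiv.refl L) fun v => Z (y v))
    (h : Rat g) : Inv y := fun M _ f => by
  rw [Rat, hg.diag, charpoly_diagonal, Polynomial.map_prod] at h
  simp only [Polynomial.map_sub, map_X, map_C, frobenius_def, ← h2] at h
  have key : ∀ z : Wt → A, (∏ t, (Polynomial.X - C (Z (z t)))).roots = (Finset.univ.val.map z).map Z := fun z => by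
    rw [← roots_multiset_prod_X_sub_C (Multiset.map Z _), Multiset.map_map, Multiset.map_map]; rfl
  have h1 := congrArg roots h
  rw [key, key] at h1
  have h3 := congrArg (fun m => (m.map f).sum) (Multiset.map_injective hZ h1)
  simp only [Multiset.map_map] at h3
  exact h3

section
variable {p : ℕ} [NeZero p] {ζ : K} (hζ : IsPrimitiveRoot ζ p)
include hζ

theorem pow_val_add (a b : ZMod p) : ζ ^ (a + b).val = ζ ^ a.val * ζ ^ b.val := by
  rw [← pow_add, ZMod.val_add, ← pow_eq_pow_mod _ hζ.pow_eq_one]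

theorem pow_val_inj : Function.Injective fun a : ZMod p => ζ ^ a.val := fun a b h =>
  ZMod.val_injective p (hζ.pow_inj a.val_lt b.val_lt h)

theorem exists_log {g : GL Wt K} (hg : g ∈ TorP K p) :
    ∃ y : L →+ ZMod p, y θ = 0 ∧ Act g (AddEquiv.refl L) fun v => ζ ^ (y v).val := by
  obtain ⟨⟨χ, h⟩, hp⟩ := hg
  have h0 : χ 0 = 1 := mul_left_cancel₀ (h.ch.ne 0) (by rw [← h.ch.add, add_zero, mul_one])
  let S : AddSubgroup L :=
    { carrier := {v | χ v ^ p = 1}
      zero_mem' := by simp [h0]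
      add_mem' := fun {a b} ha hb => by
        simp only [Set.mem_ofPred_eq] at ha hb ⊢
        rw [h.ch.add, mul_pow, ha, hb, mul_one]
      neg_mem' := fun {a} ha => by
        simp only [Set.mem_ofPred_eq] at ha ⊢
        rw [← mul_one (χ (-a) ^ p), ← ha, ← mul_pow, ← h.ch.add, neg_add_cancel, h0, one_pow, ha] }
  have h1 : ∀ v, ∃ a : ZMod p, ζ ^ a.val = χ v := fun v => by
    obtain ⟨i, hi, e⟩ := hζ.eq_pow_of_pow_eq_one
      (span_W (S := S) (fun t ht => (h.pow_eq_one_iff p).1 hp ⟨t, ht⟩) v)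
    exact ⟨i, by rwa [ZMod.val_natCast, Nat.mod_eq_of_lt hi]⟩
  choose y hy using h1
  refine ⟨AddMonoidHom.mk' y fun u v => pow_val_inj hζ ?_, pow_val_inj hζ ?_, ?_⟩
  · simp only [pow_val_add hζ, hy, h.ch.add]
  · simp [hy, h.ch.hθ]
  · simpa only [AddMonoidHom.mk'_apply, hy] using h

end

theorem eq_one_of_log {p : ℕ} {ζ : K} {g : GL Wt K} {y : L → ZMod p}
    (h : Act g (AddEquiv.refl L) fun v => ζ ^ (y v).val) (h0 : ∀ v, y v = 0) : g = 1 :=
  Units.ext (by simp [h.diag, h0])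

theorem core [Finite K] {ζ ξ : K} (hζ : IsPrimitiveRoot ζ 13) (hξ : IsPrimitiveRoot ξ 5)
    (h13 : ∀ (k : ℕ) (a : K), a ^ 13 ^ k = 1 → a ^ 13 = 1) (h5 : ∀ (k : ℕ) (a : K), a ^ 5 ^ k = 1 → a ^ 5 = 1)
    {s u : GL Wt K} (hs : s ∈ G K) (hu : u ∈ G K) (hsu : u * s = s * u) {k l : ℕ} (hk : s ^ 13 ^ k = 1)
    (hl : u ^ 5 ^ l = 1) (r1 : Rat s) (r2 : Rat (s * u)) : s = 1 ∨ u = 1 := by
  obtain ⟨c, hc, hs'⟩ := conj_thirteen hζ h13 hs hk
  obtain ⟨y, hy, ha⟩ := exists_log hζ hs'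
  by_cases h0 : y = 0
  · exact Or.inl (by simpa using eq_one_of_log ha fun v => by simp [h0])
  have hG := good_of_inv hy (inv_of_rat (pow_val_inj hζ) (fun a => by rw [two_smul, pow_val_add hζ, sq]) ha
    (r1.conj c)) h0
  obtain ⟨d, hd, hu'⟩ := conj_five hξ h5 ha (S := fun t => y t ≠ 0) (fun t ht => by
      simpa only [(pow_val_inj hζ).eq_iff] using hG.card t ht) hG.span (g := c * u * c⁻¹)
    ((G K).mul_mem ((G K).mul_mem hc hu) ((G K).inv_mem hc))
    (by simp only [mul_assoc, inv_mul_cancel_left]; rw [← mul_assoc u, hsu, mul_assoc]) (k := l)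
    (by rw [conj_pow, hl]; simp)
  obtain ⟨b, hb, hb'⟩ := exists_log hξ hu'
  have hZ : Function.Injective fun z : ZMod 13 × ZMod 5 => ξ ^ z.2.val * ζ ^ z.1.val := fun z z' e => by
    have e1 : ∀ a b : ℕ, (ξ ^ a * ζ ^ b) ^ 40 = ζ ^ b := fun a b => by
      rw [mul_pow, ← pow_mul, ← pow_mul, mul_comm a, mul_comm b, pow_mul, pow_mul, pow_eq_pow_mod 40 hξ.pow_eq_one,
        pow_eq_pow_mod 40 hζ.pow_eq_one]; simp
    have e2 : z.1 = z'.1 := pow_val_inj hζ ((e1 _ _).symm.trans ((congrArg (· ^ 40) e).trans (e1 _ _)))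
    simp only [e2] at e
    exact Prod.ext e2 (pow_val_inj hξ (mul_right_cancel₀ (pow_ne_zero _ (hζ.ne_zero (by norm_num))) e))
  have r3 : Rat (c * s * c⁻¹ * (d * (c * u * c⁻¹) * d⁻¹)) := by
    have := (r2.conj c).conj d
    rwa [show d * (c * (s * u) * c⁻¹) * d⁻¹ = d * (c * s * c⁻¹) * (c * u * c⁻¹) * d⁻¹ by group, hd, mul_assoc,
      mul_assoc, ← mul_assoc d] at this
  have := eq_one_of_log hb' (hG.five b hb (inv_of_rat hZ (fun a => by
    simp only [two_smul, Prod.fst_add, Prod.snd_add, pow_val_add hζ, pow_val_add hξ]; ring) (ha.mul hb') r3))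
  exact Or.inr (by simpa using this)

theorem core' {f : GL Wt (ZMod 2)} (hf : f ∈ gp (ZMod 2) fun _ => True) {a b k l : ℕ} (hk : (f ^ a) ^ 13 ^ k = 1)
    (hl : (f ^ b) ^ 5 ^ l = 1) : f ^ a = 1 ∨ f ^ b = 1 := by
  let F := GaloisField 2 12
  let φ : GL Wt (ZMod 2) →* GL Wt F := GeneralLinearGroup.map (algebraMap (ZMod 2) F)
  have hφ : Function.Injective φ := fun a b h =>
    Units.ext (Matrix.map_injective (algebraMap (ZMod 2) F).injective (congrArg Units.val h))
  have hc : Nat.card Fˣ = 4095 := by rw [Nat.card_units, GaloisField.card 2 12 (by norm_num)]; norm_num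
  have h1 : ∀ p m, p.Prime → p * m = 4095 → p.Coprime m →
      (∃ ζ : F, IsPrimitiveRoot ζ p) ∧ ∀ (k : ℕ) (a : F), a ^ p ^ k = 1 → a ^ p = 1 := fun p m hp hm hpm => by
    have := Fact.mk hp
    obtain ⟨z, hz⟩ := exists_prime_orderOf_dvd_card' (G := Fˣ) p ⟨m, by rw [hc, hm]⟩
    refine ⟨⟨z, IsPrimitiveRoot.coe_units_iff.2 (hz ▸ IsPrimitiveRoot.orderOf z)⟩, fun k a ha => ?_⟩
    lift a to Fˣ using IsUnit.of_pow_eq_one ha (pow_ne_zero _ hp.ne_zero)
    rw [← Units.val_pow_eq_pow_val, Units.val_eq_one, ← orderOf_dvd_iff_pow_eq_one] at ha ⊢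
    exact ((hpm.pow_left k).of_dvd_left ha).dvd_of_dvd_mul_right (by rw [hm, ← hc]; exact orderOf_dvd_natCard a)
  obtain ⟨⟨ζ, hζ⟩, h13⟩ := h1 13 315 (by norm_num) rfl (by norm_num)
  obtain ⟨⟨ξ, hξ⟩, h5⟩ := h1 5 819 (by norm_num) rfl (by norm_num)
  have h2 : φ f ∈ G F := by
    refine le_sup_left (a := gp F fun _ => True) (gp_le (M := (gp F fun _ => True).comap φ) (fun r a hr _ => ?_) hf)
    have : φ (X r a) = X r (algebraMap (ZMod 2) F a) := Units.ext (by
      change (X r a).1.map _ = _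
      ext i j
      simp only [coe_X hr, x, E, one_apply, apply_ite (algebraMap (ZMod 2) F), map_apply, Matrix.add_apply,
        Matrix.smul_apply, smul_eq_mul, of_apply, map_add, map_mul, map_one, map_zero])
    rw [Subgroup.mem_comap, this]
    exact X_mem hr trivial _
  have h3 : ∀ g, Rat (φ g) := fun g => by
    change ((g.1.map _).charpoly).map _ = (g.1.map _).charpoly
    rw [charpoly_map, Polynomial.map_map]
    congr 1
    exact Subsingleton.elim _ _
  simpa only [map_eq_one_iff φ hφ] using core hζ hξ h13 h5 (s := φ (f ^ a)) (u := φ (f ^ b))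
    (map_pow φ f a ▸ (G F).pow_mem h2 a) (map_pow φ f b ▸ (G F).pow_mem h2 b)
    (by rw [← map_mul, ← map_mul, pow_mul_comm]) (k := k) (l := l) (by rw [← map_pow, hk, map_one])
    (by rw [← map_pow, hl, map_one]) (h3 _) (map_mul φ _ _ ▸ h3 _)

end Cfsg.Agent.H6.E7
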