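import Cfsg.Agent.H6.E7f

/-!
The adjoint group `E₇(2)` lifts to the 56-dimensional module; it has no element of order 65.
-/

set_option autoImplicit false
set_option linter.unusedSectionVars false
set_option linter.unusedSimpArgs false

namespace Cfsg.Agent.H6.E7

open Cfsg.Agent.H1.E8 Cfsg.Agent.H7.Bit Cfsg.Lie Matrix

attribute [-simp] zsmul_eq_mul

variable {K : Type*} [Field K] [CharP K 2]

variable (K) in
/-- images of the basis vectors -/
def rb (n : ℕ) : Matrix Wt Wt K := if n < 7 then H K (alN n) else E K (R (n - 7))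

/-- coding of the basis of the Lie algebra -/
abbrev eA : chevE7.Idx ≃ Fin 133 := enc chevE7

variable (K) in
/-- the representation of the Lie algebra -/
noncomputable def rho : (chevE7.Idx → K) →ₗ[K] Matrix Wt Wt K := Fintype.linearCombination K fun i => rb K (eA i)

theorem rho_tval {l : List (ℕ × ℕ × ℤ)} (h : ∀ z ∈ l, z.1 < 133) :
    rho K (fun i => tval 1 l (eA i)) = (l.map fun z => (z.2.2 : K) • rb K z.1).sum := by
  rw [rho, Fintype.linearCombination_apply, eA.sum_comp fun i => tval (1 : K) l i • rb K i]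
  induction l with
  | nil => simp [tval]
  | cons z l ih =>
    rw [List.map_cons, List.sum_cons, ← ih fun y hy => h y (List.mem_cons_of_mem _ hy)]
    simp only [tval, List.map_cons, List.sum_cons, add_smul, Finset.sum_add_distrib, one_pow, mul_one]
    congr 1
    rw [Finset.sum_eq_single ⟨z.1, h z (by simp)⟩ (fun i _ hi => by rw [if_neg fun e => hi (Fin.ext e.symm), zero_smul])
      (by simp), if_pos rfl]

theorem H_sum {v : L} (h : v 7 = 0) : (v 0 : K) • H K (alN 0) + ((v 1 : K) • H K (alN 1) + ((v 2 : K) • H K (alN 2) +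
    ((v 3 : K) • H K (alN 3) + ((v 4 : K) • H K (alN 4) + ((v 5 : K) • H K (alN 5) + (v 6 : K) • H K (alN 6)))))) =
    H K v := by
  simp only [H, ← diagonal_smul, diagonal_add]
  congr 1
  funext t
  simp [B, alN, h]; ring

theorem lift_x (r : Fin chevE7.nroots) : Lift (rho K) (chevE7.xMat K r 1) (x (R r) 1) := by
  refine Lift.of_basis fun k => ?_
  have hr := isR_R r r.2
  have h1 : chevE7.xMat K r 1 *ᵥ Pi.single k 1 = fun i => tval 1 (terms chevE7 r (eA k)) (eA i) := by
    funext i; simp [xMat_terms]; rfl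
  have h2 : rho K (Pi.single k 1) = rb K (eA k) := by simp [rho]
  have h3 := (eA k).2
  have h4 : (r : ℕ) < 126 := r.2
  have neg : ∀ M : Matrix Wt Wt K, -M = M := fun M => neg_eq_of_add_eq_zero_left (add_self_M M)
  rw [h1, h2]
  generalize (eA k : ℕ) = c at *
  rcases spec h4 h3 with ⟨e, h5, h6⟩ | ⟨e, h5, h6, h7, h8⟩ | ⟨h5, e⟩ | ⟨h5, h6, e⟩
  · rw [e, rho_tval (by simpa using h3)]
    simp [rb, h5.not_gt, x, mul_add, add_mul, E_comm hr (isR_R _ (by omega)) h6]
  · generalize ((terms chevE7 r c).getD 1 (0, 0, 0)).1 = u at *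
    have hs := isR_R (c - 7) (by omega)
    have h9 := x_E_x (K := K) hr hs ((root_add hr.1 hs.1).1 (h8 ▸ (isR_R _ (by omega)).1)) 1
    replace h9 := congrArg (· * x (R r) 1) h9
    simp only [mul_assoc, x_x hr, mul_one, one_smul] at h9
    rcases e with e | e <;> rw [e, rho_tval (by simp; omega)] <;> simp [rb, h5.not_gt, h6.not_gt, h8, h9, neg]
  · rw [e, rho_tval (by simp; omega)]
    simp [rb, h5, x_H_x hr, neg]
  · rw [e, rho_tval (by simp; omega)]
    simp [rb, h5.not_gt, h6, x_E_neg hr, neg, H_sum hr.2, add_assoc]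

theorem exists_W {r : L} (hr : IsR r) : ∃ t, IsW t ∧ B r t = -1 := by
  by_contra! hc
  have h1 : ∀ t, IsW t → B r t = 0 := fun t ht => by
    have h2 : IsW (θ - t) := ⟨by simp [B_θ, B_comm t θ, ht.1, ht.2, show θ 7 = 2 from rfl],
      by simp [ht.2, show θ 7 = 2 from rfl]⟩
    have h3 := hc _ h2
    rw [B_sub_right, B_comm r θ, B_θ, hr.2] at h3
    have := hc t ht
    have := cases3 hr ht
    omega
  have := span_W (S := (AddMonoidHom.mk' (B r) (B_add_right r)).ker) h1 r
  simp [hr.1] at this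

theorem rho_inj : Function.Injective (rho K) := by
  refine (injective_iff_map_eq_zero _).2 fun y hy => ?_
  rw [rho, Fintype.linearCombination_apply, Fintype.sum_sum_type] at hy
  have e1 : ∀ i : Fin chevE7.rank, rb K (eA (.inl i)) = H K (alN i) := fun i => if_pos i.2
  have e2 : ∀ i : Fin chevE7.nroots, rb K (eA (.inr i)) = E K (R i) := fun i => by
    rw [show (eA (.inr i) : ℕ) = 7 + i from rfl, rb, if_neg (by omega), add_tsub_cancel_left]
  simp only [e1, e2] at hy
  funext k
  rcases k with i | r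
  · have h1 := span_W (S := (AddMonoidHom.mk' (fun v => ∑ i : Fin chevE7.rank, y (.inl i) * (B (alN i) v : K))
      fun u v => by simp [mul_add, Finset.sum_add_distrib]).ker) (fun t ht => by
        have := congrFun (congrFun hy ⟨t, ht⟩) ⟨t, ht⟩
        simpa [Matrix.sum_apply, H, E, fun i : Fin chevE7.nroots => root_ne_zero (isR_R i i.2).1] using this)
      (om ⟨i, i.2.trans (by decide)⟩)
    have h2 : ∀ i j : Fin chevE7.rank, B (alN j) (om ⟨i, i.2.trans (by decide)⟩) = if j = i then 1 else 0 := by decide +kernel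
    simpa [h2 i] using h1
  · obtain ⟨t, ht, h1⟩ := exists_W (isR_R r r.2)
    have := congrFun (congrFun hy ⟨_, (isW_add (isR_R r r.2) ht).2 h1⟩) ⟨t, ht⟩
    have h2 : ∀ s : Fin chevE7.nroots, R r = R s ↔ s = r := fun s =>
      ⟨fun h => Fin.ext (R_inj _ r.2 _ s.2 h).symm, fun h => h ▸ rfl⟩
    simpa [Matrix.sum_apply, H, E, root_ne_zero (isR_R r r.2).1, h2, diagonal_apply, Subtype.ext_iff] using this

theorem exists_lift {g : GL chevE7.Idx (ZMod 2)} (hg : g ∈ chevE7.group (ZMod 2)) :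
    ∃ f ∈ gp (ZMod 2) fun _ => True, Lift (rho (ZMod 2)) g f := by
  have : chevE7.group (ZMod 2) ≤ (liftSub (rho (ZMod 2)) ⊓ (gp (ZMod 2) fun _ => True).comap
      (MonoidHom.snd _ _)).map (MonoidHom.fst _ _) := (Subgroup.closure_le _).2 fun g ⟨r, t, e⟩ => by
    have : ∀ t : ZMod 2, t = 0 ∨ t = 1 := by decide
    rcases this t with rfl | rfl
    · rw [xMat_zero, Units.val_eq_one] at e
      exact e ▸ one_mem _
    · refine ⟨(g, X (R r) 1), ⟨?_, X_mem (isR_R r r.2) trivial _⟩, rfl⟩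
      change Lift _ g.1 (X (R r) 1).1
      rw [e, coe_X (isR_R r r.2)]
      exact lift_x r
  obtain ⟨p, hp, rfl⟩ := this hg
  exact ⟨p.2, hp.2, hp.1⟩

theorem no_sixtyfive (g : chevE7.group (ZMod 2)) (h : g ^ 65 = 1) : g ^ 5 = 1 ∨ g ^ 13 = 1 := by
  obtain ⟨f, hf, hl⟩ := exists_lift g.2
  have h1 : ∀ n, f ^ n = 1 → g ^ n = 1 := fun n hn => by
    have : Lift (rho (ZMod 2)) (g.1 ^ n : GL _ _) (f ^ n : GL _ _) :=
      (liftSub (rho (ZMod 2))).pow_mem (x := (g.1, f)) hl n
    rw [hn] at this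
    exact Subtype.ext (Units.ext (Lift.uniq rho_inj isUnit_one this Lift.one))
  have h0 := (orderOf_pos f).ne'
  have h2 : ∀ p, (f ^ ordCompl[p] (orderOf f)) ^ p ^ (orderOf f).factorization p = 1 := fun p => by
    rw [← pow_mul, mul_comm, Nat.ordProj_mul_ordCompl_eq_self, pow_orderOf_eq_one]
  have h3 : ∀ p q, p.Prime → q * p = 65 → f ^ ordCompl[p] (orderOf f) = 1 → g ^ q = 1 := fun p q hp e h' =>
    orderOf_dvd_iff_pow_eq_one.1 (((Nat.coprime_ordCompl hp h0).symm.of_dvd_left
      (orderOf_dvd_of_pow_eq_one (h1 _ h'))).dvd_of_dvd_mul_right (e ▸ orderOf_dvd_of_pow_eq_one h))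
  exact (core' hf (h2 13) (h2 5)).imp (h3 13 5 (by norm_num) rfl) (h3 5 13 (by norm_num) rfl)

end Cfsg.Agent.H6.E7
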