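import Cfsg.Agent.H6.E7g
import Cfsg.Agent.H6.MP
import Cfsg.Prelude.Def_Classical

/-!
Commuting elements of order 5 and 13 in classical groups over the fields with 8 and 64 elements.
-/

set_option autoImplicit false
set_option linter.unusedSectionVars false
set_option linter.unusedSimpArgs false

namespace Cfsg.Agent.H6.E7

open Cfsg.Lie Matrix Cfsg.Agent.H6.MP

theorem no_pair {Γ : Type*} [Group Γ] (hΓ : ∀ g : Γ, g ^ 65 = 1 → g ^ 5 = 1 ∨ g ^ 13 = 1) {a b : Γ}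
    (h : Commute a b) (ha : a ^ 5 = 1) (hb : b ^ 13 = 1) : a = 1 ∨ b = 1 := by
  have h1 : (a * b) ^ 65 = 1 := by
    rw [h.mul_pow, show 65 = 5 * 13 from rfl, pow_mul, ha, pow_mul', hb]; simp
  rcases hΓ _ h1 with h2 | h2 <;> rw [h.mul_pow] at h2
  · rw [ha, one_mul] at h2
    exact Or.inr (by simpa using pow_gcd_eq_one.2 ⟨h2, hb⟩)
  · rw [hb, mul_one] at h2
    exact Or.inl (by simpa using pow_gcd_eq_one.2 ⟨h2, ha⟩)

theorem quot_empty {S M : Type*} [Group S] [Monoid M] (φ : S →* M) (hφ : Function.Injective φ) {a b c : S}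
    (h5 : φ a ^ 5 = 1) (h13 : φ b ^ 13 = 1) (hab : φ a * φ b = φ b * φ a) (hac : φ a * φ c ≠ φ c * φ a)
    (hbc : φ b * φ c ≠ φ c * φ b) (H : Subgroup (chevE7.group (ZMod 2))) :
    IsEmpty (H ≃* S ⧸ Subgroup.center S) := ⟨fun e => by
  let ψ : S →* chevE7.group (ZMod 2) := H.subtype.comp (e.symm.toMonoidHom.comp (QuotientGroup.mk' _))
  have h1 : ∀ x, ψ x = 1 → φ x * φ c = φ c * φ x := fun x hx => by
    have : (x : S ⧸ Subgroup.center S) = 1 := by simpa [ψ] using hx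
    rw [← map_mul, ← map_mul, Subgroup.mem_center_iff.1 ((QuotientGroup.eq_one_iff x).1 this) c]
  refine (no_pair no_sixtyfive (a := ψ a) (b := ψ b) (Commute.map (hφ ?_) ψ) ?_ ?_).elim (fun h => hac (h1 a h))
    fun h => hbc (h1 b h)
  · rw [map_mul, map_mul, hab]
  · rw [← map_pow, hφ (a₁ := a ^ 5) (a₂ := 1) (by rw [map_pow, h5, map_one]), map_one]
  · rw [← map_pow, hφ (a₁ := b ^ 13) (a₂ := 1) (by rw [map_pow, h13, map_one]), map_one]⟩

/-- a coded element of the field with eight elements -/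
def el8 (c : ℕ) : Expr :=
  (if c % 2 = 1 then 1 else 0) + (if c / 2 % 2 = 1 then .var 0 else 0) + (if c / 4 % 2 = 1 then .var 1 else 0)

/-- a coded field element -/
def el (c : ℕ) : Expr := if c < 8 then el8 c else el8 c + el8 (c / 8) * .var 2

/-- a coded matrix -/
def mt (n : ℕ) (t : List (List ℕ)) : Matrix (Fin n) (Fin n) Expr := fun i j => el ((t.getD i []).getD j 0)

/-- the rules for `y`, `z = y²` -/
def rs8 : List Rule := [⟨0, 0, .var 1⟩, ⟨0, 1, .var 0 + 1⟩, ⟨1, 1, .var 1 + .var 0⟩]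

/-- the rules for `y`, `z = y²`, `ω` -/
def rs64 : List Rule := ⟨2, 2, .var 2 + 1⟩ :: rs8

/-- an entry of a product -/
def dot {n : ℕ} (A C : Matrix (Fin n) (Fin n) Expr) (i j : Fin n) : Expr :=
  ((List.finRange n).map fun k => A i k * C k j).foldr (· + ·) 0

/-- certificate -/
structure Dat where
  (a a2 b b3 b6 c : List (List ℕ))
  (i j u i' j' u' : ℕ)

/-- the check of a certificate -/
noncomputable def Dat.chk (d : Dat) (n : ℕ) [NeZero n] (rs : List Rule) : Bool :=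
  MExpr.check 2 rs 4 (.mul (.mat (mt n d.a)) (.mat (mt n d.a))) (.mat (mt n d.a2)) &&
  MExpr.check 2 rs 4 (.mul (.mul (.mat (mt n d.a2)) (.mat (mt n d.a2))) (.mat (mt n d.a))) .one &&
  MExpr.check 2 rs 4 (.mul (.mul (.mat (mt n d.b)) (.mat (mt n d.b))) (.mat (mt n d.b))) (.mat (mt n d.b3)) &&
  MExpr.check 2 rs 4 (.mul (.mat (mt n d.b3)) (.mat (mt n d.b3))) (.mat (mt n d.b6)) &&
  MExpr.check 2 rs 4 (.mul (.mul (.mat (mt n d.b6)) (.mat (mt n d.b6))) (.mat (mt n d.b))) .one &&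
  MExpr.check 2 rs 4 (.mul (.mat (mt n d.c)) (.mat (mt n d.c))) .one &&
  MExpr.check 2 rs 4 (.mul (.mat (mt n d.a)) (.mat (mt n d.b))) (.mul (.mat (mt n d.b)) (.mat (mt n d.a))) &&
  eqCheck 2 rs 4 ((dot (mt n d.a) (mt n d.c) (.ofNat n d.i) (.ofNat n d.j) -
    dot (mt n d.c) (mt n d.a) (.ofNat n d.i) (.ofNat n d.j)) * el d.u) 1 &&
  eqCheck 2 rs 4 ((dot (mt n d.b) (mt n d.c) (.ofNat n d.i') (.ofNat n d.j') -
    dot (mt n d.c) (mt n d.b) (.ofNat n d.i') (.ofNat n d.j')) * el d.u') 1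

/-- data -/
def dL2 : Dat :=
  ⟨[[0, 1], [1, 8]], [[1, 8], [8, 8]],
   [[2, 12], [12, 43]], [[4, 14], [14, 61]],
   [[13, 17], [17, 23]], [[0, 1], [1, 0]], 0, 1, 9, 0, 1, 29⟩

/-- data -/
def dS4 : Dat :=
  ⟨[[0, 0, 0, 1], [0, 0, 1, 1], [1, 1, 0, 1], [1, 0, 1, 1]], [[1, 0, 1, 1], [0, 1, 1, 0], [1, 0, 0, 1], [0, 1, 1, 1]],
   [[7, 1, 4, 5], [1, 6, 5, 1], [5, 1, 3, 4], [1, 4, 4, 7]], [[3, 1, 6, 7], [1, 2, 7, 1], [7, 1, 5, 6], [1, 6, 6, 3]],
   [[7, 3, 1, 3], [3, 4, 3, 2], [3, 2, 6, 0], [2, 1, 0, 6]], [[0, 0, 1, 0], [0, 1, 0, 0], [1, 0, 0, 0], [0, 0, 0, 1]], 0, 0, 1, 0, 0, 1⟩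

/-- data -/
def dS6 : Dat :=
  ⟨[[0, 0, 0, 0, 1, 0], [0, 0, 0, 1, 1, 0], [0, 0, 1, 0, 0, 0], [1, 1, 0, 0, 1, 0], [1, 0, 0, 1, 1, 0], [0, 0, 0, 0, 0, 1]], [[1, 0, 0, 1, 1, 0], [0, 1, 0, 1, 0, 0], [0, 0, 1, 0, 0, 0], [1, 0, 0, 0, 1, 0], [0, 1, 0, 1, 1, 0], [0, 0, 0, 0, 0, 1]],
   [[7, 1, 0, 4, 5, 0], [1, 6, 0, 5, 1, 0], [0, 0, 1, 0, 0, 0], [5, 1, 0, 3, 4, 0], [1, 4, 0, 4, 7, 0], [0, 0, 0, 0, 0, 1]], [[3, 1, 0, 6, 7, 0], [1, 2, 0, 7, 1, 0], [0, 0, 1, 0, 0, 0], [7, 1, 0, 5, 6, 0], [1, 6, 0, 6, 3, 0], [0, 0, 0, 0, 0, 1]],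
   [[7, 3, 0, 1, 3, 0], [3, 4, 0, 3, 2, 0], [0, 0, 1, 0, 0, 0], [3, 2, 0, 6, 0, 0], [2, 1, 0, 0, 6, 0], [0, 0, 0, 0, 0, 1]], [[0, 0, 0, 1, 0, 0], [0, 1, 0, 0, 0, 0], [0, 0, 1, 0, 0, 0], [1, 0, 0, 0, 0, 0], [0, 0, 0, 0, 1, 0], [0, 0, 0, 0, 0, 1]], 0, 0, 1, 0, 0, 1⟩

/-- data -/
def dU4 : Dat :=
  ⟨[[1, 8, 1, 0], [8, 9, 0, 1], [1, 0, 1, 9], [0, 1, 9, 8]], [[9, 9, 0, 1], [9, 0, 1, 1], [0, 1, 8, 8], [1, 1, 8, 0]],
   [[38, 45, 1, 4], [45, 11, 4, 5], [1, 4, 34, 40], [4, 5, 40, 10]], [[50, 63, 1, 6], [63, 13, 6, 7], [1, 6, 52, 56], [6, 7, 56, 12]],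
   [[13, 26, 2, 1], [26, 23, 1, 3], [2, 1, 12, 25], [1, 3, 25, 21]], [[0, 1, 0, 0], [1, 0, 0, 0], [0, 0, 1, 0], [0, 0, 0, 1]], 0, 1, 9, 0, 1, 16⟩

theorem chkL2 : dL2.chk 2 rs64 = true := by decide +kernel
theorem chkS4 : dS4.chk 4 rs8 = true := by decide +kernel
theorem chkS6 : dS6.chk 6 rs8 = true := by decide +kernel
theorem chkU4 : dU4.chk 4 rs64 = true := by decide +kernel

/-- the matrix of the symplectic form -/
def Jm (m : ℕ) : Matrix (Fin (m + m)) (Fin (m + m)) Expr := fun i j => if i.1 = j.1 + m ∨ j.1 = i.1 + m then 1 else 0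

/-- the check for a symplectic matrix -/
noncomputable def spChk (m : ℕ) (t : List (List ℕ)) : Bool :=
  MExpr.check 2 rs8 4 (.mul (.mul (.mat (mt (m + m) t)) (.mat (Jm m))) (.tr (.mat (mt (m + m) t)))) (.mat (Jm m))

/-- the check for a unitary matrix -/
noncomputable def suChk (t : List (List ℕ)) : Bool :=
  MExpr.check 2 rs64 12 (.mul (.tr (.mat (mt 4 t))) (.mat fun i j => mt 4 t i j ^ 8)) .one

theorem spS4 : spChk 2 dS4.a = true ∧ spChk 2 dS4.b = true ∧ spChk 2 dS4.c = true := by decide +kernel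
theorem spS6 : spChk 3 dS6.a = true ∧ spChk 3 dS6.b = true ∧ spChk 3 dS6.c = true := by decide +kernel
theorem suU4 : suChk dU4.a = true ∧ suChk dU4.b = true ∧ suChk dU4.c = true := by decide +kernel

variable {F : Type*} [Field F] [CharP F 2] {n : ℕ}

/-- value of a coded matrix -/
def ev (l : List F) (n : ℕ) (t : List (List ℕ)) : Matrix (Fin n) (Fin n) F := (mt n t).map (Expr.eval l)

theorem eval_dot (l : List F) (A C : Matrix (Fin n) (Fin n) Expr) (i j : Fin n) :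
    (dot A C i j).eval l = (A.map (Expr.eval l) * C.map (Expr.eval l)) i j := by
  rw [mul_apply, Fin.sum_univ_def, dot]
  induction List.finRange n with
  | nil => rfl
  | cons k L ih => simp only [List.map_cons, List.foldr_cons, List.sum_cons, Expr.eval_add, ih]; rfl

/-- what a certificate gives -/
structure Dat.OK (d : Dat) (l : List F) (n : ℕ) : Prop where
  a : ev l n d.a ^ 5 = 1
  b : ev l n d.b ^ 13 = 1
  c : ev l n d.c ^ 2 = 1
  ab : ev l n d.a * ev l n d.b = ev l n d.b * ev l n d.a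
  ac : ev l n d.a * ev l n d.c ≠ ev l n d.c * ev l n d.a
  bc : ev l n d.b * ev l n d.c ≠ ev l n d.c * ev l n d.b

theorem Dat.ok {d : Dat} [NeZero n] {rs : List Rule} (h : d.chk n rs = true) {l : List F} (hl : l.length ≤ 30)
    (hrs : ∀ r ∈ rs, r.Holds l) : d.OK l n := by
  simp only [Dat.chk, Bool.and_eq_true] at h
  obtain ⟨⟨⟨⟨⟨⟨⟨⟨h1, h2⟩, h3⟩, h4⟩, h5⟩, h6⟩, h7⟩, h8⟩, h9⟩ := h
  replace h1 : ev l n d.a * ev l n d.a = ev l n d.a2 := MExpr.sound 2 l hl rs hrs _ _ _ h1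
  replace h2 : ev l n d.a2 * ev l n d.a2 * ev l n d.a = 1 := MExpr.sound 2 l hl rs hrs _ _ _ h2
  replace h3 : ev l n d.b * ev l n d.b * ev l n d.b = ev l n d.b3 := MExpr.sound 2 l hl rs hrs _ _ _ h3
  replace h4 : ev l n d.b3 * ev l n d.b3 = ev l n d.b6 := MExpr.sound 2 l hl rs hrs _ _ _ h4
  replace h5 : ev l n d.b6 * ev l n d.b6 * ev l n d.b = 1 := MExpr.sound 2 l hl rs hrs _ _ _ h5
  replace h6 : ev l n d.c * ev l n d.c = 1 := MExpr.sound 2 l hl rs hrs _ _ _ h6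
  replace h8 := eq_of_eqCheck 2 l hl rs hrs _ _ _ h8
  replace h9 := eq_of_eqCheck 2 l hl rs hrs _ _ _ h9
  rw [Expr.eval_mul, Expr.eval_sub, eval_dot, eval_dot, Expr.eval_one] at h8 h9
  refine ⟨?_, ?_, by rwa [sq], MExpr.sound 2 l hl rs hrs _ _ _ h7, fun e => ?_, fun e => ?_⟩
  · rw [← h2, ← h1]; simp only [pow_succ, pow_zero, one_mul, mul_assoc]
  · rw [← h5, ← h4, ← h3]; simp only [pow_succ, pow_zero, one_mul, mul_assoc]
  · simp only [ev] at e; simp [e] at h8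
  · simp only [ev] at e; simp [e] at h9

variable [Fintype F]

theorem det_eq_one {A : Matrix (Fin n) (Fin n) F} {p : ℕ} (h : A ^ (p + 1) = 1)
    (hp : (p + 1).Coprime (Fintype.card F - 1)) : A.det = 1 := by
  have h1 : A.det ^ (p + 1) = 1 := by rw [← det_pow, h, det_one]
  have h0 : A.det ≠ 0 := fun h0 => by simp [h0] at h1
  simpa [hp] using pow_gcd_eq_one.2 ⟨h1, FiniteField.pow_card_sub_one_eq_one _ h0⟩

theorem exists_root {p : ℕ} (hp : p.Prime) (h : p ∣ Fintype.card F - 1) : ∃ y : F, y ^ p = 1 ∧ y ≠ 1 := by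
  have := Fact.mk hp
  obtain ⟨z, hz⟩ := exists_prime_orderOf_dvd_card' (G := Fˣ) p (by rwa [Nat.card_units, Nat.card_eq_fintype_card])
  refine ⟨z, by rw [← Units.val_pow_eq_pow_val, ← hz, pow_orderOf_eq_one, Units.val_one], fun e => ?_⟩
  rw [Units.val_eq_one.1 e, orderOf_one] at hz
  exact hp.one_lt.ne hz

theorem exists_y (h : 7 ∣ Fintype.card F - 1) : ∃ y : F, y ^ 3 = y + 1 := by
  obtain ⟨y, h1, h2⟩ := exists_root (by norm_num) h
  by_cases h3 : y ^ 3 = y + 1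
  · exact ⟨y, h3⟩
  · exact ⟨y + 1, by grind⟩

theorem holds8 {y : F} (h : y ^ 3 = y + 1) (l : List F) : ∀ r ∈ rs8, r.Holds (y :: y ^ 2 :: l) := by
  simp [rs8, Rule.Holds, Expr.eval_add, Expr.eval_var, Expr.eval_one]
  grind

theorem exists_64 (h : Fintype.card F = 64) : ∃ l : List F, l.length ≤ 30 ∧ ∀ r ∈ rs64, r.Holds l := by
  obtain ⟨y, hy⟩ := exists_y (F := F) (by rw [h]; norm_num)
  obtain ⟨w, h1, h2⟩ := exists_root (F := F) (p := 3) (by norm_num) (by rw [h]; norm_num)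
  refine ⟨[y, y ^ 2, w], by simp, List.forall_mem_cons.2 ⟨?_, holds8 hy _⟩⟩
  simp [Rule.Holds, Expr.eval_add, Expr.eval_var, Expr.eval_one]
  grind

theorem exists_8 (h : Fintype.card F = 8) : ∃ l : List F, l.length ≤ 30 ∧ ∀ r ∈ rs8, r.Holds l := by
  obtain ⟨y, hy⟩ := exists_y (F := F) (by rw [h])
  exact ⟨[y, y ^ 2], by simp, holds8 hy _⟩

variable (H : Subgroup (chevE7.group (ZMod 2)))

theorem empty_SL {d : Dat} {l : List F} (h : d.OK l n) (hq : Fintype.card F - 1 ∣ 63) :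
    IsEmpty (H ≃* ProjectiveSpecialLinearGroup (Fin n) F) :=
  quot_empty (slToMat n F) Subtype.val_injective
    (a := ⟨_, det_eq_one h.a (Nat.Coprime.of_dvd_right hq (by norm_num))⟩)
    (b := ⟨_, det_eq_one h.b (Nat.Coprime.of_dvd_right hq (by norm_num))⟩)
    (c := ⟨_, det_eq_one h.c (Nat.Coprime.of_dvd_right hq (by norm_num))⟩) h.a h.b h.ab h.ac h.bc H

theorem mem_sp {m : ℕ} {t : List (List ℕ)} (h : spChk m t = true) {l : List F} (hl : l.length ≤ 30)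
    (hrs : ∀ r ∈ rs8, r.Holds l) :
    (ev l (m + m) t).submatrix finSumFinEquiv finSumFinEquiv ∈ symplecticGroup (Fin m) F := by
  have h1 : ev l (m + m) t * (Jm m).map (Expr.eval l) * (ev l (m + m) t)ᵀ = (Jm m).map (Expr.eval l) :=
    MExpr.sound 2 l hl rs8 hrs _ _ _ h
  have h2 : J (Fin m) F = ((Jm m).map (Expr.eval l)).submatrix finSumFinEquiv finSumFinEquiv := by
    ext i j
    rcases i with i | i <;> rcases j with j | j <;>
      simp [J, Jm, apply_ite (Expr.eval l), Expr.eval_one, Expr.eval_zero, one_apply, Fin.ext_iff, CharTwo.neg_eq]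
    all_goals grind
  rw [SymplecticGroup.mem_iff, h2, transpose_submatrix, submatrix_mul_equiv, submatrix_mul_equiv, h1]

theorem empty_Sp {m : ℕ} {d : Dat} {l : List F} (h : d.OK l (m + m)) (hl : l.length ≤ 30) (hrs : ∀ r ∈ rs8, r.Holds l)
    (hd : spChk m d.a = true ∧ spChk m d.b = true ∧ spChk m d.c = true) : IsEmpty (H ≃* PSp m F) := by
  let φ : symplecticGroup (Fin m) F →* Matrix (Fin (m + m)) (Fin (m + m)) F :=
    (reindexAlgEquiv F F finSumFinEquiv).toMonoidHom.comp (symplecticGroup (Fin m) F).subtype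
  have e : ∀ t (ht : spChk m t = true), φ ⟨_, mem_sp ht hl hrs⟩ = ev l (m + m) t := fun t ht => by simp [φ]
  refine quot_empty φ ((reindexAlgEquiv F F finSumFinEquiv).injective.comp Subtype.val_injective)
    (a := ⟨_, mem_sp hd.1 hl hrs⟩) (b := ⟨_, mem_sp hd.2.1 hl hrs⟩) (c := ⟨_, mem_sp hd.2.2 hl hrs⟩)
    ?_ ?_ ?_ ?_ ?_ H <;> simp only [e _ hd.1, e _ hd.2.1, e _ hd.2.2]
  exacts [h.a, h.b, h.ab, h.ac, h.bc]

theorem mem_su {t : List (List ℕ)} (h : suChk t = true) {l : List F} (hl : l.length ≤ 30)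
    (hrs : ∀ r ∈ rs64, r.Holds l) (hd : (ev l 4 t).det = 1) :
    (⟨_, hd⟩ : SpecialLinearGroup (Fin 4) F) ∈ SU 4 F 8 := fun u v => by
  have h1 : (ev l 4 t)ᵀ * (ev l 4 t).map (iterateFrobenius F 2 3) = 1 := MExpr.sound 2 l hl rs64 hrs _ _ _ h
  have h2 : ∀ u v : Fin 4 → F, hermForm 4 F 8 u v = u ⬝ᵥ (iterateFrobenius F 2 3 ∘ v) := fun _ _ => rfl
  have h3 : iterateFrobenius F 2 3 ∘ (ev l 4 t *ᵥ v) =
      (ev l 4 t).map (iterateFrobenius F 2 3) *ᵥ (iterateFrobenius F 2 3 ∘ v) := funext (RingHom.map_mulVec _ _ _)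
  change hermForm 4 F 8 (ev l 4 t *ᵥ u) (ev l 4 t *ᵥ v) = _
  rw [h2, h2, h3, dotProduct_mulVec, vecMul_mulVec, h1, vecMul_one]

theorem empty_SU (h64 : Fintype.card F = 64) : IsEmpty (H ≃* PSU 4 F 8) := by
  obtain ⟨l, hl, hrs⟩ := exists_64 h64
  have h := Dat.ok chkU4 hl hrs
  exact quot_empty ((slToMat 4 F).comp (SU 4 F 8).subtype) (Subtype.val_injective.comp Subtype.val_injective)
    (a := ⟨_, mem_su suU4.1 hl hrs (det_eq_one h.a (by rw [h64]; norm_num))⟩)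
    (b := ⟨_, mem_su suU4.2.1 hl hrs (det_eq_one h.b (by rw [h64]; norm_num))⟩)
    (c := ⟨_, mem_su suU4.2.2 hl hrs (det_eq_one h.c (by rw [h64]; norm_num))⟩) h.a h.b h.ab h.ac h.bc H

end Cfsg.Agent.H6.E7
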