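import Cfsg.Agent.H6.TorS

/-!
Root subgroup systems in arbitrary characteristic: monomial elements, the Weyl group.
-/

set_option autoImplicit false
set_option linter.unusedSectionVars false

namespace Cfsg.Agent.H6.Gs

open Matrix Subgroup Cfsg.Agent.Chv

variable {l : ℕ} {K : Type*} [Field K] {ι Φ : Type} [Fintype ι] [DecidableEq ι]

/-- monomial elements -/
structure Mon (R : RD ι Φ l) (n : GL ι K) (w : Lam l ≃+ Lam l) (π : Equiv.Perm Φ) : Prop where
  mono : ∀ a b, (n : Matrix ι ι K) a b ≠ 0 → R.wt a = w (R.wt b)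
  mono' : ∀ a b, ((n⁻¹ : GL ι K) : Matrix ι ι K) a b ≠ 0 → R.wt a = w.symm (R.wt b)
  rt : ∀ r, R.rt (π r) = w (R.rt r)

variable {R : RD ι Φ l}

theorem mon_h (χ : Chr l K) : Mon R (R.h χ) (AddEquiv.refl _) 1 where
  mono a b h := by
    have : a = b := by by_contra e; exact h (diagonal_apply_ne _ e)
    rw [this]; rfl
  mono' a b h := by
    have : a = b := by by_contra e; exact h (diagonal_apply_ne _ e)
    rw [this]; rfl
  rt r := rfl

namespace Mon

variable {n n' : GL ι K} {w w' : Lam l ≃+ Lam l} {π π' : Equiv.Perm Φ}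

theorem mul (h : Mon R n w π) (h' : Mon R n' w' π') : Mon R (n * n') (w'.trans w) (π * π') where
  mono a b e := by
    obtain ⟨k, h1, h2⟩ := RD.exists_mid e
    rw [h.mono _ _ h1, h'.mono _ _ h2]; rfl
  mono' a b e := by
    rw [_root_.mul_inv_rev] at e
    obtain ⟨k, h1, h2⟩ := RD.exists_mid e
    rw [h'.mono' _ _ h1, h.mono' _ _ h2]; rfl
  rt r := by rw [Equiv.Perm.mul_apply, h.rt, h'.rt]; rfl

theorem inv (h : Mon R n w π) : Mon R n⁻¹ w.symm π⁻¹ where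
  mono := h.mono'
  mono' := by rw [inv_inv]; exact h.mono
  rt r := by rw [AddEquiv.eq_symm_apply, ← h.rt]; simp

theorem neg (h : Mon R n w π) (r : Φ) : π (R.neg r) = R.neg (π r) :=
  R.ext (by rw [h.rt, RD.rt, RD.rt, R.rt_neg, R.rt_neg, map_neg, ← h.rt])

theorem entry (h : Mon R n w π) (M : Matrix ι ι K) (a b : Φ) :
    ((n : Matrix ι ι K) * M * ((n⁻¹ : GL ι K) : Matrix ι ι K)) (R.ei (π a)) (R.ei (π b)) =
      (n : Matrix ι ι K) (R.ei (π a)) (R.ei a) * M (R.ei a) (R.ei b) *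
        ((n⁻¹ : GL ι K) : Matrix ι ι K) (R.ei b) (R.ei (π b)) := by
  rw [mul_apply, Finset.sum_eq_single (R.ei b), mul_apply, Finset.sum_eq_single (R.ei a)]
  · intro k _ hk
    by_contra e
    have := h.mono _ _ (left_ne_zero_of_mul e)
    exact hk (R.eq_ei (w.injective (this.symm.trans (h.rt a))))
  · simp
  · intro k _ hk
    by_contra e
    have := h.mono' _ _ (right_ne_zero_of_mul e)
    exact hk (R.eq_ei (by rw [this, ← RD.rt, h.rt, w.symm_apply_apply]))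
  · simp

theorem unit (h : Mon R n w π) (a : Φ) : (n : Matrix ι ι K) (R.ei (π a)) (R.ei a) *
    ((n⁻¹ : GL ι K) : Matrix ι ι K) (R.ei a) (R.ei (π a)) = 1 := by
  have := h.entry 1 a a
  rw [mul_one, ← Units.val_mul, mul_inv_cancel, one_apply_eq, mul_one] at this
  rw [← this]; simp

theorem entry_ne (h : Mon R n w π) {M : Matrix ι ι K} {a b : Φ} (e : M (R.ei a) (R.ei b) ≠ 0) :
    ((n : Matrix ι ι K) * M * ((n⁻¹ : GL ι K) : Matrix ι ι K)) (R.ei (π a)) (R.ei (π b)) ≠ 0 := by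
  rw [h.entry]
  exact mul_ne_zero (mul_ne_zero (left_ne_zero_of_mul_eq_one (h.unit a)) e)
    (right_ne_zero_of_mul_eq_one (h.unit b))

theorem h_conj (h : Mon R n w π) (χ : Chr l K) :
    n * R.h χ * n⁻¹ = R.h (cmp χ w.symm.toAddMonoidHom) := by
  rw [mul_inv_eq_iff_eq_mul]
  refine Units.ext (Matrix.ext fun i j => ?_)
  rw [Units.val_mul, Units.val_mul, R.h_val, R.h_val, mul_diagonal, diagonal_mul, ev_cmp]
  by_cases e : (n : Matrix ι ι K) i j = 0
  · simp [e]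
  · rw [h.mono _ _ e, mul_comm]; simp

theorem pair_eq [Fintype Φ] (h : Mon R n w π) {μ : Fin l → ℝ} (e : R.Lev (n : Matrix ι ι K) μ 0)
    (r : Φ) : pair (R.rt (π r)) μ = pair (R.rt r) μ := by
  have h1 : ∀ r ∈ (Finset.univ : Finset Φ), pair (R.rt r) μ ≤ pair (R.rt (π r)) μ := fun r _ => by
    have := e _ _ (left_ne_zero_of_mul_eq_one (h.unit r))
    rw [pair_sub] at this; linarith
  exact ((Finset.sum_eq_sum_iff_of_le h1).1 (Equiv.sum_comp π fun r => pair (R.rt r) μ).symm r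
    (Finset.mem_univ _)).symm

theorem perm_eq (h : Mon R n w π) (h' : Mon R n w' π') : π = π' := by
  ext r
  have := h'.mono _ _ (left_ne_zero_of_mul_eq_one (h.unit r))
  exact R.ext (this.trans (h'.rt r).symm)

theorem w_eq (h : Mon R n w π) (h' : Mon R n' w' π) : w = w' := by
  have : w.toAddMonoidHom = w'.toAddMonoidHom := hom_ext fun j => by
    rw [← R.rt_sim]; exact (h.rt _).symm.trans (h'.rt _)
  exact AddEquiv.ext fun v => DFunLike.congr_fun this v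

theorem pow (h : Mon R n w π) (m : ℕ) : ∃ w', Mon R (n ^ m) w' (π ^ m) ∧ ∀ v, w' v = w^[m] v := by
  induction m with
  | zero => exact ⟨_, by simpa using mon_h (R := R) (1 : Chr l K), fun _ => rfl⟩
  | succ m ih =>
    obtain ⟨w', h1, h2⟩ := ih
    exact ⟨_, by simpa only [pow_succ] using h1.mul h, fun v => h2 _⟩

end Mon

/-- the element `n_i` -/
def nn (R : RD ι Φ l) (x : Φ → K → GL ι K) (i : Fin l) : GL ι K :=
  x (R.sim i) 1 * x (R.neg (R.sim i)) (-1) * x (R.sim i) 1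

/-- conjugation permutes the root subgroups -/
def Cj (R : RD ι Φ l) (x : Φ → K → GL ι K) (n : GL ι K) (π : Φ → Φ) : Prop :=
  ∃ c : Φ → K, (∀ r, c (R.neg r) * c r = 1) ∧ ∀ r t, n * x r t * n⁻¹ = x (π r) (c r * t)

/-- root subgroup systems -/
structure Sys (R : RD ι Φ l) (K : Type*) [Field K] where
  x : Φ → K → GL ι K
  x_add : ∀ r t u, x r (t + u) = x r t * x r u
  x_wt : ∀ r t i j, ((x r t : Matrix ι ι K) - 1) i j ≠ 0 → ∃ k : ℕ, 1 ≤ k ∧ R.wt i = R.wt j + k • R.rt r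
  x_tor : ∀ (χ : Chr l K) r t, R.h χ * x r t * (R.h χ)⁻¹ = x r ((ev χ (R.rt r) : K) * t)
  n_mono : ∀ i a b, (nn R x i : Matrix ι ι K) a b ≠ 0 → R.wt a = R.refl i (R.wt b)
  n_conj : ∀ i, Cj R x (nn R x i) (R.s i)
  comm : ∀ i r t u, R.Pos r → r ≠ R.sim i → x (R.sim i) t * x r u * (x (R.sim i) t)⁻¹ ∈
    closure {g | ∃ (γ : Φ) (v : K) (a b : ℕ), 1 ≤ b ∧ R.rt γ = a • R.rt (R.sim i) + b • R.rt r ∧ g = x γ v}

namespace Sys

variable (S : Sys R K)

/-- `n_i` -/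
def n (i : Fin l) : GL ι K := nn R S.x i

/-- the torus -/
def H (_ : Sys R K) : Subgroup (GL ι K) := (R.h (K := K)).range

theorem x_zero (r : Φ) : S.x r 0 = 1 := by
  have := S.x_add r 0 0
  rw [add_zero] at this
  exact left_eq_mul.1 this

theorem x_inv (r : Φ) (t : K) : (S.x r t)⁻¹ = S.x r (-t) :=
  inv_eq_of_mul_eq_one_right (by rw [← S.x_add, add_neg_cancel, x_zero])

theorem x_lev (r : Φ) (t : K) {μ : Fin l → ℝ} (h : 0 ≤ pair (R.rt r) μ) :
    R.Lev ((S.x r t : Matrix ι ι K) - 1) μ (pair (R.rt r) μ) := by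
  intro i j hij
  obtain ⟨k, hk, e⟩ := S.x_wt r t i j hij
  rw [e, add_sub_cancel_left, pair_nsmul]
  exact le_mul_of_one_le_left h (by exact_mod_cast hk)

theorem x_mem_P (r : Φ) (t : K) {μ : Fin l → ℝ} (h : 0 ≤ pair (R.rt r) μ) : S.x r t ∈ R.P K μ :=
  ⟨RD.lev_of_sub ((S.x_lev r t h).mono h), by rw [x_inv]; exact RD.lev_of_sub ((S.x_lev r _ h).mono h)⟩

theorem x_mem_Q (r : Φ) (t : K) {μ : Fin l → ℝ} (h : 0 < pair (R.rt r) μ) : S.x r t ∈ R.Q K μ :=
  ⟨S.x_mem_P r t h.le, (S.x_lev r t h.le).slev h⟩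

theorem tor_n (i : Fin l) (c : Kˣ) : R.h (mkChr fun _ => c) * S.n i * (R.h (mkChr fun _ => c))⁻¹ =
    S.x (R.sim i) c * S.x (R.neg (R.sim i)) (-(c⁻¹ : Kˣ)) * S.x (R.sim i) c := by
  have h1 := S.x_tor (mkChr fun _ => c) (R.sim i) 1
  have h2 := S.x_tor (mkChr fun _ => c) (R.neg (R.sim i)) (-1)
  rw [RD.rt, R.rt_neg, ev_neg] at h2
  rw [RD.rt] at h1
  rw [R.rt_sim, ev_mkChr_single] at h1 h2
  rw [mul_one] at h1
  rw [mul_neg_one] at h2
  rw [← h1, ← h2, n, nn]; group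

theorem n_inv (i : Fin l) : (S.n i)⁻¹ = R.h (mkChr fun _ => -1) * S.n i * (R.h (mkChr fun _ => -1))⁻¹ := by
  rw [tor_n, n, nn]; simp [x_inv, mul_assoc]

/-- monomial elements permuting the root subgroups -/
structure Act (n : GL ι K) (w : Lam l ≃+ Lam l) (π : Equiv.Perm Φ) : Prop extends Mon R n w π where
  conj : Cj R S.x n π

theorem act_h (χ : Chr l K) : S.Act (R.h χ) (AddEquiv.refl _) 1 where
  toMon := mon_h χ
  conj := ⟨fun r => ev χ (R.rt r), fun r => by simp [RD.rt, R.rt_neg, ev_neg], S.x_tor χ⟩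

theorem act_n (i : Fin l) : S.Act (S.n i) (R.refl i) (R.sp i) where
  mono := S.n_mono i
  mono' a b e := S.n_mono i a b fun h => e (by
    rw [n_inv, Units.val_mul, Units.val_mul, R.h_val, R.h_inv_val, mul_diagonal, diagonal_mul, n, h]; simp)
  rt := R.rt_s' i
  conj := S.n_conj i

variable {S}

theorem h_mem (χ : Chr l K) : R.h χ ∈ S.H := ⟨χ, rfl⟩

theorem _root_.Cfsg.Agent.H6.Gs.Mon.conj_H {n : GL ι K} {w : Lam l ≃+ Lam l} {π : Equiv.Perm Φ} (h : Mon R n w π)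
    {u : GL ι K} (hu : u ∈ S.H) : n * u * n⁻¹ ∈ S.H := by
  obtain ⟨χ, rfl⟩ := hu
  rw [h.h_conj]; exact h_mem _

theorem n_sq (i : Fin l) : S.n i * S.n i ∈ S.H := by
  have h1 := mul_mem ((S.act_n i).toMon.conj_H (S := S) (inv_mem (h_mem (mkChr fun _ => -1))))
    (h_mem (mkChr fun _ => -1))
  rw [show ((S.n i)⁻¹ : GL ι K) = _ from S.n_inv i] at h1
  simpa [mul_assoc] using h1

namespace Act

variable {n n' : GL ι K} {w w' : Lam l ≃+ Lam l} {π π' : Equiv.Perm Φ}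

theorem mul (h : S.Act n w π) (h' : S.Act n' w' π') : S.Act (n * n') (w'.trans w) (π * π') where
  toMon := h.toMon.mul h'.toMon
  conj := by
    obtain ⟨c, h1, h2⟩ := h.conj
    obtain ⟨c', h3, h4⟩ := h'.conj
    refine ⟨fun r => c (π' r) * c' r, fun r => ?_, fun r t => ?_⟩
    · simp only [h'.neg]; rw [mul_mul_mul_comm, h1, h3, one_mul]
    · rw [Equiv.Perm.mul_apply, mul_assoc (c _), ← h2, ← h4]; group

theorem inv (h : S.Act n w π) : S.Act n⁻¹ w.symm π⁻¹ where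
  toMon := h.toMon.inv
  conj := by
    obtain ⟨c, h1, h2⟩ := h.conj
    refine ⟨fun r => c (R.neg (π⁻¹ r)), fun r => ?_, fun r t => ?_⟩
    · simp only [h.toMon.inv.neg, R.neg_neg']; rw [mul_comm, h1]
    · have := h2 (π⁻¹ r) (c (R.neg (π⁻¹ r)) * t)
      rw [show π (π⁻¹ r) = r by simp, ← mul_assoc (c _), mul_comm (c (π⁻¹ r)), h1, one_mul] at this
      beta_reduce; rw [← this]; group

theorem conj_n (h : S.Act n w π) {i j : Fin l} (e : π (R.sim i) = R.sim j) :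
    ∃ t ∈ S.H, n * S.n i = t * S.n j * n := by
  obtain ⟨c, h1, h2⟩ := h.conj
  have h3 := h2 (R.sim i) 1
  have h4 := h2 (R.neg (R.sim i)) (-1)
  rw [h.neg, e, mul_neg_one] at h4
  rw [e, mul_one] at h3
  let u : Kˣ := Units.mkOfMulEqOne _ _ ((mul_comm _ _).trans (h1 (R.sim i)))
  have h5 := S.tor_n j u
  have h6 : n * S.n i * n⁻¹ = R.h (mkChr fun _ => u) * S.n j * (R.h (mkChr fun _ => u))⁻¹ := by
    rw [h5]
    change _ = S.x _ (c (R.sim i)) * S.x _ (-c (R.neg (R.sim i))) * S.x _ (c (R.sim i))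
    rw [← h3, ← h4, Sys.n, nn]; group
  refine ⟨_, mul_mem (h_mem (mkChr fun _ => u)) ((S.act_n j).toMon.conj_H (inv_mem (h_mem (mkChr fun _ => u)))), ?_⟩
  rw [← mul_inv_eq_iff_eq_mul, h6]; group

end Act

variable (S)

/-- the monomial group -/
def N : Subgroup (GL ι K) := S.H ⊔ closure (Set.range S.n)

/-- words in the `n_i` -/
def wd (L : List (Fin l)) : GL ι K := (L.map S.n).prod

theorem n_mem (i : Fin l) : S.n i ∈ S.N := mem_sup_right (subset_closure ⟨i, rfl⟩)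

theorem H_le_N : S.H ≤ S.N := le_sup_left

theorem wd_cons (i : Fin l) (L : List (Fin l)) : S.wd (i :: L) = S.n i * S.wd L := by simp [wd]

theorem act_wd (L : List (Fin l)) : ∃ w π, S.Act (S.wd L) w π := by
  induction L with
  | nil => exact ⟨_, _, by simpa [wd] using S.act_h 1⟩
  | cons i L ih =>
    obtain ⟨w, π, h⟩ := ih
    exact ⟨_, _, S.wd_cons i L ▸ (S.act_n i).mul h⟩

variable {S}

theorem exists_wd {g : GL ι K} (hg : g ∈ S.N) : ∃ t ∈ S.H, ∃ L, g = t * S.wd L := by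
  rw [N, ← closure_eq S.H, ← Subgroup.closure_union] at hg
  have key : ∀ i, ∀ t ∈ S.H, ∀ L, ∃ t' ∈ S.H, ∃ L', S.n i * (t * S.wd L) = t' * S.wd L' := fun i t ht L =>
    ⟨_, (S.act_n i).toMon.conj_H ht, i :: L, by rw [wd_cons]; group⟩
  induction hg using closure_induction_left with
  | one => exact ⟨1, one_mem _, [], by simp [wd]⟩
  | mul_left a ha g _ ih =>
    obtain ⟨t, ht, L, rfl⟩ := ih
    rcases ha with ha | ⟨i, rfl⟩
    · exact ⟨_, mul_mem ha ht, L, (mul_assoc ..).symm⟩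
    · exact key i t ht L
  | inv_mul_cancel a ha g _ ih =>
    obtain ⟨t, ht, L, rfl⟩ := ih
    rcases ha with ha | ⟨i, rfl⟩
    · exact ⟨_, mul_mem (inv_mem ha) ht, L, (mul_assoc ..).symm⟩
    · obtain ⟨t', ht', L', e⟩ := key i t ht L
      exact ⟨_, mul_mem (inv_mem (n_sq i)) ht', L', by rw [mul_assoc, ← e]; group⟩

theorem exists_act {g : GL ι K} (hg : g ∈ S.N) : ∃ w π, S.Act g w π := by
  obtain ⟨_, ⟨χ, rfl⟩, L, rfl⟩ := exists_wd hg
  obtain ⟨w, π, h⟩ := S.act_wd L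
  exact ⟨_, _, (S.act_h χ).mul h⟩

theorem exchange (i : Fin l) (L : List (Fin l)) : ∀ {w π}, Mon R (S.wd L) w π → ¬ R.Pos (π (R.sim i)) →
    ∃ t ∈ S.H, ∃ L' : List (Fin l), L'.length + 1 = L.length ∧ S.wd L * S.n i = t * S.wd L' := by
  induction L with
  | nil =>
    intro w π h e
    rw [h.perm_eq (by simpa [wd] using mon_h (R := R) (1 : Chr l K))] at e
    exact absurd (R.pos_sim i) e
  | cons j L ih =>
    intro w π h e
    obtain ⟨w0, π0, h0⟩ := S.act_wd L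
    rw [h.perm_eq (S.wd_cons j L ▸ ((S.act_n j).mul h0).toMon)] at e
    by_cases h1 : R.Pos (π0 (R.sim i))
    · have h2 : π0 (R.sim i) = R.sim j := by
        by_contra h2
        exact e (R.pos_s h1 h2)
      obtain ⟨t, ht, h3⟩ := h0.conj_n h2
      exact ⟨_, mul_mem ((S.act_n j).toMon.conj_H ht) (n_sq j), L, rfl, by rw [wd_cons, mul_assoc, h3]; group⟩
    · obtain ⟨t, ht, L', h2, h3⟩ := ih h0.toMon h1
      exact ⟨_, (S.act_n j).toMon.conj_H ht, j :: L', by simp [h2], by rw [wd_cons, wd_cons, mul_assoc, h3]; group⟩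

theorem mem_H_aux (m : ℕ) : ∀ L : List (Fin l), L.length ≤ m → ∀ {w π}, Mon R (S.wd L) w π →
    (∀ i, R.Pos (π (R.sim i))) → S.wd L ∈ S.H := by
  induction m with
  | zero =>
    intro L hL _ _ _ _
    rw [List.length_eq_zero_iff.1 (Nat.le_zero.1 hL)]; exact one_mem _
  | succ m ih =>
    intro L hL w π h e
    rcases List.eq_nil_or_concat L with rfl | ⟨L0, i, rfl⟩
    · exact one_mem _
    · obtain ⟨w0, π0, h0⟩ := S.act_wd L0
      have e1 : S.wd (L0.concat i) = S.wd L0 * S.n i := by simp [wd]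
      have h1 := h.perm_eq (e1 ▸ (h0.mul (S.act_n i)).toMon)
      have h2 := e i
      rw [h1, Equiv.Perm.mul_apply, show R.sp i (R.sim i) = R.neg (R.sim i) from R.s_sim i, h0.neg,
        R.pos_neg_iff] at h2
      obtain ⟨_, ⟨χ, rfl⟩, L', h3, h4⟩ := exchange i L0 h0.toMon h2
      rw [e1, h4] at h ⊢
      refine mul_mem (h_mem χ) (ih L' ?_ (by simpa using (mon_h χ).inv.mul h) e)
      simp at hL; omega

theorem mem_H {n : GL ι K} {w : Lam l ≃+ Lam l} {π : Equiv.Perm Φ} (h : Mon R n w π)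
    (hn : n ∈ S.N) (e : ∀ i, R.Pos (π (R.sim i))) : n ∈ S.H := by
  obtain ⟨_, ⟨χ, rfl⟩, L, rfl⟩ := exists_wd hn
  exact mul_mem (h_mem χ) (mem_H_aux _ L le_rfl (by simpa using (mon_h χ).inv.mul h) e)

theorem mem_H' [Fintype Φ] {n : GL ι K} {w : Lam l ≃+ Lam l} {π : Equiv.Perm Φ} (h : Mon R n w π)
    (hn : n ∈ S.N) {μ : Fin l → ℝ} (hμ : ∀ j, 0 < μ j) (e : R.Lev (n : Matrix ι ι K) μ 0) : n ∈ S.H :=
  mem_H h hn fun i => by
    rw [R.pos_iff_pair hμ, h.pair_eq e, ← R.pos_iff_pair hμ]; exact R.pos_sim i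

end Sys

end Cfsg.Agent.H6.Gs
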