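import Cfsg.Agent.H6.Ga

/-!
Bruhat decomposition and the torus lemma in arbitrary characteristic.
-/

set_option autoImplicit false
set_option linter.unusedSectionVars false

namespace Cfsg.Agent.H6.Gs

open Matrix Subgroup Cfsg.Agent.Chv Cfsg.Agent.H6.TorS
open Cfsg.Agent.Chv.Sys (Out In out_s in_single diag_Q diag_hu hsum hsum_refl act_mul)

variable {l : ℕ} {K : Type*} [Field K] {ι Φ : Type} [Fintype ι] [DecidableEq ι]

namespace Sys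

variable {R : RD ι Φ l} (S : Sys R K)

/-- subgroups generated by root subgroups -/
def XS (A : Set Φ) : Subgroup (GL ι K) := closure {g | ∃ r ∈ A, ∃ t, g = S.x r t}

/-- the unipotent radical -/
def U : Subgroup (GL ι K) := S.XS {r | R.Pos r}

/-- the Borel subgroup -/
def B : Subgroup (GL ι K) := S.H ⊔ S.U

/-- the Chevalley group -/
def G : Subgroup (GL ι K) := S.XS Set.univ

/-- the group with the diagonal automorphisms -/
def Γ : Subgroup (GL ι K) := S.H ⊔ S.G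

variable {S}

theorem x_mem {A : Set Φ} {r : Φ} (h : r ∈ A) (t : K) : S.x r t ∈ S.XS A := subset_closure ⟨r, h, t, rfl⟩

theorem x_mem_U {r : Φ} (h : R.Pos r) (t : K) : S.x r t ∈ S.U := x_mem (A := {r | R.Pos r}) h t

theorem XS_mono {A A' : Set Φ} (h : A ⊆ A') : S.XS A ≤ S.XS A' :=
  closure_mono fun _ ⟨r, hr, e⟩ => ⟨r, h hr, e⟩

theorem XS_le {A : Set Φ} {C : Subgroup (GL ι K)} (h : ∀ r ∈ A, ∀ t, S.x r t ∈ C) : S.XS A ≤ C :=
  (closure_le _).2 fun _ ⟨r, hr, t, e⟩ => e ▸ h r hr t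

theorem Act.conj_XS {n : GL ι K} {w : Lam l ≃+ Lam l} {π : Equiv.Perm Φ} (h : S.Act n w π)
    {A A' : Set Φ} (e : ∀ r ∈ A, π r ∈ A') {u : GL ι K} (hu : u ∈ S.XS A) : n * u * n⁻¹ ∈ S.XS A' := by
  obtain ⟨c, -, h2⟩ := h.conj
  refine conj_closure ?_ hu
  rintro _ ⟨r, hr, t, rfl⟩
  rw [h2]; exact x_mem (e r hr) _

theorem H_conj {A : Set Φ} : ∀ h ∈ S.H, ∀ u ∈ S.XS A, h * u * h⁻¹ ∈ S.XS A := by
  rintro _ ⟨χ, rfl⟩ u hu
  exact (S.act_h χ).conj_XS (fun _ h => h) hu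

theorem U_le_Q {μ : Fin l → ℝ} (hμ : ∀ j, 0 < μ j) : S.U ≤ R.Q K μ :=
  XS_le fun r hr t => S.x_mem_Q r t ((R.pos_iff_pair hμ r).1 hr)

theorem B_le_P {μ : Fin l → ℝ} (hμ : 0 ≤ μ) : S.B ≤ R.P K μ :=
  sup_le (by rintro _ ⟨χ, rfl⟩; exact R.h_mem_P χ μ) (XS_le fun r hr t => S.x_mem_P r t (pair_nonneg hr hμ))

theorem U_le_B : S.U ≤ S.B := le_sup_right
theorem H_le_B : S.H ≤ S.B := le_sup_left
theorem H_le_Γ : S.H ≤ S.Γ := le_sup_left
theorem G_le_Γ : S.G ≤ S.Γ := le_sup_right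

theorem N_le_Γ : S.N ≤ S.Γ := sup_le_sup_left ((closure_le _).2 (by
  rintro _ ⟨i, rfl⟩
  exact mul_mem (mul_mem (x_mem (Set.mem_univ _) _) (x_mem (Set.mem_univ _) _)) (x_mem (Set.mem_univ _) _))) _

theorem mem_B {b : GL ι K} (hb : b ∈ S.B) : ∃ χ, ∃ u ∈ S.U, b = R.h χ * u := by
  obtain ⟨_, ⟨χ, rfl⟩, u, hu, e⟩ := mem_sup_prod H_conj hb
  exact ⟨χ, u, hu, e⟩

theorem diag_B {b : GL ι K} (hb : b ∈ S.B) (a : ι) : (b : Matrix ι ι K) a a ≠ 0 := by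
  obtain ⟨χ, u, hu, rfl⟩ := mem_B hb
  rw [diag_hu χ (U_le_Q (μ := fun _ => 1) (fun _ => one_pos) hu)]
  exact Units.ne_zero _

theorem x_conj_out {J : Set (Fin l)} {i : Fin l} (hi : i ∈ J) (t : K) :
    ∀ u ∈ S.XS (Out R J), S.x (R.sim i) t * u * (S.x (R.sim i) t)⁻¹ ∈ S.XS (Out R J) := by
  intro u hu
  refine conj_closure ?_ hu
  rintro _ ⟨r, ⟨h1, j, hj, h2⟩, v, rfl⟩
  have hji : j ≠ i := fun e => hj (e ▸ hi)
  have h3 : r ≠ R.sim i := by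
    rintro rfl
    rw [RD.rt, R.rt_sim] at h2
    simp [hji] at h2
  refine closure_mono ?_ (S.comm i r t v h1 h3)
  rintro _ ⟨γ, v', a, b, hb, e, rfl⟩
  refine ⟨γ, ⟨?_, j, hj, ?_⟩, v', rfl⟩
  · unfold RD.Pos; rw [e]
    exact add_nonneg (nsmul_nonneg (R.pos_sim i) _) (nsmul_nonneg h1 _)
  · rw [e, RD.rt, R.rt_sim]
    rw [Pi.add_apply, Pi.smul_apply, Pi.smul_apply, Pi.single_eq_of_ne hji, smul_zero, zero_add,
      nsmul_eq_mul]
    exact mul_pos (show (0 : ℤ) < (b : ℤ) by exact_mod_cast hb) h2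

theorem U_le_sup (J : Set (Fin l)) : S.U ≤ S.XS (In R J) ⊔ S.XS (Out R J) :=
  XS_le fun r hr t => by
    by_cases h : ∃ j ∉ J, 0 < R.rt r j
    · exact mem_sup_right (x_mem (A := Out R J) ⟨hr, h⟩ t)
    · push Not at h
      exact mem_sup_left (x_mem (A := In R J) ⟨hr, fun j hj => le_antisymm (h j hj) (hr j)⟩ t)

theorem mem_X {r : Φ} {u : GL ι K} (hu : u ∈ S.XS {r}) : ∃ t, u = S.x r t := by
  induction hu using closure_induction with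
  | mem g h => obtain ⟨_, rfl, t, e⟩ := h; exact ⟨t, e⟩
  | one => exact ⟨0, (S.x_zero r).symm⟩
  | mul a b _ _ ha hb =>
    obtain ⟨t, rfl⟩ := ha
    obtain ⟨u, rfl⟩ := hb
    exact ⟨t + u, (S.x_add r t u).symm⟩
  | inv a _ ha => obtain ⟨t, rfl⟩ := ha; exact ⟨-t, S.x_inv r t⟩

theorem U_dec (i : Fin l) {u : GL ι K} (hu : u ∈ S.U) :
    ∃ u' ∈ S.XS (Out R {i}), ∃ t, u = u' * S.x (R.sim i) t := by
  have h1 : S.XS (In R {i}) ≤ S.XS {R.sim i} := XS_mono fun r hr => in_single hr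
  have h2 : ∀ a ∈ S.XS (In R {i}), ∀ c ∈ S.XS (Out R {i}), a * c * a⁻¹ ∈ S.XS (Out R {i}) := by
    intro a ha
    obtain ⟨t, rfl⟩ := mem_X (h1 ha)
    exact x_conj_out (Set.mem_singleton i) t
  obtain ⟨a, ha, c, hc, rfl⟩ := mem_sup_prod h2 (U_le_sup {i} hu)
  obtain ⟨t, e⟩ := mem_X (h1 ha)
  exact ⟨_, h2 a ha c hc, t, by rw [← e]; group⟩

theorem sl2 (i : Fin l) {t : K} (ht : t ≠ 0) : ∃ b ∈ S.B, ∃ t',
    S.x (R.neg (R.sim i)) t = b * S.n i * S.x (R.sim i) t' := by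
  let c : Kˣ := -(Units.mk0 t ht)⁻¹
  have h1 := S.tor_n i c
  rw [show -((c⁻¹ : Kˣ) : K) = t by simp [c]] at h1
  refine ⟨(S.x (R.sim i) c)⁻¹ * R.h (mkChr fun _ => c) * (S.n i * (R.h (mkChr fun _ => c))⁻¹ * (S.n i)⁻¹),
    mul_mem (mul_mem (inv_mem (U_le_B (x_mem_U (R.pos_sim i) _))) (H_le_B (h_mem _)))
      (H_le_B ((S.act_n i).toMon.conj_H (inv_mem (h_mem _)))), -c, ?_⟩
  rw [← S.x_inv]
  calc _ = (S.x (R.sim i) c)⁻¹ * (S.x (R.sim i) c * S.x (R.neg (R.sim i)) t * S.x (R.sim i) c) *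
      (S.x (R.sim i) c)⁻¹ := by group
    _ = _ := by rw [← h1]; group

theorem n_mul_B (i : Fin l) {b : GL ι K} (hb : b ∈ S.B) :
    ∃ b' ∈ S.B, ∃ t, S.n i * b = b' * S.n i * S.x (R.sim i) t := by
  obtain ⟨χ, u, hu, rfl⟩ := mem_B hb
  obtain ⟨u', hu', t, rfl⟩ := U_dec i hu
  exact ⟨S.n i * R.h χ * (S.n i)⁻¹ * (S.n i * u' * (S.n i)⁻¹),
    mul_mem (H_le_B ((S.act_n i).toMon.conj_H (h_mem χ))) (U_le_B (XS_mono (fun r hr => hr.1)
      ((S.act_n i).conj_XS (fun _ hr => out_s (Set.mem_singleton i) hr) hu'))), t, by group⟩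

/-- Bruhat cells -/
def Br (S : Sys R K) (g : GL ι K) : Prop := ∃ b ∈ S.B, ∃ n ∈ S.N, ∃ b' ∈ S.B, g = b * n * b'

theorem Br.B_mul {b g : GL ι K} (hb : b ∈ S.B) (h : S.Br g) : S.Br (b * g) := by
  obtain ⟨b1, h1, n, hn, b2, h2, rfl⟩ := h
  exact ⟨b * b1, mul_mem hb h1, n, hn, b2, h2, by group⟩

theorem Br.mul_B {b g : GL ι K} (hb : b ∈ S.B) (h : S.Br g) : S.Br (g * b) := by
  obtain ⟨b1, h1, n, hn, b2, h2, rfl⟩ := h
  exact ⟨b1, h1, n, hn, b2 * b, mul_mem h2 hb, by group⟩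

theorem br_aux (i : Fin l) {m : GL ι K} (hm : m ∈ S.N) {w π} (h : S.Act m⁻¹ w π)
    (hp : R.Pos (π (R.sim i))) (t : K) : S.Br (S.n i * S.x (R.sim i) t * m) := by
  obtain ⟨c, -, h2⟩ := h.conj
  exact ⟨1, one_mem _, S.n i * m, mul_mem (S.n_mem i) hm, _, U_le_B (x_mem_U hp (c (R.sim i) * t)),
    by rw [← h2]; group⟩

theorem Br.n_mul (i : Fin l) {g : GL ι K} (h : S.Br g) : S.Br (S.n i * g) := by
  obtain ⟨b1, h1, m, hm, b2, h2, rfl⟩ := h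
  obtain ⟨b3, h3, t, e⟩ := n_mul_B i h1
  have : S.n i * (b1 * m * b2) = b3 * (S.n i * S.x (R.sim i) t * m) * b2 := by
    rw [← mul_assoc, ← mul_assoc, e]; group
  rw [this]
  refine Br.mul_B h2 (Br.B_mul h3 ?_)
  obtain ⟨w, π, h⟩ := exists_act (inv_mem hm)
  by_cases hp : R.Pos (π (R.sim i))
  · exact br_aux i hm h hp t
  · obtain ⟨c, -, hc⟩ := S.n_conj i
    have e1 : S.n i * S.x (R.sim i) t * m = S.x (R.neg (R.sim i)) (c (R.sim i) * t) * (S.n i * m) := by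
      rw [← R.s_sim, ← hc]; simp only [n]; group
    rw [e1]
    by_cases ht : c (R.sim i) * t = 0
    · rw [ht, S.x_zero, one_mul]
      exact ⟨1, one_mem _, _, mul_mem (S.n_mem i) hm, 1, one_mem _, by group⟩
    · obtain ⟨b, hb, t', e2⟩ := sl2 (S := S) i ht
      rw [e2, mul_assoc b, mul_assoc b]
      refine Br.B_mul hb (br_aux i (mul_mem (S.n_mem i) hm) (w := (R.refl i).trans w) (π := π * (R.sp i)⁻¹) ?_ ?_ t')
      · rw [_root_.mul_inv_rev]; exact h.mul (S.act_n i).inv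
      · rw [Equiv.Perm.mul_apply, show (R.sp i)⁻¹ (R.sim i) = R.neg (R.sim i) from R.s_sim i, h.neg,
          R.pos_neg_iff]
        exact hp

theorem Br.N_mul {m g : GL ι K} (hm : m ∈ S.N) (h : S.Br g) : S.Br (m * g) := by
  obtain ⟨t, ht, L, rfl⟩ := exists_wd hm
  rw [mul_assoc]
  refine Br.B_mul (H_le_B ht) ?_
  clear hm
  induction L with
  | nil => simpa [wd] using h
  | cons i L ih => rw [wd_cons, mul_assoc]; exact ih.n_mul i

variable [Fintype Φ]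

theorem exists_dom (μ : Fin l → ℝ) : ∃ n ∈ S.N, ∃ w π, S.Act n w π ∧ 0 ≤ act w μ := by
  let T : Set (Fin l → ℝ) := {ν | ∃ n ∈ S.N, ∃ w π, S.Act n w π ∧ ν = act w μ}
  have hT : T.Finite := by
    classical
    refine (Set.finite_range fun π : Equiv.Perm Φ =>
      fun j => pair (R.rt (π⁻¹ (R.sim j))) μ).subset ?_
    rintro _ ⟨n, -, w, π, h, rfl⟩
    refine ⟨π, funext fun j => ?_⟩
    beta_reduce
    rw [h.inv.rt, RD.rt, R.rt_sim]; rfl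
  obtain ⟨ν, ⟨n, hn, w, π, h, rfl⟩, hm⟩ := hT.exists_maximalFor (hsum R) T
    ⟨_, _, S.H_le_N (h_mem 1), _, _, S.act_h 1, rfl⟩
  refine ⟨n, hn, w, π, h, fun i => ?_⟩
  have h1 : act (R.refl i) (act w μ) ∈ T :=
    ⟨_, mul_mem (S.n_mem i) hn, _, _, (S.act_n i).mul h, (act_mul _ _ _).symm⟩
  have h2 := hm h1
  rw [hsum_refl] at h2
  show 0 ≤ act w μ i
  by_contra h3
  linarith [h2 (by linarith)]

theorem exists_long : ∃ n ∈ S.N, ∃ w π, S.Act n w π ∧ ∀ r, R.Pos r → ¬ R.Pos (π r) := by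
  obtain ⟨n, hn, w, π, h, hm⟩ := exists_dom (S := S) (fun _ => -1)
  refine ⟨n, hn, w, π, h, fun r hr hp => ?_⟩
  have h1 := pair_nonneg hp hm
  rw [h.rt, pair_act] at h1
  have h2 := pair_pos hr (R.rt_ne r) (μ := fun _ => 1) fun _ => one_pos
  have : (fun _ => -1 : Fin l → ℝ) = (-1 : ℝ) • fun _ => 1 := by funext; simp
  rw [this, pair_smul'] at h1
  linarith

theorem bruhat {g : GL ι K} (hg : g ∈ S.Γ) : S.Br g := by
  let C : Subgroup (GL ι K) := S.B ⊔ S.N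
  have h1 : S.Γ ≤ C := by
    refine sup_le (H_le_B.trans le_sup_left) (XS_le fun r _ t => ?_)
    by_cases hr : R.Pos r
    · exact mem_sup_left (U_le_B (x_mem_U hr t))
    · obtain ⟨n, hn, w, π, h, hm⟩ := exists_long (S := S)
      have h2 : R.Pos (π r) := by
        have := hm _ ((R.pos_neg_iff r).2 hr)
        rw [h.neg, R.pos_neg_iff] at this
        exact not_not.1 this
      obtain ⟨c, -, hc⟩ := h.conj
      have : S.x r t = n⁻¹ * S.x (π r) (c r * t) * n := by rw [← hc]; group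
      rw [this]
      exact mul_mem (mul_mem (mem_sup_right (inv_mem hn)) (mem_sup_left (U_le_B (x_mem_U h2 _))))
        (mem_sup_right hn)
  have h2 := h1 hg
  clear hg
  simp only [C, sup_eq_closure] at h2
  induction h2 using closure_induction_left with
  | one => exact ⟨1, one_mem _, 1, one_mem _, 1, one_mem _, by simp⟩
  | mul_left a ha g _ ih =>
    rcases ha with ha | ha
    · exact ih.B_mul ha
    · exact ih.N_mul ha
  | inv_mul_cancel a ha g _ ih =>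
    rcases ha with ha | ha
    · exact ih.B_mul (inv_mem ha)
    · exact ih.N_mul (inv_mem ha)

theorem mem_H_of_diag {m : GL ι K} (hm : m ∈ S.Γ) (h : ∀ a b, (m : Matrix ι ι K) a b ≠ 0 → R.wt a = R.wt b) :
    m ∈ S.H := by
  have hρ : ∀ j, 0 < (fun _ => 1 : Fin l → ℝ) j := fun _ => one_pos
  have h0 : R.Lev (m : Matrix ι ι K) (fun _ => 1) 0 := fun a b e => by rw [h a b e, sub_self, pair_zero]
  obtain ⟨b, hb, n, hn, b', hb', rfl⟩ := bruhat hm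
  obtain ⟨w, π, ha⟩ := exists_act hn
  have h1 : n ∈ S.H := mem_H' ha.toMon hn hρ (by
    have := ((B_le_P (fun j => (hρ j).le) hb).2.mul0 h0).mul0 (B_le_P (fun j => (hρ j).le) hb').2
    rwa [← Units.val_mul, ← Units.val_mul, show b⁻¹ * (b * n * b') * b'⁻¹ = n by group] at this)
  obtain ⟨χ, u, hu, e⟩ := mem_B (mul_mem (mul_mem hb (H_le_B h1)) hb')
  rw [e] at h ⊢
  have : u = 1 := Units.ext (sub_eq_zero.1 (Matrix.ext fun a c => of_not_not fun hne => by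
    have h2 := (U_le_Q hρ hu).2 a c hne
    have h3 : a ≠ c := by rintro rfl; simp [pair_zero] at h2
    rw [h a c (by simpa [R.h_val, h3] using hne), sub_self, pair_zero] at h2
    exact h2.false))
  rw [this, mul_one]; exact h_mem χ

theorem mem_N {g : GL ι K} (hg : g ∈ S.Γ)
    (h0 : ∀ a b, (g : Matrix ι ι K) a b ≠ 0 → (R.wt a = 0 ↔ R.wt b = 0))
    (h1 : ∀ a a' b, (g : Matrix ι ι K) a b ≠ 0 → (g : Matrix ι ι K) a' b ≠ 0 → R.wt a = R.wt a')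
    (h2 : ∀ a b b', (g : Matrix ι ι K) a b ≠ 0 → (g : Matrix ι ι K) a b' ≠ 0 → R.wt b = R.wt b') : g ∈ S.N := by
  have hρ : ∀ j, 0 < (fun _ => 1 : Fin l → ℝ) j := fun _ => one_pos
  obtain ⟨b, hb, n, hn, b', hb', e⟩ := bruhat hg
  obtain ⟨w, π, ha⟩ := exists_act hn
  have h3 : ∀ r, ∃ s, (g : Matrix ι ι K) (R.ei s) (R.ei r) ≠ 0 ∧
      ((b⁻¹ : GL ι K) : Matrix ι ι K) (R.ei (π r)) (R.ei s) ≠ 0 := fun r => by
    have h4 := ha.entry_ne (diag_B hb' (R.ei r))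
    rw [← Units.val_mul, ← Units.val_mul, show n * b' * n⁻¹ = b⁻¹ * g * n⁻¹ by rw [e]; group, Units.val_mul] at h4
    obtain ⟨k, h5, h6⟩ := RD.exists_mid h4
    obtain rfl : k = R.ei r := R.eq_ei (by rw [ha.mono' _ _ h6, ← RD.rt, ha.rt, w.symm_apply_apply])
    rw [Units.val_mul] at h5
    obtain ⟨c, h7, h8⟩ := RD.exists_mid h5
    obtain ⟨s, rfl⟩ := (R.idx c).resolve_left fun h => R.rt_ne r ((h0 _ _ h8).1 h)
    exact ⟨s, h8, h7⟩
  choose σ hσ hσ' using h3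
  have hσi : Function.Injective σ := fun r r' h => R.ext (h2 _ _ _ (hσ r) (h ▸ hσ r'))
  have h6 : ∀ r, pair (R.rt (σ r)) (fun _ => 1) ≤ pair (R.rt (π r)) fun _ => 1 := fun r => by
    have := (B_le_P (fun j => (hρ j).le) hb).2 _ _ (hσ' r)
    rw [pair_sub] at this; linarith
  have h7 : ∑ r, pair (R.rt (σ r)) (fun _ => 1) = ∑ r, pair (R.rt (π r)) fun _ => 1 :=
    ((Finite.injective_iff_bijective.1 hσi).sum_comp fun r => pair (R.rt r) fun _ => 1).trans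
      (Equiv.sum_comp π fun r => pair (R.rt r) fun _ => 1).symm
  have h8 : ∀ r, π r = σ r := fun r => of_not_not fun hne => by
    obtain ⟨χ, u, hu, e'⟩ := mem_B (inv_mem hb)
    have h9 : R.ei (π r) ≠ R.ei (σ r) := fun h => hne (R.ext (congrArg R.wt h))
    have := (U_le_Q hρ hu).2 (R.ei (π r)) (R.ei (σ r)) (by simpa [e', R.h_val, h9] using hσ' r)
    rw [pair_sub, (Finset.sum_eq_sum_iff_of_le fun r _ => h6 r).1 h7 r (Finset.mem_univ r), sub_self] at this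
    exact this.false
  have := mem_H_of_diag (mul_mem hg (inv_mem (N_le_Γ hn))) fun a c hac => by
    rw [Units.val_mul] at hac
    obtain ⟨k, h4, h5⟩ := RD.exists_mid hac
    have h9 : R.wt c = w (R.wt k) := by rw [ha.mono' _ _ h5, w.apply_symm_apply]
    rcases R.idx k with hk | ⟨r, rfl⟩
    · rw [h9, hk, map_zero, (h0 _ _ h4).2 hk]
    · rw [h9, h1 _ _ _ h4 (hσ r), ← h8, ← RD.rt, ha.rt]
  simpa using mul_mem (S.H_le_N this) hn

theorem HP_le (p : ℕ) : HP K R p ≤ S.H := fun _ hg => by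
  obtain ⟨χ, -, rfl⟩ := mem_HP.1 hg
  exact h_mem χ

theorem mem_N_of_norm {p : ℕ} (hsep : Sep R p) {ζ : Kˣ} (hζ : IsPrimitiveRoot ζ p) {g : GL ι K} (hg : g ∈ S.Γ)
    (h : ∀ t ∈ HP K R p, g * t * g⁻¹ ∈ S.H ∧ g⁻¹ * t * g ∈ S.H) : g ∈ S.N := by
  have hw : ∀ a, R.wt a = 0 ∨ ∃ r, R.wt a = R.rt r := fun a => (R.idx a).imp_right fun ⟨r, e⟩ => ⟨r, e ▸ rfl⟩
  have key : ∀ χ ψ : Chr l K, R.h ψ * g = g * R.h χ → ∀ a b, (g : Matrix ι ι K) a b ≠ 0 →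
      ev ψ (R.wt a) = ev χ (R.wt b) := fun χ ψ e a b hab => by
    have : ((R.h ψ * g : GL ι K) : Matrix ι ι K) a b = ((g * R.h χ : GL ι K) : Matrix ι ι K) a b := by rw [e]
    rw [Units.val_mul, Units.val_mul, R.h_val, R.h_val, diagonal_mul, mul_diagonal, mul_comm] at this
    exact Units.ext (mul_left_cancel₀ hab this)
  have h1 : ∀ χ : Chr l K, χ ^ p ^ 1 = 1 → ∃ ψ : Chr l K, ∀ a b, (g : Matrix ι ι K) a b ≠ 0 →
      ev ψ (R.wt a) = ev χ (R.wt b) := fun χ hχ => by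
    obtain ⟨ψ, e⟩ := (h _ (mem_HP.2 ⟨χ, ⟨1, hχ⟩, rfl⟩)).1
    exact ⟨ψ, key χ ψ (by rw [e, inv_mul_cancel_right])⟩
  have h2 : ∀ χ : Chr l K, χ ^ p ^ 1 = 1 → ∃ ψ : Chr l K, ∀ a b, (g : Matrix ι ι K) a b ≠ 0 →
      ev χ (R.wt a) = ev ψ (R.wt b) := fun χ hχ => by
    obtain ⟨ψ, e⟩ := (h _ (mem_HP.2 ⟨χ, ⟨1, hχ⟩, rfl⟩)).2
    exact ⟨ψ, key ψ χ (by rw [e, ← mul_assoc, mul_inv_cancel_left])⟩
  refine mem_N hg (fun a b hab => ⟨fun h0 => ?_, fun h0 => ?_⟩) (fun a a' b e e' => ?_) fun a b b' e e' => ?_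
  · refine eq_of_sep hsep hζ (hw b) (.inl rfl) fun χ hχ => ?_
    obtain ⟨ψ, e⟩ := h1 χ hχ
    rw [← e a b hab, h0, ev_zero, ev_zero]
  · refine eq_of_sep hsep hζ (hw a) (.inl rfl) fun χ hχ => ?_
    obtain ⟨ψ, e⟩ := h2 χ hχ
    rw [e a b hab, h0, ev_zero, ev_zero]
  · refine eq_of_sep hsep hζ (hw a) (hw a') fun χ hχ => ?_
    obtain ⟨ψ, e''⟩ := h2 χ hχ
    rw [e'' a b e, e'' a' b e']
  · refine eq_of_sep hsep hζ (hw b) (hw b') fun χ hχ => ?_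
    obtain ⟨ψ, e''⟩ := h1 χ hχ
    rw [← e'' a b e, e'' a b' e']

/-- The torus lemma. -/
theorem torus [Finite K] {p : ℕ} (hp : p.Prime) (hsep : Sep R p) {ζ : Kˣ} (hζ : IsPrimitiveRoot ζ p)
    {C : Subgroup (GL ι K)} (h1 : S.H ≤ C) (h2 : C ≤ S.Γ)
    (hW : ∀ n ∈ C, ∀ w π, Mon R n w π → ∀ k, π ^ p ^ k = 1 → π = 1)
    {y : GL ι K} (hy : y ∈ C) {k : ℕ} (hk : y ^ p ^ k = 1) : ∃ c ∈ C, c * y * c⁻¹ ∈ S.H := by
  have := Fact.mk hp
  obtain ⟨c, hc, h⟩ := conj_into ((HP_le p).trans h1) (isPGroup_HP p) (fun x hx k hk h => by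
    have hn := mem_N_of_norm hsep hζ (h2 hx) fun t ht => (h t ht).imp (HP_le p ·) (HP_le p ·)
    obtain ⟨w, π, ha⟩ := exists_act hn
    obtain ⟨w', h3, -⟩ := ha.toMon.pow (p ^ k)
    rw [hk, ← R.h.map_one] at h3
    obtain rfl := hW x hx w π ha.toMon k (h3.perm_eq (mon_h 1))
    obtain ⟨χ, rfl⟩ := mem_H ha.toMon hn R.pos_sim
    exact mem_HP.2 ⟨χ, ⟨k, R.h_inj ((R.h.map_pow χ _).trans (hk.trans R.h.map_one.symm))⟩, rfl⟩)
    (Q := zpowers y) (zpowers_le.2 hy) (by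
      rintro ⟨_, m, rfl⟩
      exact ⟨k, Subtype.ext (by simp only [SubgroupClass.coe_pow]; rw [← zpow_natCast, ← _root_.zpow_mul, mul_comm,
        _root_.zpow_mul, zpow_natCast, hk, _root_.one_zpow]; rfl)⟩)
  exact ⟨c, hc, HP_le p (h y (mem_zpowers y))⟩

/-- The torus lemma for the whole group. -/
theorem torus_top [Finite K] {p : ℕ} (hp : p.Prime) (hsep : Sep R p) {ζ : Kˣ} (hζ : IsPrimitiveRoot ζ p)
    (hl : l + 1 < p) {y : GL ι K} (hy : y ∈ S.Γ) {k : ℕ} (hk : y ^ p ^ k = 1) : ∃ c ∈ S.Γ, c * y * c⁻¹ ∈ S.H := by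
  refine torus hp hsep hζ H_le_Γ le_rfl (fun n _ w π h k hk => ?_) hy hk
  obtain ⟨w', h1, h2⟩ := h.pow (p ^ k)
  rw [hk] at h1
  have h3 := lattice_eq_refl hp (w := w) (k := k)
    (fun v => by rw [← h2, h1.w_eq (mon_h (1 : Chr l K))]; rfl) (.inl hl)
  exact Equiv.ext fun r => R.ext (by rw [h.rt, h3]; rfl)

end Sys

end Cfsg.Agent.H6.Gs
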