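import Cfsg.Agent.Chv.XMat

/-!
Sparse matrices over a field of characteristic three; root elements of a simply laced datum.
-/

set_option autoImplicit false
set_option linter.unusedSectionVars false

namespace Cfsg.Agent.H6.Gs

open Cfsg.Agent.Chv Cfsg.Lie Cfsg.Lie.ChevalleyDatum

/-- addition of bit planes modulo three -/
def add3 (p q a b : ℕ) (k : ℕ → ℕ → Bool) : Bool :=
  (fun p q => (fun t => force (Nat.xor (Nat.lor q b) t) fun p' => force (Nat.xor (Nat.lor p a) t) fun q' => k p' q')
    (Nat.xor (Nat.lor p b) (Nat.lor q a))) (Nat.land p (Nat.xor p q)) (Nat.land q (Nat.xor p q))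

/-- the vector vanishes -/
noncomputable def isZ (L : List (ℕ × ℕ)) : ℕ → ℕ → Bool :=
  List.rec (fun p q => Nat.beq p q) (fun x _ ih p q => force (Nat.mod x.2 3) fun c =>
    Bool.rec (Bool.rec (ih p q) (add3 p q 0 (Nat.pow 2 x.1) ih) (Nat.beq c 2)) (add3 p q (Nat.pow 2 x.1) 0 ih)
      (Nat.beq c 1)) L

/-- scalar multiple, put in front of a list -/
noncomputable def sc (c : ℕ) (L M : List (ℕ × ℕ)) : List (ℕ × ℕ) :=
  List.rec M (fun x _ ih => (x.1, Nat.mul c x.2) :: ih) L

/-- a matrix applied to a vector, put in front of a list -/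
noncomputable def ap (N : ℕ) (f : ℕ → List (ℕ × ℕ)) (L M : List (ℕ × ℕ)) : List (ℕ × ℕ) :=
  List.rec M (fun x _ ih => force x.1 fun a => Bool.rec ih (sc x.2 (f a) ih) (Nat.blt a N)) L

/-- one entry -/
noncomputable def en (a b c j : ℕ) : List (ℕ × ℕ) := Bool.rec [] [(a, c)] (Nat.beq j b)

variable {K : Type*} [Field K] {ι : Type*} [Fintype ι] [DecidableEq ι] {N : ℕ} (e : Enc ι N)

/-- sparse vectors -/
def sv (K : Type*) [Field K] (L : List (ℕ × ℕ)) : ι → K := fun i =>
  (L.map fun x => if x.1 = e.enc i then (x.2 : K) else 0).sum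

/-- matrices with sparse columns -/
def mat (K : Type*) [Field K] (f : ℕ → List (ℕ × ℕ)) : Matrix ι ι K := Matrix.of fun i j => sv e K (f (e.enc j)) i

theorem add3_spec (h3 : (3 : K) = 0) (p q a b : ℕ) (h : a = 0 ∨ b = 0) : ∃ p' q', toVec e K p' - toVec e K q' =
    toVec e K p - toVec e K q + (toVec e K a - toVec e K b) ∧ ∀ k, add3 p q a b k = k p' q' := by
  refine ⟨_, _, ?_, fun k => by simp only [add3, force_eq]; rfl⟩
  ext i
  simp only [toVec, Pi.sub_apply, Pi.add_apply, Nat.xor_eq, Nat.land_eq, Nat.lor_eq,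
    Nat.testBit_xor, Nat.testBit_and, Nat.testBit_or]
  have : (a.testBit (e.enc i) && b.testBit (e.enc i)) = false := by rcases h with rfl | rfl <;> simp
  generalize p.testBit _ = x, q.testBit _ = y, a.testBit _ = z, b.testBit _ = w at *
  cases x <;> cases y <;> cases z <;> cases w <;> simp [bit] at this ⊢ <;>
    first | linear_combination h3 | linear_combination -h3

theorem isZ_spec (h3 : (3 : K) = 0) (L : List (ℕ × ℕ)) : ∀ p q, isZ L p q = true →
    toVec e K p - toVec e K q + sv e K L = 0 := by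
  induction L with
  | nil => intro p q h; rw [Nat.eq_of_beq_eq_true h]; ext; simp [sv]
  | cons x L ih =>
    intro p q h
    have h1 : sv e K (x :: L) = ((x.2 % 3 : ℕ) : K) • toVec e K (Nat.pow 2 x.1) + sv e K L := by
      have : ((x.2 % 3 : ℕ) : K) = x.2 := by
        conv_rhs => rw [← Nat.mod_add_div x.2 3]
        simp [h3]
      ext i; simp [sv, toVec, this, Nat.testBit_two_pow, bit]
    have h0 : isZ (x :: L) p q = Bool.rec (Bool.rec (isZ L p q) (add3 p q 0 (Nat.pow 2 x.1) (isZ L))
        (Nat.beq (x.2 % 3) 2)) (add3 p q (Nat.pow 2 x.1) 0 (isZ L)) (Nat.beq (x.2 % 3) 1) := by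
      simp only [isZ, force_eq]; rfl
    rw [h0] at h
    rw [h1]
    have h2 : x.2 % 3 = 0 ∨ x.2 % 3 = 1 ∨ x.2 % 3 = 2 := by omega
    rcases h2 with h2 | h2 | h2 <;> rw [h2] at h ⊢
    · simpa using ih p q h
    · obtain ⟨p', q', h4, h5⟩ := add3_spec e h3 p q (Nat.pow 2 x.1) 0 (.inr rfl)
      have := ih p' q' ((h5 _).symm.trans h)
      rwa [h4, toVec_zero, sub_zero, add_assoc, ← one_smul K (toVec e K (Nat.pow 2 x.1)), ← Nat.cast_one] at this
    · obtain ⟨p', q', h4, h5⟩ := add3_spec e h3 p q 0 (Nat.pow 2 x.1) (.inl rfl)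
      have := ih p' q' ((h5 _).symm.trans h)
      rwa [h4, toVec_zero, zero_sub, add_assoc, ← neg_one_smul K (toVec e K (Nat.pow 2 x.1)),
        show (-1 : K) = (2 : ℕ) by push_cast; linear_combination -h3] at this

theorem mat_eq_zero (h3 : (3 : K) = 0) {f : ℕ → List (ℕ × ℕ)} (h : allLt N (fun j => isZ (f j) 0 0) = true) :
    mat e K f = 0 := by
  ext i j
  simpa [mat] using congrFun (isZ_spec e h3 _ _ _ ((allLt_iff _ _).1 h _ (e.lt j))) i

theorem sv_sc (c : ℕ) (L M : List (ℕ × ℕ)) : sv e K (sc c L M) = (c : K) • sv e K L + sv e K M := by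
  ext i
  induction L with
  | nil => simp [sv, sc]
  | cons x L ih =>
    simp only [sv, sc, List.map_cons, List.sum_cons, Pi.add_apply, Pi.smul_apply, smul_eq_mul] at ih ⊢
    rw [ih]; split_ifs <;> simp [mul_add, add_assoc]

theorem sv_ap (f : ℕ → List (ℕ × ℕ)) (L M : List (ℕ × ℕ)) :
    sv e K (ap N f L M) = (mat e K f).mulVec (sv e K L) + sv e K M := by
  induction L with
  | nil => exact (by simp : sv e K M = (mat e K f).mulVec 0 + sv e K M)
  | cons x L ih =>
    have h1 : sv e K (x :: L) = (fun i => if x.1 = e.enc i then (x.2 : K) else 0) + sv e K L := rfl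
    rw [h1, Matrix.mulVec_add, add_assoc, ← ih]
    simp only [ap, force_eq]
    by_cases h : x.1 < N
    · obtain ⟨a, ha⟩ := e.surj _ h
      rw [Nat.blt_eq.mpr h, sv_sc, ← ha]
      congr 1
      ext i
      simp [Matrix.mulVec, dotProduct, e.inj.eq_iff, mat, mul_comm]
    · have h2 : ∀ i, x.1 ≠ e.enc i := fun i h' => h (h' ▸ e.lt i)
      rw [Bool.eq_false_iff.2 fun h' => h (Nat.blt_eq.mp h')]
      simp only [h2, if_false]
      rw [show (fun _ : ι => (0 : K)) = 0 from rfl, Matrix.mulVec_zero, zero_add]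

theorem mat_nil : mat e K (fun _ => []) = 0 := rfl

theorem mat_sc (c : ℕ) (f g : ℕ → List (ℕ × ℕ)) :
    mat e K (fun j => sc c (f j) (g j)) = (c : K) • mat e K f + mat e K g := by
  ext i j; exact congrFun (sv_sc e c _ _) i

theorem mat_ap (f g g' : ℕ → List (ℕ × ℕ)) :
    mat e K (fun j => ap N f (g j) (g' j)) = mat e K f * mat e K g + mat e K g' := by
  ext i j; exact congrFun (sv_ap e f _ _) i

theorem mat_cons (f : ℕ → List (ℕ × ℕ)) : mat e K (fun j => (j, 1) :: f j) = 1 + mat e K f := by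
  ext i j; simp [mat, sv, e.inj.eq_iff, Matrix.one_apply, eq_comm]

theorem mem_of_mat {f : ℕ → List (ℕ × ℕ)} {i j : ι} (h : mat e K f i j ≠ 0) : ∃ x ∈ f (e.enc j), x.1 = e.enc i := by
  by_contra h'
  refine h (List.sum_eq_zero fun y hy => ?_)
  obtain ⟨x, hx, rfl⟩ := List.mem_map.1 hy
  exact if_neg fun h1 => h' ⟨x, hx, h1⟩

/-- entries of sparse matrices -/
def cnt3 (K : Type*) [Field K] (L : List (ℕ × ℕ × ℕ)) (a b : ℕ) : K :=
  (L.map fun p => if p.1 = a ∧ p.2.1 = b then (p.2.2 : K) else 0).sum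

theorem mat_en (a b : ℕ) (i j : ι) : mat e K (en a b 1) i j = cnt3 K [(a, b, 1)] (e.enc i) (e.enc j) := by
  by_cases h : e.enc j = b
  · simp [mat, sv, en, cnt3, h]
  · simp [mat, sv, en, cnt3, Bool.eq_false_iff.2 fun h' => h (Nat.eq_of_beq_eq_true h'), Ne.symm h]

/-- the list of entries -/
def lst (N : ℕ) (f : ℕ → List (ℕ × ℕ)) : List (ℕ × ℕ × ℕ) :=
  (List.range N).flatMap fun j => (f j).map fun x => (x.1, j, x.2)

theorem mat_eq_cnt {f : ℕ → List (ℕ × ℕ)} {L : List (ℕ × ℕ × ℕ)}
    (h : (L.filter fun x => x.2.2 != 0).isPerm (lst N f) = true) (i j : ι) :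
    mat e K f i j = cnt3 K L (e.enc i) (e.enc j) := by
  have h1 : cnt3 K L (e.enc i) (e.enc j) = cnt3 K (L.filter fun x => x.2.2 != 0) (e.enc i) (e.enc j) := by
    clear h
    induction L with
    | nil => rfl
    | cons x L ih => by_cases h : x.2.2 = 0 <;> simp_all [cnt3]
  rw [h1, cnt3, ((List.isPerm_iff.1 h).map _).sum_eq]
  simp only [lst, List.flatMap_def, List.map_flatten, List.sum_flatten, List.map_map, Function.comp_def]
  change _ = ∑ k ∈ Finset.range N, _
  rw [Finset.sum_eq_single (e.enc j)]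
  · simp [mat, sv]
  · intro k _ hk; simp [hk]
  · simp [e.lt]

/-- residues modulo three -/
def m3 (z : ℤ) : ℕ := (z % 3).toNat

theorem cf_m3 (h3 : (3 : K) = 0) (z : ℤ) : (m3 z : K) = z := by
  have h := Int.emod_add_mul_ediv z 3
  conv_rhs => rw [← h]
  rw [m3, ← Int.cast_natCast, Int.toNat_of_nonneg (by omega)]; simp [h3]

variable (D : ChevalleyDatum)

/-- the entries of `ad e_r` -/
def ents3 (r : ℕ) : List (ℕ × ℕ × ℕ) :=
  (List.range D.rank).map (fun i => (D.rank + r, i, m3 (-(D.cartanSR.getD i #[]).getD r 0))) ++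
  ((List.range D.rank).map (fun i => (i, D.rank + ng D r, m3 ((D.coroot.getD r #[]).getD i 0))) ++
  (D.chain.getD r #[]).toList.flatMap fun x => x.2.toList.map fun q => (D.rank + q.1, D.rank + x.1, m3 q.2))

/-- the chains have length one -/
def okRow3 (r : ℕ) : Bool := decide (ng D r ≠ r) &&
  (D.chain.getD r #[]).toList.all fun x => decide (x.2.size ≤ 1 ∧ x.1 ≠ r ∧ x.1 ≠ ng D r)

theorem sum_range_ite {M : Type*} [AddCommMonoid M] (n a : ℕ) (P : Prop) [Decidable P] (f : ℕ → M) :
    ((List.range n).map fun i => if i = a ∧ P then f i else 0).sum = if a < n ∧ P then f a else 0 := by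
  change ∑ i ∈ Finset.range n, _ = _
  by_cases h : P <;> simp [h]

theorem xMat_eq3 (h3 : (3 : K) = 0) (r : Fin D.nroots) (hr : okRow3 D r = true) {f : ℕ → List (ℕ × ℕ)}
    (hf : ((ents3 D r).filter fun x => x.2.2 != 0).isPerm (lst (dim D) f) = true) (t : K) : D.xMat K r t =
      1 + t • mat (enc D) K f - t ^ 2 • mat (enc D) K (en (D.rank + r) (D.rank + ng D r) 1) := by
  simp only [okRow3, Bool.and_eq_true, List.all_eq_true, decide_eq_true_eq] at hr
  obtain ⟨h4, h5⟩ := hr
  have key : ∀ a b, cnt3 K (ents3 D r) a b =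
      (if b < D.rank ∧ D.rank + r = a then -(((D.cartanSR.getD b #[]).getD r 0 : ℤ) : K) else 0) +
      ((if a < D.rank ∧ D.rank + ng D r = b then (((D.coroot.getD r #[]).getD a 0 : ℤ) : K) else 0) +
      ((D.chain.getD r #[]).toList.map fun x => (x.2.toList.map fun q =>
        if D.rank + q.1 = a ∧ D.rank + x.1 = b then (q.2 : K) else 0).sum).sum) := fun a b => by
    simp only [cnt3, ents3, List.map_append, List.sum_append, List.map_map, Function.comp_def, cf_m3 h3, Int.cast_neg,
      and_comm (a := D.rank + r = a), sum_range_ite, List.flatMap_def, List.sum_flatten,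
      List.map_flatten]
  have z : ∀ a b, (a < D.rank ∨ b < D.rank ∨ b = D.rank + r ∨ b = D.rank + ng D r) →
      ((D.chain.getD r #[]).toList.map fun x => (x.2.toList.map fun q =>
        if D.rank + q.1 = a ∧ D.rank + x.1 = b then (q.2 : K) else 0).sum).sum = 0 := fun a b h =>
    List.sum_eq_zero fun y hy => by
      obtain ⟨x, hx, rfl⟩ := List.mem_map.1 hy
      refine List.sum_eq_zero fun y hy => ?_
      obtain ⟨q, -, rfl⟩ := List.mem_map.1 hy
      have := h5 x hx
      exact if_neg (by omega)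
  ext i j
  have hE' : ∀ a b c d, cnt3 K [(a, b, 1)] c d = if a = c ∧ b = d then 1 else 0 := by simp [cnt3]
  simp only [Matrix.add_apply, Matrix.sub_apply, Matrix.smul_apply, smul_eq_mul, mat_en, mat_eq_cnt _ hf]
  rcases j with j | s <;> rcases i with i | u <;> simp only [enc_inl, enc_inr] <;>
    simp only [key, hE', xMat, Matrix.of_apply, Matrix.one_apply, Sum.inl.injEq, Sum.inr.injEq, reduceCtorEq, if_false]
  · have hj := j.2
    have hi := i.2
    rw [z _ _ (.inl hi), if_neg (c := _ ∧ _) (by omega), if_neg (c := _ ∧ _) (by omega),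
      if_neg (c := _ ∧ _) (by omega)]; simp
  · have hj := j.2
    rw [z _ _ (.inr (.inl hj)), if_neg (c := _ + u.1 < _ ∧ _) (by omega), if_neg (c := _ = _ ∧ _) (by omega)]
    by_cases h : u = r
    · subst h; simp [mul_comm]
    · have : ¬ (r : ℕ) = u := fun e => h (Fin.ext e).symm
      simp [h, this]
  · have hi := i.2
    rw [z _ _ (.inl hi), if_neg (c := _ + s.1 < _ ∧ _) (by omega), if_neg (c := _ = _ ∧ _) (by omega)]
    by_cases h : s = r
    · subst h; simp [h4]
    · by_cases h' : s.val = ng D r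
      · rw [if_neg h, if_pos (show s.val = D.negIdx.getD r 0 from h'), if_pos ⟨hi, by rw [h']⟩]; ring
      · rw [if_neg h, if_neg (show ¬ s.val = D.negIdx.getD r 0 from h'), if_neg (by omega)]; ring
  · rw [if_neg (c := _ + s.1 < _ ∧ _) (by omega), if_neg (c := _ + u.1 < _ ∧ _) (by omega)]
    by_cases h : s = r
    · subst h
      rw [z _ _ (.inr (.inr (.inl rfl))), if_neg (c := _ ∧ _) (by omega)]; simp
    · by_cases h' : s.val = ng D r
      · rw [if_neg h, if_pos (show s.val = D.negIdx.getD r 0 from h'), z _ _ (.inr (.inr (.inr (congrArg _ h'))))]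
        by_cases hu : u = s
        · simp [hu, Fin.ext_iff.not.1 (Ne.symm h)]
        · by_cases hu' : u = r
          · simp [hu', h', Ne.symm h]
          · have : ¬ (r : ℕ) = u := fun e => hu' (Fin.ext e).symm
            simp [hu, hu', this]
      · rw [if_neg h, if_neg (show ¬ s.val = D.negIdx.getD r 0 from h'), if_neg (c := _ ∧ _) (by omega)]
        simp only [zero_add, mul_zero, sub_zero, add_right_inj, chainCoeff]
        generalize (D.chain.getD r #[]).toList = L at h5
        induction L with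
        | nil => simp
        | cons x L ih =>
          have h6 := (h5 x List.mem_cons_self).1
          rw [List.map_cons, List.sum_cons, mul_add, ← ih fun y hy => h5 y (List.mem_cons_of_mem _ hy)]
          obtain ⟨a, ⟨_ | ⟨q, _ | _⟩⟩⟩ := x
          · by_cases h7 : a = s <;> simp [h7]
          · by_cases h7 : a = s <;> by_cases h8 : q.1 = u <;> simp [h7, h8, mul_comm]
          · simp at h6

end Cfsg.Agent.H6.Gs
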