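import Cfsg.Agent.H6.Gd

set_option autoImplicit false
set_option maxRecDepth 100000

namespace Cfsg.Agent.H6.Gs

open Cfsg.Agent.Chv

theorem cX4 : allIn 120 30 okX3 = true := by decide +kernel
theorem cN4 : allLt 240 (okN3 4) = true := by decide +kernel
theorem cX5 : allIn 150 30 okX3 = true := by decide +kernel
theorem cN5 : allLt 240 (okN3 5) = true := by decide +kernel

end Cfsg.Agent.H6.Gs
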