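import Cfsg.Agent.H6.Gb
import Cfsg.Agent.H6.Ge0
import Cfsg.Agent.H6.Ge1
import Cfsg.Agent.H6.Ge2
import Cfsg.Agent.H6.Ge3
import Cfsg.Agent.Chv.E8

/-!
The root subgroup system of the Chevalley group of type `E₈` in characteristic three.
-/

set_option autoImplicit false
set_option linter.unusedSectionVars false
set_option maxRecDepth 100000

namespace Cfsg.Agent.H6.Gs

open Cfsg.Agent.Chv Cfsg.Lie Cfsg.Agent.Chv.E8 Cfsg.Agent.H1.E8

section alg

variable {K : Type*} [Field K] {M : Type*} [Ring M] [Algebra K M]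

/-- the truncated exponential -/
def ex (X : M) : M := 1 + X - X * X

theorem ex_add (h3 : (3 : K) = 0) {X Y : M} (h : X * Y = Y * X) (h1 : X * X * Y = 0) (h2 : X * (Y * Y) = 0) :
    ex (X + Y) = ex X * ex Y := by
  have h4 : (3 : M) = 0 := by rw [← map_ofNat (algebraMap K M) 3, h3, map_zero]
  have h5 : X * X * (Y * Y) = 0 := by rw [← mul_assoc, h1, zero_mul]
  have : ex X * ex Y - ex (X + Y) = 3 * (X * Y) + (Y * X - X * Y) - X * X * Y - X * (Y * Y) + X * X * (Y * Y) := by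
    unfold ex; noncomm_ring
  rw [h4, h1, h2, h5, h] at this
  exact (sub_eq_zero.1 (this.trans (by simp))).symm

theorem ex_conj {n X Y : M} (h : n * X = Y * n) : n * ex X = ex Y * n := by
  simp only [ex, mul_add, add_mul, mul_sub, sub_mul, mul_one, one_mul, ← mul_assoc, h]
  rw [mul_assoc Y n, h, ← mul_assoc]

theorem ex_comm (h3 : (3 : K) = 0) {X Y Z : M} (h : X * Y - Y * X = Z) (h1 : X * Z = Z * X) (h2 : Z * (X * X) = 0) :
    ex X * Y = (Y + Z) * ex X := by
  have h4 : (3 : M) = 0 := by rw [← map_ofNat (algebraMap K M) 3, h3, map_zero]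
  have : ex X * Y - (Y + Z) * ex X = (X * Y - Y * X - Z) - X * (X * Y - Y * X - Z) - (X * Y - Y * X - Z) * X -
      (X * Z - Z * X) - 3 * (Z * X) + Z * (X * X) := by
    unfold ex; noncomm_ring
  rw [h4, h, h1, h2] at this
  exact sub_eq_zero.1 (this.trans (by simp))

end alg

theorem rt_eq (r : Fin 240) : R.rt r = rv r := funext (rt_apply r)

theorem okX (r : Fin 240) : okX3 r = true := by
  have := r.2
  rcases (by omega : r.1 < 30 ∨ (30 ≤ r.1 ∧ r.1 < 60) ∨ (60 ≤ r.1 ∧ r.1 < 90) ∨ (90 ≤ r.1 ∧ r.1 < 120) ∨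
    (120 ≤ r.1 ∧ r.1 < 150) ∨ (150 ≤ r.1 ∧ r.1 < 180) ∨ (180 ≤ r.1 ∧ r.1 < 210) ∨ (210 ≤ r.1 ∧ r.1 < 240)) with
    h | h | h | h | h | h | h | h
  exacts [allIn_spec cX0 r (Nat.zero_le _) h, allIn_spec cX1 r h.1 h.2, allIn_spec cX2 r h.1 h.2,
    allIn_spec cX3 r h.1 h.2, allIn_spec cX4 r h.1 h.2, allIn_spec cX5 r h.1 h.2, allIn_spec cX6 r h.1 h.2,
    allIn_spec cX7 r h.1 h.2]

theorem okN (i : Fin 8) (r : Fin 240) : okN3 i r = true := by
  refine (allLt_iff _ _).1 ?_ r r.2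
  fin_cases i
  exacts [cN0, cN1, cN2, cN3, cN4, cN5, cN6, cN7]

theorem wA_eq (r : ℕ) (k : (ℕ → List (ℕ × ℕ)) → Bool) : wA r k = k (cA' r) := by simp only [wA, force_eq, cA']

theorem B_rt (r : Fin 240) : B (R.rt r) (R.rt r) = 2 := by
  have := okX r
  simp only [okX3, wA_eq, Bool.and_eq_true, decide_eq_true_eq] at this
  rw [rt_eq]; exact this.1.1.1.2

theorem neg_val (r : Fin 240) : (R.neg r).1 = 239 - r := by
  have := okX r
  simp only [okX3, wA_eq, Bool.and_eq_true, Nat.beq_eq] at this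
  have h1 := this.1.1.1.1.2
  have h2 := r.2
  exact (by omega : ng chevE8 r = 239 - r)

theorem refl_eq (i : Fin 8) (v : L) : R.refl i v = rf (al i) v := by
  have : ∀ i j, R.cor i j = B (al i) (al j) := by decide +kernel
  change v - (R.cor i ⬝ᵥ v) • al i = _
  rw [rf, B_sum, dotProduct]
  simp only [this, mul_comm]

theorem rt_s (i : Fin 8) (r : Fin 240) : R.rt (R.s i r) = rf (al i) (R.rt r) := by rw [R.rt_s', refl_eq]

theorem B_wt (a b : chevE8.Idx) : B (R.wt a - R.wt b) (R.wt a - R.wt b) ≤ 8 := by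
  rcases R.idx a with h | ⟨r, rfl⟩ <;> rcases R.idx b with h' | ⟨s, rfl⟩
  · simp [h, h']
  · simp [h, B_rt s]
  · simp [h', B_rt r]
  · have := le_B (B_rt r) (B_rt s)
    change B (R.rt r - R.rt s) (R.rt r - R.rt s) ≤ 8
    simp only [B_sub_left, B_sub_right, B_rt r, B_rt s, B_comm (R.rt s) (R.rt r)]; omega

variable {K : Type*} [Field K]

theorem sh_zero {X : Matrix chevE8.Idx chevE8.Idx K} {v : L} (h : R.Sh X v) (hv : 8 < B v v) : X = 0 := by
  ext a b
  by_contra e
  have := B_wt a b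
  rw [h a b e, add_sub_cancel_left] at this
  omega

theorem sh_mul {X Y : Matrix chevE8.Idx chevE8.Idx K} {u v : L} (h : R.Sh X u) (h' : R.Sh Y v) :
    R.Sh (X * Y) (u + v) := fun a b e => by
  obtain ⟨k, h1, h2⟩ := RD.exists_mid e
  rw [h a k h1, h' k b h2]; abel

/-- the enumeration of the basis -/
def e8 : Enc chevE8.Idx 248 := enc chevE8

/-- `ad e_r` -/
noncomputable def adE (K : Type*) [Field K] (r : Fin 240) : Matrix chevE8.Idx chevE8.Idx K := mat e8 K (cA' r)

theorem sh_adE (r : Fin 240) : R.Sh (adE K r) (R.rt r) := fun a b e => by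
  have := okX r
  simp only [okX3, wA_eq, Bool.and_eq_true, allLt_iff, List.all_eq_true, force_eq, Nat.beq_eq, Nat.add_eq] at this
  obtain ⟨x, hx, h1⟩ := mem_of_mat e8 e
  funext j
  have h2 := congrArg (Nat.cast : ℕ → ℤ) (this.1.2 _ (e8.lt b) x hx j j.2)
  rw [Pi.add_apply, rt_apply]
  rw [h1] at h2
  push_cast at h2
  exact (by linarith : (wn chevE8 T (e8.enc a) j : ℤ) - 8 = wn chevE8 T (e8.enc b) j - 8 + (rn chevE8 T r j - 8))

variable (h3 : (3 : K) = 0)
include h3

theorem eq_of_two {X Y : Matrix chevE8.Idx chevE8.Idx K} (h : X + (((2 : ℕ) : K) • Y + 0) = 0) : X = Y := by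
  rwa [show ((2 : ℕ) : K) = -1 by push_cast; linear_combination h3, add_zero, neg_one_smul, add_neg_eq_zero] at h

theorem adE_sq (r : Fin 240) : adE K r * adE K r = mat e8 K (en (8 + r) (247 - r) 1) := by
  have := okX r
  simp only [okX3, wA_eq, Bool.and_eq_true] at this
  have h1 := mat_eq_zero e8 h3 this.2
  rw [mat_ap, mat_sc, mat_nil] at h1
  exact eq_of_two h3 h1

theorem xMat_ex (r : Fin 240) (t : K) : chevE8.xMat K r t = ex (t • adE K r) := by
  have := okX r
  simp only [okX3, wA_eq, Bool.and_eq_true, Nat.beq_eq] at this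
  rw [xMat_eq3 chevE8 h3 r this.1.1.1.1.1 this.1.1.2, ex, smul_mul_smul_comm, adE_sq h3, ← this.1.1.1.1.2, sq]
  rfl

theorem ex_add' (r : Fin 240) (t u : K) : ex ((t + u) • adE K r) = ex (t • adE K r) * ex (u • adE K r) := by
  have h1 : adE K r * adE K r * adE K r = 0 :=
    sh_zero (sh_mul (sh_mul (sh_adE r) (sh_adE r)) (sh_adE r)) (by simp [B_rt])
  rw [add_smul]
  refine ex_add h3 ?_ ?_ ?_ <;> simp [smul_smul, ← mul_assoc, h1, mul_comm]

/-- root elements -/
noncomputable def xU (r : Fin 240) (t : K) : Matrix.GeneralLinearGroup chevE8.Idx K :=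
  ⟨ex (t • adE K r), ex ((-t) • adE K r), by rw [← ex_add' h3]; simp [ex], by rw [← ex_add' h3]; simp [ex]⟩

theorem mat_cX (r : Fin 240) (c : ℕ) (hc : (c : K) * c = 1) : mat e8 K (cX r c) = ex ((c : K) • adE K r) := by
  rw [ex, smul_mul_smul_comm, hc, one_smul, adE_sq h3]
  refine (mat_cons e8 _).trans ?_
  rw [mat_sc, mat_sc, mat_nil, show ((2 : ℕ) : K) = -1 by push_cast; linear_combination h3]
  simp [adE, sub_eq_add_neg, add_assoc]

theorem nn_eq (i : Fin 8) : (nn R (xU h3) i : Matrix chevE8.Idx chevE8.Idx K) = mat e8 K (cN i) := by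
  have := (allLt_iff _ _).1 cW i i.2
  simp only [okW3, force_eq] at this
  have h1 := mat_eq_zero e8 h3 this
  have h2 : ((2 : ℕ) : K) = -1 := by push_cast; linear_combination h3
  rw [mat_ap, mat_ap, mat_sc, mat_nil, add_zero] at h1
  rw [← eq_of_two h3 h1]
  have h4 := mat_cX h3 (R.sim i) 1 (by simp)
  have h5 := mat_cX h3 (R.neg (R.sim i)) 2 (by rw [h2]; simp)
  rw [h2] at h5
  rw [Nat.cast_one] at h4
  exact (mul_assoc _ _ _).trans (congrArg₂ (· * ·) h4.symm (congrArg₂ (· * ·) h5.symm h4.symm))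

theorem nn_adE (i : Fin 8) : ∃ c : Fin 240 → K, (∀ r, c (R.neg r) * c r = 1) ∧ ∀ r,
    (nn R (xU h3) i : Matrix chevE8.Idx chevE8.Idx K) * adE K r = c r • adE K (R.s i r) * nn R (xU h3) i := by
  refine ⟨fun r => -(eta i r : K), fun r => ?_, fun r => ?_⟩ <;> have := okN i r <;>
    simp only [okN3, wA_eq, Bool.and_eq_true, force_eq, Nat.beq_eq] at this
  · have h1 : col 1 tS (240 * i + r) < 2 ^ 1 := col_lt _ _ _
    simp only [neg_val, ← this.1]
    rw [eta]
    interval_cases col 1 tS (240 * i + r) <;> push_cast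
    · simp
    · linear_combination h3
  · have h1 := mat_eq_zero e8 h3 this.2
    rw [mat_ap, mat_sc, mat_ap, mat_nil, add_zero, add_zero, add_eq_zero_iff_eq_neg] at h1
    rw [nn_eq, smul_mul_assoc, neg_smul]
    exact h1

/-- the commutators with `ad e_r` -/
def Rel (K : Type*) [Field K] (r : Fin 240) : Prop := ∀ s, (0 ≤ B (R.rt r) (R.rt s) →
  adE K r * adE K s = adE K s * adE K r) ∧ (B (R.rt r) (R.rt s) = -1 →
    ∃ γ, ∃ c : K, R.rt γ = R.rt r + R.rt s ∧ adE K r * adE K s - adE K s * adE K r = c • adE K γ)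

theorem rel_sim : Rel K 162 := fun s => by
  have := (allLt_iff _ _).1 cC s s.2
  have h2 : ((2 : ℕ) : K) = -1 := by push_cast; linear_combination h3
  simp only [okC3, wA_eq, Bool.or_eq_true, decide_eq_true_eq, ← rt_eq s] at this
  rw [show rv 162 = R.rt 162 from (rt_eq 162).symm] at this
  refine ⟨fun h => ?_, fun h => ⟨R.s 0 s, ?_⟩⟩
  · have h1 := this.resolve_left (by omega)
    rw [decide_eq_true h, cond_true] at h1
    have h4 := mat_eq_zero e8 h3 h1
    rw [mat_ap, mat_sc, mat_ap, mat_nil, add_zero (_ * _)] at h4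
    exact eq_of_two h3 h4
  · have h1 := this.resolve_left (by omega)
    have h5 : R.rt 162 = al 0 := R.rt_sim 0
    have h6 : R.rt (R.s 0 s) = R.rt 162 + R.rt s := by rw [rt_s, rf, ← h5, h]; simp [add_comm]
    rw [decide_eq_false (by omega), cond_false, Bool.or_eq_true] at h1
    rcases h1 with h1 | h1 <;> have h4 := mat_eq_zero e8 h3 h1 <;>
      rw [mat_ap, mat_sc, mat_ap, mat_sc, mat_nil, add_zero, add_zero, ← add_assoc, add_eq_zero_iff_eq_neg,
        ← neg_smul, h2, neg_one_smul, ← sub_eq_add_neg] at h4 <;> exact ⟨_, h6, h4⟩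

theorem Rel.s {r : Fin 240} (h : Rel K r) (i : Fin 8) : Rel K (R.s i r) := fun s => by
  obtain ⟨c, h1, h2⟩ := nn_adE h3 i
  obtain ⟨s, rfl⟩ := (R.sp i).surjective s
  change (0 ≤ B _ (R.rt (R.s i s)) → _ * adE K (R.s i s) = adE K (R.s i s) * _) ∧
    (B _ (R.rt (R.s i s)) = -1 → ∃ γ, ∃ c : K, _ = _ + R.rt (R.s i s) ∧
      _ * adE K (R.s i s) - adE K (R.s i s) * _ = _)
  generalize nn R (xU h3) i = n at h2
  have h4 : ∀ r s, n * (adE K r * adE K s) = (c r * c s) • (adE K (R.s i r) * adE K (R.s i s)) * n := fun r s => by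
    rw [← mul_assoc, h2, mul_assoc, h2, ← mul_assoc, smul_mul_smul_comm]
  have h5 : c r * c s ≠ 0 := mul_ne_zero (right_ne_zero_of_mul_eq_one (h1 r)) (right_ne_zero_of_mul_eq_one (h1 s))
  rw [rt_s, rt_s, B_rf (B_al i)]
  refine ⟨fun hB => ?_, fun hB => ?_⟩
  · have := h4 r s
    rw [(h s).1 hB, h4, Units.mul_left_inj, mul_comm (c s)] at this
    exact (smul_right_injective _ h5 this).symm
  · obtain ⟨γ, d, h6, h7⟩ := (h s).2 hB
    refine ⟨R.s i γ, (c r * c s)⁻¹ * (d * c γ), by rw [rt_s, h6, rf_add], ?_⟩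
    have := congrArg (n.1 * ·) h7
    simp only [mul_sub, h4, mul_smul_comm, h2] at this
    rw [← sub_mul, ← smul_mul_assoc d, Units.mul_left_inj, mul_comm (c s), ← smul_sub, smul_smul] at this
    rw [mul_smul, ← this, inv_smul_smul₀ h5]

theorem rel_all (r : Fin 240) : Rel K r := by
  induction h : col 8 tD r using Nat.strong_induction_on generalizing r with
  | _ m ih =>
    have := (allLt_iff _ _).1 cO r r.2
    simp only [Bool.or_eq_true, Bool.and_eq_true, Nat.beq_eq, Nat.blt_eq] at this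
    rcases this with h1 | ⟨h1, h2⟩
    · obtain rfl : r = 162 := Fin.ext h1
      exact rel_sim h3
    · simpa only [R.s_s] using (ih _ (h ▸ h2) (R.s ⟨_, h1⟩ r) rfl).s h3 ⟨_, h1⟩

/-- the root subgroup system -/
noncomputable def S3 : Sys R K where
  x := xU h3
  x_add r t u := Units.ext (ex_add' h3 r t u)
  x_wt r t i j e := by
    rw [show (xU h3 r t : Matrix chevE8.Idx chevE8.Idx K) - 1 = t • adE K r - (t * t) • (adE K r * adE K r) by
      simp [xU, ex, smul_smul, add_sub_assoc]] at e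
    by_cases e1 : adE K r i j = 0
    · exact ⟨2, by omega, by
        rw [two_nsmul]; exact sh_mul (K := K) (sh_adE r) (sh_adE r) i j fun e2 => e (by simp [e1, e2])⟩
    · exact ⟨1, le_rfl, by rw [one_nsmul]; exact sh_adE r i j e1⟩
  x_tor χ r t := by
    rw [mul_inv_eq_iff_eq_mul]
    refine Units.ext (ex_conj ?_)
    have := (sh_adE (K := K) r).tor χ
    rw [mul_comm _ t, mul_smul, ← this]
    simp [mul_assoc]
  n_mono i a b e := by
    rw [nn_eq] at e
    obtain ⟨x, hx, h1⟩ := mem_of_mat e8 e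
    rcases b with b | b
    · have h2 : Nat.blt (e8.enc (Sum.inl b)) 8 = true := Nat.blt_eq.mpr b.2
      have h4 : e8.enc a < 8 := by
        rw [cN, h2] at hx
        rcases List.mem_pair.1 hx with rfl | rfl
        exacts [h1 ▸ b.2, h1 ▸ i.2]
      rw [show R.wt (Sum.inl b) = 0 from wtF_inl b, map_zero]
      rcases a with a | a
      · exact wtF_inl a
      · exact absurd h4 (Nat.not_lt.2 (Nat.le_add_right _ _))
    · have h2 : Nat.blt (e8.enc (Sum.inr b)) 8 = false :=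
        Bool.eq_false_iff.2 fun h => absurd (Nat.blt_eq.mp h) (Nat.not_lt.2 (Nat.le_add_right _ _))
      rw [cN, h2] at hx
      rw [List.mem_singleton.1 hx] at h1
      obtain rfl : a = Sum.inr (R.s i b) := e8.inj (by
        rw [← h1]
        change 8 + sn chevE8 T i (8 + b - 8) = _
        rw [Nat.add_sub_cancel_left]; rfl)
      exact R.rt_s' i b
  n_conj i := by
    obtain ⟨c, h1, h2⟩ := nn_adE h3 i
    refine ⟨c, h1, fun r t => ?_⟩
    rw [mul_inv_eq_iff_eq_mul]
    exact Units.ext (ex_conj (by rw [mul_smul_comm, h2, ← smul_mul_assoc, smul_smul, mul_comm t]))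
  comm i r t u hr hi := by
    have h1 := le_B (B_rt (R.sim i)) (B_rt r)
    have hr' : xU h3 r u ∈ _ := Subgroup.subset_closure (k := {g | ∃ (γ : Fin 240) (v : K) (a b : ℕ), 1 ≤ b ∧
      R.rt γ = a • R.rt (R.sim i) + b • R.rt r ∧ g = xU h3 γ v}) ⟨r, u, 0, 1, le_rfl, by simp, rfl⟩
    rcases (by omega : 0 ≤ B (R.rt (R.sim i)) (R.rt r) ∨ B (R.rt (R.sim i)) (R.rt r) = -1 ∨
      B (R.rt (R.sim i)) (R.rt r) = -2) with h | h | h
    · have h2 := (rel_all h3 _ _).1 h
      rwa [show xU h3 (R.sim i) t * xU h3 r u = xU h3 r u * xU h3 (R.sim i) t from Units.ext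
        (ex_conj (ex_conj (by simp [h2, smul_smul, mul_comm])).symm), mul_inv_cancel_right]
    · obtain ⟨γ, c, h4, h5⟩ := (rel_all h3 _ _).2 h
      have h6 := (rel_all h3 (R.sim i) γ).1 (by simp [h4, B_rt, h])
      have h7 := (rel_all h3 r γ).1 (by simp [h4, B_rt, h, B_comm (R.rt r)])
      have z1 := sh_zero (sh_mul (sh_adE (K := K) γ) (sh_mul (sh_adE (R.sim i)) (sh_adE (R.sim i))))
        (by simp [h4, B_rt, h, B_comm (R.rt r)])
      have z2 := sh_zero (sh_mul (sh_mul (sh_adE (K := K) r) (sh_adE r)) (sh_adE γ))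
        (by simp [h4, B_rt, h, B_comm (R.rt r)])
      have z3 := sh_zero (sh_mul (sh_adE (K := K) r) (sh_mul (sh_adE γ) (sh_adE γ)))
        (by simp [h4, B_rt, h, B_comm (R.rt r)])
      rw [show xU h3 (R.sim i) t * xU h3 r u = xU h3 r u * xU h3 γ (t * u * c) * xU h3 (R.sim i) t from Units.ext (by
        refine (ex_conj (ex_comm h3 (Z := (t * u * c) • adE K γ) ?_ ?_ ?_)).trans (congrArg (· * _) (ex_add h3 ?_ ?_ ?_))
        · rw [mul_smul (t * u), ← h5]; simp [smul_smul, smul_sub, mul_comm]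
        all_goals simp [smul_smul, h6, h7, z1, z2, z3, mul_comm]), mul_inv_cancel_right]
      exact mul_mem hr' (Subgroup.subset_closure ⟨γ, _, 1, 1, le_rfl, by simp [h4], rfl⟩)
    · have h2 : r = R.neg (R.sim i) := R.ext ((eq_neg_of_B (B_rt _) (B_rt r) h).trans (R.rt_neg _).symm)
      exact absurd (R.pos_sim i) ((R.pos_neg_iff _).1 (h2 ▸ hr))

theorem S3_G : (S3 h3).G = chevE8.group K := by
  unfold Sys.G Sys.XS ChevalleyDatum.group
  congr 1
  ext g
  exact ⟨fun ⟨r, _, t, e⟩ => ⟨r, t, e ▸ (xMat_ex h3 r t).symm⟩,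
    fun ⟨r, t, e⟩ => ⟨r, trivial, t, Units.ext (e.trans (xMat_ex h3 r t))⟩⟩

end Cfsg.Agent.H6.Gs
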