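import Cfsg.Agent.H6.Gf

/-!
Characters of the root lattice of `E₈`: reduction to the alcove, tests for the multiset of values on the roots.
-/

set_option autoImplicit false
set_option maxRecDepth 100000

namespace Cfsg.Agent.H6.Gs

open Cfsg.Agent.Chv Cfsg.Agent.Chv.E8 Cfsg.Agent.H1.E8

attribute [-simp] zsmul_eq_mul

theorem exists_rt {v : L} (h : B v v = 2) : ∃ r, R.rt r = v := by
  have key : ∀ n : ℕ, ∀ v, B v v = 2 → Pos v → ht v = n → ∃ r, R.rt r = v := fun n => by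
    induction n using Nat.strong_induction_on with
    | _ n ih =>
      intro v h hp hn
      obtain ⟨i, -, hi⟩ := exists_pos_B h hp
      by_cases e : v = al i
      · exact ⟨R.sim i, e ▸ R.rt_sim i⟩
      have h1 := pos_rf h hp e
      have h2 : ht (rf (al i) v) = ht v - B v (al i) := by rw [rf, ht_sub, ht_smul, ht_al, B_comm, mul_one]
      have h3 := ht_nonneg h1
      obtain ⟨r, hr⟩ := ih (ht (rf (al i) v)).toNat (by omega) _ (by rw [B_rf (B_al i), h]) h1 (by omega)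
      exact ⟨R.s i r, by rw [rt_s, hr, rf_rf (B_al i)]⟩
  rcases pos_or_neg h with hp | hp
  · exact key _ v h hp (Int.toNat_of_nonneg (ht_nonneg hp)).symm
  · obtain ⟨r, hr⟩ := key _ (-v) (by simpa using h) hp (Int.toNat_of_nonneg (ht_nonneg hp)).symm
    exact ⟨R.neg r, (R.rt_neg r).trans (by rw [← RD.rt, hr, neg_neg])⟩

/-- isometries -/
def Iso (w : L ≃+ L) : Prop := ∀ u v, B (w u) (w v) = B u v

theorem Iso.perm {w : L ≃+ L} (h : Iso w) : ∃ π : Equiv.Perm (Fin 240), ∀ r, R.rt (π r) = w (R.rt r) := by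
  choose f hf using fun r => exists_rt ((h _ _).trans (B_rt r))
  exact ⟨Equiv.ofBijective f (Finite.injective_iff_bijective.1 fun r s e =>
    R.ext (w.injective (by rw [← hf, ← hf, e]))), hf⟩

/-- reflections -/
def rfE {r : L} (hr : B r r = 2) : L ≃+ L := ⟨⟨rf r, rf r, rf_rf hr, rf_rf hr⟩, rf_add r⟩

theorem hom_apply {A : Type*} [Ring A] (b : L →+ A) (v : L) : b v = ∑ j, v j * b (al j) := by
  conv_lhs => rw [pi_eq_sum_univ' v]
  simp only [map_sum, map_zsmul]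
  simp only [zsmul_eq_mul, al]

/-- the fundamental weights -/
def om : Fin 8 → L := ![![4, 5, 7, 10, 8, 6, 4, 2], ![5, 8, 10, 15, 12, 9, 6, 3], ![7, 10, 14, 20, 16, 12, 8, 4],
  ![10, 15, 20, 30, 24, 18, 12, 6], ![8, 12, 16, 24, 20, 15, 10, 5], ![6, 9, 12, 18, 15, 12, 8, 4],
  ![4, 6, 8, 12, 10, 8, 6, 3], ![2, 3, 4, 6, 5, 4, 3, 2]]

theorem alcove (p : ℕ) [NeZero p] (x : L →+ ZMod p) : ∃ w, Iso w ∧ ∃ a0 a1 a2 a3 a4 a5 a6 a7 : ℕ,
    2 * a0 + 3 * a1 + 4 * a2 + 6 * a3 + 5 * a4 + 4 * a5 + 3 * a6 + 2 * a7 ≤ p ∧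
      ∀ j, x (w (al j)) = ([a0, a1, a2, a3, a4, a5, a6, a7].getD j 0 : ℕ) := by
  have hp := NeZero.pos p
  obtain ⟨m, ⟨w, hw, v, hv, rfl⟩, hm⟩ := Int.exists_least_of_bdd
    (P := fun m => ∃ w, Iso w ∧ ∃ v, (∀ t, x (w t) = (B v t : ℤ)) ∧ m = 15 * B v v - p * ht v)
    ⟨-11 * p ^ 2, by
      rintro _ ⟨-, -, v, -, rfl⟩
      have h1 : ∀ v, B ![46, 68, 91, 135, 110, 84, 57, 29] v = ht v := fun v => by
        simp [B, ht, Fin.sum_univ_eight]; ring
      have := B_nonneg ((30 : ℤ) • v - (p : ℤ) • ![46, 68, 91, 135, 110, 84, 57, 29])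
      simp only [B_sub_left, B_sub_right, B_smul_left, B_smul_right, B_comm v ![46, 68, 91, 135, 110, 84, 57, 29], h1,
        show ht ![46, 68, 91, 135, 110, 84, 57, 29] = 620 by decide +kernel] at this
      nlinarith⟩
    ⟨_, .refl _, fun _ _ => rfl, ∑ i, ((x (al i)).val : ℤ) • om i, fun t => by
      have h1 : ∀ i j, B (om i) (al j) = if i = j then 1 else 0 := by decide +kernel
      have h2 : ∀ (f : Fin 8 → L) (v : L), B (∑ i, f i) v = ∑ i, B (f i) v := fun f v => by simp [Fin.sum_univ_eight]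
      rw [AddEquiv.refl_apply, hom_apply x, B_sum]
      simp [h1, h2], rfl⟩
  have step : ∀ r (hr : B r r = 2) (c : ℤ), 15 * B v v - p * ht v ≤
      15 * B (rf r v + (p * c) • r) (rf r v + (p * c) • r) - p * ht (rf r v + (p * c) • r) := fun r hr c =>
    hm _ ⟨(rfE hr).trans w, fun s t => (hw _ _).trans (B_rf hr s t), _, fun t => by
      rw [B_add_left, B_smul_left, ← B_rf hr, rf_rf hr]; simpa [rfE] using hv (rf r t), rfl⟩
  have h1 : ∀ j, 0 ≤ B (al j) v := fun j => by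
    have := step _ (B_al j) 0
    rw [mul_zero, zero_smul, add_zero, B_rf (B_al j), rf, ht_sub, ht_smul, ht_al] at this
    nlinarith
  have h2 : B (om 7) v ≤ p := by
    have hr : B (om 7) (om 7) = 2 := by decide +kernel
    have := step _ hr 1
    simp only [B_add_left, B_add_right, B_smul_left, B_smul_right, B_rf hr, hr, ht_add, ht_smul,
      show ht (om 7) = 29 by decide +kernel] at this
    simp only [rf, B_sub_left, B_sub_right, B_smul_left, B_smul_right, hr, ht_sub, ht_smul, B_comm v (om 7),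
      show ht (om 7) = 29 by decide +kernel] at this
    nlinarith
  choose a ha using fun j => Int.eq_ofNat_of_zero_le (h1 j)
  refine ⟨w, hw, a 0, a 1, a 2, a 3, a 4, a 5, a 6, a 7, ?_, fun j => ?_⟩
  · rw [B_comm, B_sum, Fin.sum_univ_eight] at h2
    simp only [B_comm v, ha] at h2
    simp [om] at h2
    omega
  · rw [hv, B_comm, ha]
    fin_cases j <;> simp

/-- the positive roots -/
def pos : List (List ℕ) := [[0, 0, 0, 0, 0, 0, 0, 1], [0, 0, 0, 0, 0, 0, 1, 0], [0, 0, 0, 0, 0, 0, 1, 1], [0, 0, 0, 0, 0, 1, 0, 0],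
  [0, 0, 0, 0, 0, 1, 1, 0], [0, 0, 0, 0, 0, 1, 1, 1], [0, 0, 0, 0, 1, 0, 0, 0], [0, 0, 0, 0, 1, 1, 0, 0],
  [0, 0, 0, 0, 1, 1, 1, 0], [0, 0, 0, 0, 1, 1, 1, 1], [0, 0, 0, 1, 0, 0, 0, 0], [0, 0, 0, 1, 1, 0, 0, 0],
  [0, 0, 0, 1, 1, 1, 0, 0], [0, 0, 0, 1, 1, 1, 1, 0], [0, 0, 0, 1, 1, 1, 1, 1], [0, 0, 1, 0, 0, 0, 0, 0],
  [0, 0, 1, 1, 0, 0, 0, 0], [0, 0, 1, 1, 1, 0, 0, 0], [0, 0, 1, 1, 1, 1, 0, 0], [0, 0, 1, 1, 1, 1, 1, 0],
  [0, 0, 1, 1, 1, 1, 1, 1], [0, 1, 0, 0, 0, 0, 0, 0], [0, 1, 0, 1, 0, 0, 0, 0], [0, 1, 0, 1, 1, 0, 0, 0],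
  [0, 1, 0, 1, 1, 1, 0, 0], [0, 1, 0, 1, 1, 1, 1, 0], [0, 1, 0, 1, 1, 1, 1, 1], [0, 1, 1, 1, 0, 0, 0, 0],
  [0, 1, 1, 1, 1, 0, 0, 0], [0, 1, 1, 1, 1, 1, 0, 0], [0, 1, 1, 1, 1, 1, 1, 0], [0, 1, 1, 1, 1, 1, 1, 1],
  [0, 1, 1, 2, 1, 0, 0, 0], [0, 1, 1, 2, 1, 1, 0, 0], [0, 1, 1, 2, 1, 1, 1, 0], [0, 1, 1, 2, 1, 1, 1, 1],
  [0, 1, 1, 2, 2, 1, 0, 0], [0, 1, 1, 2, 2, 1, 1, 0], [0, 1, 1, 2, 2, 1, 1, 1], [0, 1, 1, 2, 2, 2, 1, 0],
  [0, 1, 1, 2, 2, 2, 1, 1], [0, 1, 1, 2, 2, 2, 2, 1], [1, 0, 0, 0, 0, 0, 0, 0], [1, 0, 1, 0, 0, 0, 0, 0],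
  [1, 0, 1, 1, 0, 0, 0, 0], [1, 0, 1, 1, 1, 0, 0, 0], [1, 0, 1, 1, 1, 1, 0, 0], [1, 0, 1, 1, 1, 1, 1, 0],
  [1, 0, 1, 1, 1, 1, 1, 1], [1, 1, 1, 1, 0, 0, 0, 0], [1, 1, 1, 1, 1, 0, 0, 0], [1, 1, 1, 1, 1, 1, 0, 0],
  [1, 1, 1, 1, 1, 1, 1, 0], [1, 1, 1, 1, 1, 1, 1, 1], [1, 1, 1, 2, 1, 0, 0, 0], [1, 1, 1, 2, 1, 1, 0, 0],
  [1, 1, 1, 2, 1, 1, 1, 0], [1, 1, 1, 2, 1, 1, 1, 1], [1, 1, 1, 2, 2, 1, 0, 0], [1, 1, 1, 2, 2, 1, 1, 0],
  [1, 1, 1, 2, 2, 1, 1, 1], [1, 1, 1, 2, 2, 2, 1, 0], [1, 1, 1, 2, 2, 2, 1, 1], [1, 1, 1, 2, 2, 2, 2, 1],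
  [1, 1, 2, 2, 1, 0, 0, 0], [1, 1, 2, 2, 1, 1, 0, 0], [1, 1, 2, 2, 1, 1, 1, 0], [1, 1, 2, 2, 1, 1, 1, 1],
  [1, 1, 2, 2, 2, 1, 0, 0], [1, 1, 2, 2, 2, 1, 1, 0], [1, 1, 2, 2, 2, 1, 1, 1], [1, 1, 2, 2, 2, 2, 1, 0],
  [1, 1, 2, 2, 2, 2, 1, 1], [1, 1, 2, 2, 2, 2, 2, 1], [1, 1, 2, 3, 2, 1, 0, 0], [1, 1, 2, 3, 2, 1, 1, 0],
  [1, 1, 2, 3, 2, 1, 1, 1], [1, 1, 2, 3, 2, 2, 1, 0], [1, 1, 2, 3, 2, 2, 1, 1], [1, 1, 2, 3, 2, 2, 2, 1],
  [1, 1, 2, 3, 3, 2, 1, 0], [1, 1, 2, 3, 3, 2, 1, 1], [1, 1, 2, 3, 3, 2, 2, 1], [1, 1, 2, 3, 3, 3, 2, 1],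
  [1, 2, 2, 3, 2, 1, 0, 0], [1, 2, 2, 3, 2, 1, 1, 0], [1, 2, 2, 3, 2, 1, 1, 1], [1, 2, 2, 3, 2, 2, 1, 0],
  [1, 2, 2, 3, 2, 2, 1, 1], [1, 2, 2, 3, 2, 2, 2, 1], [1, 2, 2, 3, 3, 2, 1, 0], [1, 2, 2, 3, 3, 2, 1, 1],
  [1, 2, 2, 3, 3, 2, 2, 1], [1, 2, 2, 3, 3, 3, 2, 1], [1, 2, 2, 4, 3, 2, 1, 0], [1, 2, 2, 4, 3, 2, 1, 1],
  [1, 2, 2, 4, 3, 2, 2, 1], [1, 2, 2, 4, 3, 3, 2, 1], [1, 2, 2, 4, 4, 3, 2, 1], [1, 2, 3, 4, 3, 2, 1, 0],
  [1, 2, 3, 4, 3, 2, 1, 1], [1, 2, 3, 4, 3, 2, 2, 1], [1, 2, 3, 4, 3, 3, 2, 1], [1, 2, 3, 4, 4, 3, 2, 1],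
  [1, 2, 3, 5, 4, 3, 2, 1], [1, 3, 3, 5, 4, 3, 2, 1], [2, 2, 3, 4, 3, 2, 1, 0], [2, 2, 3, 4, 3, 2, 1, 1],
  [2, 2, 3, 4, 3, 2, 2, 1], [2, 2, 3, 4, 3, 3, 2, 1], [2, 2, 3, 4, 4, 3, 2, 1], [2, 2, 3, 5, 4, 3, 2, 1],
  [2, 2, 4, 5, 4, 3, 2, 1], [2, 3, 3, 5, 4, 3, 2, 1], [2, 3, 4, 5, 4, 3, 2, 1], [2, 3, 4, 6, 4, 3, 2, 1],
  [2, 3, 4, 6, 5, 3, 2, 1], [2, 3, 4, 6, 5, 4, 2, 1], [2, 3, 4, 6, 5, 4, 3, 1], [2, 3, 4, 6, 5, 4, 3, 2]]

/-- a list as a lattice vector -/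
def toL (l : List ℕ) : L := fun j => (l.getD j 0 : ℕ)

theorem sum_rt {M : Type*} [AddCommMonoid M] (f : L → M) :
    ∑ r, f (R.rt r) = (pos.map fun l => f (toL l) + f (-toL l)).sum := by
  have : (List.finRange 240).map R.rt = (pos.reverse.map fun l => -toL l) ++ pos.map toL := by decide +kernel
  rw [Fin.sum_univ_def, show (fun r => f (R.rt r)) = f ∘ R.rt from rfl, ← List.map_map, this, List.sum_map_add,
    List.map_append, List.sum_append, List.map_reverse, List.map_reverse, List.sum_reverse, add_comm]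
  simp only [List.map_map, Function.comp_def]

/-- the value on a root -/
def val (a l : List ℕ) : ℕ := a.getD 0 0 * l.getD 0 0 + a.getD 1 0 * l.getD 1 0 + a.getD 2 0 * l.getD 2 0 +
  a.getD 3 0 * l.getD 3 0 + a.getD 4 0 * l.getD 4 0 + a.getD 5 0 * l.getD 5 0 + a.getD 6 0 * l.getD 6 0 +
  a.getD 7 0 * l.getD 7 0

variable {N : ℕ}

/-- the values on the simple roots -/
def Has (x : L →+ ZMod N) (a : List ℕ) : Prop := ∀ j : Fin 8, x (al j) = (a.getD j 0 : ℕ)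

theorem Has.val {x : L →+ ZMod N} {a : List ℕ} (h : Has x a) (l : List ℕ) : x (toL l) = val a l := by
  rw [hom_apply, Fin.sum_univ_eight]
  simp only [h _, Gs.val, toL]
  push_cast
  simp only [mul_comm]
  rfl

theorem Has.sum [NeZero N] {x : L →+ ZMod N} {a : List ℕ} (h : Has x a) {M : Type*} [AddCommMonoid M] (f : ℕ → M)
    (c : ℕ) : ∑ r, f (c • x (R.rt r)).val =
      (pos.map fun l => f (c * Gs.val a l % N) + f ((N - 1) * c * Gs.val a l % N)).sum := by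
  rw [sum_rt fun v => f (c • x v).val]
  refine congrArg List.sum (List.map_congr_left fun l _ => ?_)
  rw [map_neg, h.val, ← ZMod.val_natCast, ← ZMod.val_natCast]
  simp [Nat.cast_sub (NeZero.pos N)]

/-- the multiset of values is invariant under multiplication by three -/
def Inv (x : L →+ ZMod N) : Prop :=
  ∀ (M : Type) [AddCommMonoid M] (f : ZMod N → M), ∑ r, f (3 • x (R.rt r)) = ∑ r, f (x (R.rt r))

/-- functions which are nonnegative on all simple modules -/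
def Far (q : ℕ) (Y : ZMod N → ℤ) : Prop :=
  ∀ b, 2 * b < q → 0 ≤ ∑ j ∈ Finset.range (2 * b + 1) with ¬ 3 ∣ (2 * b).choose j, Y (j - b)

/-- the multiset of values is that of a module -/
def Mod (q : ℕ) (x : L →+ ZMod N) : Prop := ∀ Y : ZMod N → ℤ, Far q Y → 0 ≤ 8 * Y 0 + ∑ r, Y (x (R.rt r))

theorem Iso.sum {w : L ≃+ L} (h : Iso w) {M : Type*} [AddCommMonoid M] (f : L → M) :
    ∑ r, f (w (R.rt r)) = ∑ r, f (R.rt r) := by
  obtain ⟨π, hπ⟩ := h.perm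
  simp only [← hπ]
  exact Equiv.sum_comp π fun r => f (R.rt r)

theorem Inv.comp {x : L →+ ZMod N} (h : Inv x) {w : L ≃+ L} (hw : Iso w) : Inv (x.comp w.toAddMonoidHom) :=
  fun M _ f => (hw.sum fun v => f (3 • x v)).trans ((h M f).trans (hw.sum fun v => f (x v)).symm)

theorem Mod.comp {q : ℕ} {x : L →+ ZMod N} (h : Mod q x) {w : L ≃+ L} (hw : Iso w) :
    Mod q (x.comp w.toAddMonoidHom) := fun Y hY => (h Y hY).trans_eq (congrArg _ (hw.sum fun v => Y (x v)).symm)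

/-- packed coordinates of the positive roots -/
def RR (P : List (List ℕ)) (j : ℕ) : ℕ := Nat.ofDigits 65536 (P.map fun l => l.getD j 0)

/-- packed values -/
def VV (P : List (List ℕ)) (a : List ℕ) : ℕ := a.getD 0 0 * RR P 0 + a.getD 1 0 * RR P 1 + a.getD 2 0 * RR P 2 +
  a.getD 3 0 * RR P 3 + a.getD 4 0 * RR P 4 + a.getD 5 0 * RR P 5 + a.getD 6 0 * RR P 6 + a.getD 7 0 * RR P 7

theorem VV_eq (P : List (List ℕ)) (a : List ℕ) : VV P a = Nat.ofDigits 65536 (P.map (val a)) := by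
  induction P with
  | nil => simp [VV, RR]
  | cons l P ih => simp only [List.map_cons, Nat.ofDigits_cons, ← ih, VV, RR, val]; ring

/-- sum over the digits -/
noncomputable def sumL (f : ℕ → ℕ) (V : ℕ) : ℕ :=
  Nat.rec 0 (fun i s => Nat.add s (f (Nat.mod (Nat.shiftRight V (Nat.mul 16 i)) 65536))) 120

theorem sumL_eq (f : ℕ → ℕ) {a : List ℕ} (ha : ∀ j < 8, a.getD j 0 < 400) :
    sumL f (VV pos a) = (pos.map fun l => f (val a l)).sum := by
  have h1 : ∀ l : List ℕ, (∀ d ∈ l, d < 65536) → ∑ i ∈ Finset.range l.length,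
      f (Nat.ofDigits 65536 l >>> (16 * i) % 65536) = (l.map f).sum := fun l hl => by
    induction l with
    | nil => rfl
    | cons d l ih =>
      have := hl d List.mem_cons_self
      rw [List.length_cons, Finset.sum_range_succ', List.map_cons, List.sum_cons,
        ← ih fun e he => hl e (List.mem_cons_of_mem _ he), add_comm, Nat.ofDigits_cons]
      congr 1
      · simp [Nat.mod_eq_of_lt this]
      · refine Finset.sum_congr rfl fun i _ => ?_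
        rw [mul_add, add_comm (16 * i), Nat.shiftRight_add, Nat.shiftRight_eq_div_pow _ (16 * 1)]
        congr 3
        omega
  have h2 : ∀ l ∈ pos, ∀ j < 8, l.getD j 0 ≤ 6 := by decide +kernel
  have h3 : ∀ n, (Nat.rec 0 (fun i s => Nat.add s (f (Nat.mod (Nat.shiftRight (VV pos a) (Nat.mul 16 i)) 65536))) n : ℕ) =
      ∑ i ∈ Finset.range n, f (VV pos a >>> (16 * i) % 65536) := fun n => by
    induction n with
    | zero => rfl
    | succ n ih => rw [Finset.sum_range_succ, ← ih]; rfl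
  rw [sumL, h3, VV_eq, show 120 = (pos.map (val a)).length by simp [pos], h1, List.map_map]
  · rfl
  · intro d hd
    obtain ⟨l, hl, rfl⟩ := List.mem_map.1 hd
    have h4 : ∀ j < 8, a.getD j 0 * l.getD j 0 ≤ 400 * 6 := fun j hj => Nat.mul_le_mul (ha j hj).le (h2 l hl j hj)
    have := h4 0; have := h4 1; have := h4 2; have := h4 3; have := h4 4; have := h4 5; have := h4 6; have := h4 7
    unfold val; omega

/-- the histogram -/
noncomputable def hist (N c V : ℕ) : ℕ := sumL (fun v => Nat.add (Nat.pow 256 (Nat.mod (Nat.mul c v) N))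
  (Nat.pow 256 (Nat.mod (Nat.mul (Nat.mul (N - 1) c) v) N))) V

theorem Inv.hist [NeZero N] {x : L →+ ZMod N} (h : Inv x) {a : List ℕ} (ha : Has x a) (ha' : ∀ j < 8, a.getD j 0 < 400) :
    Nat.beq (hist N 3 (VV pos a)) (hist N 1 (VV pos a)) = true := by
  have := h ℕ fun v => 256 ^ v.val
  rw [ha.sum, show (fun r => 256 ^ (x (R.rt r)).val) = fun r => 256 ^ (1 • x (R.rt r)).val by simp, ha.sum] at this
  rw [Gs.hist, Gs.hist, sumL_eq _ ha', sumL_eq _ ha', Nat.beq_eq]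
  exact this

theorem Inv.pow [Fact N.Prime] {x : L →+ ZMod N} (h : Inv x) {a : List ℕ} (ha : Has x a) {k : ℕ} (hk : Even k)
    (h2 : (2 : ZMod N) * (3 ^ k - 1) ≠ 0) : (pos.map fun l => val a l ^ k).sum % N = 0 := by
  have := h (ZMod N) fun v => v ^ k
  simp only [nsmul_eq_mul, mul_pow, ← Finset.mul_sum, sum_rt fun v => x v ^ k, map_neg, hk.neg_pow, ha.val,
    ← two_mul, List.sum_map_mul_left] at this
  rw [← Nat.dvd_iff_mod_eq_zero, ← ZMod.natCast_eq_zero_iff, Nat.cast_list_sum, List.map_map]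
  refine (mul_eq_zero.1 ?_).resolve_left h2
  simp only [Function.comp_def, Nat.cast_pow]
  linear_combination this

/-- a function given by a table -/
def tY (t M : ℕ) (v : ZMod N) : ℤ := (col 16 t v.val : ℤ) - M

/-- test with a function given by a table -/
noncomputable def neg (N t M V : ℕ) : Bool := Nat.blt (8 * col 16 t 0 +
  sumL (fun v => Nat.add (col 16 t (Nat.mod v N)) (col 16 t (Nat.mod (Nat.mul (N - 1) v) N))) V) (248 * M)

theorem Mod.neg [NeZero N] {q : ℕ} {x : L →+ ZMod N} (h : Mod q x) {a : List ℕ} (ha : Has x a)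
    (ha' : ∀ j < 8, a.getD j 0 < 400) {t M : ℕ} (hY : Far (N := N) q (tY t M)) : neg N t M (VV pos a) = false := by
  have h1 := h _ hY
  have h2 := ha.sum (col 16 t) 1
  simp only [one_smul, one_mul, mul_one] at h2
  simp only [tY, Finset.sum_sub_distrib, ← Nat.cast_sum, h2, ZMod.val_zero, Finset.sum_const, Finset.card_univ,
    Fintype.card_fin, nsmul_eq_mul] at h1
  rw [Gs.neg, sumL_eq _ ha', Bool.eq_false_iff, ne_eq, Nat.blt_eq]
  change ¬ _ + (pos.map fun l => col 16 t (val a l % N) + col 16 t ((N - 1) * val a l % N)).sum < _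
  omega

/-- a loop -/
noncomputable def all2 (n : ℕ) (p : ℕ → Bool) : Bool := Nat.rec true (fun k ih => Bool.rec false ih (p k)) n

theorem all2_spec {n : ℕ} {p : ℕ → Bool} (h : all2 n p = true) {k : ℕ} (hk : k < n) : p k = true := by
  induction n with
  | zero => omega
  | succ n ih =>
    have : all2 (n + 1) p = Bool.rec false (all2 n p) (p n) := rfl
    rw [this] at h
    cases e : p n <;> rw [e] at h
    · exact absurd h (by simp)
    · rcases Nat.lt_succ_iff_lt_or_eq.1 hk with h' | rfl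
      exacts [ih h h', e]

/-- sums over the binomial coefficients prime to three -/
noncomputable def go (a : ℕ) (g : ℕ → ℕ) (n : ℕ) : ℕ → ℕ → ℕ → ℕ :=
  Nat.rec (fun _ _ s => s) (fun _ ih j c s => force (Nat.div (Nat.mul c (Nat.sub a j)) (Nat.succ j)) fun c' =>
    force (Bool.rec (Nat.add s (g j)) s (Nat.beq (Nat.mod c 3) 0)) fun s' => force (Nat.succ j) fun j' => ih j' c' s') n

theorem go_eq (a : ℕ) (g : ℕ → ℕ) (n : ℕ) : ∀ j s, go a g n j (a.choose j) s =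
    s + ∑ i ∈ Finset.range n, if 3 ∣ a.choose (j + i) then 0 else g (j + i) := by
  induction n with
  | zero => exact fun _ _ => rfl
  | succ n ih =>
    intro j s
    have h1 : go a g (n + 1) j (a.choose j) s = go a g n (j + 1) (a.choose j * (a - j) / (j + 1))
        (Bool.rec (s + g j) s (Nat.beq (a.choose j % 3) 0)) := by simp only [go, force_eq]; rfl
    rw [h1, ← Nat.choose_succ_right_eq, Nat.mul_div_cancel _ j.succ_pos, ih, Finset.sum_range_succ', add_comm _ (ite ..),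
      ← add_assoc]
    congr 1
    · by_cases h : 3 ∣ a.choose j
      · simp [h, Nat.mod_eq_zero_of_dvd h]
      · simp [h, Bool.eq_false_iff.2 fun h' => h (Nat.dvd_of_mod_eq_zero (Nat.eq_of_beq_eq_true h'))]
    · simp only [add_assoc, add_comm 1]

/-- the check for `Far` -/
noncomputable def far (N t M b : ℕ) : Bool := force (2 * b) fun a => force ((N - 1) * b) fun o =>
  Nat.ble (go a (fun _ => M) (a + 1) 0 1 0) (go a (fun j => col 16 t (Nat.mod (Nat.add j o) N)) (a + 1) 0 1 0)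

theorem far_spec [NeZero N] {t M n q : ℕ} (h : all2 n (far N t M) = true) (hq : q ≤ 2 * n) :
    Far (N := N) q (tY t M) := fun b hb => by
  have := all2_spec h (show b < n by omega)
  have h0 := fun g => go_eq (2 * b) g (2 * b + 1) 0 0
  rw [Nat.choose_zero_right] at h0
  rw [far, force_eq, force_eq, h0, h0, Nat.ble_eq] at this
  have h1 : ∀ j : ℕ, ((j : ZMod N) - b).val = (j + (N - 1) * b) % N := fun j => by
    rw [← ZMod.val_natCast]; simp [Nat.cast_sub (NeZero.pos N), sub_eq_add_neg]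
  simp only [tY, h1, Finset.sum_sub_distrib, sub_nonneg, Finset.sum_filter, ite_not]
  simp only [zero_add] at this
  exact_mod_cast this

/-- coefficients of a linear relation -/
def tau (p : ℕ) (a : List ℕ) (g : ℕ → ℕ) (j : ℕ) : ℤ := (pos.map fun l => force (val a l) fun v =>
  force (l.getD j 0) fun c => cond (Nat.beq c 0) 0
    (((3 * g (3 * v % p) + g ((p - 1) * v % p) : ℕ) - (3 * g ((p - 1) * 3 * v % p) + g (v % p) : ℕ) : ℤ) * c)).sum

theorem Inv.lin {p m : ℕ} [NeZero p] (hp : p ∣ N) (hm : m ∣ N) {x : L →+ ZMod N} (h : Inv x) {a : List ℕ}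
    (ha : Has ((ZMod.castHom hp (ZMod p)).toAddMonoidHom.comp x) a) (g : ℕ → ℕ) :
    ∑ j : Fin 8, (tau p a g j : ZMod m) * ZMod.castHom hm (ZMod m) (x (al j)) = 0 := by
  have := h (ZMod m) fun v => g (ZMod.castHom hp (ZMod p) v).val * ZMod.castHom hm (ZMod m) v
  rw [← sub_eq_zero, ← Finset.sum_sub_distrib, sum_rt fun v => (g (ZMod.castHom hp (ZMod p) (3 • x v)).val : ZMod m) *
    ZMod.castHom hm (ZMod m) (3 • x v) - g (ZMod.castHom hp (ZMod p) (x v)).val * ZMod.castHom hm (ZMod m) (x v)] at this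
  rw [← this]
  simp only [tau, force_eq, Int.cast_list_sum, List.map_map, Function.comp_def, ← List.sum_map_mul_right]
  generalize pos = P
  induction P with
  | nil => simp
  | cons l P ih =>
    simp only [List.map_cons, List.sum_cons, Finset.sum_add_distrib, ih]
    congr 1
    have h1 : ZMod.castHom hp (ZMod p) (x (toL l)) = val a l := ha.val l
    have h2 : ∀ c : ℕ, (-(c : ZMod p)).val = (p - 1) * c % p := fun c => by
      rw [← ZMod.val_natCast]; simp [Nat.cast_sub (NeZero.pos p)]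
    have h3 : ZMod.castHom hm (ZMod m) (x (toL l)) = ∑ j, (toL l j : ZMod m) * ZMod.castHom hm (ZMod m) (x (al j)) :=
      hom_apply ((ZMod.castHom hm (ZMod m)).toAddMonoidHom.comp x) (toL l)
    have h4 : ∀ (c : ℕ) (z : ℤ), cond (Nat.beq c 0) 0 (z * c) = z * c := fun c z => by cases c; simp; rfl
    simp only [map_neg, smul_neg, map_nsmul, h1, h3]
    simp only [nsmul_eq_mul, ← Nat.cast_mul, h2, ZMod.val_natCast, h4, toL, mul_assoc]
    push_cast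
    simp only [Fin.sum_univ_eight]
    ring

end Cfsg.Agent.H6.Gs
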