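import Mathlib

/-!
Eigenvalues of semisimple elements on modules of `SL₂(q)` in the defining characteristic.
-/

set_option autoImplicit false
set_option linter.unusedSectionVars false

namespace Cfsg.Agent.H6.Gs

open Matrix Polynomial MatrixGroups Module

theorem charpoly_eq_mul {K V : Type*} [Field K] [AddCommGroup V] [Module K V] [Module.Finite K V] (W : Submodule K V)
    (e : V →ₗ[K] V) (he : W ≤ W.comap e) : e.charpoly = (e.restrict he).charpoly * (W.mapQ W e he).charpoly := by
  let bW := Module.Free.chooseBasis K W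
  let bQ := Module.Free.chooseBasis K (V ⧸ W)
  let b := Basis.sumQuot bW bQ
  suffices LinearMap.toMatrix b b e = Matrix.fromBlocks (LinearMap.toMatrix bW bW (e.restrict he))
      (Matrix.of fun i l => b.repr (e (b (Sum.inr l))) (Sum.inl i)) 0 (LinearMap.toMatrix bQ bQ (W.mapQ W e he)) by
    rw [← LinearMap.charpoly_toMatrix _ b, this, ← LinearMap.charpoly_toMatrix _ bW,
      ← LinearMap.charpoly_toMatrix _ bQ, Matrix.charpoly_fromBlocks_zero₂₁]
  ext u v
  rcases u with i | j <;> rcases v with k | l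
  · simp only [b, Basis.sumQuot_inl, Matrix.fromBlocks_apply₁₁, LinearMap.toMatrix_apply]
    apply Basis.sumQuot_repr_inl_of_mem
  · simp [LinearMap.toMatrix_apply]
  · suffices W.mkQ (e (bW k)) = 0 by simp [LinearMap.toMatrix_apply, b, this]
    rw [← LinearMap.mem_ker, Submodule.ker_mkQ]
    exact he (Submodule.coe_mem (bW k))
  · simp only [LinearMap.toMatrix_apply, Basis.sumQuot_repr_inr, Matrix.fromBlocks_apply₂₂, b]
    rw [← Basis.sumQuot_inr bW bQ l, W.mapQ_apply]
    simp

variable {F K : Type*} [Field F] [Fintype F] [Field K]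

theorem vdm {W : Type*} [AddCommGroup W] [Module K W] {z : F → K} (hz : Function.Injective z) {n : ℕ}
    (hn : n < Fintype.card F) {w : ℕ → W} {M : Submodule K W}
    (h : ∀ t, ∑ j ∈ Finset.range (n + 1), z t ^ j • w j ∈ M) {j : ℕ} (hj : j ≤ n) : w j ∈ M := by
  by_contra h1
  obtain ⟨f, h2, h3⟩ := Submodule.exists_dual_map_eq_bot_of_notMem h1 inferInstance
  have := eq_zero_of_natDegree_lt_card_of_eval_eq_zero (∑ j ∈ Finset.range (n + 1), monomial j (f (w j))) hz
    (fun t => by
      have := Submodule.mem_map_of_mem (f := f) (h t)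
      rw [h3, Submodule.mem_bot] at this
      simpa [eval_finsetSum, mul_comm] using this)
    (lt_of_le_of_lt (natDegree_sum_le_of_forall_le _ _ fun i hi =>
      (natDegree_monomial_le _).trans (Nat.lt_succ_iff.1 (Finset.mem_range.1 hi))) hn)
  have h4 := congrArg (coeff · j) this
  simp [coeff_monomial, hj, h2] at h4

variable (p : ℕ) [Fact p.Prime] [CharP F p] [CharP K p] [Finite K]

include p in
theorem exists_fix {W : Type*} [AddCommGroup W] [Module K W] [Module.Finite K W] [Nontrivial W]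
    (f : F → Module.End K W) (h0 : f 0 = 1) (h : ∀ t u, f (t + u) = f t * f u) : ∃ w, w ≠ 0 ∧ ∀ t, f t w = w := by
  let _ : MulAction (Multiplicative F) W :=
    { smul := fun t w => f t.toAdd w
      one_smul := fun w => LinearMap.congr_fun h0 w
      mul_smul := fun t u w => LinearMap.congr_fun (h _ _) w }
  have := Module.finite_of_finite K (M := W)
  obtain ⟨w, hw⟩ := exists_ne (0 : W)
  have h1 : IsPGroup p (Multiplicative F) := fun t => ⟨1, by
    rw [pow_one, ← ofAdd_toAdd t, ← ofAdd_nsmul, nsmul_eq_mul, CharP.cast_eq_zero, zero_mul]; rfl⟩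
  obtain ⟨b, hb, hb'⟩ := h1.exists_fixed_point_of_prime_dvd_card_of_fixed_point W (a := 0)
    (by
      rw [← addOrderOf_eq_prime (p := p) (x := w) (by rw [← Nat.cast_smul_eq_nsmul K, CharP.cast_eq_zero, zero_smul]) hw]
      exact addOrderOf_dvd_natCard w) fun t => map_zero (f t.toAdd)
  exact ⟨b, hb'.symm, fun t => hb (Multiplicative.ofAdd t)⟩

/-- elements of `SL₂` -/
def m2 (a b c d : F) (h : a * d - b * c = 1) : SL(2, F) := ⟨!![a, b; c, d], by rwa [det_fin_two_of]⟩

theorem coe_m2 (a b c d : F) (h : a * d - b * c = 1) : (m2 a b c d h : Matrix (Fin 2) (Fin 2) F) = !![a, b; c, d] := rfl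

/-- unipotent elements -/
def uu (t : F) : SL(2, F) := m2 1 t 0 1 (by simp)

/-- diagonal elements -/
def hh (a : Fˣ) : SL(2, F) := m2 a 0 0 (a⁻¹ : Fˣ) (by simp)

/-- the Weyl element -/
def ww : SL(2, F) := m2 0 (-1) 1 0 (by simp)

theorem ext2 {g g' : SL(2, F)} (h : g 0 0 = g' 0 0 ∧ g 0 1 = g' 0 1 ∧ g 1 0 = g' 1 0 ∧ g 1 1 = g' 1 1) : g = g' := by
  ext i j; fin_cases i <;> fin_cases j; exacts [h.1, h.2.1, h.2.2.1, h.2.2.2]

theorem uu_add (t u : F) : uu (t + u) = uu t * uu u := ext2 (by simp [uu, coe_m2, add_comm])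

theorem uu_zero : uu (0 : F) = 1 := ext2 (by simp [uu, coe_m2])

theorem det2 (g : SL(2, F)) : g 0 0 * g 1 1 - g 0 1 * g 1 0 = 1 := by rw [← det_fin_two]; exact g.2

variable [Algebra F K] {V : Type*} [AddCommGroup V] [Module K V] [Module.Finite K V] (ρ : Representation K SL(2, F) V)
include p

theorem exists_fun [Nontrivial V] : ∃ φ : Dual K V, φ ≠ 0 ∧ (∀ t v, φ (ρ (uu t) v) = φ v) ∧
    ∃ a < Fintype.card F - 1, ∀ c v, φ (ρ (hh c⁻¹) v) = algebraMap F K c ^ a * φ v := by
  classical
  obtain ⟨φ, h1, h2⟩ := exists_fix p (fun t : F => (ρ (uu t)).dualMap) (by rw [uu_zero, map_one]; rfl)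
    fun t u => by rw [add_comm, uu_add, map_mul]; rfl
  let ψ : ℕ → Dual K V := fun a => ∑ c : Fˣ, algebraMap F K c ^ a • (ρ (hh c)).dualMap φ
  have h3 : ∑ a ∈ Finset.range (Fintype.card F - 1), ψ a = -φ := by
    simp only [ψ]
    rw [Finset.sum_comm, Finset.sum_eq_single 1]
    · have : hh (1 : Fˣ) = 1 := ext2 (by simp [hh, coe_m2])
      rw [this, map_one, ← Finset.sum_smul]
      simp only [Units.val_one, map_one, one_pow, Finset.sum_const, Finset.card_range, nsmul_eq_mul, mul_one]
      rw [Nat.cast_sub Fintype.card_pos, ← map_natCast (algebraMap F K), FiniteField.cast_card_eq_zero]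
      ext; simp
    · intro c _ hc
      have h4 : algebraMap F K c ≠ 1 := fun h => hc (Units.ext ((algebraMap F K).injective (by simpa using h)))
      rw [← Finset.sum_smul, geom_sum_eq h4, ← map_pow, FiniteField.pow_card_sub_one_eq_one _ c.ne_zero]; simp
    · simp
  obtain ⟨a, ha, h4⟩ := Finset.exists_ne_zero_of_sum_ne_zero (h3 ▸ neg_ne_zero.2 h1)
  refine ⟨ψ a, h4, fun t v => ?_, a, Finset.mem_range.1 ha, fun c v => ?_⟩ <;>
    simp only [ψ, LinearMap.sum_apply, LinearMap.smul_apply, LinearMap.dualMap_apply, ← Module.End.mul_apply, ← map_mul]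
  · refine Finset.sum_congr rfl fun c _ => ?_
    rw [show hh c * uu t = uu (c * c * t) * hh c from ext2 (by simp [hh, uu, coe_m2, mul_right_comm]), map_mul]
    exact congrArg _ (LinearMap.congr_fun (h2 _) _)
  · rw [Finset.mul_sum, ← Equiv.sum_comp (Equiv.mulRight c)]
    refine Finset.sum_congr rfl fun d _ => ?_
    rw [show hh (Equiv.mulRight c d) * hh c⁻¹ = hh d from ext2 (by simp [hh, coe_m2, mul_right_comm])]
    simp [mul_pow, mul_assoc, mul_left_comm]

theorem exists_vec [Nontrivial V] (hs : ∀ W : Submodule K V, (∀ g, W ≤ W.comap (ρ g)) → W = ⊥ ∨ W = ⊤) :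
    ∃ φ : Dual K V, (∀ v, (∀ g, φ (ρ g v) = 0) → v = 0) ∧ ∃ a < Fintype.card F, ∃ v,
      ∀ g, φ (ρ g v) = algebraMap F K (g 1 0) ^ a := by
  classical
  obtain ⟨φ, h1, h2, a, ha, h3⟩ := exists_fun p ρ
  have inj : ∀ v, (∀ g, φ (ρ g v) = 0) → v = 0 := fun v hv => by
    rcases hs (⨅ g, LinearMap.ker (φ ∘ₗ ρ g)) fun g w hw => by
      simp only [Submodule.mem_comap, Submodule.mem_iInf, LinearMap.mem_ker, LinearMap.comp_apply] at hw ⊢
      intro g'; rw [← Module.End.mul_apply, ← map_mul, hw] with h | h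
    · exact (Submodule.mem_bot K).1 (h ▸ (Submodule.mem_iInf _).2 hv)
    · refine absurd (LinearMap.ext fun w => ?_) h1
      have := h.ge (Submodule.mem_top (x := w))
      simp only [Submodule.mem_iInf, LinearMap.mem_ker, LinearMap.comp_apply] at this
      simpa using this 1
  have key : ∀ v, (∀ t, ρ (uu t) v = v) → ∀ g, φ (ρ g v) = if g 1 0 = 0 then algebraMap F K (g 1 1) ^ a * φ v
      else algebraMap F K (g 1 0) ^ a * φ (ρ ww v) := fun v hv g => by
    have hd := det2 g
    split_ifs with h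
    · rw [h, mul_zero, sub_zero] at hd
      have : g = uu (g 0 1 * g 0 0) * hh (Units.mk0 _ (right_ne_zero_of_mul_eq_one hd))⁻¹ := ext2 (by
        simp [hh, uu, coe_m2, h, mul_assoc, eq_inv_of_mul_eq_one_left hd, right_ne_zero_of_mul_eq_one hd])
      conv_lhs => rw [this, map_mul, Module.End.mul_apply, h2, h3]
      rfl
    · have : g = uu (g 0 0 / g 1 0) * (hh (Units.mk0 _ h)⁻¹ * (ww * uu (g 1 1 / g 1 0))) := ext2 (by
        simp [hh, uu, ww, coe_m2]; field_simp; simp; linear_combination -hd)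
      conv_lhs => rw [this, map_mul, Module.End.mul_apply, h2, map_mul, Module.End.mul_apply, h3, map_mul,
        Module.End.mul_apply, hv]
      rfl
  have h0 := Fintype.one_lt_card (α := F)
  have key2 : ∀ v, (∀ t, ρ (uu t) v = v) → φ v = 0 → φ (ρ ww v) ≠ 0 → ∃ a < Fintype.card F, ∃ v,
      ∀ g, φ (ρ g v) = algebraMap F K (g 1 0) ^ a := fun v hv h4 h5 => by
    refine ⟨if a = 0 then Fintype.card F - 1 else a, by split_ifs <;> omega, (φ (ρ ww v))⁻¹ • v, fun g => ?_⟩
    rw [map_smul, map_smul, key v hv g, h4, smul_eq_mul]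
    split_ifs with h h' h'
    · rw [h, map_zero, zero_pow (by omega)]; simp
    · simp [h, h']
    · rw [← map_pow, ← map_pow, FiniteField.pow_card_sub_one_eq_one _ h, h']; simp [h5]
    · field_simp
  obtain ⟨v, hv, h4⟩ := exists_fix p (fun t : F => ρ (uu t)) (by rw [uu_zero, map_one]) fun t u => by
    rw [uu_add, map_mul]
  refine ⟨φ, inj, ?_⟩
  by_cases hA : φ v = 0
  · exact key2 v h4 hA fun h => hv (inj v fun g => by rw [key v h4, hA, h]; simp)
  by_cases hB : φ (ρ ww (∑ t, ρ (uu t) (ρ ww v))) = 0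
  · have k := key v h4
    generalize φ (ρ ww v) = β at k
    simp only [map_sum, ← Module.End.mul_apply, ← map_mul, k] at hB
    rw [← Finset.add_sum_erase _ _ (Finset.mem_univ 0), Finset.sum_congr rfl
      (g := fun t => algebraMap F K t ^ a * β) fun t ht => by simp [ww, uu, coe_m2, Finset.ne_of_mem_erase ht],
      ← Finset.sum_mul] at hB
    obtain rfl : a = 0 := by
      by_contra h5
      have := congrArg (algebraMap F K) (FiniteField.sum_pow_lt_card_sub_one F a ha)
      rw [← Finset.add_sum_erase _ _ (Finset.mem_univ 0), zero_pow h5, zero_add, map_sum] at this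
      simp only [map_pow, map_zero] at this
      simp [this, ww, uu, coe_m2, hA] at hB
    have h5 : β = φ v := by
      simp only [pow_zero, Finset.sum_const, Finset.card_erase_of_mem (Finset.mem_univ _), Finset.card_univ,
        nsmul_eq_mul, Nat.cast_sub h0.le, ← map_natCast (algebraMap F K), FiniteField.cast_card_eq_zero] at hB
      simp [ww, uu, coe_m2] at hB
      linear_combination -hB
    exact ⟨0, by omega, (φ v)⁻¹ • v, fun g => by simp [k, h5, hA]⟩
  · refine key2 _ (fun u => ?_) ?_ hB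
    · rw [map_sum, ← Equiv.sum_comp (Equiv.addLeft u) fun t => ρ (uu t) (ρ ww v)]
      simp [uu_add]
    · simp [h2, ← map_natCast (algebraMap F K), FiniteField.cast_card_eq_zero]

/-- eigenvectors in general position -/
structure Eig (s : SL(2, F)) (μ ν : K) (P : Matrix (Fin 2) (Fin 2) K) : Prop where
  eq : s.1.map (algebraMap F K) * P = P * !![μ, 0; 0, ν]
  det : P 0 0 * P 1 1 - P 0 1 * P 1 0 ≠ 0
  h1 : ∀ t, algebraMap F K t * P 0 1 + P 1 1 ≠ 0
  h2 : ∀ t, P 0 0 - algebraMap F K t * P 1 0 ≠ 0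

theorem simple_charpoly [Nontrivial V] (hs : ∀ W : Submodule K V, (∀ g, W ≤ W.comap (ρ g)) → W = ⊥ ∨ W = ⊤)
    {s : SL(2, F)} {μ ν : K} {P : Matrix (Fin 2) (Fin 2) K} (h : Eig s μ ν P) :
    ∃ a < Fintype.card F, (ρ (-1) = 1 → (-1 : K) ^ a = 1) ∧ (ρ s).charpoly =
      ∏ j ∈ Finset.range (a + 1) with ¬ p ∣ a.choose j, (X - C (μ ^ j * ν ^ (a - j))) := by
  classical
  obtain ⟨φ, inj, a, ha, v, hv⟩ := exists_vec p ρ hs
  refine ⟨a, ha, fun h1 => ?_, ?_⟩
  · have := hv (ww * -1)
    rw [map_mul, h1, mul_one, hv] at this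
    simpa [ww, coe_m2] using this.symm
  let Φ : V →ₗ[K] SL(2, F) → K := LinearMap.pi fun g => φ ∘ₗ ρ g
  have hΦ : Function.Injective Φ := (injective_iff_map_eq_zero _).2 fun w hw => inj w (congrFun hw)
  let l : Fin 2 → SL(2, F) → K := fun i g => algebraMap F K (g 1 0) * P 0 i + algebraMap F K (g 1 1) * P 1 i
  let m : ℕ → SL(2, F) → K := fun j g => l 0 g ^ j * l 1 g ^ (a - j)
  let D := P 0 0 * P 1 1 - P 0 1 * P 1 0
  let x : SL(2, F) → K := fun g => (P 1 1 * algebraMap F K (g 0 0) - P 0 1 * algebraMap F K (g 1 0)) / D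
  let y : SL(2, F) → K := fun g => (P 0 0 * algebraMap F K (g 1 0) - P 1 0 * algebraMap F K (g 0 0)) / D
  have hD : D ≠ 0 := h.det
  have h1 : ∀ g, Φ (ρ g v) = ∑ j ∈ Finset.range (a + 1), (x g ^ j * y g ^ (a - j) * a.choose j) • m j := fun g => by
    ext g'
    have : algebraMap F K ((g' * g) 1 0) = x g * l 0 g' + y g * l 1 g' := by
      simp only [x, y, l, Matrix.SpecialLinearGroup.coe_mul, mul_apply, Fin.sum_univ_two, map_add, map_mul]
      field_simp
      ring
    change φ ((ρ g' * ρ g) v) = _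
    rw [← map_mul, hv, this, add_pow, Finset.sum_apply]
    exact Finset.sum_congr rfl fun j _ => by simp only [m, Pi.smul_apply, smul_eq_mul, mul_pow]; ring
  let J := (Finset.range (a + 1)).filter fun j => ¬ p ∣ a.choose j
  have h2 : ∀ j : J, ∃ b, Φ b = m j := fun j => by
    obtain ⟨h3, h4⟩ := Finset.mem_filter.1 j.2
    let g : F → SL(2, F) := fun t => m2 t (-1) 1 0 (by simp)
    have hy : ∀ t, y (g t) ≠ 0 := fun t => div_ne_zero (by simpa [g, coe_m2, mul_comm] using h.h2 t) hD
    have := vdm (z := fun t => x (g t) / y (g t)) (fun t u e => (algebraMap F K).injective (by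
        rw [div_eq_div_iff (hy t) (hy u)] at e
        simp [x, y, g, coe_m2] at e
        field_simp at e
        exact mul_left_cancel₀ hD (by linear_combination e))) ha (w := fun j => (a.choose j : K) • m j)
      (M := LinearMap.range Φ) (fun t => ⟨(y (g t) ^ a)⁻¹ • ρ (g t) v, by
        rw [map_smul, h1, Finset.smul_sum]
        refine Finset.sum_congr rfl fun j hj => ?_
        have := hy t
        rw [smul_smul, smul_smul, pow_sub₀ _ this (Nat.lt_succ_iff.1 (Finset.mem_range.1 hj))]
        generalize y (g t) = c, x (g t) = d at this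
        congr 1
        beta_reduce
        rw [div_pow]
        field_simp⟩) (Nat.lt_succ_iff.1 (Finset.mem_range.1 h3))
    exact (Submodule.smul_mem_iff _ ((CharP.cast_eq_zero_iff K p _).not.2 h4)).1 this
  choose b hb using h2
  have h3 : LinearIndependent K b := by
    refine LinearIndependent.of_comp Φ (Fintype.linearIndependent_iff.2 fun c hc j => ?_)
    let g : F → SL(2, F) := fun t => m2 1 0 t 1 (by simp)
    have hy : ∀ t, l 1 (g t) ≠ 0 := fun t => by simpa [l, g, coe_m2] using h.h1 t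
    have := vdm (z := fun t => l 0 (g t) / l 1 (g t)) (fun t u e => (algebraMap F K).injective (by
        rw [div_eq_div_iff (hy t) (hy u)] at e
        simp [l, g, coe_m2] at e
        exact mul_left_cancel₀ hD (by linear_combination e))) ha
      (w := fun j => if h : j ∈ J then c ⟨j, h⟩ else 0) (M := ⊥) (fun t => by
        have h4 := congrFun hc (g t)
        simp only [Finset.sum_apply, Function.comp, hb, Pi.smul_apply, smul_eq_mul, Pi.zero_apply] at h4
        rw [Submodule.mem_bot, ← Finset.sum_subset (Finset.filter_subset (fun j => ¬ p ∣ a.choose j) _)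
          fun j _ hj => by rw [dif_neg hj, smul_zero], ← Finset.sum_coe_sort, ← zero_div (l 1 (g t) ^ a), ← h4,
          Finset.sum_div]
        refine Finset.sum_congr rfl fun j _ => ?_
        simp only [m]
        rw [dif_pos j.2, smul_eq_mul, div_pow, pow_sub₀ _ (hy t)
          (Nat.lt_succ_iff.1 (Finset.mem_range.1 (Finset.mem_filter.1 j.2).1))]
        have := hy t
        field_simp
        rfl) (Nat.lt_succ_iff.1 (Finset.mem_range.1 (Finset.mem_filter.1 j.2).1))
    rwa [dif_pos j.2, Submodule.mem_bot] at this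
  have h4 : ⊤ ≤ Submodule.span K (Set.range b) := by
    have h5 : Submodule.span K (Set.range fun g => ρ g v) = ⊤ := (hs _ fun g => Submodule.span_le.2 (by
      rintro _ ⟨g', rfl⟩
      exact Submodule.subset_span ⟨g * g', by simp⟩)).resolve_left fun e => by
        have := hv ww
        rw [(Submodule.span_eq_bot.1 e) (ρ ww v) ⟨ww, rfl⟩] at this
        simp [ww, coe_m2] at this
    rw [← h5, Submodule.span_le]
    rintro _ ⟨g, rfl⟩
    have : ρ g v = ∑ j : J, (x g ^ j.1 * y g ^ (a - j) * a.choose j) • b j := hΦ (by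
      simp only [h1, map_sum, map_smul, hb]
      rw [Finset.sum_coe_sort J fun j => (x g ^ j * y g ^ (a - j) * a.choose j) • m j]
      refine (Finset.sum_subset (Finset.filter_subset _ _) fun j hj hj' => ?_).symm
      rw [(CharP.cast_eq_zero_iff K p _).2 (by simpa [Finset.mem_filter, hj] using hj'), mul_zero, zero_smul])
    change ρ g v ∈ _
    rw [this]
    exact Submodule.sum_mem _ fun j _ => Submodule.smul_mem _ _ (Submodule.subset_span ⟨j, rfl⟩)
  have h5 : ∀ j, ρ s (b j) = (μ ^ j.1 * ν ^ (a - j)) • b j := fun j => hΦ (funext fun g => by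
    have e1 := congrFun₂ h.eq
    have e2 : ∀ i, l i (g * s) = !![μ, 0; 0, ν] i i * l i g := fun i => by
      have e3 := e1 0 i
      have e4 := e1 1 i
      simp only [l, Matrix.SpecialLinearGroup.coe_mul, mul_apply, Fin.sum_univ_two, map_add, map_mul, map_apply] at e3 e4 ⊢
      fin_cases i <;> simp at e3 e4 ⊢ <;>
        linear_combination algebraMap F K (g 1 0) * e3 + algebraMap F K (g 1 1) * e4
    change φ ((ρ g * ρ s) (b j)) = _
    rw [← map_mul, map_smul, hb]
    refine (congrFun (hb j) (g * s)).trans ?_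
    simp [m, e2, mul_pow]; ring)
  rw [← LinearMap.charpoly_toMatrix _ (Basis.mk h3 h4), show LinearMap.toMatrix (Basis.mk h3 h4) (Basis.mk h3 h4) (ρ s) =
    diagonal fun j : J => μ ^ j.1 * ν ^ (a - j) from Matrix.ext fun i j => by
      rw [LinearMap.toMatrix_apply, Basis.mk_apply, h5, ← Basis.mk_apply h3 h4, map_smul, Basis.repr_self]
      simp [diagonal_apply, Finsupp.single_apply, eq_comm]; split_ifs with e <;> simp [e], charpoly_diagonal]
  exact Finset.prod_coe_sort J fun j => X - C (μ ^ j * ν ^ (a - j))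

theorem sum_roots_nonneg {s : SL(2, F)} {μ ν : K} {P : Matrix (Fin 2) (Fin 2) K} (h : Eig s μ ν P) (y : K → ℤ)
    (hy : ∀ a < Fintype.card F, (-1 : K) ^ a = 1 →
      0 ≤ ∑ j ∈ Finset.range (a + 1) with ¬ p ∣ a.choose j, y (μ ^ j * ν ^ (a - j)))
    (h1 : ρ (-1) = 1) : 0 ≤ ((ρ s).charpoly.roots.map y).sum := by
  induction hn : finrank K V using Nat.strong_induction_on generalizing V with
  | _ n ih =>
    rcases subsingleton_or_nontrivial V with h0 | h0
    · rw [(LinearMap.charpoly_monic _).natDegree_eq_zero.1 (by rw [LinearMap.charpoly_natDegree, finrank_zero_of_subsingleton])]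
      simp
    by_cases hs : ∀ W : Submodule K V, (∀ g, W ≤ W.comap (ρ g)) → W = ⊥ ∨ W = ⊤
    · obtain ⟨a, ha, h2, h3⟩ := simple_charpoly p ρ hs h
      rw [h3, Finset.prod, show (fun j => X - C (μ ^ j * ν ^ (a - j))) =
        (fun z => X - C z) ∘ fun j => μ ^ j * ν ^ (a - j) from rfl, ← Multiset.map_map, roots_multiset_prod_X_sub_C,
        Multiset.map_map]
      exact hy a ha (h2 h1)
    push Not at hs
    obtain ⟨W, hW, h2, h3⟩ := hs
    have h4 := W.finrank_quotient_add_finrank
    have h5 := Submodule.finrank_lt h3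
    have h6 := Submodule.one_le_finrank_iff.2 h2
    rw [charpoly_eq_mul W _ (hW s), roots_mul (mul_ne_zero (LinearMap.charpoly_monic _).ne_zero
      (LinearMap.charpoly_monic _).ne_zero), Multiset.map_add, Multiset.sum_add]
    exact add_nonneg (ih _ (by omega) (ρ.subrepresentation W hW) (by ext; simp [Representation.subrepresentation, h1]) rfl)
      (ih _ (by omega) (ρ.quotient W hW) (by ext; simp [Representation.quotient, h1]) rfl)

end Cfsg.Agent.H6.Gs
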