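import Cfsg.Agent.H6.Go

/-! Computations for the semisimple elements of `E₈(3)`. -/

set_option Elab.async false
set_option maxRecDepth 100000

namespace Cfsg.Agent.H6.Gs

open Cfsg.Agent.Chv

theorem e73_0 : allIn 0 1 (enu 73 lf73) = true := by decide +kernel
theorem e73_1 : allIn 1 1 (enu 73 lf73) = true := by decide +kernel
theorem e73_2 : allIn 2 2 (enu 73 lf73) = true := by decide +kernel
theorem e73_3 : allIn 4 9 (enu 73 lf73) = true := by decide +kernel
theorem e73_4 : allIn 13 1 (enu 73 lf73) = true := by decide +kernel
theorem e73_5 : allIn 14 1 (enu 73 lf73) = true := by decide +kernel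

end Cfsg.Agent.H6.Gs
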