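import Cfsg.Agent.H6.Gp0

/-! Computations for the semisimple elements of `E₈(3)`. -/

set_option Elab.async false
set_option maxRecDepth 100000

namespace Cfsg.Agent.H6.Gs

open Cfsg.Agent.Chv

theorem e73_6 : allIn 15 11 (enu 73 lf73) = true := by decide +kernel
theorem e73_7 : allIn 26 1 (enu 73 lf73) = true := by decide +kernel
theorem e73_8 : allIn 27 12 (enu 73 lf73) = true := by decide +kernel
theorem e73_9 : allIn 39 3 (enu 73 lf73) = true := by decide +kernel
theorem e73_10 : allIn 42 23 (enu 73 lf73) = true := by decide +kernel
theorem e73_11 : allIn 65 130 (enu 73 lf73) = true := by decide +kernel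
theorem e73_12 : allIn 195 1 (enu 73 lf73) = true := by decide +kernel

end Cfsg.Agent.H6.Gs
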