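import Cfsg.Agent.H6.Gp1

/-! Computations for the semisimple elements of `E₈(3)`. -/

set_option Elab.async false
set_option maxRecDepth 100000

namespace Cfsg.Agent.H6.Gs

open Cfsg.Agent.Chv

theorem e73_13 : allIn 196 1 (enu 73 lf73) = true := by decide +kernel
theorem e73_14 : allIn 197 11 (enu 73 lf73) = true := by decide +kernel
theorem e73_15 : allIn 208 1 (enu 73 lf73) = true := by decide +kernel
theorem e73_16 : allIn 209 3 (enu 73 lf73) = true := by decide +kernel
theorem e73_17 : allIn 212 11 (enu 73 lf73) = true := by decide +kernel
theorem e73_18 : allIn 223 13 (enu 73 lf73) = true := by decide +kernel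

end Cfsg.Agent.H6.Gs
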