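import Cfsg.Agent.H6.Go

/-! Computations for the semisimple elements of `E₈(3)`. -/

set_option Elab.async false
set_option maxRecDepth 100000

namespace Cfsg.Agent.H6.Gs

open Cfsg.Agent.Chv

theorem e73_19 : allIn 236 37 (enu 73 lf73) = true := by decide +kernel
theorem e73_20 : allIn 273 117 (enu 73 lf73) = true := by decide +kernel
theorem e73_21 : allIn 390 1 (enu 73 lf73) = true := by decide +kernel
theorem e73_22 : allIn 391 3 (enu 73 lf73) = true := by decide +kernel
theorem e73_23 : allIn 394 10 (enu 73 lf73) = true := by decide +kernel
theorem e73_24 : allIn 404 12 (enu 73 lf73) = true := by decide +kernel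
theorem e73_25 : allIn 416 13 (enu 73 lf73) = true := by decide +kernel

end Cfsg.Agent.H6.Gs
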