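import Cfsg.Agent.H6.Gp3

/-! Computations for the semisimple elements of `E₈(3)`. -/

set_option Elab.async false
set_option maxRecDepth 100000

namespace Cfsg.Agent.H6.Gs

open Cfsg.Agent.Chv

theorem e73_26 : allIn 429 39 (enu 73 lf73) = true := by decide +kernel
theorem e73_27 : allIn 468 118 (enu 73 lf73) = true := by decide +kernel
theorem e73_28 : allIn 586 12 (enu 73 lf73) = true := by decide +kernel
theorem e73_29 : allIn 598 13 (enu 73 lf73) = true := by decide +kernel
theorem e73_30 : allIn 611 26 (enu 73 lf73) = true := by decide +kernel
theorem e73_31 : allIn 637 144 (enu 73 lf73) = true := by decide +kernel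
theorem e73_32 : allIn 781 13 (enu 73 lf73) = true := by decide +kernel

end Cfsg.Agent.H6.Gs
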