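import Cfsg.Agent.H6.Gp4

/-! Computations for the semisimple elements of `E₈(3)`. -/

set_option Elab.async false
set_option maxRecDepth 100000

namespace Cfsg.Agent.H6.Gs

open Cfsg.Agent.Chv

theorem e73_33 : allIn 794 39 (enu 73 lf73) = true := by decide +kernel
theorem e73_34 : allIn 833 155 (enu 73 lf73) = true := by decide +kernel
theorem e73_35 : allIn 988 182 (enu 73 lf73) = true := by decide +kernel
theorem e73_36 : allIn 1170 54 (enu 73 lf73) = true := by decide +kernel
theorem e73_37 : allIn 1224 195 (enu 73 lf73) = true := by decide +kernel
theorem e73_38 : allIn 1419 168 (enu 73 lf73) = true := by decide +kernel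
theorem e73_39 : allIn 1587 195 (enu 73 lf73) = true := by decide +kernel
theorem e73_40 : allIn 1782 195 (enu 73 lf73) = true := by decide +kernel
theorem e73_41 : allIn 1977 195 (enu 73 lf73) = true := by decide +kernel
theorem e73_42 : allIn 2172 195 (enu 73 lf73) = true := by decide +kernel
theorem e73_43 : allIn 2367 195 (enu 73 lf73) = true := by decide +kernel
theorem e73_44 : allIn 2562 195 (enu 73 lf73) = true := by decide +kernel
theorem e73_45 : allIn 2757 195 (enu 73 lf73) = true := by decide +kernel
theorem e73_46 : allIn 2952 195 (enu 73 lf73) = true := by decide +kernel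
theorem e73_47 : allIn 3147 195 (enu 73 lf73) = true := by decide +kernel
theorem e73_48 : allIn 3342 195 (enu 73 lf73) = true := by decide +kernel
theorem e73_49 : allIn 3537 168 (enu 73 lf73) = true := by decide +kernel

end Cfsg.Agent.H6.Gs
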