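import Cfsg.Agent.H6.Go

/-! Computations for the semisimple elements of `E₈(3)`. -/

set_option Elab.async false
set_option maxRecDepth 100000

namespace Cfsg.Agent.H6.Gs

open Cfsg.Agent.Chv

theorem c121_0 : ck121 0 = true := by decide +kernel
theorem c121_1 : ck121 1 = true := by decide +kernel
theorem c121_2 : ck121 2 = true := by decide +kernel
theorem c121_3 : ck121 3 = true := by decide +kernel

end Cfsg.Agent.H6.Gs
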