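import Cfsg.Agent.H6.Gq0

/-! Computations for the semisimple elements of `E₈(3)`. -/

set_option Elab.async false
set_option maxRecDepth 100000

namespace Cfsg.Agent.H6.Gs

open Cfsg.Agent.Chv

theorem c121_4 : ck121 4 = true := by decide +kernel
theorem c121_5 : ck121 5 = true := by decide +kernel
theorem c121_6 : ck121 6 = true := by decide +kernel
theorem c121_7 : ck121 7 = true := by decide +kernel

end Cfsg.Agent.H6.Gs
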