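import Cfsg.Agent.H6.Gq1

/-! Computations for the semisimple elements of `E₈(3)`. -/

set_option Elab.async false
set_option maxRecDepth 100000

namespace Cfsg.Agent.H6.Gs

open Cfsg.Agent.Chv

theorem c121_8 : ck121 8 = true := by decide +kernel
theorem c121_9 : ck121 9 = true := by decide +kernel
theorem c121_10 : ck121 10 = true := by decide +kernel
theorem far121a : all2 122 (far 121 f121a 1023) = true := by decide +kernel
theorem far121b : all2 122 (far 121 f121b 511) = true := by decide +kernel
theorem far121c : all2 122 (far 121 f121c 511) = true := by decide +kernel
theorem far121d : all2 122 (far 121 f121d 7) = true := by decide +kernel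
theorem e11 : all2 19 (fun i => allIn (195 * i) 195 (enu 11 lf11)) = true := by decide +kernel

end Cfsg.Agent.H6.Gs
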