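import Cfsg.Agent.H6.Go

/-! Computations for the semisimple elements of `E₈(3)`. -/

set_option Elab.async false
set_option maxRecDepth 100000

namespace Cfsg.Agent.H6.Gs

open Cfsg.Agent.Chv

theorem far73a : all2 365 (far 73 f73a 255) = true := by decide +kernel
theorem far73b : all2 365 (far 73 f73b 8) = true := by decide +kernel
theorem far73c : all2 365 (far 73 f73c 128) = true := by decide +kernel
theorem far73d : all2 365 (far 73 f73d 32) = true := by decide +kernel
theorem far365a : all2 365 (far 365 f365a 64) = true := by decide +kernel
theorem far365b : all2 365 (far 365 f365b 32) = true := by decide +kernel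

end Cfsg.Agent.H6.Gs
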