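import Cfsg.Agent.H6.Gq3

/-! Computations for the semisimple elements of `E₈(3)`. -/

set_option Elab.async false
set_option maxRecDepth 100000

namespace Cfsg.Agent.H6.Gs

open Cfsg.Agent.Chv

theorem okD0 : ∀ d ∈ (dat.drop 0).take 1, OkD d := by decide +kernel
theorem okD1 : ∀ d ∈ (dat.drop 1).take 1, OkD d := by decide +kernel
theorem okD2 : ∀ d ∈ (dat.drop 2).take 1, OkD d := by decide +kernel
theorem okD3 : ∀ d ∈ (dat.drop 3).take 1, OkD d := by decide +kernel
theorem okD4 : ∀ d ∈ (dat.drop 4).take 1, OkD d := by decide +kernel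
theorem okD5 : ∀ d ∈ (dat.drop 5).take 5, OkD d := by decide +kernel
theorem okD6 : ∀ d ∈ (dat.drop 10).take 5, OkD d := by decide +kernel
theorem okD7 : ∀ d ∈ (dat.drop 15).take 5, OkD d := by decide +kernel
theorem okD8 : ∀ d ∈ (dat.drop 20).take 1, OkD d := by decide +kernel

end Cfsg.Agent.H6.Gs
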