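import Cfsg.Agent.H6.Gp2
import Cfsg.Agent.H6.Gp5
import Cfsg.Agent.H6.Gq2
import Cfsg.Agent.H6.Gq4

/-!
Rational semisimple elements of orders `121` and `365` in `E₈(3)` and modules of `SL₂(243)`, `SL₂(729)`.
-/

set_option autoImplicit false
set_option maxRecDepth 100000

namespace Cfsg.Agent.H6.Gs

open Cfsg.Agent.Chv Cfsg.Agent.Chv.E8 Cfsg.Agent.H1.E8

attribute [-simp] zsmul_eq_mul

theorem zero_of {N : ℕ} {x : L →+ ZMod N} {w : L ≃+ L} (h : ∀ j, x (w (al j)) = 0) (v : L) : x v = 0 := by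
  have := hom_apply (x.comp w.toAddMonoidHom) (w.symm v)
  simpa [h] using this

theorem Has.zero {N : ℕ} {x : L →+ ZMod N} {w : L ≃+ L} (h : Has (x.comp w.toAddMonoidHom) [0, 0, 0, 0, 0, 0, 0, 0]) :
    ∀ v, x v = 0 := zero_of (w := w) fun j => by
  have : ∀ j : Fin 8, [0, 0, 0, 0, 0, 0, 0, 0].getD j 0 = 0 := by decide
  exact (h j).trans (by rw [this, Nat.cast_zero])

theorem Mod.neg' {N : ℕ} [NeZero N] {q n : ℕ} {x : L →+ ZMod N} (h : Mod q x) {a : List ℕ} (ha : Has x a)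
    (ha' : ∀ j < 8, a.getD j 0 < 400) {t M : ℕ} (hY : all2 n (far N t M) = true) (hq : q ≤ 2 * n := by norm_num) :
    Gs.neg N t M (VL a) = false := by
  rw [VL_eq]; exact h.neg ha ha' (far_spec hY hq)

theorem lift121 {z : L →+ ZMod 121} (hI : Inv z) (hM : Mod 243 z)
    (ha : Has ((ZMod.castHom (show 11 ∣ 121 by norm_num) (ZMod 11)).toAddMonoidHom.comp z) [1, 1, 0, 0, 0, 0, 1, 1]) :
    False := by
  have h1 : ∀ j : Fin 8, ∃ b < 11, (z (al j)).val = 11 * b + [1, 1, 0, 0, 0, 0, 1, 1].getD j 0 := fun j => by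
    have h2 : (((z (al j)).val : ℕ) : ZMod 11) = _ := (ZMod.cast_eq_val _).symm.trans (ha j)
    have h3 := (z (al j)).val_lt
    rw [ZMod.natCast_eq_natCast_iff'] at h2
    refine ⟨(z (al j)).val / 11, by omega, ?_⟩
    fin_cases j <;> simp at h2 ⊢ <;> omega
  choose b hb hb' using h1
  have h2 : ∀ j, z (al j) = (11 * b j + [1, 1, 0, 0, 0, 0, 1, 1].getD j 0 : ℕ) := fun j => by
    rw [← hb', ZMod.natCast_zmod_val]
  have h3 : Has z [11 * b 0 + 1, 11 * b 1 + 1, 11 * b 2, 11 * b 3, 11 * b 4, 11 * b 5, 11 * b 6 + 1, 11 * b 7 + 1] :=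
    fun j => by rw [h2]; fin_cases j <;> rfl
  have h4 := hI.sum h3 (f := fun v => if v % 11 = 0 then 2 ^ (v * v) % 65521 else 0) (G := col 16 h0)
    (by decide +kernel)
  have h5 : ∀ v, v % 11 ≠ 0 → col 16 h0 (v % 121) = 0 := fun v hv =>
    (show ∀ v < 121, v % 11 ≠ 0 → col 16 h0 v = 0 by decide +kernel) _ (Nat.mod_lt _ (by norm_num)) (by omega)
  simp (disch := omega) only [pos, List.map_cons, List.map_nil, List.sum_cons, List.sum_nil, val, List.getD_cons_succ,
    List.getD_cons_zero, mul_zero, mul_one, zero_add, add_zero, h5, ← add_assoc] at h4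
  have h6 : ∀ (j : Fin 8) (g : ℕ) (M : List ℕ), M.getD 0 0 = 0 → M.getD 1 0 = 0 → (∀ k : Fin 8, ((M.getD k 0 : ℤ) +
      tau 11 [1, 1, 0, 0, 0, 0, 1, 1] (col 8 g) k - if j = k then 1 else 0) % (121 : ℕ) = 0) → z (al j) =
      (val M [0, 0, 11 * b 2, 11 * b 3, 11 * b 4, 11 * b 5, 11 * b 6 + 1, 11 * b 7 + 1] % 121 : ℕ) :=
    fun j g M e0 e1 hM => by
      simpa using hI.solve _ dvd_rfl ha hM fun k => by
        rw [ZMod.castHom_self, RingHom.id_apply, h3]
        fin_cases k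
        exacts [.inl e0, .inl e1, .inr rfl, .inr rfl, .inr rfl, .inr rfl, .inr rfl, .inr rfl]
  have h7 : Has z (z121 (b 2) (b 3) (b 4) (b 5) (b 6) (b 7)) := fun j => by
    fin_cases j
    exacts [h6 0 0x647100 _ rfl rfl (by decide +kernel), h6 1 0x42f00 _ rfl rfl (by decide +kernel),
      h3 2, h3 3, h3 4, h3 5, h3 6, h3 7]
  have h8 : ∀ j < 8, (z121 (b 2) (b 3) (b 4) (b 5) (b 6) (b 7)).getD j 0 < 400 := fun j hj => by
    have := hb 2; have := hb 3; have := hb 4; have := hb 5; have := hb 6; have := hb 7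
    interval_cases j <;> simp only [z121, List.getD_cons_succ, List.getD_cons_zero] <;> omega
  have h9 : ∀ c < 11, ck121 c = true := fun c hc => by
    interval_cases c
    exacts [c121_0, c121_1, c121_2, c121_3, c121_4, c121_5, c121_6, c121_7, c121_8, c121_9, c121_10]
  have h10 := all2_spec (all2_spec (all2_spec (h9 _ (hb 2)) (hb 3)) (hb 4)) (hb 5)
  rw [show st1 (b 2) (b 3) (b 4) (b 5) % 65521 = 0 from h4] at h10
  have h11 := all2_spec (all2_spec h10 (hb 6)) (hb 7)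
  simp only [lf121, hI.hsh h7 h8 (f := fun v => 2 ^ (v * v) % 65521) (t := h121) (by decide +kernel),
    hM.neg' h7 h8 far121a, hM.neg' h7 h8 far121b,
    hM.neg' h7 h8 far121c, hM.neg' h7 h8 far121d, Bool.not_true, Bool.or_false, Bool.false_eq_true] at h11

theorem thm121 {z : L →+ ZMod 121} (hI : Inv z) (hM : Mod 243 z) (v : L) :
    ZMod.castHom (show 11 ∣ 121 by norm_num) (ZMod 11) (z v) = 0 := by
  have : Fact (Nat.Prime 11) := ⟨by norm_num⟩
  obtain ⟨w, hw, a, ha, ha', h⟩ := (hI.cast (show 11 ∣ 121 by norm_num)).alc (lf := lf11) (fun n hn =>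
    allIn_spec (all2_spec e11 (show n / 195 < 19 by omega)) n (by omega) (by omega)) (by norm_num) (by decide +revert)
    (by norm_num)
  simp only [lf11, ((hI.cast _).comp hw).hsh ha ha' (f := fun v => 2 ^ (v * v) % 65521) (t := h11) (by decide +kernel),
    Bool.not_true, Bool.false_or, Bool.or_eq_true, beq_iff_eq] at h
  rcases h with rfl | rfl
  · exact Has.zero ha v
  · exact (lift121 (hI.comp hw) (hM.comp hw) ha).elim

theorem lift365 {d : Dt} (hd : OkD d) {z : L →+ ZMod 365} (hI : Inv z) (hM : Mod 729 z)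
    (ha : Has ((ZMod.castHom (show 73 ∣ 365 by norm_num) (ZMod 73)).toAddMonoidHom.comp z) d.1) (j : Fin 8) :
    ZMod.castHom (show 5 ∣ 365 by norm_num) (ZMod 5) (z (al j)) = 0 := by
  obtain ⟨a, g, ns, M, c⟩ := d
  obtain ⟨-, h1, h2, h3, h4⟩ := hd
  dsimp only at h1 h2 h3 h4 ha
  let b : List ℕ := List.ofFn fun k : Fin 8 =>
    (ZMod.castHom (show 5 ∣ 365 by norm_num) (ZMod 5) (z (al k))).val % ns.getD k 0
  have h5 := allL_spec (b := b) (List.forall₂_iff_get.2 ⟨by simp [b, h2], fun i hi hi' => by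
    simp only [b, List.get_eq_getElem, List.getElem_ofFn, List.getD_eq_getElem _ _ hi']
    exact Nat.mod_lt _ (h3 _ (List.getElem_mem hi'))⟩) h4
  have h6 : ∀ j : Fin 8, ZMod.castHom (show 5 ∣ 365 by norm_num) (ZMod 5) (z (al j)) = (val (M.getD j []) b % 5 : ℕ) :=
    fun j => hI.solve _ _ ha (fun k => (h1 j k).1) fun k => (h1 j k).2.imp_right fun e => by
      rw [List.getD_eq_getElem _ _ (by simp [b])]
      simp only [b, List.getElem_ofFn, Fin.eta, e, ZMod.natCast_mod, ZMod.natCast_zmod_val]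
  have h7 : ∀ j < 8, (z365 a M b).getD j 0 = (220 * a.getD j 0 + 146 * (val (M.getD j []) b % 5)) % 365 := fun j hj => by
    rw [List.getD_eq_getElem _ _ (by simpa [z365])]
    simp only [z365, List.getElem_map, List.getElem_range]
  have h8 : Has z (z365 a M b) := fun j => by
    have e1 : (((z (al j)).val : ℕ) : ZMod 73) = _ := (ZMod.cast_eq_val _).symm.trans (ha j)
    have e2 : (((z (al j)).val : ℕ) : ZMod 5) = _ := (ZMod.cast_eq_val _).symm.trans (h6 j)
    have e3 := (z (al j)).val_lt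
    rw [ZMod.natCast_eq_natCast_iff'] at e1 e2
    rw [h7 j j.2, ← ZMod.natCast_zmod_val (z _)]
    congr 1
    omega
  have h9 : ∀ j < 8, (z365 a M b).getD j 0 < 400 := fun j hj => by rw [h7 j hj]; omega
  simp only [lf365, hI.hsh h8 h9 (f := fun v => 2 ^ (v * v) % 65521) (t := h365) (by decide +kernel),
    hM.neg' h8 h9 far365a, hM.neg' h8 h9 far365b, Bool.not_true, Bool.or_false,
    List.all_eq_true, List.mem_range, beq_iff_eq] at h5
  rw [h6, h5 j j.2, Nat.cast_zero]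

theorem thm73 {x : L →+ ZMod 73} (hI : Inv x) (hM : Mod 729 x) : (∀ v, x v = 0) ∨ Sm x ∧ ∀ z : L →+ ZMod 365,
    (ZMod.castHom (show 73 ∣ 365 by norm_num) (ZMod 73)).toAddMonoidHom.comp z = x → Inv z → Mod 729 z →
      ∀ v, ZMod.castHom (show 5 ∣ 365 by norm_num) (ZMod 5) (z v) = 0 := by
  have : Fact (Nat.Prime 73) := ⟨by norm_num⟩
  obtain ⟨w, hw, a, ha, ha', h⟩ := hI.alc (lf := lf73) (fun n hn => by
    have key : ∀ {a l : ℕ}, allIn a l (enu 73 lf73) = true → a ≤ n → (a + l ≤ n → enu 73 lf73 n = true) →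
        enu 73 lf73 n = true := fun h h1 h2 => (lt_or_ge n _).elim (allIn_spec h n h1) h2
    exact key e73_0 n.zero_le fun _ => key e73_1 ‹_› fun _ => key e73_2 ‹_› fun _ =>
      key e73_3 ‹_› fun _ => key e73_4 ‹_› fun _ => key e73_5 ‹_› fun _ =>
      key e73_6 ‹_› fun _ => key e73_7 ‹_› fun _ => key e73_8 ‹_› fun _ =>
      key e73_9 ‹_› fun _ => key e73_10 ‹_› fun _ => key e73_11 ‹_› fun _ =>
      key e73_12 ‹_› fun _ => key e73_13 ‹_› fun _ => key e73_14 ‹_› fun _ =>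
      key e73_15 ‹_› fun _ => key e73_16 ‹_› fun _ => key e73_17 ‹_› fun _ =>
      key e73_18 ‹_› fun _ => key e73_19 ‹_› fun _ => key e73_20 ‹_› fun _ =>
      key e73_21 ‹_› fun _ => key e73_22 ‹_› fun _ => key e73_23 ‹_› fun _ =>
      key e73_24 ‹_› fun _ => key e73_25 ‹_› fun _ => key e73_26 ‹_› fun _ =>
      key e73_27 ‹_› fun _ => key e73_28 ‹_› fun _ => key e73_29 ‹_› fun _ =>
      key e73_30 ‹_› fun _ => key e73_31 ‹_› fun _ => key e73_32 ‹_› fun _ =>
      key e73_33 ‹_› fun _ => key e73_34 ‹_› fun _ => key e73_35 ‹_› fun _ =>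
      key e73_36 ‹_› fun _ => key e73_37 ‹_› fun _ => key e73_38 ‹_› fun _ =>
      key e73_39 ‹_› fun _ => key e73_40 ‹_› fun _ => key e73_41 ‹_› fun _ =>
      key e73_42 ‹_› fun _ => key e73_43 ‹_› fun _ => key e73_44 ‹_› fun _ =>
      key e73_45 ‹_› fun _ => key e73_46 ‹_› fun _ => key e73_47 ‹_› fun _ =>
      key e73_48 ‹_› fun _ => key e73_49 ‹_› fun _ => by omega) le_rfl (by decide +revert) (by norm_num)
  have hM' := hM.comp hw
  simp only [lf73, (hI.comp hw).hsh ha ha' (f := fun v => 4 ^ (v * v) % 65521) (t := h73) (by decide +kernel),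
    hM'.neg' ha ha' far73a, hM'.neg' ha ha' far73b,
    hM'.neg' ha ha' far73c, hM'.neg' ha ha' far73d, Bool.not_true, Bool.false_or, Bool.or_false,
    Bool.or_eq_true, beq_iff_eq, List.any_eq_true] at h
  rcases h with rfl | ⟨d, hd, rfl⟩
  · exact .inl (Has.zero ha)
  have h1 : OkD d := by
    rw [show dat = (dat.drop 0).take 1 ++ (dat.drop 1).take 1 ++ (dat.drop 2).take 1 ++ (dat.drop 3).take 1 ++
      (dat.drop 4).take 1 ++ (dat.drop 5).take 5 ++ (dat.drop 10).take 5 ++ (dat.drop 15).take 5 ++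
      (dat.drop 20).take 1 from rfl] at hd
    simp only [List.mem_append] at hd
    rcases hd with (((((((h | h) | h) | h) | h) | h) | h) | h) | h
    exacts [okD0 d h, okD1 d h, okD2 d h, okD3 d h, okD4 d h, okD5 d h, okD6 d h, okD7 d h, okD8 d h]
  refine .inr ⟨.of_comp hw (ha.sm ha' h1.1), ?_⟩
  rintro z rfl hz hz'
  exact zero_of (x := (ZMod.castHom (show 5 ∣ 365 by norm_num) (ZMod 5)).toAddMonoidHom.comp z) (w := w)
    (lift365 h1 (hz.comp hw) (hz'.comp hw) ha)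

end Cfsg.Agent.H6.Gs
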