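import Cfsg.Agent.H6.Gn
import Cfsg.Agent.H6.Gm

/-!
Homomorphisms from `SL₂(q)` to the group of type `E₈` in characteristic three.
-/

set_option autoImplicit false
set_option linter.unusedSectionVars false

namespace Cfsg.Agent.H6.Gs

open Cfsg.Agent.Chv Cfsg.Lie Cfsg.Agent.Chv.E8 Cfsg.Agent.H1.E8 Matrix Polynomial MatrixGroups Subgroup

attribute [-simp] zsmul_eq_mul

theorem wt_inl (i : Fin 8) : R.wt (.inl i) = 0 := wtF_inl (D := chevE8) (T := T) i

theorem sepR {p : ℕ} (hp : 3 ≤ p) : TorS.Sep R p := by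
  have key : ∀ a b, (∀ j, (p : ℤ) ∣ (R.wt a - R.wt b) j) → R.wt a = R.wt b := fun a b h => by
    choose u hu using h
    have h1 := B_wt a b
    have h2 : R.wt a - R.wt b = (p : ℤ) • u := funext hu
    rw [h2, B_smul_left, B_smul_right] at h1
    have h3 := B_nonneg u
    have h4 : (3 : ℤ) ≤ p := by exact_mod_cast hp
    rw [← sub_eq_zero, h2, eq_zero_of_B (v := u) (by nlinarith [mul_le_mul h4 h4 (by norm_num) (by positivity)]), smul_zero]
  refine ⟨fun r => ?_, fun r s h => ?_⟩ <;> by_contra! hc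
  · have h0 := wt_inl 0
    exact R.rt_ne r ((key _ _ (by simpa [h0] using hc)).trans h0)
  · exact h (R.ext (key _ _ hc))

theorem fix_of_small {α β : Type*} [Fintype α] [DecidableEq β] {π : Equiv.Perm α} {k : ℕ} (hπ : π ^ 5 ^ k = 1)
    {c : α → β} (hc : ∀ r, c (π r) = c r) {r : α} (h : (∑ s, if c s = c r then 1 else 0) < 5) : π r = r := by
  classical
  let σ : Equiv.Perm {s // c s = c r} := π.subtypePerm fun s => by rw [hc]
  have h1 : orderOf σ ∣ 5 ^ k := orderOf_dvd_of_pow_eq_one (by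
    rw [Equiv.Perm.subtypePerm_pow]; exact Equiv.ext fun s => Subtype.ext (by simp [hπ]))
  have h2 := orderOf_dvd_card (x := σ)
  rw [Fintype.card_perm, Fintype.card_subtype, Finset.card_filter] at h2
  have h3 := Nat.eq_one_of_dvd_coprimes (Nat.Coprime.pow_left k ((Nat.Prime.coprime_iff_not_dvd Nat.prime_five).2
    fun e => ((Nat.prime_five.dvd_factorial).1 e).not_gt h)) h1 h2
  exact congrArg Subtype.val (Equiv.congr_fun (orderOf_eq_one_iff.1 h3) ⟨r, rfl⟩)

variable {F K : Type*} [Field F] [Fintype F] [Field K] [Finite K] [CharP F 3] [CharP K 3] [Algebra F K]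
  {s : SL(2, F)} {μ ν : K} {P : Matrix (Fin 2) (Fin 2) K}

theorem Eig.pow (h : Eig s μ ν P) (k : ℕ) : Eig (s ^ k) (μ ^ k) (ν ^ k) P := by
  refine ⟨?_, h.det, h.h1, h.h2⟩
  induction k with
  | zero => simp [← one_fin_two]
  | succ k ih =>
    rw [pow_succ', show (s * s ^ k).1 = s.1 * (s ^ k).1 from rfl, Matrix.map_mul, mul_assoc, ih, ← mul_assoc, h.eq, mul_assoc]
    simp [pow_succ']

theorem Eig.eq_one_iff (h : Eig s μ ν P) : s = 1 ↔ μ = 1 ∧ ν = 1 := by
  have h1 : IsUnit P := (isUnit_iff_isUnit_det _).2 (by rw [det_fin_two]; exact h.det.isUnit)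
  have h2 := h.eq
  refine ⟨fun e => ?_, fun ⟨e, e'⟩ => ?_⟩
  · rw [e, show (1 : SL(2, F)).1 = 1 from rfl, Matrix.map_one _ (map_zero _) (map_one _), one_mul, eq_comm,
      h1.mul_eq_left] at h2
    exact ⟨congrFun₂ h2 0 0, congrFun₂ h2 1 1⟩
  · rw [e, e', ← one_fin_two, mul_one, h1.mul_eq_right] at h2
    exact Subtype.ext (Matrix.map_injective (algebraMap F K).injective
      (h2.trans (Matrix.map_one _ (map_zero _) (map_one _)).symm))

section
variable {N : ℕ} [NeZero N] {ζ : K} (hζ : IsPrimitiveRoot ζ N)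
include hζ

theorem pow_val_add (a b : ZMod N) : ζ ^ (a + b).val = ζ ^ a.val * ζ ^ b.val := by
  rw [← pow_add, ZMod.val_add, ← pow_eq_pow_mod _ hζ.pow_eq_one]

theorem pow_val_inj : Function.Injective fun a : ZMod N => ζ ^ a.val := fun a b h =>
  ZMod.val_injective N (hζ.pow_inj a.val_lt b.val_lt h)

theorem pow_val_cast (n : ℕ) : ζ ^ (n : ZMod N).val = ζ ^ n := by
  rw [ZMod.val_natCast, ← pow_eq_pow_mod _ hζ.pow_eq_one]

end

theorem h3 : (3 : K) = 0 := by exact_mod_cast CharP.cast_eq_zero K 3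

/-- the properties of the homomorphism -/
structure Hom (ρ : SL(2, F) →* GL chevE8.Idx K) : Prop where
  mem : ∀ g, ρ g ∈ (S3 (K := K) h3).Γ
  rat : ∀ g, (ρ g).1.charpoly.map (frobenius K 3) = (ρ g).1.charpoly
  neg : ρ (-1) = 1
  inj : ∀ g, ρ g = 1 → g ^ 2 = 1

variable {ρ : SL(2, F) →* GL chevE8.Idx K} {N : ℕ} {c : GL chevE8.Idx K} {χ : Chr 8 K}

theorem Hom.core [NeZero N] (hρ : Hom ρ) (hN : Nat.Coprime 2 N) (he : Eig s μ μ⁻¹ P) (hμ : IsPrimitiveRoot μ N)
    (hc : c * ρ s * c⁻¹ = R.h χ) :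
    ∃ x : L →+ ZMod N, (∀ v, (ev χ v : K) = (μ ^ 2) ^ (x v).val) ∧ Inv x ∧ Mod (Fintype.card F) x := by
  have hζ := hμ.pow_of_coprime 2 hN
  have hZ := pow_val_inj hζ
  have h0 := hμ.ne_zero (NeZero.ne N)
  have h1 : χ ^ N = 1 := R.h_inj (by
    rw [R.h.map_pow, R.h.map_one, ← hc, conj_pow, ← map_pow,
      (he.pow N).eq_one_iff.2 ⟨hμ.pow_eq_one, by simp [hμ.pow_eq_one]⟩]; simp)
  have h2 : ∀ v, ∃ a : ZMod N, (ev χ v : K) = (μ ^ 2) ^ a.val := fun v => by
    obtain ⟨i, -, e⟩ := hζ.eq_pow_of_pow_eq_one (ξ := (ev χ v : K)) (by rw [← Units.val_pow_eq_pow_val, ← ev_pow, h1]; rfl)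
    exact ⟨i, by rw [pow_val_cast hζ, e]⟩
  choose x hx using h2
  let y : L →+ ZMod N := AddMonoidHom.mk' x fun u v => hZ (by simp only [pow_val_add hζ, ← hx, ev_add, Units.val_mul])
  have h3 : (ρ s).1.charpoly = (X - C 1) ^ 8 * ∏ r, (X - C ((μ ^ 2) ^ (y (R.rt r)).val)) := by
    rw [← charpoly_units_conj c, ← coe_units_inv, ← Units.val_mul, ← Units.val_mul, hc, R.h_val, charpoly_diagonal,
      Fintype.prod_sum_type, Finset.prod_congr rfl fun i _ => by
        rw [wt_inl i, ev_zero, Units.val_one]]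
    simp only [hx, Finset.prod_const]
    rfl
  have key : ∀ z : Fin 240 → ZMod N, (∏ t, (X - C ((μ ^ 2) ^ (z t).val))).roots =
      (Finset.univ.val.map z).map fun a => (μ ^ 2) ^ a.val := fun z => by
    rw [← roots_multiset_prod_X_sub_C (Multiset.map _ _), Multiset.map_map, Multiset.map_map]; rfl
  refine ⟨y, hx, fun M _ f => ?_, fun Y hY => ?_⟩
  · have h4 := hρ.rat s
    have h5 : ∀ a : ZMod N, ((μ ^ 2) ^ a.val) ^ 3 = (μ ^ 2) ^ (3 • a).val := fun a => by
      simp only [three_nsmul, pow_val_add hζ]; ring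
    rw [h3, Polynomial.map_mul, Polynomial.map_pow, Polynomial.map_prod] at h4
    simp only [Polynomial.map_sub, map_X, map_C, frobenius_def, one_pow, h5] at h4
    have h6 := congrArg roots (mul_left_cancel₀ (pow_ne_zero _ (X_sub_C_ne_zero _)) h4)
    rw [key, key] at h6
    have h7 := congrArg (fun m => (m.map f).sum) (Multiset.map_injective hZ h6)
    simp only [Multiset.map_map] at h7
    exact h7
  · have h4 := sum_roots_nonneg 3 ((toLinAlgEquiv' (R := K)).toMonoidHom.comp ((Units.coeHom _).comp ρ)) he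
      (Function.extend (fun a : ZMod N => (μ ^ 2) ^ a.val) Y 0) (fun a ha h => by
        obtain ⟨b, rfl⟩ := even_iff_exists_two_mul.1 ((neg_one_pow_eq_one_iff_even
          (Ring.neg_one_ne_one_of_char_ne_two (by rw [ringChar.eq K 3]; norm_num))).1 h)
        refine (hY b ha).trans_eq (Finset.sum_congr rfl fun j hj => ?_)
        have h5 := pow_val_add hζ (j - b) b
        rw [sub_add_cancel, pow_val_cast hζ, pow_val_cast hζ] at h5
        rw [← hZ.extend_apply Y 0]
        obtain ⟨k, hk⟩ := Nat.exists_eq_add_of_le (Nat.lt_succ_iff.1 (Finset.mem_range.1 (Finset.mem_filter.1 hj).1))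
        refine congrArg _ (mul_right_cancel₀ (pow_ne_zero b (pow_ne_zero 2 h0)) (h5.symm.trans ?_))
        rw [ ← pow_mul μ 2 b, hk, Nat.add_sub_cancel_left, pow_add, inv_pow, mul_mul_mul_comm,
          inv_mul_cancel₀ (pow_ne_zero k h0), mul_one, ← mul_pow, sq]) (by simp [hρ.neg])
    have h5 : ((toLinAlgEquiv' (R := K)).toMonoidHom.comp ((Units.coeHom _).comp ρ) s).charpoly = (ρ s).1.charpoly :=
      charpoly_toLin' _
    have h6 := hZ.extend_apply Y 0 0
    simp only [ZMod.val_zero, pow_zero] at h6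
    rw [h5, h3, roots_mul (mul_ne_zero (pow_ne_zero _ (X_sub_C_ne_zero _)) (monic_prod_X_sub_C _ _).ne_zero), key, roots_pow,
      roots_X_sub_C, Multiset.map_map] at h4
    simp only [Multiset.map_add, Multiset.sum_add, Multiset.map_nsmul, Multiset.sum_nsmul, Multiset.map_singleton,
      Multiset.sum_singleton, h6, Multiset.map_map, Function.comp_def, hZ.extend_apply, nsmul_eq_mul] at h4
    exact h4

theorem Hom.kill (hρ : Hom ρ) (he : Eig s μ μ⁻¹ P) (hμ : IsPrimitiveRoot μ N) (hc : c * ρ s * c⁻¹ = R.h χ)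
    {x : L →+ ZMod N} (hx : ∀ v, (ev χ v : K) = (μ ^ 2) ^ (x v).val) {d m : ℕ} [NeZero N] (hd : d * m = N)
    (h : ∀ v, ZMod.castHom ⟨m, hd.symm⟩ (ZMod d) (x v) = 0) : N ∣ m * 2 := by
  have h1 : χ ^ m = 1 := MonoidHom.ext fun v => Units.ext (by
    obtain ⟨k, hk⟩ := (ZMod.natCast_eq_zero_iff _ _).1 ((ZMod.cast_eq_val _).symm.trans (h v.toAdd))
    refine (congrArg (· ^ m) (hx v.toAdd)).trans ?_
    simp only [hk, ← pow_mul]
    exact (hμ.pow_eq_one_iff_dvd _).2 ⟨2 * k, by rw [← hd]; ring⟩)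
  have h2 := congrArg (· ^ m) hc
  simp only [conj_pow, ← map_pow, h1, map_one, conj_eq_one_iff] at h2
  exact (hμ.pow_eq_one_iff_dvd _).1 ((he.pow _).eq_one_iff.1 ((pow_mul s m 2).trans (hρ.inj _ h2))).1

theorem Hom.tor (hρ : Hom ρ) (he : Eig s μ μ⁻¹ P) {p k : ℕ} (hp : p.Prime) (hp' : 9 < p)
    (hμ : IsPrimitiveRoot μ (p ^ (k + 1))) : ∃ c χ, c ∈ (S3 (K := K) h3).Γ ∧ c * ρ s * c⁻¹ = R.h χ := by
  have h1 : IsPrimitiveRoot (μ ^ p ^ k) p := hμ.pow (pow_pos hp.pos _) (pow_succ p k)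
  obtain ⟨c, hc, χ, e⟩ := Sys.torus_top hp (sepR (by omega)) (ζ := Units.mk0 _ (h1.ne_zero hp.ne_zero))
    (IsPrimitiveRoot.coe_units_iff.1 h1) hp' (hρ.mem s) (k := k + 1) (by
      rw [← map_pow, (he.pow _).eq_one_iff.2 ⟨hμ.pow_eq_one, by simp [hμ.pow_eq_one]⟩, map_one])
  exact ⟨c, χ, hc, e.symm⟩

theorem Sm.tor {ζ : K} [NeZero N] (hζ : IsPrimitiveRoot ζ N) {x : L →+ ZMod N} (hx : ∀ v, (ev χ v : K) = ζ ^ (x v).val)
    (h : Sm x) {ξ : K} (hξ : IsPrimitiveRoot ξ 5) {u : GL chevE8.Idx K} (hu : u ∈ (S3 (K := K) h3).Γ)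
    (hu' : u * R.h χ = R.h χ * u) (h5 : u ^ 5 = 1) :
    ∃ d ψ, d * R.h χ * d⁻¹ = R.h χ ∧ d * u * d⁻¹ = R.h ψ := by
  obtain ⟨d, hd, ψ, e⟩ := Sys.torus Nat.prime_five (sepR (by norm_num)) (ζ := Units.mk0 _ (hξ.ne_zero (by norm_num)))
    (IsPrimitiveRoot.coe_units_iff.1 hξ) (C := (S3 (K := K) h3).Γ ⊓ centralizer {R.h χ})
    (le_inf Sys.H_le_Γ (by
      rintro _ ⟨ψ, rfl⟩
      rw [mem_centralizer_singleton_iff, ← R.h.map_mul, ← R.h.map_mul]
      exact congrArg _ (MonoidHom.ext fun _ => mul_comm _ _))) inf_le_left (fun n hn w π hw k hk => by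
        have h1 := hw.inv.h_conj χ
        rw [inv_inv, mul_assoc, ← mem_centralizer_singleton_iff.1 hn.2, inv_mul_cancel_left] at h1
        have h2 : ∀ v, x (w v) = x v := fun v => pow_val_inj hζ (by
          simp only [← hx]
          conv_rhs => rw [R.h_inj h1]
          rfl)
        have h3 := h (w.toAddMonoidHom.eqLocus (AddMonoidHom.id L)) fun v hv hc => by
          obtain ⟨r, rfl⟩ := exists_rt hv
          exact (hw.rt r).symm.trans (congrArg R.rt (fix_of_small hk (c := fun r => x (R.rt r))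
            (fun r => by simp only [hw.rt, h2]) hc))
        exact Equiv.ext fun r => R.ext ((hw.rt r).trans (h3 _)))
    ⟨hu, mem_centralizer_singleton_iff.2 hu'⟩ (k := 1) (by rwa [pow_one])
  exact ⟨d, ψ, by rw [mem_centralizer_singleton_iff.1 hd.2, mul_inv_cancel_right], e.symm⟩

theorem map_xMat {F K : Type*} [Field F] [Field K] (D : ChevalleyDatum) (f : F →+* K) (r : Fin D.nroots) (t : F) :
    (D.xMat F r t).map f = D.xMat K r (f t) := by
  ext i j
  rcases i with i | i <;> rcases j with j | j <;>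
    simp [ChevalleyDatum.xMat, apply_ite f, map_list_sum, Function.comp_def]

theorem exists_hom {H : Subgroup (chevE8.group (ZMod 3))} (e : H ≃* ProjectiveSpecialLinearGroup (Fin 2) F) :
    ∃ ρ : SL(2, F) →* GL chevE8.Idx K, Hom ρ := by
  let f := ZMod.castHom (dvd_refl 3) K
  let φ : GL chevE8.Idx (ZMod 3) →* GL chevE8.Idx K := GeneralLinearGroup.map f
  have h1 : chevE8.group (ZMod 3) ≤ (chevE8.group K).comap φ := (closure_le _).2 fun g ⟨r, t, e⟩ =>
    subset_closure ⟨r, f t, (congrArg (·.map f) e).trans (map_xMat _ f r t)⟩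
  refine ⟨φ.comp ((Subgroup.subtype _).comp (H.subtype.comp (e.symm.toMonoidHom.comp (QuotientGroup.mk' _)))),
    fun g => Sys.G_le_Γ (S3_G (K := K) h3 ▸ h1 (Subtype.prop _)), fun g => ?_, ?_, fun g hg => ?_⟩
  · change (charpoly (Matrix.map _ f)).map _ = charpoly (Matrix.map _ f)
    rw [charpoly_map, Polynomial.map_map]
    congr 1
    exact Subsingleton.elim _ _
  · have : QuotientGroup.mk' (center SL(2, F)) (-1) = 1 :=
      (QuotientGroup.eq_one_iff _).2 (mem_center_iff.2 fun g => by simp)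
    simp only [MonoidHom.comp_apply, this, map_one]
  · have h2 : Function.Injective φ := fun a b h => Units.ext (Matrix.map_injective f.injective (congrArg Units.val h))
    simp only [MonoidHom.comp_apply, map_eq_one_iff _ h2, map_eq_one_iff _ (subtype_injective _),
      MulEquiv.coe_toMonoidHom, EmbeddingLike.map_eq_one_iff] at hg
    obtain ⟨r, hr, e⟩ := Matrix.SpecialLinearGroup.mem_center_iff.1 ((QuotientGroup.eq_one_iff g).1 hg)
    exact Subtype.ext ((Matrix.SpecialLinearGroup.coe_pow g 2).trans <| by rw [← e, ← map_pow, show r ^ 2 = 1 from hr, map_one]; rfl)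

end Cfsg.Agent.H6.Gs
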