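import Cfsg.Agent.H6.Gr
import Cfsg.Agent.H6.Gt

/-!
The group `E₈(3)` has no subgroups `PSL₂(243)`, `PSL₂(729)`.
-/

set_option autoImplicit false
set_option linter.unusedSectionVars false

namespace Cfsg.Agent.H6.Gs

open Cfsg.Agent.Chv Cfsg.Lie Cfsg.Agent.Chv.E8 Cfsg.Agent.H1.E8 Matrix Polynomial MatrixGroups Subgroup

section
variable {F K : Type*} [Field F] [Fintype F] [Field K] [Finite K] [CharP F 3] [CharP K 3] [Algebra F K]
  {s : SL(2, F)} {μ : K} {P : Matrix (Fin 2) (Fin 2) K} {ρ : SL(2, F) →* GL chevE8.Idx K}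

theorem no121 (hq : Fintype.card F = 243) (hρ : Hom ρ) (he : Eig s μ μ⁻¹ P) (hμ : IsPrimitiveRoot μ 121) : False := by
  obtain ⟨c, χ, -, hc⟩ := hρ.tor he (p := 11) (k := 1) (by norm_num) (by norm_num) hμ
  obtain ⟨x, hx, h1, h2⟩ := hρ.core (by norm_num) he hμ hc
  exact absurd (hρ.kill he hμ hc hx (d := 11) (m := 11) rfl (thm121 h1 (hq ▸ h2))) (by norm_num)

theorem no365 (hq : Fintype.card F = 729) (hρ : Hom ρ) (he : Eig s μ μ⁻¹ P) (hμ : IsPrimitiveRoot μ 365) : False := by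
  have he5 : Eig (s ^ 5) (μ ^ 5) (μ ^ 5)⁻¹ P := inv_pow μ 5 ▸ he.pow 5
  have h73 : IsPrimitiveRoot (μ ^ 5) 73 := hμ.pow (by norm_num) (by norm_num)
  have hζ := h73.pow_of_coprime 2 (by norm_num)
  obtain ⟨c, χ, hc0, hc⟩ := hρ.tor he5 (p := 73) (k := 0) (by norm_num) (by norm_num) h73
  obtain ⟨x, hx, h1, h2⟩ := hρ.core (by norm_num) he5 h73 hc
  rcases thm73 h1 (hq ▸ h2) with h | ⟨h3, h4⟩
  · exact absurd (hρ.kill he5 h73 hc hx (d := 73) (m := 1) rfl fun v => by rw [h, map_zero]) (by norm_num)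
  have hs : s ^ 365 = 1 := (he.pow _).eq_one_iff.2 ⟨hμ.pow_eq_one, by simp [hμ.pow_eq_one]⟩
  obtain ⟨d, ψ, hd, hu⟩ := h3.tor hζ hx (ξ := μ ^ 73) (hμ.pow (by norm_num) (by norm_num)) (u := c * ρ (s ^ 73) * c⁻¹)
    (mul_mem (mul_mem hc0 (hρ.mem _)) (inv_mem hc0)) (by rw [← hc, conj_mul, conj_mul, ← map_mul, ← map_mul, pow_mul_comm])
    (by rw [conj_pow, ← map_pow, ← pow_mul, hs]; simp)
  have hc' : d * c * ρ s * (d * c)⁻¹ = R.h (χ ^ 44 * ψ ^ 2) := by
    rw [R.h.map_mul, R.h.map_pow, R.h.map_pow, ← hd, ← hu, ← hc]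
    simp only [conj_pow, conj_mul, ← map_pow, ← map_mul, ← pow_mul, ← pow_add]
    rw [pow_succ s 365, hs, one_mul, _root_.mul_inv_rev]
    simp only [mul_assoc]
  obtain ⟨z, hz, h5, h6⟩ := hρ.core (by norm_num) he hμ hc'
  refine absurd (hρ.kill he hμ hc' hz (d := 5) (m := 73) rfl (h4 z (AddMonoidHom.ext fun v => pow_val_inj hζ ?_) h5
    (hq ▸ h6))) (by norm_num)
  have h7 : (χ ^ 44 * ψ ^ 2) ^ 5 = χ := R.h_inj (by
    rw [R.h.map_pow, ← hc', conj_pow, ← map_pow, ← hd, ← hc, _root_.mul_inv_rev]; simp only [mul_assoc])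
  have h8 := congrArg (· ^ 5) (hz v)
  simp only [← Units.val_pow_eq_pow_val, ← ev_pow, h7, hx] at h8
  refine Eq.trans ?_ h8.symm
  change _ ^ (ZMod.cast (z v) : ZMod 73).val = _
  rw [ZMod.cast_eq_val, pow_val_cast hζ]
  ring

theorem eig_comp {θ : F} (h0 : μ ≠ 0) (hθ : algebraMap F K θ = μ + μ⁻¹) (h2 : ∀ t : F, algebraMap F K t ≠ μ⁻¹)
    (h3 : μ ≠ μ⁻¹) : Eig (m2 0 (-1) 1 θ (by simp)) μ μ⁻¹ !![1, 1; -μ, -μ⁻¹] := by
  refine ⟨?_, fun e => ?_, fun t e => h2 t ?_, fun t e => h2 (-t) ?_⟩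
  · ext i j
    fin_cases i <;> fin_cases j <;> simp [m2, hθ, Matrix.mul_apply, Fin.sum_univ_two, add_mul, h0]
  · exact h3 (by simpa [neg_add_eq_zero, eq_comm] using e)
  · simpa [add_neg_eq_zero] using e
  · refine eq_inv_of_mul_eq_one_left ?_
    simp only [of_apply, cons_val', cons_val_zero, cons_val_one, cons_val_fin_one] at e
    rw [map_neg]
    linear_combination -e

end

theorem exists_prim {K : Type*} [Field K] [Finite K] {n m : ℕ} (h : Nat.card K = m * n + 1) (h0 : 0 < m * n) :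
    ∃ μ : K, IsPrimitiveRoot μ n := by
  obtain ⟨g, hg⟩ := IsCyclic.exists_ofOrder_eq_natCard (α := Kˣ)
  rw [Nat.card_units, h, Nat.add_sub_cancel] at hg
  exact ⟨_, (IsPrimitiveRoot.coe_units_iff.2 (hg ▸ IsPrimitiveRoot.orderOf g)).pow h0 rfl⟩

variable {F : Type*} [Field F] [Fintype F] {H : Subgroup (chevE8.group (ZMod 3))}

theorem no243 (hq : Fintype.card F = 243) (e : H ≃* ProjectiveSpecialLinearGroup (Fin 2) F) : False := by
  have : CharP F 3 := charP_of_card_eq_prime_pow (f := 5) hq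
  obtain ⟨ρ, hρ⟩ := exists_hom (K := F) e
  obtain ⟨μ, hμ⟩ := exists_prim (K := F) (n := 121) (m := 2) (by rw [Nat.card_eq_fintype_card, hq]) (by norm_num)
  exact no121 hq hρ (s := hh (Units.mk0 μ (hμ.ne_zero (by norm_num)))) (P := 1)
    ⟨by simp [hh, m2], by simp, by simp, by simp⟩ hμ

theorem no729 (hq : Fintype.card F = 729) (e : H ≃* ProjectiveSpecialLinearGroup (Fin 2) F) : False := by
  have : CharP F 3 := charP_of_card_eq_prime_pow (f := 6) hq
  let K := FiniteField.Extension F 3 2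
  have : CharP K 3 := charP_of_injective_algebraMap (algebraMap F K).injective 3
  obtain ⟨ρ, hρ⟩ := exists_hom (K := K) e
  obtain ⟨μ, hμ⟩ := exists_prim (K := K) (n := 365) (m := 1456)
    (by rw [FiniteField.natCard_extension, Nat.card_eq_fintype_card, hq]; norm_num) (by norm_num)
  have h0 := hμ.ne_zero (by norm_num)
  have h1 : μ ^ 729 = μ⁻¹ := eq_inv_of_mul_eq_one_left (by
    rw [← pow_succ]; exact (hμ.pow_eq_one_iff_dvd _).2 (by norm_num))
  have h3 : μ ≠ μ⁻¹ := fun e => absurd ((hμ.pow_eq_one_iff_dvd 2).1 (by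
    rw [sq]; nth_rw 1 [e]; exact inv_mul_cancel₀ h0)) (by norm_num)
  have h2 : ∀ t : F, algebraMap F K t ≠ μ⁻¹ := fun t e => by
    have := congrArg (algebraMap F K) (FiniteField.pow_card t)
    rw [map_pow, e, hq, inv_pow, h1, inv_inv] at this
    exact h3 this
  obtain ⟨θ, hθ⟩ := (IsGalois.mem_range_algebraMap_iff_fixed (F := F) (μ + μ⁻¹)).2 fun g => by
    obtain ⟨i, -, rfl⟩ := FiniteField.Extension.exists_frob_pow_eq F 3 2 g
    have : FiniteField.Extension.frob F 3 2 (μ + μ⁻¹) = μ + μ⁻¹ := by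
      rw [map_add, map_inv₀, FiniteField.Extension.frob_apply, Nat.card_eq_fintype_card, hq, h1, inv_inv, add_comm]
    induction i with
    | zero => rfl
    | succ i ih => rw [pow_succ, AlgEquiv.mul_apply, this, ih]
  exact no365 hq hρ (eig_comp h0 hθ h2 h3) hμ

end Cfsg.Agent.H6.Gs
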