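import Cfsg.Agent.H6.SUThree

/-!
Maximality of subspace stabilisers in special unitary groups.
-/

set_option autoImplicit false
set_option linter.unusedSectionVars false
set_option linter.unusedVariables false

namespace Cfsg.Agent.H6.SU

open Module Cfsg.Agent.Form Cfsg.Agent.H7
open scoped MatrixGroups

section abstract

variable {F : Type*} [Field F] {σ : F →+* F} {hσ : ∀ a, σ (σ a) = a}
  {V : Type*} [AddCommGroup V] [Module F V] {S : PQ (FP.unit σ hσ) V} {M : Subgroup (V ≃ₗ[F] V)}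
  [FiniteDimensional F V] [Finite F]

theorem ts_max (hne : ∃ a, σ a ≠ a) (hS : S.Nondeg) (h4 : 4 ≤ finrank F V) {W : Submodule F V}
    (hW : S.TS W) (hM : M ≤ sisom S) (hH : ∀ g ∈ sisom S, (∀ w ∈ W, g w ∈ W) → g ∈ M) :
    (∀ g ∈ M, ∀ w ∈ W, g w ∈ W) ∨ sisom S ≤ M := by
  have hP : ∀ d ∈ W, Par S M d := fun d hd => ⟨hW.2 d hd d hd, fun w q hq =>
    ⟨hq, hH _ (eich_mem_sisom S _ _ _ hq) fun x hx => by
      rw [S.eich_apply_of_perp _ _ _ _ (hW.2 x hx d hd)]
      exact W.add_mem hx (W.smul_mem _ hd)⟩⟩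
  by_cases h : ∃ d, Par S M d ∧ d ∉ W
  swap
  · push Not at h
    exact Or.inl fun g hg w hw => h _ ((hP w hw).map hg (hM hg).1)
  right
  obtain ⟨d, hd, hdW⟩ := h
  refine Full.sisom_le hne hS h4 ?_
  by_cases h1 : d ∈ S.perp W
  · obtain ⟨y, hy, hyy, hdy⟩ := hS.exists_hyperbolic_perp (sing hd.1) hdW h1
    obtain ⟨l, h0, hl⟩ := exists_tr_zero hne hσ
    have ht := tau_mem_sisom S hyy l (tauOK_of hyy.B_self hl)
    have htM := hH _ ht fun x hx => by
      rwa [S.tau_apply_of_perp _ _ _ (S.mem_perp'.1 hy x hx)]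
    refine full_of_par hne hS (by omega) hd (hd.map htM ht.1) ?_
    have hyd : S.B y d = 1 := by rw [← Bs, hdy, map_one]
    simpa [hd.1, hdy, hyd] using h0
  · rw [PQ.mem_perp'] at h1
    push Not at h1
    obtain ⟨w, hw, hwd⟩ := h1
    exact full_of_par hne hS (by omega) hd (hP w hw) hwd

theorem nondeg_max (hne : ∃ a, σ a ≠ a) (hS : S.Nondeg) (h5 : 5 ≤ finrank F V) {W : Submodule F V}
    (hW : S.NondegOn W) (hdim : 2 * finrank F W < finrank F V) (hM : M ≤ sisom S)
    (hH : ∀ g ∈ sisom S, (∀ w ∈ W, g w ∈ W) → g ∈ M) :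
    (∀ g ∈ M, ∀ w ∈ W, g w ∈ W) ∨ sisom S ≤ M := by
  have hU := hW.perp hS
  have hd := hS.finrank_perp W
  have hE : EF S M (S.perp W) := fun d hd w hw q hq =>
    ⟨hq, hH _ (eich_mem_sisom S _ _ _ hq) fun x hx => by
      rw [eich_ap, S.mem_perp'.1 hd x hx, S.mem_perp'.1 hw x hx]; simpa using hx⟩
  obtain ⟨Y, h1, h2, h3⟩ := core hne hU (by omega) hE
  have h4 : S.perp Y ≤ W := by rw [← hS.perp_perp W]; exact S.perp_anti h1
  by_cases h : ∃ r ∈ Y, r ∈ W ∧ r ≠ 0
  · right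
    obtain ⟨r, hrY, hrW, hr0⟩ := h
    refine Full.sisom_le hne hS (by omega) (h2.mono ?_)
    have key : ∀ z ∈ W, S.B r z ≠ 0 → z ∈ Y := by
      intro z hz hrz
      obtain ⟨c, hc0, hc⟩ := exists_tauOK hne S z
      obtain ⟨z', hz', hzz⟩ := exists_B_self_ne_unit hne S hU (by
        intro h; rw [h, finrank_bot] at hd; omega)
      obtain ⟨k, hk, c', e⟩ := exists_fix_det hS (S.tau_mem z c hc) hzz
      have k1 : ∀ x ∈ W, k x = x + (c * S.B x z) • z := fun x hx => by
        rw [e, S.mem_perp'.1 hz' x hx]; simp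
      have k2 : ∀ x ∈ W, k x ∈ W := fun x hx => by
        rw [k1 x hx]; exact W.add_mem hx (W.smul_mem _ hz)
      have hkM := hH k hk k2
      obtain ⟨u, hu, hu0, huu⟩ := exists_vec_norm hne hU (by omega) (c := -S.B r r)
        (by rw [map_neg, Bs])
      have a1 := S.mem_perp.1 hu r hrW
      have a2 := S.B_comm_zero a1
      have c1 := (h2 (u + r) (Y.add_mem (h1 hu) hrY) (by simp [a1, a2, huu])).map hkM hk.1
      rcases h3 _ c1 with h5 | h5
      · have m : u + (c' * S.B u z') • z' ∈ S.perp W := add_mem hu (Submodule.smul_mem _ _ hz')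
        have k3 : k u ∈ Y := by
          rw [e, S.tau_apply_of_perp _ _ _ (S.mem_perp.1 m z hz)]; exact h1 m
        rw [map_add, k1 r hrW] at h5
        have := Y.smul_mem (c * S.B r z)⁻¹ (Y.sub_mem (Y.sub_mem h5 k3) hrY)
        rwa [add_sub_cancel_left, add_sub_cancel_left, smul_smul,
          inv_mul_cancel₀ (mul_ne_zero hc0 hrz), one_smul] at this
      · exfalso
        have := (stab_iff_of_le k W k2 _).2 (h4 h5)
        exact hu0 (hW u (by simpa using W.sub_mem this hrW) (S.mem_perp.1 hu))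
    rw [← hW.isCompl.sup_eq_top]
    refine sup_le (fun z hz => ?_) h1
    by_cases hrz : S.B r z = 0
    · obtain ⟨z0, hz0, h0⟩ : ∃ z0 ∈ W, S.B r z0 ≠ 0 := by
        by_contra hc; push Not at hc; exact hr0 (hW r hrW hc)
      simpa using Y.sub_mem (key _ (W.add_mem hz hz0) (by simpa [hrz] using h0)) (key _ hz0 h0)
    · exact key z hz hrz
  left
  push Not at h
  have hY : Y ≤ S.perp W := by
    intro y hy
    have : y ∈ W ⊔ S.perp W := by rw [hW.isCompl.sup_eq_top]; trivial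
    obtain ⟨w, hw, u, hu, rfl⟩ := Submodule.mem_sup.1 this
    rw [h w (by simpa using Y.sub_mem hy (h1 hu)) hw, zero_add]; exact hu
  intro g hg
  have hgi := (hM hg).1
  have f1 : finrank F ((S.perp W).map (g : V →ₗ[F] V)) = finrank F (S.perp W) :=
    LinearEquiv.finrank_map_eq g _
  rcases ((h2.mono h1).map hg hgi).le_or hne h3 ((PQ.nondegOn_map_iff hgi _).2 hU) (by omega)
    with h5 | h5
  · have e := Submodule.eq_of_le_of_finrank_eq (h5.trans hY) f1
    rw [PQ.map_perp hgi] at e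
    exact fun w hw => hS.perp_inj e ▸ Submodule.mem_map_of_mem hw
  · have := Submodule.finrank_mono (h5.trans h4)
    omega

end abstract

variable {F : Type*} [Field F] [Fintype F] {q : ℕ} (hF : Fintype.card F = q ^ 2) {n : ℕ}

/-- the standard unitary space -/
noncomputable abbrev std (n : ℕ) := unitPQ (isUnitaryForm_hermForm hF n)

theorem std_nondeg (n : ℕ) : (std hF n).Nondeg := unitPQ_nondeg _

theorem std_ne : ∃ a, (frobQ hF : F →+* F) a ≠ a := unit_ne (isUnitaryForm_hermForm hF 0)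

theorem max_of {H : Subgroup (GL (Fin n) F)} (PH : ((Fin n → F) ≃ₗ[F] (Fin n → F)) → Prop)
    (hH : ∀ g, g ∈ H ↔ PH (toLE g)) (hne : ¬ GU n F q ⊓ Geo.specialLinear (Fin n) F ≤ H)
    (hmax : ∀ M ≤ sisom (std hF n), (∀ g ∈ sisom (std hF n), PH g → g ∈ M) →
      (∀ g ∈ M, PH g) ∨ sisom (std hF n) ≤ M) :
    Geo.IsMaximalIn (GU n F q ⊓ Geo.specialLinear (Fin n) F)
      (H ⊓ (GU n F q ⊓ Geo.specialLinear (Fin n) F)) := by
  refine isMaximalIn_of_equiv toLE _ _ (fun g => g ∈ sisom (std hF n))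
    (fun g => PH g ∧ g ∈ sisom (std hF n)) (mem_SU_iff hF n)
    (fun g => by rw [Subgroup.mem_inf, hH, mem_SU_iff hF]) (fun g h => h.2)
    (not_le_inf_of_not_le hne) fun M h1 h2 => ?_
  rcases hmax M h2 (fun g hg hg' => h1 g ⟨hg', hg⟩) with h | h
  · exact Or.inl fun g hg => ⟨h g hg, h2 g hg⟩
  · exact Or.inr h

theorem mem_stab_iff (W : Submodule F (Fin n → F)) (g : GL (Fin n) F) :
    g ∈ Geo.subspaceStabilizer W ↔ ∀ w ∈ W, toLE g w ∈ W := by
  rw [H7.mem_subspaceStabilizer_iff]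
  exact ⟨fun h w hw => (h w).1 hw, fun h => stab_iff_of_le _ W h⟩

include hF in
theorem geo_ts (hn : 4 ≤ n) (W : Submodule F (Fin n → F)) (hW0 : W ≠ ⊥)
    (hW : Geo.IsTotallySingularFor (hermForm n F q) W) :
    Geo.IsMaximalIn (GU n F q ⊓ Geo.specialLinear (Fin n) F)
      (Geo.subspaceStabilizer W ⊓ (GU n F q ⊓ Geo.specialLinear (Fin n) F)) := by
  have hW' : (std hF n).TS W := ((std hF n).unit_ts W).2 hW
  refine max_of hF _ (mem_stab_iff W) (SU_not_le_subspaceStabilizer hF (by omega) hW0 ?_)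
    fun M h1 h2 => ts_max (std_ne hF) (std_nondeg hF n) (by simpa using hn) hW' h1 h2
  intro h
  have := hW'.two_mul_finrank_le (std_nondeg hF n)
  rw [h] at this
  simp at this
  omega

include hF in
theorem geo_nondeg (hn : 5 ≤ n) (W : Submodule F (Fin n → F)) (hW0 : W ≠ ⊥)
    (hW : Geo.IsNondegenerateOn (hermForm n F q) W) (hdim : 2 * finrank F W < n) :
    Geo.IsMaximalIn (GU n F q ⊓ Geo.specialLinear (Fin n) F)
      (Geo.subspaceStabilizer W ⊓ (GU n F q ⊓ Geo.specialLinear (Fin n) F)) := by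
  have hW' : (std hF n).NondegOn W := ((std hF n).nondegOn_iff_geo W).2 hW
  refine max_of hF _ (mem_stab_iff W) (SU_not_le_subspaceStabilizer hF (by omega) hW0 ?_)
    fun M h1 h2 => nondeg_max (std_ne hF) (std_nondeg hF n) (by simpa using hn) hW'
      (by simpa using hdim) h1 h2
  intro h
  rw [h] at hdim
  simp at hdim
  omega

end Cfsg.Agent.H6.SU
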