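import Cfsg.Agent.H6.SUC1

/-!
Maximality of stabilisers of orthogonal decompositions (blocks of dimension `≥ 2`) in `SU`.
-/

set_option autoImplicit false
set_option linter.unusedSectionVars false
set_option linter.unusedVariables false

namespace Cfsg.Agent.H6.SU

open Module Cfsg.Agent.Form Cfsg.Agent.H7
open scoped MatrixGroups

section abstract

variable {F : Type*} [Field F] {σ : F →+* F} {hσ : ∀ a, σ (σ a) = a}
  {V : Type*} [AddCommGroup V] [Module F V] {S : PQ (FP.unit σ hσ) V} {M : Subgroup (V ≃ₗ[F] V)}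
  [FiniteDimensional F V] [Finite F]
  {T : Type*} [Fintype T] {D : T → Submodule F V} {π : T → V →ₗ[F] V}

/-- An orthogonal decomposition into non-degenerate blocks of dimension `k`. -/
structure OD (S : PQ (FP.unit σ hσ) V) (D : T → Submodule F V) (π : T → V →ₗ[F] V) (k : ℕ) :
    Prop where
  pr : Projs D π
  nd : ∀ i, S.NondegOn (D i)
  orth : ∀ i j, i ≠ j → ∀ x ∈ D i, ∀ y ∈ D j, S.B x y = 0
  dim : ∀ i, finrank F (D i) = k

variable {k : ℕ}

theorem OD.B_eq (h : OD S D π k) {i : T} (v : V) {y : V} (hy : y ∈ D i) :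
    S.B v y = S.B (π i v) y := by
  conv_lhs => rw [← h.pr.sum v, S.B_sum_left]
  exact Finset.sum_eq_single i (fun j _ hj => h.orth j i hj _ (h.pr.mem j v) y hy) (by simp)

theorem OD.B_eq' (h : OD S D π k) {i : T} (v : V) {y : V} (hy : y ∈ D i) :
    S.B y v = S.B y (π i v) := by rw [← Bs S v y, h.B_eq v hy, Bs]

theorem OD.mem_perp (h : OD S D π k) {i : T} {v : V} : v ∈ S.perp (D i) ↔ π i v = 0 :=
  ⟨fun hv => h.nd i _ (h.pr.mem i v) fun y hy => by rw [← h.B_eq v hy]; exact hv y hy,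
   fun hv y hy => by rw [h.B_eq v hy, hv, S.B_zero_left]⟩

theorem OD.sub_mem (h : OD S D π k) (i : T) (v : V) : v - π i v ∈ S.perp (D i) := by
  rw [h.mem_perp, map_sub, h.pr.proj_proj, sub_self]

theorem OD.local_mem (h : OD S D π k) (hH : ∀ g ∈ sisom S, (∀ i, ∃ j, ∀ x ∈ D i, g x ∈ D j) → g ∈ M)
    {g : V ≃ₗ[F] V} (hg : g ∈ sisom S) (h1 : ∀ i, ∀ x ∈ D i, g x ∈ D i) : g ∈ M :=
  hH g hg fun i => ⟨i, h1 i⟩

theorem OD.ef (h : OD S D π k) (hH : ∀ g ∈ sisom S, (∀ i, ∃ j, ∀ x ∈ D i, g x ∈ D j) → g ∈ M)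
    (i : T) : EF S M (D i) := fun d hd w hw q hq =>
  ⟨hq, h.local_mem hH (eich_mem_sisom S _ _ _ hq) fun j x hx => by
    rw [eich_ap]
    by_cases hij : j = i
    · subst hij
      exact Submodule.sub_mem _ (add_mem hx (Submodule.smul_mem _ _ hd)) (Submodule.smul_mem _ _ hw)
    · simpa [h.orth j i hij x hx d hd, h.orth j i hij x hx w hw] using hx⟩

theorem OD.refl_mem (h : OD S D π k) {i j : T} {z x : V} (hz : z ∈ D i) (hx : x ∈ D j) (c : F) :
    x + (c * S.B x z) • z ∈ D j := by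
  by_cases hij : j = i
  · subst hij; exact add_mem hx (Submodule.smul_mem _ _ hz)
  · simpa [h.orth j i hij x hx z hz] using hx

theorem OD.exists_swap (hne : ∃ a, σ a ≠ a) (hS : S.Nondeg) (h : OD S D π k) (hk : 1 ≤ k)
    {j l : T} (hjl : j ≠ l) (i : T) :
    ∃ g ∈ sisom S, (∀ x ∈ D j, g x ∈ D l) ∧ (∀ x ∈ D l, g x ∈ D j) ∧
      ∀ m, m ≠ j → m ≠ l → ∀ x ∈ D m, g x ∈ D m := by
  obtain ⟨a, a1, a2, a3, a4⟩ := exists_orthonormal_unit hne S k (D j) (h.nd j) (h.dim j)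
  obtain ⟨b, b1, b2, b3, b4⟩ := exists_orthonormal_unit hne S k (D l) (h.nd l) (h.dim l)
  have hab : ∀ s t, S.B (a s) (b t) = 0 := fun s t => h.orth j l hjl _ (a1 s) _ (b1 t)
  have hba : ∀ s t, S.B (b s) (a t) = 0 := fun s t => h.orth l j hjl.symm _ (b1 s) _ (a1 t)
  obtain ⟨g, hg, e⟩ := exists_prod S.isom
    (fun s : Fin k => (-S.lin (a s - b s)).smulRight (a s - b s)) Finset.univ
    (fun s => ⟨_, S.tau_mem (a s - b s) (-1) (by
      rw [PQ.unit_tauOK_iff]; simp [a2, b2, hab, hba]), fun x => by simp⟩)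
    (fun s t hst x => by simp [a3 t s hst.symm, b3 t s hst.symm, hab, hba])
  simp only [LinearMap.smulRight_apply, LinearMap.neg_apply, PQ.lin_apply, PQ.B_sub_right] at e
  have g1 : ∀ x ∈ D j, g x ∈ D l := by
    intro x hx
    have : g x = ∑ s, S.B x (a s) • b s := by
      rw [e]
      nth_rewrite 1 [a4 x hx]
      rw [← Finset.sum_add_distrib]
      refine Finset.sum_congr rfl fun s _ => ?_
      rw [h.orth j l hjl x hx _ (b1 s)]; module
    rw [this]
    exact Submodule.sum_mem _ fun s _ => Submodule.smul_mem _ _ (b1 s)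
  have g2 : ∀ x ∈ D l, g x ∈ D j := by
    intro x hx
    have : g x = ∑ s, S.B x (b s) • a s := by
      rw [e]
      nth_rewrite 1 [b4 x hx]
      rw [← Finset.sum_add_distrib]
      refine Finset.sum_congr rfl fun s _ => ?_
      rw [h.orth l j hjl.symm x hx _ (a1 s)]; module
    rw [this]
    exact Submodule.sum_mem _ fun s _ => Submodule.smul_mem _ _ (a1 s)
  have g3 : ∀ m, m ≠ j → m ≠ l → ∀ x ∈ D m, g x ∈ D m := by
    intro m h1 h2 x hx
    rw [e, Finset.sum_eq_zero fun s _ => by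
      rw [h.orth m j h1 x hx _ (a1 s), h.orth m l h2 x hx _ (b1 s)]; simp]
    simpa using hx
  obtain ⟨z, hz, hzz⟩ := exists_B_self_ne_unit hne S (h.nd i) (by
    intro h0; have := h.dim i; rw [h0, finrank_bot] at this; omega)
  obtain ⟨g', hg', c, e'⟩ := exists_fix_det hS hg hzz
  exact ⟨g', hg', fun x hx => by rw [e']; exact g1 _ (h.refl_mem hz hx c),
    fun x hx => by rw [e']; exact g2 _ (h.refl_mem hz hx c),
    fun m h1 h2 x hx => by rw [e']; exact g3 m h1 h2 _ (h.refl_mem hz hx c)⟩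

theorem OD.top_of (hne : ∃ a, σ a ≠ a) (hS : S.Nondeg) (h : OD S D π k) (hk : 2 ≤ k)
    (hM : M ≤ sisom S) (hH : ∀ g ∈ sisom S, (∀ i, ∃ j, ∀ x ∈ D i, g x ∈ D j) → g ∈ M)
    {Y : Submodule F V} (h2 : Full S M Y) (h3 : ∀ v, Ctr S M v → v ∈ Y ∨ v ∈ S.perp Y) {i : T}
    (hi : D i ≤ Y) {v : V} (hv : v ∈ Y) (hvi : v ∉ D i) : Full S M ⊤ := by
  classical
  have key : ∀ j, ∀ v ∈ Y, π j v ≠ 0 → D j ≤ Y := by
    intro j v hv h0
    refine ((h.ef hH j).full.le_or hne h3 (h.nd j) (by rw [h.dim]; exact hk)).resolve_right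
      fun h4 => h0 (h.mem_perp.1 (S.le_perp_comm.1 h4 hv))
  obtain ⟨j, hji, hj⟩ : ∃ j, j ≠ i ∧ π j v ≠ 0 := by
    by_contra hc; push Not at hc; exact hvi (h.pr.mem_of hc)
  have hjY := key j v hv hj
  refine h2.mono fun x _ => ?_
  rw [← h.pr.sum x]
  refine Y.sum_mem fun l _ => ?_
  suffices D l ≤ Y from this (h.pr.mem l x)
  by_cases hli : l = i
  · rwa [hli]
  by_cases hlj : l = j
  · rwa [hlj]
  obtain ⟨g, hg, g1, g2, g3⟩ := h.exists_swap hne hS (by omega) (Ne.symm hlj) i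
  have hgM : g ∈ M := hH g hg fun m => by
    by_cases h1 : m = j
    · exact ⟨l, h1 ▸ g1⟩
    by_cases h2 : m = l
    · exact ⟨j, h2 ▸ g2⟩
    · exact ⟨m, g3 m h1 h2⟩
  obtain ⟨e, he, f, hf, hee, hff, hef⟩ := exists_hyp_on hne (h.nd i) (by rw [h.dim]; exact hk)
  obtain ⟨e', he', f', hf', hee', hff', hef'⟩ := exists_hyp_on hne (h.nd j) (by rw [h.dim]; exact hk)
  have c1 := (h2 (e + e') (add_mem (hi he) (hjY he')) (by
    simp [hee, hee', h.orth i j (Ne.symm hji) e he e' he', h.orth j i hji e' he' e he])).map hgM hg.1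
  have m1 := g3 i (Ne.symm hji) (Ne.symm hli) e he
  have m2 := g1 e' he'
  rw [map_add] at c1
  rcases h3 _ c1 with h4 | h4
  · refine key l _ h4 ?_
    rw [map_add, h.pr.ne l i hli _ m1, h.pr.self l _ m2, zero_add]
    intro h0
    rw [map_eq_zero_iff g g.injective] at h0
    simp [h0] at hef'
  · exfalso
    have := h.mem_perp.1 (S.perp_anti hi h4)
    rw [map_add, h.pr.ne i l (Ne.symm hli) _ m2, h.pr.self i _ m1, add_zero,
      map_eq_zero_iff g g.injective] at this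
    simp [this] at hef

theorem exists_unit_dual (hne : ∃ a, σ a ≠ a) {U : Submodule F V} (hU : S.NondegOn U) {v : V}
    (hv : v ∈ U) (h0 : v ≠ 0) (hs : S.B v v = 0) : ∃ z ∈ U, S.B z z = 1 ∧ S.B v z = 1 := by
  obtain ⟨f, hf, hff, hvf⟩ := exists_partner_on hU hv h0 hs
  obtain ⟨a, ha⟩ := exists_tr_one hne hσ
  have hfv : S.B f v = 1 := by rw [← Bs, hvf, map_one]
  refine ⟨a • v + f, add_mem (U.smul_mem _ hv) hf, ?_, by simp [hs, hvf]⟩
  simp [hs, hvf, hfv, hff]; linear_combination ha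

theorem OD.exists_nonsing (hne : ∃ a, σ a ≠ a) (h : OD S D π k) (hM : M ≤ sisom S)
    (hH : ∀ g ∈ sisom S, (∀ i, ∃ j, ∀ x ∈ D i, g x ∈ D j) → g ∈ M) {v : V} (hv : Ctr S M v)
    (hv0 : v ≠ 0) (hvD : ∀ i, v ∉ D i) : ∃ v i, Ctr S M v ∧ S.B (π i v) (π i v) ≠ 0 := by
  by_contra hc
  push Not at hc
  obtain ⟨i, hi⟩ : ∃ i, π i v ≠ 0 := by
    by_contra h1; push Not at h1; exact hv0 (h.pr.eq_zero h1)
  obtain ⟨j, hji, hj⟩ : ∃ j, j ≠ i ∧ π j v ≠ 0 := by
    by_contra h1; push Not at h1; exact hvD i (h.pr.mem_of h1)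
  obtain ⟨z, hz, hzz, hvz⟩ := exists_unit_dual hne (h.nd i) (h.pr.mem i v) hi (hc v i hv)
  obtain ⟨y, hy, hyy, hvy⟩ := exists_unit_dual hne (h.nd j) (h.pr.mem j v) hj (hc v j hv)
  obtain ⟨δ, h1, h2⟩ := exists_norm_one_ne hne hσ
  obtain ⟨g, hg, d1, e1⟩ := exists_refl S (z := z) (by rw [hzz]; exact one_ne_zero) h1
  obtain ⟨g', hg', d2, e2⟩ := exists_refl S (z := y) (by rw [hyy]; exact one_ne_zero) (δ := σ δ)
    (by rw [hσ, mul_comm, h1])
  have hs : g * g' ∈ sisom S := mem_sisom.2 ⟨S.isom.mul_mem hg hg', Units.ext (by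
    rw [map_mul, Units.val_mul, d1, d2, h1]; rfl)⟩
  have hgM := h.local_mem hH hs fun l x hx => by
    rw [LinearEquiv.mul_apply, e2, e1]
    exact h.refl_mem hz (h.refl_mem hy hx _) _
  have b1 : S.B v z = 1 := by rw [h.B_eq v hz, hvz]
  have b2 : S.B v y = 1 := by rw [h.B_eq v hy, hvy]
  have b3 : S.B y z = 0 := h.orth j i hji y hy z hz
  have b4 : S.B z (π i v) = 1 := by rw [← Bs, hvz, map_one]
  have c1 := hv.map hgM hs.1
  have e3 : (g * g') v = v + (σ δ - 1) • y + (δ - 1) • z := by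
    rw [LinearEquiv.mul_apply, e2, e1]; simp [hzz, hyy, b1, b2, b3]
  rw [e3] at c1
  have hδ1 : δ - 1 ≠ 0 := fun h => h2 (by rw [sub_eq_zero.1 h, map_one])
  have hδ2 : σ δ - 1 ≠ 0 := fun h => hδ1 (by
    have := congrArg σ h
    rwa [map_sub, hσ, map_one, map_zero] at this)
  have b5 : S.B v (v + (σ δ - 1) • y + (δ - 1) • z) = -((δ - 1) * (σ δ - 1)) := by
    simp only [PQ.B_add_right, Bsr, hv.1.B_self, b1, b2, map_sub, map_one, hσ]
    linear_combination h1
  obtain ⟨l, hl0, hl⟩ := exists_tr_zero hne hσ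
  have b6 : S.B (v + (σ δ - 1) • y + (δ - 1) • z) v = -((δ - 1) * (σ δ - 1)) := by
    rw [← Bs, b5]; simp only [map_neg, map_mul, map_sub, map_one, hσ]; ring
  have c2 := hv.add_of_ne c1 (by rw [b5]; simp [hδ1, hδ2]) (a := l) (sing (by
    generalize v + (σ δ - 1) • y + (δ - 1) • z = v' at b5 b6 c1
    simp only [PQ.B_add_left, PQ.B_add_right, PQ.B_smul_left, Bsr, hv.1.B_self, c1.1.B_self, b5, b6]
    linear_combination (-((δ - 1) * (σ δ - 1))) * hl))
  have := hc _ i c2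
  simp only [map_add, map_smul, h.pr.self i z hz, h.pr.ne i j (Ne.symm hji) y hy, smul_zero,
    add_zero, PQ.B_add_left, PQ.B_add_right, PQ.B_smul_left, Bsr, hc v i hv, hvz, b4, hzz,
    map_sub, map_one] at this
  have hσl : σ l = -l := by linear_combination hl
  rw [hσl] at this
  exact mul_ne_zero hl0 (sub_ne_zero.2 h2) (by linear_combination -this - l ^ 2 * h1)

theorem OD.max (hne : ∃ a, σ a ≠ a) (hS : S.Nondeg) (h : OD S D π k) (h4 : 4 ≤ finrank F V)
    (hk : 3 ≤ k ∨ (k = 2 ∧ ∃ a : F, σ a = a ∧ a ≠ 0 ∧ a ≠ 1)) (hM : M ≤ sisom S)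
    (hH : ∀ g ∈ sisom S, (∀ i, ∃ j, ∀ x ∈ D i, g x ∈ D j) → g ∈ M) :
    (∀ g ∈ M, ∀ i, ∃ j, ∀ x ∈ D i, g x ∈ D j) ∨ sisom S ≤ M := by
  have hk2 : 2 ≤ k := by omega
  by_cases hex : ∃ v, Ctr S M v ∧ v ≠ 0 ∧ ∀ i, v ∉ D i
  · right
    obtain ⟨v, hv, hv0, hvD⟩ := hex
    refine Full.sisom_le hne hS h4 ?_
    obtain ⟨v, i, hv, hn⟩ := h.exists_nonsing hne hM hH hv hv0 hvD
    have hvi : v ∉ D i := fun hm => hn (by rw [h.pr.self i v hm]; exact hv.1.B_self)
    rcases hk with hk | ⟨hk, h3⟩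
    · obtain ⟨Y, y1, y2, y3⟩ := core hne (h.nd i) (by rw [h.dim]; exact hk) (h.ef hH i)
      refine h.top_of hne hS hk2 hM hH y2 y3 y1 ((y3 v hv).resolve_right fun h5 => hn ?_) hvi
      rw [h.mem_perp.1 (S.perp_anti y1 h5), S.B_zero_left]
    · have hr := h.sub_mem i v
      have hrr : S.B (v - π i v) (v - π i v) ≠ 0 := by
        rw [PQ.B_sub_right, S.mem_perp.1 hr _ (h.pr.mem i v), PQ.B_sub_left, hv.1.B_self,
          h.B_eq' v (h.pr.mem i v)]
        simpa using hn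
      have hU : S.NondegOn (D i ⊔ F ∙ (v - π i v)) :=
        (h.nd i).sup (S.nondegOn_span_singleton hrr) (by rwa [Submodule.span_singleton_le_iff_mem])
      have hvU : v ∈ D i ⊔ F ∙ (v - π i v) := by
        have := Submodule.add_mem_sup (h.pr.mem i v) (Submodule.mem_span_singleton_self (R := F) (v - π i v))
        rwa [add_sub_cancel] at this
      have hd : finrank F (D i ⊔ F ∙ (v - π i v) : Submodule F V) = 3 := by
        have h1 := finrank_sup_span_le (D i) (v - π i v)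
        have h2 := Submodule.finrank_lt_finrank_of_lt (s := D i) (t := D i ⊔ F ∙ (v - π i v))
          (lt_of_le_of_ne le_sup_left fun h => hvi (h ▸ hvU))
        rw [h.dim] at h1 h2; omega
      obtain ⟨e, he, f, hf, hee, hff, hef⟩ := exists_hyp_on hne (h.nd i) (by rw [h.dim]; exact hk2)
      have hF := full_three hne hU hd (Submodule.mem_sup_left he) (Submodule.mem_sup_left hf) hvU
        ((h.ef hH i).full e he hee) ((h.ef hH i).full f hf hff) hv (by rw [hef]; exact one_ne_zero)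
        (fun hm => hvi ((Submodule.span_le.2 (by rintro x (rfl | rfl) <;> assumption)) hm))
      obtain ⟨Y, y1, y2, y3⟩ := core hne hU hd.ge (hF.ef hne h3 hU)
      exact h.top_of hne hS hk2 hM hH y2 y3 (le_sup_left.trans y1) (y1 hvU) hvi
  left
  push Not at hex
  intro g hg i
  have hgi := (hM hg).1
  obtain ⟨e, he, f, hf, hee, hff, hef⟩ := exists_hyp_on hne (h.nd i) (by rw [h.dim]; exact hk2)
  have he0 : g e ≠ 0 := by
    rw [Ne, map_eq_zero_iff g g.injective]; rintro rfl; simp at hef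
  obtain ⟨j, hj⟩ := hex _ (((h.ef hH i).full e he hee).map hg hgi) he0
  refine ⟨j, ?_⟩
  rcases le_or_le_of_sing hne (h.nd i) (by rw [h.dim]; exact hk2)
    (A := (D j).comap (g : V →ₗ[F] V)) (B := (S.perp (D j)).comap (g : V →ₗ[F] V)) (by
      intro y hy hyy
      by_cases hy0 : g y = 0
      · left; change g y ∈ D j; rw [hy0]; exact zero_mem _
      obtain ⟨l, hl⟩ := hex _ (((h.ef hH i).full y hy hyy).map hg hgi) hy0
      by_cases hlj : l = j
      · left; exact hlj ▸ hl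
      · right; exact fun x hx => h.orth l j hlj _ hl x hx) with h1 | h1
  · exact fun x hx => h1 hx
  · exact absurd (h.nd j _ hj (h1 he)) he0

end abstract

variable {F : Type*} [Field F] [Fintype F] {q : ℕ} (hF : Fintype.card F = q ^ 2) {n : ℕ}

theorem mem_decomp_iff {t k : ℕ} {D : Fin t → Submodule F (Fin n → F)} (hD : Geo.IsMDecomposition k D)
    (g : GL (Fin n) F) :
    g ∈ Geo.decompositionStabilizer D ↔ ∀ i, ∃ j, ∀ x ∈ D i, toLE g x ∈ D j := by
  refine ⟨fun h i => ?_, mem_decompositionStabilizer_of hD⟩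
  obtain ⟨s, hs⟩ := (mem_decompositionStabilizer_iff D g).1 h
  exact ⟨s i, fun x hx => mem_of_map_eq (hs i) hx⟩

theorem exists_od {t k : ℕ} {D : Fin t → Submodule F (Fin n → F)}
    (hD : Geo.IsNondegenerateMDecomposition (hermForm n F q) k D) : ∃ π, OD (std hF n) D π k := by
  obtain ⟨π, hπ⟩ := exists_projs hD.decomp.indep hD.decomp.iSup_eq_top
  exact ⟨π, hπ, fun i => ((std hF n).nondegOn_iff_geo _).2 (hD.nondegenerate i), hD.orthogonal,
    hD.decomp.finrank_eq⟩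

theorem exists_real (h3 : 3 ≤ q) : ∃ a : F, (frobQ hF : F →+* F) a = a ∧ a ≠ 0 ∧ a ≠ 1 := by
  classical
  by_contra hc
  push Not at hc
  -- every norm is `0` or `1`
  have h1 : ∀ x : F, x ≠ 0 → x ^ (q + 1) = 1 := fun x hx =>
    hc _ (by
      change (x ^ (q + 1)) ^ q = _
      rw [pow_succ, mul_pow, pow_q_pow_q hF, mul_comm]) (pow_ne_zero _ hx)
  obtain ⟨g, hg⟩ := IsCyclic.exists_ofOrder_eq_natCard (α := Fˣ)
  have h2 : orderOf g ∣ q + 1 := orderOf_dvd_of_pow_eq_one (Units.ext (by simpa using h1 g g.ne_zero))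
  rw [hg, Nat.card_units, Nat.card_eq_fintype_card, hF] at h2
  have := Nat.le_of_dvd (by omega) h2
  have h4 : 3 * q ≤ q ^ 2 := by nlinarith
  omega

include hF in
theorem geo_decomp (hn : 4 ≤ n) {t : ℕ} (k : ℕ) (D : Fin t → Submodule F (Fin n → F))
    (hD : Geo.IsNondegenerateMDecomposition (hermForm n F q) k D) (hk : 2 ≤ k)
    (hex : ¬ (k = 2 ∧ q = 2)) :
    Geo.IsMaximalIn (GU n F q ⊓ Geo.specialLinear (Fin n) F)
      (Geo.decompositionStabilizer D ⊓ (GU n F q ⊓ Geo.specialLinear (Fin n) F)) := by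
  obtain ⟨π, h⟩ := exists_od hF hD
  have h2 := two_le_of_card_sq hF
  refine max_of hF _ (mem_decomp_iff hD.decomp)
    (SU_not_le_decompositionStabilizer hF (by omega) (by omega) hD.decomp)
    fun M h1 h3 => h.max (std_ne hF) (std_nondeg hF n) (by simpa using hn) ?_ h1 h3
  by_cases hk2 : k = 2
  · exact Or.inr ⟨hk2, exists_real hF (by omega)⟩
  · exact Or.inl (by omega)

end Cfsg.Agent.H6.SU
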