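import Cfsg.Agent.H6.SUBasic

/-!
Closure properties of the set of transvection centres of a subgroup of a unitary group.
-/

set_option autoImplicit false
set_option linter.unusedSectionVars false
set_option linter.unusedVariables false

namespace Cfsg.Agent.H6.SU

open Module Cfsg.Agent.Form Cfsg.Agent.H7

variable {F : Type*} [Field F] {σ : F →+* F} {hσ : ∀ a, σ (σ a) = a}
  {V : Type*} [AddCommGroup V] [Module F V] {S : PQ (FP.unit σ hσ) V} {M : Subgroup (V ≃ₗ[F] V)}

/-- All singular vectors of `U` are centres. -/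
def Full (S : PQ (FP.unit σ hσ) V) (M : Subgroup (V ≃ₗ[F] V)) (U : Submodule F V) : Prop :=
  ∀ v ∈ U, S.B v v = 0 → Ctr S M v

/-- `M` contains all Eichler maps with data in `U`. -/
def EF (S : PQ (FP.unit σ hσ) V) (M : Subgroup (V ≃ₗ[F] V)) (U : Submodule F V) : Prop :=
  ∀ d ∈ U, ∀ w ∈ U, ∀ q, S.EichOK d w q → HE S M d w q

theorem EF.full {U : Submodule F V} (h : EF S M U) : Full S M U := fun v hv hs =>
  ctr_of_he_zero hs fun q hq => h v hv 0 U.zero_mem q (eichOK_iff.2 ⟨hs, by simp, by simpa using hq⟩)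

theorem Full.mono {U W : Submodule F V} (h : Full S M U) (hW : W ≤ U) : Full S M W :=
  fun v hv => h v (hW hv)

theorem Full.map {U : Submodule F V} (h : Full S M U) {g : V ≃ₗ[F] V} (hg : g ∈ M)
    (hg' : g ∈ S.isom) : Full S M (U.map (g : V →ₗ[F] V)) := by
  rintro _ ⟨v, hv, rfl⟩ hs
  exact (h v hv (by rw [← PQ.B_isom hg']; exact hs)).map hg hg'

/-- one Eichler step -/
theorem exists_step {d x y : V} (hd : S.B d d = 0) (hxy : S.B x d = S.B y d) (hx : S.B x d ≠ 0)
    (hn : S.B x x = S.B y y) {U : Submodule F V} (hU : x - y ∈ U)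
    (h : ∀ w ∈ U, ∀ q, S.EichOK d w q → HE S M d w q) : ∃ g ∈ M, g ∈ S.isom ∧ g x = y := by
  obtain ⟨w, q, hE, hw, e⟩ := exists_eich_map S (sing hd) hxy hx
    ((S.unit_Q_sub_mem S x y).2 hn.symm)
  have hwU : w ∈ U := by
    obtain ⟨a, rfl⟩ := Submodule.mem_span_singleton.1 hw
    exact U.smul_mem _ hU
  exact ⟨_, (h w hwU q hE).2, S.eich_mem _ _ _ _, e⟩

/-- Eichler map at `d` from the transvections at `w` and `d + a w`. -/
theorem ei_of_ctr (hne : ∃ a, σ a ≠ a) {d w : V} (hd : S.B d d = 0) (hwd : S.B w d = 0)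
    (hw : Ctr S M w) (h : ∀ a : F, a ≠ 0 → Ctr S M (d + a • w)) : Ei S M d w := by
  obtain ⟨c, hc0, hc⟩ := exists_tr_zero hne hσ
  have hww := hw.1.B_self
  have hdw := S.B_comm_zero hwd
  have hσc : σ c = -c := by linear_combination hc
  obtain ⟨g, hg, e⟩ := Ctr.ht (h (-c⁻¹) (by simpa using hc0)) hc
  obtain ⟨g', hg', e'⟩ := Ctr.ht hw (c := c⁻¹) (by rw [map_inv₀, hσc]; simp)
  refine ⟨-c, he_of_eq (eichOK_iff.2 ⟨hd, hwd, by rw [map_neg, hww]; linear_combination -hc⟩)
    (M.mul_mem hg hg') fun x => ?_⟩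
  rw [LinearEquiv.mul_apply, e, e']
  simp only [PQ.B_add_left, PQ.B_add_right, PQ.B_smul_left, Bsr, hww, hwd, map_neg, map_inv₀, hσc]
  match_scalars
  · ring
  · field_simp; ring
  · field_simp; ring

variable [FiniteDimensional F V] [Finite F]

theorem EF.trans (hne : ∃ a, σ a ≠ a) {U : Submodule F V} (hU : S.NondegOn U) (h3 : 3 ≤ finrank F U)
    (hE : EF S M U) {x y r : V} (hx : x ∈ U) (hy : y ∈ U) (hx0 : x ≠ 0) (hy0 : y ≠ 0)
    (hn : S.B x x = S.B y y) (hr : r ∈ S.perp U) : ∃ g ∈ M, g ∈ S.isom ∧ g (x + r) = y + r := by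
  have hr' : ∀ u ∈ U, S.B u r = 0 := S.mem_perp'.1 hr
  have hr'' : ∀ u ∈ U, S.B r u = 0 := S.mem_perp.1 hr
  obtain ⟨d, hd, hdd, h1, -⟩ := exists_sing_on hne hU (by omega) (notMem_perp hU hx hx0)
    (notMem_perp hU hx hx0)
  have hd0 : d ≠ 0 := by rintro rfl; simp at h1
  obtain ⟨e, he, hee, h2, h4⟩ := exists_sing_on hne hU (by omega) (notMem_perp hU hy hy0)
    (notMem_perp hU hd hd0)
  obtain ⟨w, hw, hww, hwd, hwe⟩ := exists_nonsing_perp hne hU h3 hd he hdd hee h4
  have h5 := ne_swap h4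
  set z0 := (S.B y e / S.B d e) • d + (S.B x d / S.B e d) • e with hz0
  obtain ⟨s, hs⟩ := exists_norm_mul hne hσ (Bs S w w) hww (c := S.B x x - S.B z0 z0)
    (by rw [map_sub, Bs, Bs])
  have hz0U : z0 ∈ U := U.add_mem (U.smul_mem _ hd) (U.smul_mem _ he)
  have e1 : S.B w z0 = 0 := by simp [hz0, hwd, hwe]
  have e2 := S.B_comm_zero e1
  set z := z0 + s • w with hz
  have hzU : z ∈ U := U.add_mem hz0U (U.smul_mem _ hw)
  have e3 : S.B z z = S.B x x := by
    simp only [hz, PQ.B_add_left, PQ.B_add_right, PQ.B_smul_left, Bsr, e1, e2]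
    linear_combination hs
  have e4 : S.B z d = S.B x d := by simp [hz, hz0, hwd, hdd, h5]
  have e5 : S.B z e = S.B y e := by simp [hz, hz0, hwe, hee, h4]
  obtain ⟨g, hg, hg', k1⟩ := exists_step (M := M) (x := x + r) (y := z + r) hdd
    (by simp [e4]) (by simpa [hr'' d hd] using h1)
    (by simp [hr' x hx, hr'' x hx, hr' z hzU, hr'' z hzU, e3]) (U := U)
    (by simpa using U.sub_mem hx hzU) (hE d hd)
  obtain ⟨g', hk, hk', k2⟩ := exists_step (M := M) (x := z + r) (y := y + r) hee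
    (by simp [e5]) (by simpa [hr'' e he, e5] using h2)
    (by simp [hr' y hy, hr'' y hy, hr' z hzU, hr'' z hzU, e3, hn]) (U := U)
    (by simpa using U.sub_mem hzU hy) (hE e he)
  exact ⟨g' * g, M.mul_mem hk hg, S.isom.mul_mem hk' hg', by rw [LinearEquiv.mul_apply, k1, k2]⟩

theorem EF.ctr_add (hne : ∃ a, σ a ≠ a) {U : Submodule F V} (hU : S.NondegOn U)
    (h3 : 3 ≤ finrank F U) (hE : EF S M U) {x y r : V} (hx : x ∈ U) (hy : y ∈ U) (hx0 : x ≠ 0)
    (hr : r ∈ S.perp U) (h : Ctr S M (x + r)) (hs : S.B (y + r) (y + r) = 0) :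
    Ctr S M (y + r) := by
  have hr' : ∀ u ∈ U, S.B u r = 0 := S.mem_perp'.1 hr
  have hr'' : ∀ u ∈ U, S.B r u = 0 := S.mem_perp.1 hr
  have key : ∀ y ∈ U, y ≠ 0 → S.B (y + r) (y + r) = 0 → Ctr S M (y + r) := by
    intro y hy hy0 hs
    have h1 := h.1.B_self
    simp only [PQ.B_add_left, PQ.B_add_right, hr' x hx, hr'' x hx, hr' y hy, hr'' y hy] at h1 hs
    obtain ⟨g, hg, hg', e⟩ := hE.trans hne hU h3 hx hy hx0 hy0 (by linear_combination h1 - hs) hr
    rw [← e]; exact h.map hg hg'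
  by_cases hy0 : y = 0
  swap
  · exact key y hy hy0 hs
  rw [hy0, zero_add] at hs ⊢
  have k : ∀ w ∈ U, S.B w w = 0 → Ei S M r w := by
    intro w hw hww
    by_cases hw0 : w = 0
    · rw [hw0]; exact ei_zero hs
    refine ei_of_ctr hne hs (hr' w hw) (hE.full w hw hww) fun a ha => ?_
    rw [add_comm]
    exact key _ (U.smul_mem _ hw) (smul_ne_zero ha hw0) (by simp [hww, hs, hr' w hw, hr'' w hw])
  obtain ⟨e, he, f, hf, hee, hff, hef⟩ := exists_hyp_on hne hU (by omega)
  exact ctr_of_ei hne (fun a => k _ (U.smul_mem a he) (by simp [hee])) (k f hf hff)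
    (by rw [hef]; exact one_ne_zero)

/-- The component of the set of centres attached to a non-degenerate subspace of dimension `≥ 3`. -/
theorem core (hne : ∃ a, σ a ≠ a) {U : Submodule F V} (hU : S.NondegOn U)
    (h3 : 3 ≤ finrank F U) (hE : EF S M U) :
    ∃ Y : Submodule F V, U ≤ Y ∧ Full S M Y ∧ ∀ v, Ctr S M v → v ∈ Y ∨ v ∈ S.perp Y := by
  let R : Submodule F V :=
    { carrier := {r | r ∈ S.perp U ∧ ∀ u ∈ U, S.B (u + r) (u + r) = 0 → Ctr S M (u + r)}
      zero_mem' := ⟨Submodule.zero_mem _, fun u hu hs => by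
        rw [add_zero] at hs ⊢; exact hE.full u hu hs⟩
      smul_mem' := by
        rintro a r ⟨h1, h2⟩
        refine ⟨Submodule.smul_mem _ _ h1, fun u hu hs => ?_⟩
        by_cases ha : a = 0
        · rw [ha, zero_smul, add_zero] at hs ⊢; exact hE.full u hu hs
        have e : u + a • r = a • (a⁻¹ • u + r) := by
          rw [smul_add, smul_smul, mul_inv_cancel₀ ha, one_smul]
        rw [e] at hs ⊢
        refine (h2 _ (U.smul_mem _ hu) ?_).smul a
        simpa only [PQ.B_smul_left, Bsr, mul_eq_zero, ha, σ_ne ha, false_or] using hs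
      add_mem' := by
        rintro r r' ⟨h1, h2⟩ ⟨h1', h2'⟩
        have hr : ∀ u ∈ U, S.B u r = 0 := S.mem_perp'.1 h1
        have hs : ∀ u ∈ U, S.B r u = 0 := S.mem_perp.1 h1
        have hr' : ∀ u ∈ U, S.B u r' = 0 := S.mem_perp'.1 h1'
        have hs' : ∀ u ∈ U, S.B r' u = 0 := S.mem_perp.1 h1'
        refine ⟨add_mem h1 h1', fun u hu hsing => ?_⟩
        obtain ⟨e, he, f, hf, hee, hff, hef⟩ := exists_hyp_on hne hU (by omega)
        have hfe : S.B f e = 1 := by rw [← Bs, hef, map_one]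
        obtain ⟨w, hw, hww, hwe, hwf⟩ := exists_nonsing_perp hne hU h3 he hf hee hff
          (by rw [hef]; exact one_ne_zero)
        have hew := S.B_comm_zero hwe
        have hfw := S.B_comm_zero hwf
        obtain ⟨a, ha⟩ := exists_tr_eq hne hσ (c := -S.B r r) (by rw [map_neg, Bs])
        obtain ⟨l, hl0, hl⟩ := exists_tr_zero hne hσ
        obtain ⟨m, hm0, hm1⟩ := exists_ne_zero_ne_neg_one hne
        set y := σ (l - S.B r r' - a * σ m) with hy
        have hy' : σ y = l - S.B r r' - a * σ m := hσ _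
        obtain ⟨z, hz⟩ := exists_norm_mul hne hσ (Bs S w w) hww
          (c := -S.B r' r' - (m * σ y + σ m * y)) (by
            simp only [map_sub, map_neg, map_add, map_mul, Bs, hσ]; ring)
        have m1 : e + a • f ∈ U := U.add_mem he (U.smul_mem _ hf)
        have m2 : m • e + y • f + z • w ∈ U :=
          U.add_mem (U.add_mem (U.smul_mem _ he) (U.smul_mem _ hf)) (U.smul_mem _ hw)
        have n1 : S.B (e + a • f) (e + a • f) = -S.B r r := by
          simp only [PQ.B_add_left, PQ.B_add_right, PQ.B_smul_left, Bsr, hee, hff, hef, hfe]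
          linear_combination ha
        have n2 : S.B (m • e + y • f + z • w) (m • e + y • f + z • w) = -S.B r' r' := by
          simp only [PQ.B_add_left, PQ.B_add_right, PQ.B_smul_left, Bsr, hee, hff, hef, hfe,
            hwe, hwf, hew, hfw]
          linear_combination hz
        have n3 : S.B (e + a • f) (m • e + y • f + z • w) = l - S.B r r' := by
          simp only [PQ.B_add_left, PQ.B_add_right, PQ.B_smul_left, Bsr, hee, hff, hef, hfe,
            hwe, hwf, hew, hfw, hy']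
          ring
        have n4 : S.B (m • e + y • f + z • w) (e + a • f) = σ l - S.B r' r := by
          rw [← Bs, n3, map_sub, Bs]
        have n5 : (e + a • f) + (m • e + y • f + z • w) ≠ 0 := by
          intro h
          have := congrArg (fun x => S.B x f) h
          simp [hef, hff, hwf, hm1] at this
        generalize e + a • f = p at m1 n1 n3 n4 n5
        generalize m • e + y • f + z • w = p' at m2 n2 n3 n4 n5
        have c1 := h2 p m1 (by simp [hr p m1, hs p m1, n1])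
        have c2 := h2' p' m2 (by simp [hr' p' m2, hs' p' m2, n2])
        have c3 := Ctr.add1 c1 c2 (by simpa [hr' p m1, hs p' m2, n3] using hl0) (by
          simp only [PQ.B_add_left, PQ.B_add_right, hr p m1, hs p m1, hr' p m1, hs' p m1,
            hr p' m2, hs p' m2, hr' p' m2, hs' p' m2, n1, n2, n3, n4]
          linear_combination hl)
        exact hE.ctr_add hne hU h3 (U.add_mem m1 m2) hu n5 (add_mem h1 h1')
          (by convert c3 using 1; abel) hsing }
  have hR : ∀ r ∈ S.perp U, ∀ u ∈ U, u ≠ 0 → Ctr S M (u + r) → r ∈ R := fun r hr u hu h0 h =>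
    ⟨hr, fun y hy hs => hE.ctr_add hne hU h3 hu hy h0 hr h hs⟩
  have hdec : ∀ v : V, ∃ u ∈ U, ∃ r ∈ S.perp U, v = u + r := by
    intro v
    have : v ∈ U ⊔ S.perp U := by rw [hU.isCompl.sup_eq_top]; trivial
    obtain ⟨u, hu, r, hr, e⟩ := Submodule.mem_sup.1 this
    exact ⟨u, hu, r, hr, e.symm⟩
  refine ⟨U ⊔ R, le_sup_left, fun v hv hs => ?_, fun v hv => ?_⟩
  · obtain ⟨u, hu, r, hr, rfl⟩ := Submodule.mem_sup.1 hv
    exact hr.2 u hu hs
  obtain ⟨u, hu, r, hr, rfl⟩ := hdec v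
  by_cases h0 : u = 0
  swap
  · exact Or.inl (Submodule.add_mem_sup hu (hR r hr u hu h0 hv))
  rw [h0, zero_add] at hv ⊢
  by_cases h1 : r ∈ S.perp R
  · right; rw [S.perp_sup]; exact ⟨hr, h1⟩
  left
  rw [PQ.mem_perp'] at h1
  push Not at h1
  obtain ⟨s, hs, hsr⟩ := h1
  obtain ⟨p, hp, hp0, hpp⟩ := exists_vec_norm hne hU (by omega) (c := -S.B s s) (by rw [map_neg, Bs])
  have k1 := S.mem_perp'.1 hs.1 p hp
  have k2 := S.mem_perp.1 hs.1 p hp
  have k3 := S.mem_perp'.1 hr p hp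
  have c1 := hs.2 p hp (by simp [k1, k2, hpp])
  have k4 : S.B (p + s) r ≠ 0 := by simpa [k3] using hsr
  obtain ⟨a, ha0, ha⟩ := exists_sing_comb hne c1.1.B_self hv.1.B_self k4
  have c2 := c1.add_of_ne hv k4 (sing ha)
  rw [add_assoc] at c2
  have c3 := hR _ (add_mem hs.1 (Submodule.smul_mem _ _ hr)) p hp hp0 c2
  have c4 := R.smul_mem a⁻¹ (R.sub_mem c3 hs)
  rw [add_sub_cancel_left, smul_smul, inv_mul_cancel₀ ha0, one_smul] at c4
  exact Submodule.mem_sup_right c4

/-- Non-degenerate full subspaces lie in a component or are orthogonal to it. -/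
theorem Full.le_or (hne : ∃ a, σ a ≠ a) {Y D : Submodule F V}
    (hY : ∀ v, Ctr S M v → v ∈ Y ∨ v ∈ S.perp Y) (hD : S.NondegOn D) (h2 : 2 ≤ finrank F D)
    (h : Full S M D) : D ≤ Y ∨ D ≤ S.perp Y :=
  le_or_le_of_sing hne hD h2 fun y hy hs => hY y (h y hy hs)

theorem Full.sisom_le (hne : ∃ a, σ a ≠ a) (hS : S.Nondeg) (h4 : 4 ≤ finrank F V)
    (h : Full S M ⊤) : sisom S ≤ M :=
  (trP hne).sisom_le_of_all_ctr hS (Or.inl h4) fun v hv => h v trivial hv.B_self

/-- `M` contains the whole unipotent radical at `d`. -/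
def Par (S : PQ (FP.unit σ hσ) V) (M : Subgroup (V ≃ₗ[F] V)) (d : V) : Prop :=
  S.B d d = 0 ∧ ∀ w q, S.EichOK d w q → HE S M d w q

omit [FiniteDimensional F V] [Finite F] in
theorem Par.ctr {d : V} (h : Par S M d) : Ctr S M d :=
  ctr_of_he_zero h.1 fun q hq => h.2 0 q (eichOK_iff.2 ⟨h.1, by simp, by simpa using hq⟩)

omit [FiniteDimensional F V] [Finite F] in
theorem Par.map {d : V} (h : Par S M d) {g : V ≃ₗ[F] V} (hg : g ∈ M) (hg' : g ∈ S.isom) :
    Par S M (g d) := by
  refine ⟨by rw [PQ.B_isom hg', h.1], fun w q hq => ?_⟩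
  have h1 := hq.map (inv_mem hg')
  have e : g⁻¹ (g d) = d := g.symm_apply_apply d
  rw [e] at h1
  simpa using (h.2 _ _ h1).conj hg hg'

omit [FiniteDimensional F V] [Finite F] in
theorem Par.smul {d : V} (h : Par S M d) (a : F) : Par S M (a • d) := by
  refine ⟨by simp [h.1], fun w q hq => ?_⟩
  obtain ⟨h1, h2, h3⟩ := eichOK_iff.1 hq
  by_cases ha : a = 0
  · subst ha
    exact he_of_eq hq M.one_mem fun x => by simp
  have h4 : S.B w d = 0 := by simpa [ha] using h2
  refine HE.smul_left' (h.2 _ _ (eichOK_iff.2 ⟨h.1, by simp [h4], ?_⟩)) h4 h3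
  simp only [map_mul, hσ, PQ.B_smul_left, Bsr]
  linear_combination (a * σ a) * h3

omit [FiniteDimensional F V] [Finite F] in
theorem Par.step {d x y : V} (hd : Par S M d) (hx : Par S M x) (hxd : S.B x d ≠ 0)
    (hy : S.B y y = 0) (hyd : S.B y d ≠ 0) : Par S M y := by
  obtain ⟨g, hg, hg', e⟩ := exists_step (M := M) (x := (S.B y d / S.B x d) • x) (y := y) hd.1
    (by simp [hxd]) (by simpa [hxd] using hyd) (by simp [hx.1, hy]) (U := ⊤) trivial
    (fun w _ => hd.2 w)
  rw [← e]; exact (hx.smul _).map hg hg'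

theorem full_of_par (hne : ∃ a, σ a ≠ a) (hS : S.Nondeg) (h2 : 2 ≤ finrank F V) {d e : V}
    (hd : Par S M d) (he : Par S M e) (hde : S.B e d ≠ 0) : Full S M ⊤ := by
  intro v _ hv
  by_cases h0 : v = 0
  · rw [h0]; exact ctr_zero
  have hd0 : d ≠ 0 := by rintro rfl; simp at hde
  have hT := S.nondegOn_top.2 hS
  obtain ⟨y, -, hy, h1, h3⟩ := exists_sing_on hne hT (by simpa using h2)
    (notMem_perp hT (x := v) trivial h0) (notMem_perp hT (x := d) trivial hd0)
  exact ((hd.step he hde hy (ne_swap h3)).step hd h3 hv h1).ctr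

end Cfsg.Agent.H6.SU
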