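import Cfsg.Agent.H6.SUCore

/-!
Three-dimensional subspaces: the Hermitian unital has no proper subspaces; Eichler maps are products
of transvections when `q ≥ 3`.
-/

set_option autoImplicit false
set_option linter.unusedSectionVars false
set_option linter.unusedVariables false

namespace Cfsg.Agent.H6.SU

open Module Cfsg.Agent.Form Cfsg.Agent.H7

variable {F : Type*} [Field F] {σ : F →+* F} {hσ : ∀ a, σ (σ a) = a}
  {V : Type*} [AddCommGroup V] [Module F V] {S : PQ (FP.unit σ hσ) V} {M : Subgroup (V ≃ₗ[F] V)}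

theorem exists_n {d e : V} (hd : Ctr S M d) (he : Ctr S M e) (hde : S.B d e = 1) {c : F}
    (hc0 : c ≠ 0) (hσc : σ c = -c) : ∃ n ∈ M, n ∈ S.isom ∧
      ∀ x, n x = x + (c * S.B x d - S.B x e) • d - (c⁻¹ * S.B x e + S.B x d) • e := by
  have hed : S.B e d = 1 := by rw [← Bs, hde, map_one]
  have hdd := hd.1.B_self
  have hee := he.1.B_self
  obtain ⟨g, hg, hg', e1⟩ := (Ctr.ht hd (c := c) (by rw [hσc]; ring)).exists hdd (by rw [hσc]; ring)
  obtain ⟨k, hk, hk', e2⟩ := (Ctr.ht he (c := -c⁻¹) (by rw [map_neg, map_inv₀, hσc]; simp)).exists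
    hee (by rw [map_neg, map_inv₀, hσc]; simp)
  refine ⟨g * k * g, M.mul_mem (M.mul_mem hg hk) hg, S.isom.mul_mem (S.isom.mul_mem hg' hk') hg',
    fun x => ?_⟩
  rw [LinearEquiv.mul_apply, LinearEquiv.mul_apply, e1, e2, e1]
  simp only [PQ.B_add_left, PQ.B_smul_left, hdd, hde, hed]
  match_scalars <;> field_simp <;> ring

theorem exists_torus (hne : ∃ a, σ a ≠ a) {d e : V} (hd : Ctr S M d) (he : Ctr S M e)
    (hde : S.B d e = 1) {a : F} (ha : σ a = a) (ha0 : a ≠ 0) :
    ∃ h ∈ M, h ∈ S.isom ∧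
      ∀ x, h x = x + ((a - 1) * S.B x e) • d + ((a⁻¹ - 1) * S.B x d) • e := by
  obtain ⟨c, hc0, hc⟩ := exists_tr_zero hne hσ
  have hσc : σ c = -c := by linear_combination hc
  have hed : S.B e d = 1 := by rw [← Bs, hde, map_one]
  have hdd := hd.1.B_self
  have hee := he.1.B_self
  obtain ⟨n, hn, hn', e1⟩ := exists_n hd he hde (c := -(a * c)) (by simp [ha0, hc0])
    (by rw [map_neg, map_mul, ha, hσc]; ring)
  obtain ⟨m, hm, hm', e2⟩ := exists_n hd he hde hc0 hσc
  refine ⟨n * m, M.mul_mem hn hm, S.isom.mul_mem hn' hm', fun x => ?_⟩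
  rw [LinearEquiv.mul_apply, e1, e2]
  simp only [PQ.B_add_left, PQ.B_sub_left, PQ.B_smul_left, hdd, hee, hde, hed]
  match_scalars <;> field_simp <;> ring

/-- product of commuting local elements -/
theorem exists_prod {ι : Type*} (G : Subgroup (V ≃ₗ[F] V)) (L : ι → V →ₗ[F] V) (s : Finset ι)
    (h : ∀ i, ∃ g ∈ G, ∀ x, g x = x + L i x) (hL : ∀ i j, i ≠ j → ∀ x, L i (L j x) = 0) :
    ∃ g ∈ G, ∀ x, g x = x + ∑ i ∈ s, L i x := by
  classical
  induction s using Finset.induction_on with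
  | empty => exact ⟨1, G.one_mem, fun x => by simp⟩
  | insert a s ha ih =>
    obtain ⟨g, hg, e⟩ := ih
    obtain ⟨k, hk, e'⟩ := h a
    refine ⟨k * g, G.mul_mem hk hg, fun x => ?_⟩
    rw [LinearEquiv.mul_apply, e', e, map_add, map_sum, Finset.sum_insert ha,
      Finset.sum_eq_zero (s := s) (f := fun i => L a (L i x))
        (fun i hi => hL a i (by rintro rfl; exact ha hi) x)]
    abel

theorem exists_norm_one_ne (hne : ∃ a, σ a ≠ a) (hσ : ∀ a, σ (σ a) = a) :
    ∃ δ : F, δ * σ δ = 1 ∧ σ δ ≠ δ := by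
  obtain ⟨a, ha⟩ := exists_sq_ne hne
  have h0 : a ≠ 0 := by rintro rfl; simp at ha
  have h1 := σ_ne (σ := σ) h0
  refine ⟨a / σ a, by rw [map_div₀, hσ]; field_simp, fun h => ha ?_⟩
  rw [map_div₀, hσ] at h
  field_simp at h
  exact h

theorem exists_tauOK (hne : ∃ a, σ a ≠ a) (S : PQ (FP.unit σ hσ) V) (z : V) :
    ∃ c, c ≠ 0 ∧ S.TauOK z c := by
  by_cases hz : S.B z z = 0
  · obtain ⟨l, h0, hl⟩ := exists_tr_zero hne hσ
    exact ⟨l, h0, tauOK_of hz hl⟩
  · obtain ⟨δ, h1, h2⟩ := exists_norm_one_ne hne hσ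
    exact ⟨_, div_ne_zero (fun h => h2 (by rw [sub_eq_zero.1 h, map_one])) hz, tauOK_det hz h1⟩

theorem Full.ei (hne : ∃ a, σ a ≠ a) (h3 : ∃ a : F, σ a = a ∧ a ≠ 0 ∧ a ≠ 1) {U : Submodule F V}
    (hU : Full S M U) {d e w : V} (hd : d ∈ U) (he : e ∈ U) (hw : w ∈ U) (hdd : S.B d d = 0)
    (hee : S.B e e = 0) (hde : S.B d e = 1) (hwd : S.B w d = 0) : Ei S M d w := by
  obtain ⟨a, ha, ha0, ha1⟩ := h3
  have hed : S.B e d = 1 := by rw [← Bs, hde, map_one]
  have h1 : (1 - a) ≠ 0 := sub_ne_zero.2 (Ne.symm ha1)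
  set w' := (1 - a)⁻¹ • (w - S.B w e • d) with hw'
  have e1 : S.B w' d = 0 := by simp [hw', hwd, hdd]
  have e2 : S.B w' e = 0 := by simp [hw', hde]
  have e3 := S.B_comm_zero e1
  have e4 := S.B_comm_zero e2
  have hw'U : w' ∈ U := U.smul_mem _ (U.sub_mem hw (U.smul_mem _ hd))
  obtain ⟨q, hq⟩ := exists_tr_eq hne hσ (Bs S w' w')
  have e5 : S.B (e - q • d - w') (e - q • d - w') = 0 := by
    simp only [PQ.B_sub_left, PQ.B_sub_right, PQ.B_smul_left, Bsr, hee, hdd, hde, hed, e1, e2, e3, e4]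
    linear_combination -hq
  have e6 : S.B d (e - q • d - w') = 1 := by simp [hde, hdd, e3]
  obtain ⟨h, hh, -, k1⟩ := exists_torus hne (hU d hd hdd) (hU e he hee) hde (a := a⁻¹)
    (by rw [map_inv₀, ha]) (inv_ne_zero ha0)
  obtain ⟨h', hh', -, k2⟩ := exists_torus hne (hU d hd hdd)
    (hU _ (U.sub_mem (U.sub_mem he (U.smul_mem _ hd)) hw'U) e5) e6 ha ha0
  have k3 : HE S M d ((1 - a) • w') ((1 - a) * (q - a * σ q)) := by
    refine he_of_eq (eichOK_iff.2 ⟨hdd, by simp [e1], ?_⟩) (M.mul_mem hh' hh) fun x => ?_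
    · simp only [PQ.B_smul_left, Bsr, map_mul, map_sub, map_one, ha, hσ]
      linear_combination (1 - a) ^ 2 * hq
    · rw [LinearEquiv.mul_apply, k2, k1]
      simp only [PQ.B_add_left, PQ.B_sub_right, PQ.B_smul_left, Bsr, hee, hdd, hde, hed, e1, e2, e3,
        e4, map_sub, map_one, ha, inv_inv]
      match_scalars <;> field_simp <;> ring
  have := k3.ei.add (ei_self hdd (S.B w e))
  rwa [hw', smul_smul, mul_inv_cancel₀ h1, one_smul, sub_add_cancel] at this

variable [FiniteDimensional F V] [Finite F]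

theorem Full.ef (hne : ∃ a, σ a ≠ a) (h3 : ∃ a : F, σ a = a ∧ a ≠ 0 ∧ a ≠ 1) {U : Submodule F V}
    (hU : S.NondegOn U) (h : Full S M U) : EF S M U := by
  intro d hd w hw q hq
  obtain ⟨h1, h2, h4⟩ := eichOK_iff.1 hq
  by_cases h0 : d = 0
  · subst h0
    exact he_of_eq hq M.one_mem fun x => by simp
  obtain ⟨e, he, hee, hde⟩ := exists_partner_on hU hd h0 h1
  exact (h.ei hne h3 hd he hw h1 hee hde h2).he (h d hd h1) h4

omit [Finite F] in
theorem decomp3 {U : Submodule F V} (hU : S.NondegOn U) (h3 : finrank F U = 3) {y f w : V}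
    (hy : y ∈ U) (hf : f ∈ U) (hw : w ∈ U) (hyy : S.B y y = 0) (hff : S.B f f = 0)
    (hyf : S.B y f = 1) (hw0 : w ≠ 0) (hwy : S.B w y = 0) (hwf : S.B w f = 0) {t : V} (ht : t ∈ U) :
    ∃ c : F, t = S.B t f • y + S.B t y • f + c • w := by
  have hfy : S.B f y = 1 := by rw [← Bs, hyf, map_one]
  have h1 := S.nondegOn_span_pair (sing hyy) (sing hff) (by rw [hyf]; exact one_ne_zero)
  have h2 := S.finrank_span_pair_of_hyperbolic (sing hyy) (w := f) (by rw [hyf]; exact one_ne_zero)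
  have hle : Submodule.span F {y, f} ≤ U := by
    rw [Submodule.span_le]; rintro x (rfl | rfl) <;> assumption
  obtain ⟨h4, h5⟩ := h1.inf_perp hU hle
  have h6 := Submodule.finrank_sup_add_finrank_inf_eq (Submodule.span F {y, f})
    (U ⊓ S.perp (Submodule.span F {y, f}))
  rw [h5, h3, h2, (h1.isCompl.disjoint.mono_right inf_le_right).eq_bot, finrank_bot] at h6
  obtain ⟨c, hc⟩ := exists_smul_of_finrank_one (A := U ⊓ S.perp (Submodule.span F {y, f}))
    (by omega) (x := w) (y := t - S.B t f • y - S.B t y • f)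
    ⟨hw, S.mem_perp_span.2 (by rintro x (rfl | rfl) <;> assumption)⟩ hw0
    ⟨U.sub_mem (U.sub_mem ht (U.smul_mem _ hy)) (U.smul_mem _ hf), S.mem_perp_span.2 (by
      rintro x (rfl | rfl) <;> simp [hyy, hff, hyf, hfy])⟩
  exact ⟨c, by rw [← hc]; abel⟩

theorem card_le_sq (hne : ∃ a, σ a ≠ a) (hσ : ∀ a, σ (σ a) = a) :
    Nat.card F ≤ Nat.card ({c : F // c + σ c = 0} × {c : F // c + σ c = 0}) := by
  obtain ⟨θ, hθ⟩ := hne
  have h1 : θ - σ θ ≠ 0 := fun h => hθ (by linear_combination -h)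
  have h2 : σ θ - θ ≠ 0 := fun h => hθ (by linear_combination h)
  refine Nat.card_le_card_of_surjective (fun p => p.1.1 + θ * p.2.1) fun c => ?_
  have k : σ ((c + σ c) / (θ - σ θ)) = -((c + σ c) / (θ - σ θ)) := by
    rw [map_div₀, map_add, map_sub, hσ, hσ]; field_simp; ring
  refine ⟨(⟨c - θ * ((c + σ c) / (θ - σ θ)), ?_⟩, ⟨(c + σ c) / (θ - σ θ), by rw [k]; ring⟩), by simp⟩
  rw [map_sub, map_mul, k]; field_simp; ring

/-- The Hermitian unital is generated by any triangle. -/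
theorem full_three (hne : ∃ a, σ a ≠ a) {U : Submodule F V} (hU : S.NondegOn U)
    (h3 : finrank F U = 3) {d e x : V} (hd : d ∈ U) (he : e ∈ U) (hx : x ∈ U) (cd : Ctr S M d)
    (ce : Ctr S M e) (cx : Ctr S M x) (hde : S.B d e ≠ 0) (hxde : x ∉ Submodule.span F {d, e}) :
    Full S M U := by
  have dep : ∀ y ∈ U, y ≠ 0 → S.B y y = 0 → ∃ w, ∀ t ∈ U, S.B t y = 0 →
      (S.B t t = 0 ∨ S.B t w = 0) → ∃ c : F, t = c • y := by
    intro y hy hy0 hyy
    obtain ⟨f, hf, hff, hyf⟩ := exists_partner_on hU hy hy0 hyy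
    obtain ⟨w, hw, hww, hwy, hwf⟩ := exists_nonsing_perp hne hU h3.ge hy hf hyy hff
      (by rw [hyf]; exact one_ne_zero)
    refine ⟨w, fun t ht hty h => ?_⟩
    obtain ⟨c, hc⟩ := decomp3 hU h3 hy hf hw hyy hff hyf (by rintro rfl; simp at hww) hwy hwf ht
    have hyw := S.B_comm_zero hwy
    rw [hty, zero_smul, add_zero] at hc
    have : c = 0 := by
      rw [hc] at h
      simpa [hyy, hwy, hyw, hww] using h
    exact ⟨S.B t f, by rw [this, zero_smul, add_zero] at hc; exact hc⟩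
  intro y hy hyy
  by_contra hc
  have hy0 : y ≠ 0 := by rintro rfl; exact hc ctr_zero
  obtain ⟨w, hw⟩ := dep y hy hy0 hyy
  have k1 : ∀ s ∈ U, s ≠ 0 → Ctr S M s → S.B s y ≠ 0 := by
    intro s hs hs0 cs h
    obtain ⟨c, rfl⟩ := hw s hs h (Or.inl cs.1.B_self)
    exact hc (cs.of_smul (by rintro rfl; simp at hs0))
  have k2 : ∀ s ∈ U, ∀ s' ∈ U, s ≠ 0 → s' ≠ 0 → Ctr S M s → Ctr S M s' →
      S.B s w / S.B s y = S.B s' w / S.B s' y → ∃ c : F, s' = c • s := by
    intro s hs s' hs' h0 h0' cs cs' h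
    have a1 := k1 s hs h0 cs
    have a2 := k1 s' hs' h0' cs'
    by_cases hss : S.B s' s = 0
    · obtain ⟨w', hw'⟩ := dep s hs h0 cs.1.B_self
      exact hw' s' hs' hss (Or.inl cs'.1.B_self)
    obtain ⟨c, hc'⟩ := hw (S.B s y • s' + (-S.B s' y) • s)
      (U.add_mem (U.smul_mem _ hs') (U.smul_mem _ hs)) (by simp; ring) (Or.inr (by
        simp only [PQ.B_add_left, PQ.B_smul_left]
        field_simp at h
        linear_combination -h))
    by_cases hc0 : c = 0
    · refine ⟨S.B s' y / S.B s y, ?_⟩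
      rw [hc0, zero_smul, neg_smul, add_neg_eq_zero] at hc'
      rw [div_eq_inv_mul, mul_smul, ← hc', smul_smul, inv_mul_cancel₀ a1, one_smul]
    · exfalso
      have := Ctr.add' cs' cs hss (a := S.B s y) (b := -S.B s' y) (by rw [hc']; simp [hyy])
      rw [hc'] at this
      exact hc (this.of_smul hc0)
  have hed := ne_swap hde
  have hdd := cd.1.B_self
  have hee := ce.1.B_self
  have hxx := cx.1.B_self
  have ind : ∀ p q r : F, p • d + q • e + r • x = 0 → p = 0 ∧ q = 0 ∧ r = 0 := by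
    intro p q r h
    have hr : r = 0 := by
      by_contra hr
      apply hxde
      rw [Submodule.mem_span_pair]
      refine ⟨-(p / r), -(q / r), ?_⟩
      have : x = r⁻¹ • (r • x) := by rw [smul_smul, inv_mul_cancel₀ hr, one_smul]
      rw [this, show r • x = -(p • d + q • e) from eq_neg_of_add_eq_zero_right h]
      simp only [div_eq_inv_mul]; module
    rw [hr, zero_smul, add_zero] at h
    have h1 := congrArg (fun z => S.B z e) h
    have h2 := congrArg (fun z => S.B z d) h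
    simp [hee, hde, hdd, hed] at h1 h2
    exact ⟨h1, h2, hr⟩
  let z : F → V := fun a => d + (a / S.B e d) • e
  have hzU : ∀ a, z a ∈ U := fun a => U.add_mem hd (U.smul_mem _ he)
  have hz0 : ∀ a, z a ≠ 0 := fun a h =>
    one_ne_zero (ind 1 (a / S.B e d) 0 (by simpa using h)).1
  have hz : ∀ a, a + σ a = 0 → Ctr S M (z a) := fun a ha => cd.add_of_ne ce hde (sing (by
    simp only [PQ.B_add_left, PQ.B_add_right, PQ.B_smul_left, Bsr, hdd, hee, map_div₀, Bs]
    field_simp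
    linear_combination (S.B e d * S.B d e) * ha))
  have hxz : ∀ a, a + σ a = 0 → S.B x (z a) ≠ 0 := by
    intro a ha h
    obtain ⟨w', hw'⟩ := dep _ (hzU a) (hz0 a) (hz a ha).1.B_self
    obtain ⟨c, hc'⟩ := hw' x hx h (Or.inl hxx)
    exact one_ne_zero (neg_eq_zero.1 (ind c (c * (a / S.B e d)) (-1) (by
      rw [hc']; simp only [z]; module)).2.2)
  let s : Option ({c : F // c + σ c = 0} × {c : F // c + σ c = 0}) → V := fun o =>
    match o with
    | none => x
    | some p => z p.1 + (p.2.1 / S.B x (z p.1)) • x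
  have hsU : ∀ o, s o ∈ U := by
    rintro (_ | p)
    · exact hx
    · exact U.add_mem (hzU _) (U.smul_mem _ hx)
  have hs0 : ∀ o, s o ≠ 0 := by
    rintro (_ | p) h
    · exact one_ne_zero (ind 0 0 1 (by simpa using h)).2.2
    · exact one_ne_zero (ind 1 _ _ (by simpa [s, z] using h)).1
  have hsc : ∀ o, Ctr S M (s o) := by
    rintro (_ | ⟨a, b⟩)
    · exact cx
    · have h1 := hxz a a.2
      have h2 := ne_swap h1
      refine (hz a a.2).add_of_ne cx h2 (sing ?_)
      simp only [PQ.B_add_left, PQ.B_add_right, PQ.B_smul_left, Bsr, hxx, (hz a a.2).1.B_self,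
        map_div₀, Bs]
      field_simp
      linear_combination (S.B x (z a) * S.B (z a) x) * b.2
  have hinj : Function.Injective fun o => S.B (s o) w / S.B (s o) y := by
    intro o o' h
    obtain ⟨c, hc'⟩ := k2 _ (hsU o) _ (hsU o') (hs0 o) (hs0 o') (hsc o) (hsc o') h
    rcases o with _ | ⟨a, b⟩ <;> rcases o' with _ | ⟨a', b'⟩
    · rfl
    · exact absurd (ind 1 (a'.1 / S.B e d) (b'.1 / S.B x (z a') - c) (by
        rw [sub_smul, ← add_sub_assoc, sub_eq_zero, ← hc']; simp [s, z])).1 one_ne_zero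
    · obtain ⟨h1, -, h2⟩ := ind c (c * (a.1 / S.B e d)) (c * (b.1 / S.B x (z a)) - 1) (by
        rw [sub_smul, ← add_sub_assoc, sub_eq_zero, one_smul]
        refine Eq.trans ?_ hc'.symm
        simp only [s, z]; module)
      rw [h1] at h2; simp at h2
    · obtain ⟨h1, h2, h4⟩ := ind (c - 1) (c * (a.1 / S.B e d) - a'.1 / S.B e d)
        (c * (b.1 / S.B x (z a)) - b'.1 / S.B x (z a')) (by
          have : c • s (some (a, b)) - s (some (a', b')) = 0 := by rw [← hc', sub_self]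
          rw [← this]; simp only [s, z]; module)
      have hc1 : c = 1 := by linear_combination h1
      rw [hc1, one_mul, sub_eq_zero, div_left_inj' hed] at h2
      have ha : a = a' := Subtype.ext h2
      subst ha
      rw [hc1, one_mul, sub_eq_zero, div_left_inj' (hxz a a.2)] at h4
      rw [Subtype.ext h4]
  have c1 := Nat.card_le_card_of_injective _ hinj
  have c2 := card_le_sq hne hσ
  rw [Finite.card_option] at c1
  omega

end Cfsg.Agent.H6.SU
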