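import Mathlib

/-!
Common eigenspaces of commuting matrices of finite order.
-/

set_option autoImplicit false
set_option linter.unusedSectionVars false

namespace Cfsg.Agent.H6.Va

open Matrix Module Polynomial

variable {ι K : Type*} [Fintype ι] [DecidableEq ι] [Field K]

/-- dimension -/
noncomputable def dm (U : Submodule K (ι → K)) : ℕ := finrank K U

theorem dm_mono {U W : Submodule K (ι → K)} (h : U ≤ W) : dm U ≤ dm W := Submodule.finrank_mono h

theorem dm_eq_zero {U : Submodule K (ι → K)} : dm U = 0 ↔ U = ⊥ := Submodule.finrank_eq_zero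

theorem dm_top : dm (⊤ : Submodule K (ι → K)) = Fintype.card ι := by simp [dm]

theorem dm_sup (U W : Submodule K (ι → K)) : dm (U ⊔ W) + dm (U ⊓ W) = dm U + dm W :=
  Submodule.finrank_sup_add_finrank_inf_eq U W

theorem dm_le (U : Submodule K (ι → K)) : dm U ≤ Fintype.card ι := (dm_mono le_top).trans_eq dm_top

theorem eq_of_dm {U W : Submodule K (ι → K)} (h : U ≤ W) (h' : dm W ≤ dm U) : U = W :=
  Submodule.eq_of_le_of_finrank_le h h'

/-- eigenspace -/
def Ei (A : Matrix ι ι K) (c : K) : Submodule K (ι → K) where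
  carrier := {v | A *ᵥ v = c • v}
  zero_mem' := by simp
  add_mem' := fun {a b} (ha : _ = _) (hb : _ = _) => by simp [mulVec_add, ha, hb]
  smul_mem' := fun d v (hv : _ = _) => by
    change A *ᵥ (d • v) = c • d • v
    rw [mulVec_smul, hv, smul_comm]

theorem mem_Ei {A : Matrix ι ι K} {c : K} {v : ι → K} : v ∈ Ei A c ↔ A *ᵥ v = c • v := Iff.rfl

/-- invariant subspace -/
def Iv (A : Matrix ι ι K) (U : Submodule K (ι → K)) : Prop := ∀ v ∈ U, A *ᵥ v ∈ U

theorem Iv.inf {A : Matrix ι ι K} {U W : Submodule K (ι → K)} (h : Iv A U) (h' : Iv A W) : Iv A (U ⊓ W) :=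
  fun v hv => ⟨h v hv.1, h' v hv.2⟩

theorem iv_top (A : Matrix ι ι K) : Iv A ⊤ := fun _ _ => trivial

theorem iv_Ei {A B : Matrix ι ι K} (h : Commute A B) (c : K) : Iv A (Ei B c) := fun v hv => by
  rw [mem_Ei, mulVec_mulVec, ← h.eq, ← mulVec_mulVec, mem_Ei.1 hv, mulVec_smul]

theorem dm_map_add (A : Matrix ι ι K) (U : Submodule K (ι → K)) :
    dm U = dm (U ⊓ Ei A 0) + dm (U.map (toLin' A)) := by
  have h := LinearMap.finrank_range_add_finrank_ker ((toLin' A).domRestrict U)
  rw [LinearMap.range_domRestrict, LinearMap.ker_domRestrict, ← Submodule.finrank_map_subtype_eq,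
    Submodule.map_comap_subtype] at h
  have e : Ei A 0 = LinearMap.ker (toLin' A) := by ext v; simp [mem_Ei]
  rw [e, dm, ← h, add_comm]; rfl

theorem split_fin {A : Matrix ι ι K} {c : ℕ → K} (s : Finset ℕ) (hc : Set.InjOn c s) {U : Submodule K (ι → K)}
    (hU : Iv A U) (h : ∀ v ∈ U, aeval A (∏ i ∈ s, (X - C (c i))) *ᵥ v = 0) :
    dm U = ∑ i ∈ s, dm (U ⊓ Ei A (c i)) := by
  induction s using Finset.induction_on generalizing U with
  | empty =>
    rw [Finset.sum_empty, dm_eq_zero, eq_bot_iff]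
    intro v hv
    simpa using h v hv
  | insert a s ha ih =>
    have e : ∀ v, (A - c a • (1 : Matrix ι ι K)) *ᵥ v = A *ᵥ v - c a • v := fun v => by
      rw [sub_mulVec, smul_mulVec, one_mulVec]
    have h1 : Ei (A - c a • (1 : Matrix ι ι K)) 0 = Ei A (c a) := by
      ext v; rw [mem_Ei, mem_Ei, e, zero_smul, sub_eq_zero]
    have h2 : U.map (toLin' (A - c a • (1 : Matrix ι ι K))) ≤ U := by
      rintro _ ⟨v, hv, rfl⟩
      rw [toLin'_apply, e]
      exact sub_mem (hU v hv) (U.smul_mem _ hv)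
    rw [Finset.sum_insert ha, dm_map_add (A - c a • (1 : Matrix ι ι K)), h1,
      ih (hc.mono (by simp)) (U := U.map _) ?_ ?_]
    · refine congrArg _ (Finset.sum_congr rfl fun i hi => congrArg dm ?_)
      refine le_antisymm (inf_le_inf_right _ h2) fun v hv => ⟨⟨(c i - c a)⁻¹ • v, U.smul_mem _ hv.1, ?_⟩, hv.2⟩
      have : c i - c a ≠ 0 := sub_ne_zero.2 fun h => ha (hc (by simp [hi]) (by simp) h ▸ hi)
      rw [map_smul, toLin'_apply, e, mem_Ei.1 hv.2, ← sub_smul, smul_smul, inv_mul_cancel₀ this, one_smul]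
    · rintro _ ⟨v, hv, rfl⟩
      refine ⟨_, hU v hv, ?_⟩
      simp only [toLin'_apply, e, mulVec_sub, mulVec_smul]
    · rintro _ ⟨v, hv, rfl⟩
      have := h v hv
      rw [Finset.prod_insert ha, mul_comm, map_mul, ← mulVec_mulVec] at this
      simpa [Algebra.algebraMap_eq_smul_one, -mulVec_mulVec, e] using this

variable {p : ℕ} {ω : K}

theorem split (hω : IsPrimitiveRoot ω p) (hp : 0 < p) {A : Matrix ι ι K} (hA : A ^ p = 1)
    {U : Submodule K (ι → K)} (hU : Iv A U) :
    dm U = ∑ i ∈ Finset.range p, dm (U ⊓ Ei A (ω ^ i)) := by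
  refine split_fin _ (fun i hi j hj e => hω.pow_inj (by simpa using hi) (by simpa using hj) e) hU fun v _ => ?_
  have := X_pow_sub_C_eq_prod hω hp (one_pow p)
  simp only [mul_one] at this
  rw [← this]
  simp [hA]

variable (ω) in
/-- common eigenspace -/
def Eg : List (Matrix ι ι K) → List ℕ → Submodule K (ι → K)
  | A :: As, c :: cs => Ei A (ω ^ c) ⊓ Eg As cs
  | _, _ => ⊤

/-- all lists of digits -/
def allL (p : ℕ) : ℕ → List (List ℕ)
  | 0 => [[]]
  | k + 1 => (List.range p).flatMap fun c => (allL p k).map (c :: ·)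

theorem length_allL {k : ℕ} {l : List ℕ} (h : l ∈ allL p k) : l.length = k := by
  induction k generalizing l with
  | zero => simp_all [allL]
  | succ k ih =>
    simp only [allL, List.mem_flatMap, List.mem_map] at h
    obtain ⟨c, -, l, hl, rfl⟩ := h
    simp [ih hl]

theorem iv_Eg {A : Matrix ι ι K} {As : List (Matrix ι ι K)} (h : ∀ B ∈ As, Commute A B) (l : List ℕ) :
    Iv A (Eg ω As l) := by
  induction As generalizing l with
  | nil => exact iv_top A
  | cons B As ih =>
    cases l with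
    | nil => exact iv_top A
    | cons c l => exact (iv_Ei (h B (by simp)) _).inf (ih (fun B hB => h B (by simp [hB])) l)

theorem splitL (hω : IsPrimitiveRoot ω p) (hp : 0 < p) {As : List (Matrix ι ι K)} (hA : ∀ A ∈ As, A ^ p = 1)
    (hc : As.Pairwise Commute) {U : Submodule K (ι → K)} (hU : ∀ A ∈ As, Iv A U) :
    dm U = ((allL p As.length).map fun l => dm (U ⊓ Eg ω As l)).sum := by
  induction As generalizing U with
  | nil => simp [allL, Eg]
  | cons A As ih =>
    rw [List.pairwise_cons] at hc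
    rw [split hω hp (hA A (by simp)) (hU A (by simp)), List.length_cons, allL, List.map_flatMap, List.flatMap_def,
      List.sum_flatten, List.map_map, ← List.sum_toFinset _ List.nodup_range, List.toFinset_range]
    refine Finset.sum_congr rfl fun c _ => ?_
    rw [ih (fun B hB => hA B (by simp [hB])) hc.2 fun B hB =>
      (hU B (by simp [hB])).inf (iv_Ei (hc.1 B hB).symm _)]
    simp only [Function.comp_def, List.map_map, Eg, inf_assoc]

/-- product of powers -/
def pw {M : Type*} [Monoid M] : List M → List ℕ → M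
  | y :: ys, a :: as => y ^ a * pw ys as
  | _, _ => 1

/-- dot product -/
def dot : List ℕ → List ℕ → ℕ
  | c :: l, a :: as => c * a + dot l as
  | _, _ => 0

theorem map_pw {M N : Type*} [Monoid M] [Monoid N] (f : M →* N) (ys : List M) (as : List ℕ) :
    f (pw ys as) = pw (ys.map f) as := by
  induction ys generalizing as with
  | nil => simp [pw]
  | cons y ys ih => cases as <;> simp [pw, ih]

theorem commute_pw {M : Type*} [Monoid M] {x : M} {ys : List M} (h : ∀ y ∈ ys, Commute x y) (as : List ℕ) :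
    Commute x (pw ys as) := by
  induction ys generalizing as with
  | nil => exact Commute.one_right x
  | cons y ys ih =>
    cases as with
    | nil => exact Commute.one_right x
    | cons a as => exact ((h y (by simp)).pow_right a).mul_right (ih (fun z hz => h z (by simp [hz])) as)

theorem pow_mulVec {A : Matrix ι ι K} {c : K} {v : ι → K} (h : v ∈ Ei A c) (n : ℕ) : (A ^ n) *ᵥ v = c ^ n • v := by
  induction n with
  | zero => simp
  | succ n ih => rw [pow_succ', ← mulVec_mulVec, ih, mulVec_smul, mem_Ei.1 h, smul_smul, pow_succ]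

theorem pw_mulVec {As : List (Matrix ι ι K)} {l : List ℕ} (hl : l.length = As.length) {v : ι → K}
    (h : v ∈ Eg ω As l) (as : List ℕ) : pw As as *ᵥ v = ω ^ dot l as • v := by
  induction As generalizing l as with
  | nil =>
    obtain rfl := List.length_eq_zero_iff.1 hl
    simp [pw, dot]
  | cons A As ih =>
    obtain ⟨c, l, rfl⟩ := List.exists_cons_of_length_eq_add_one hl
    cases as with
    | nil => simp [pw, dot]
    | cons a as =>
      rw [pw, dot, ← mulVec_mulVec, ih (by simpa using hl) h.2, mulVec_smul, pow_mulVec h.1, smul_smul, ← pow_mul,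
        ← pow_add, add_comm]

/-- the restriction of a character matches -/
def mt (p : ℕ) (l : List ℕ) : List (List ℕ) → List ℕ → Bool
  | a :: as, c :: cs => Nat.beq (dot l a % p) (c % p) && mt p l as cs
  | _, _ => true

theorem pow_eq_iff (hω : IsPrimitiveRoot ω p) (hp : 0 < p) (a b : ℕ) : ω ^ a = ω ^ b ↔ a % p = b % p := by
  rw [pow_eq_pow_mod a hω.pow_eq_one, pow_eq_pow_mod b hω.pow_eq_one]
  exact ⟨hω.pow_inj (Nat.mod_lt _ hp) (Nat.mod_lt _ hp), fun h => by rw [h]⟩

theorem mem_Eg_iff (hω : IsPrimitiveRoot ω p) (hp : 0 < p) {As : List (Matrix ι ι K)} {l : List ℕ}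
    (hl : l.length = As.length) {v : ι → K} (h : v ∈ Eg ω As l) (h0 : v ≠ 0) (as : List (List ℕ)) (μ : List ℕ) :
    v ∈ Eg ω (as.map (pw As)) μ ↔ mt p l as μ = true := by
  induction as generalizing μ with
  | nil => simp [Eg, mt]
  | cons a as ih =>
    cases μ with
    | nil => simp [Eg, mt]
    | cons c μ =>
      rw [List.map_cons, Eg, mt, Submodule.mem_inf, ih, mem_Ei, pw_mulVec hl h, (smul_left_injective K h0).eq_iff,
        pow_eq_iff hω hp, Bool.and_eq_true, Nat.beq_eq]

theorem restrict (hω : IsPrimitiveRoot ω p) (hp : 0 < p) {As : List (Matrix ι ι K)} (hA : ∀ A ∈ As, A ^ p = 1)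
    (hc : As.Pairwise Commute) (as : List (List ℕ)) (μ : List ℕ) :
    dm (Eg ω (as.map (pw As)) μ) =
      ((allL p As.length).map fun l => if mt p l as μ then dm (Eg ω As l) else 0).sum := by
  have hc' : ∀ A ∈ As, ∀ B ∈ As, Commute A B := fun A hA B hB =>
    List.Pairwise.forall_of_forall (fun _ _ => Commute.refl _) hc hA hB
  rw [splitL hω hp hA hc fun A hA => iv_Eg (fun B hB => by
    obtain ⟨a, -, rfl⟩ := List.mem_map.1 hB
    exact commute_pw (hc' A hA) a) μ]
  refine congrArg _ (List.map_congr_left fun l hl => ?_)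
  have h := fun v h h0 => mem_Eg_iff hω hp (length_allL hl) (v := v) h h0 as μ
  split_ifs with h1
  · refine congrArg dm (inf_eq_right.2 fun v hv => ?_)
    by_cases h0 : v = 0
    · exact h0 ▸ zero_mem _
    · exact (h v hv h0).2 h1
  · rw [dm_eq_zero, eq_bot_iff]
    exact fun v hv => of_not_not fun h0 => h1 ((h v hv.2 h0).1 hv.1)

/-- transform of a character -/
def tr (p : ℕ) (as : List (List ℕ)) (l : List ℕ) : List ℕ := as.map fun a => dot l a % p

theorem mt_tr (p : ℕ) (as : List (List ℕ)) (l : List ℕ) : mt p l as (tr p as l) = true := by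
  induction as with
  | nil => rfl
  | cons a as ih => simp [tr, mt] at ih ⊢; exact ih

theorem Eg_le_tr (hω : IsPrimitiveRoot ω p) (hp : 0 < p) {As : List (Matrix ι ι K)} {l : List ℕ}
    (hl : l.length = As.length) (as : List (List ℕ)) : Eg ω As l ≤ Eg ω (as.map (pw As)) (tr p as l) := fun v hv => by
  by_cases h0 : v = 0
  · exact h0 ▸ zero_mem _
  · exact (mem_Eg_iff hω hp hl hv h0 as _).2 (mt_tr ..)

theorem mem_Eg_conj {P Q : Matrix ι ι K} (h : Q * P = 1) (As : List (Matrix ι ι K)) (l : List ℕ) {v : ι → K}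
    (hv : v ∈ Eg ω As l) : P *ᵥ v ∈ Eg ω (As.map fun A => P * A * Q) l := by
  induction As generalizing l with
  | nil => simp [Eg]
  | cons A As ih =>
    cases l with
    | nil => simp [Eg]
    | cons c l =>
      refine ⟨mem_Ei.2 ?_, ih l hv.2⟩
      rw [mulVec_mulVec, mul_assoc, h, mul_one, ← mulVec_mulVec, mem_Ei.1 hv.1, mulVec_smul]

theorem dm_le_of_mul {P Q : Matrix ι ι K} (h : Q * P = 1) {U W : Submodule K (ι → K)}
    (hv : ∀ v ∈ U, P *ᵥ v ∈ W) : dm U ≤ dm W :=
  LinearMap.finrank_le_finrank_of_injective (f := (toLin' P).restrict (p := U) (q := W) hv) fun z z' e =>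
    Subtype.ext (by
      have : Q *ᵥ P *ᵥ z.1 = Q *ᵥ P *ᵥ z'.1 := congrArg (fun v : W => Q *ᵥ v.1) e
      simpa [mulVec_mulVec, h] using this)

theorem dm_eq_of_card [Finite K] {U W : Submodule K (ι → K)} (h : Nat.card U = Nat.card W) :
    dm U = dm W := by
  rw [natCard_eq_pow_finrank (K := K), natCard_eq_pow_finrank (K := K) (V := W)] at h
  exact Nat.pow_right_injective Finite.one_lt_card h

theorem mem_Eg_map (φ : K ≃+* K) {k : ℕ} (hφ : φ ω = ω ^ k) {As : List (Matrix ι ι K)} (h : ∀ A ∈ As, A.map φ = A)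
    (l : List ℕ) (v : ι → K) : v ∈ Eg ω As l ↔ φ ∘ v ∈ Eg ω As (l.map (k * ·)) := by
  induction As generalizing l with
  | nil => cases l <;> simp [Eg]
  | cons A As ih =>
    cases l with
    | nil => simp [Eg]
    | cons c l =>
      rw [List.map_cons, Eg, Eg, Submodule.mem_inf, Submodule.mem_inf, ih (fun B hB => h B (by simp [hB])), mem_Ei,
        mem_Ei, ← φ.injective.comp_left.eq_iff]
      have e1 : φ ∘ (A *ᵥ v) = A *ᵥ (φ ∘ v) := funext fun i => by
        conv_rhs => rw [← h A (by simp)]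
        exact RingHom.map_mulVec φ.toRingHom A v i
      have e2 : φ ∘ (ω ^ c • v) = ω ^ (k * c) • (φ ∘ v) := funext fun i => by simp [hφ, pow_mul]
      rw [e1, e2]

theorem Eg_mod (hω : ω ^ p = 1) (As : List (Matrix ι ι K)) (l : List ℕ) : Eg ω As (l.map (· % p)) = Eg ω As l := by
  induction As generalizing l with
  | nil => cases l <;> rfl
  | cons A As ih =>
    cases l with
    | nil => rfl
    | cons c l => rw [List.map_cons, Eg, Eg, ih, ← pow_eq_pow_mod _ hω]

theorem dm_frob [Finite K] (hω : ω ^ p = 1) (φ : K ≃+* K) {k : ℕ} (hφ : φ ω = ω ^ k) {As : List (Matrix ι ι K)}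
    (h : ∀ A ∈ As, A.map φ = A) (l : List ℕ) :
    dm (Eg ω As (l.map fun c => k * c % p)) = dm (Eg ω As l) := by
  rw [show (l.map fun c => k * c % p) = (l.map (k * ·)).map (· % p) by simp, Eg_mod hω]
  exact (dm_eq_of_card (Nat.card_congr (Equiv.subtypeEquiv (Equiv.piCongrRight fun _ => φ.toEquiv)
    (mem_Eg_map φ hφ h l)))).symm

end Cfsg.Agent.H6.Va
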