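import Cfsg.Agent.H6.Va
import Cfsg.Agent.H7.Ord5

/-!
Multiplicities of the characters of abelian subgroups of odd order of `E₇(2)` on the 56-dimensional module.
-/

set_option autoImplicit false
set_option linter.unusedSectionVars false

namespace Cfsg.Agent.H6.Va

open Matrix Module Cfsg.Agent.H6.E7 Cfsg.Agent.H7.Ord
open Cfsg.Agent.H7.Inq hiding F

section rank
variable {k K : Type*} [Field k] [Field K] {ι : Type} [Fintype ι] [DecidableEq ι]

open Classical in
theorem rank_of_diag {P M Q : Matrix ι ι K} {D : ι → K} (hP : IsUnit P.det) (hQ : IsUnit Q.det)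
    (h : P * M * Q = diagonal D) : M.rank = Fintype.card {i // D i ≠ 0} := by
  rw [← rank_diagonal, ← h, rank_mul_eq_left_of_isUnit_det _ _ hQ, rank_mul_eq_right_of_isUnit_det _ _ hP]

open Classical in
theorem rank_map (f : k →+* K) (M : Matrix ι ι k) : (M.map f).rank = M.rank := by
  obtain ⟨L, L', D, h⟩ := Pivot.exists_list_transvec_mul_mul_list_transvec_eq_diagonal M
  have h1 : ∀ L : List (TransvectionStruct ι k), IsUnit (L.map TransvectionStruct.toMatrix).prod.det := fun L => by
    rw [TransvectionStruct.det_toMatrix_prod]; exact isUnit_one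
  have h2 : ∀ P : Matrix ι ι k, IsUnit P.det → IsUnit (P.map f).det := fun P hP => by
    rw [← RingHom.mapMatrix_apply, ← RingHom.map_det]; exact hP.map f
  rw [rank_of_diag (h1 L) (h1 L') h, rank_of_diag (D := f ∘ D) (h2 _ (h1 L)) (h2 _ (h1 L'))
    (by rw [← Matrix.map_mul, ← Matrix.map_mul, h, diagonal_map (map_zero f)]; rfl)]
  exact Fintype.card_congr (Equiv.subtypeEquivRight fun i => (_root_.map_ne_zero f))

theorem dm_Ei_one (M : Matrix ι ι K) : dm (Ei M 1) + (M - 1).rank = Fintype.card ι := by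
  have h := (toLin' (M - 1)).finrank_range_add_finrank_ker
  have e : Ei M 1 = LinearMap.ker (toLin' (M - 1)) := by ext v; simp [mem_Ei, sub_mulVec, sub_eq_zero]
  rw [finrank_fintype_fun_eq_card] at h
  rw [e, add_comm]
  exact h

theorem dm_Ei_map (f : k →+* K) (M : Matrix ι ι k) : dm (Ei (M.map f) 1) = dm (Ei M 1) := by
  have h1 := dm_Ei_one M
  have h2 := dm_Ei_one (M.map f)
  rw [← rank_map f, Matrix.map_sub _ (map_sub f), Matrix.map_one _ (map_zero f) (map_one f)] at h1
  omega

end rank

theorem fx_eq (A : Matrix Wt Wt F) : fx A = Ei A 1 := by ext v; simp [mem_Ei, mem_fx]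

/-- the big field -/
abbrev KK := GaloisField 2 108

/-- extension of scalars -/
noncomputable def up : Matrix Wt Wt F →+* Matrix Wt Wt KK := (algebraMap F KK).mapMatrix

theorem up_inj : Function.Injective up := Matrix.map_injective (algebraMap F KK).injective

/-- the representation over the big field -/
noncomputable def τ : Γ →* Matrix Wt Wt KK := up.toMonoidHom.comp ρV

theorem fd_up (A : Matrix Wt Wt F) : fd A = dm (Ei (up A) 1) := by
  rw [fd, fx_eq]; exact (dm_Ei_map _ A).symm

open Classical in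
/-- roots of unity -/
noncomputable def om (p : ℕ) : KK := if h : ∃ z : KK, IsPrimitiveRoot z p then h.choose else 1

theorem om_prim {p : ℕ} (h : p ∣ 2 ^ 108 - 1) : IsPrimitiveRoot (om p) p := by
  have : ∃ z : KK, IsPrimitiveRoot z p := by
    obtain ⟨g, hg⟩ := IsCyclic.exists_ofOrder_eq_natCard (α := KKˣ)
    rw [Nat.card_units, GaloisField.card 2 108 (by norm_num)] at hg
    refine ⟨(g ^ (orderOf g / p) : KKˣ), IsPrimitiveRoot.coe_units_iff.2 ?_⟩
    have := IsPrimitiveRoot.orderOf (g ^ (orderOf g / p))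
    rwa [orderOf_pow_orderOf_div (orderOf_pos g).ne' (hg ▸ h)] at this
  rw [om, dif_pos this]
  exact this.choose_spec

/-- multiplicity of a character -/
noncomputable def mm (p : ℕ) (ys : List Γ) (l : List ℕ) : ℕ := dm (Eg (om p) (ys.map τ) l)

theorem fd_eq (p : ℕ) (g : Γ) : fd (ρV g) = mm p [g] [0] := by
  rw [fd_up, mm]; simp [Eg, τ]

theorem mm_nil (p : ℕ) : mm p [] [] = 56 := by rw [mm, ← card_W]; exact dm_top

theorem mm_conj_le (p : ℕ) (c : Γ) (ys : List Γ) (l : List ℕ) : mm p ys l ≤ mm p (ys.map fun y => c * y * c⁻¹) l := by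
  have h : τ c⁻¹ * τ c = 1 := by rw [← map_mul, inv_mul_cancel, map_one]
  refine dm_le_of_mul h fun v hv => ?_
  simpa only [List.map_map, Function.comp_def, map_mul] using mem_Eg_conj h _ l hv

theorem mm_conj (p : ℕ) (c : Γ) (ys : List Γ) (l : List ℕ) : mm p (ys.map fun y => c * y * c⁻¹) l = mm p ys l :=
  le_antisymm (by simpa [Function.comp_def, mul_assoc] using mm_conj_le p c⁻¹ (ys.map fun y => c * y * c⁻¹) l)
    (mm_conj_le p c ys l)

/-- commuting elements of order dividing `p` -/
structure EA (p : ℕ) (ys : List Γ) : Prop where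
  dvd : p ∣ 2 ^ 108 - 1
  pow : ∀ y ∈ ys, y ^ p = 1
  comm : ys.Pairwise Commute

variable {p : ℕ} {ys : List Γ}

theorem EA.pos (h : EA p ys) : 0 < p := Nat.pos_of_dvd_of_pos h.dvd (by norm_num)

theorem EA.pow' (h : EA p ys) : ∀ A ∈ ys.map τ, A ^ p = 1 := by
  simp only [List.mem_map, forall_exists_index, and_imp, forall_apply_eq_imp_iff₂]
  exact fun y hy => by rw [← map_pow, h.pow y hy, map_one]

theorem EA.comm' (h : EA p ys) : (ys.map τ).Pairwise Commute := h.comm.map τ fun _ _ h => h.map τ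

theorem map_pw' (ys : List Γ) (as : List (List ℕ)) : (as.map (pw ys)).map τ = as.map (pw (ys.map τ)) := by
  simp [map_pw]

theorem EA.restrict (h : EA p ys) (as : List (List ℕ)) (μ : List ℕ) :
    mm p (as.map (pw ys)) μ = ((allL p ys.length).map fun l => if mt p l as μ then mm p ys l else 0).sum := by
  rw [mm, map_pw', Va.restrict (om_prim h.dvd) h.pos h.pow' h.comm', List.length_map]; rfl

/-- a map on characters that does not decrease multiplicities -/
def Mv (p : ℕ) (ys : List Γ) (σ : List ℕ → List ℕ) : Prop :=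
  ∀ l : List ℕ, l.length = ys.length → (σ l).length = ys.length ∧ mm p ys l ≤ mm p ys (σ l)

theorem EA.mv_tr (h : EA p ys) {c : Γ} {as : List (List ℕ)} (e : (ys.map fun y => c * y * c⁻¹) = as.map (pw ys)) :
    Mv p ys (tr p as) := fun l hl => ⟨by simpa [tr] using (congrArg List.length e).symm, by
  rw [← mm_conj p c ys (tr p as l), e, mm, mm, map_pw']
  exact dm_mono (Eg_le_tr (om_prim h.dvd) h.pos (by simpa using hl) as)⟩

/-- doubling -/
def db (p : ℕ) (l : List ℕ) : List ℕ := l.map fun c => 2 * c % p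

theorem mm_db (h : p ∣ 2 ^ 108 - 1) (ys : List Γ) (l : List ℕ) : mm p ys (db p l) = mm p ys l :=
  dm_frob (om_prim h).pow_eq_one (frobeniusEquiv KK 2) rfl (fun A hA => by
    obtain ⟨y, -, rfl⟩ := List.mem_map.1 hA
    change ((ρV y).map (algebraMap F KK)).map ((frobeniusEquiv KK 2 : KK →+* KK)) = (ρV y).map (algebraMap F KK)
    rw [Matrix.map_map, ← RingHom.coe_comp, Subsingleton.elim (RingHom.comp _ _) (algebraMap F KK)]) l

theorem EA.mv_db (h : EA p ys) : Mv p ys (db p) := fun l hl => ⟨by simpa [db] using hl, (mm_db h.dvd ys l).ge⟩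

/-- a word of moves -/
def evm (σs : List (List ℕ → List ℕ)) (w : List ℕ) (l : List ℕ) : List ℕ := w.foldr (fun j x => σs.getD j id x) l

theorem mv_evm {σs : List (List ℕ → List ℕ)} (h : ∀ σ ∈ σs, Mv p ys σ) (w : List ℕ) : Mv p ys (evm σs w) := by
  intro l hl
  induction w with
  | nil => exact ⟨hl, le_rfl⟩
  | cons j w ih =>
    have : Mv p ys (σs.getD j id) := by
      rw [List.getD_eq_getElem?_getD]
      cases e : σs[j]? with
      | none => exact fun l hl => ⟨hl, le_rfl⟩
      | some σ => exact h σ (List.mem_of_getElem? e)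
    exact ⟨(this _ ih.1).1, ih.2.trans (this _ ih.1).2⟩

/-- check of a labelling of the characters -/
def labChk (p k : ℕ) (σs : List (List ℕ → List ℕ)) (reps : List (List ℕ)) (T : List (ℕ × List ℕ × List ℕ)) : Bool :=
  T.length == (allL p k).length && ((allL p k).zip T).all fun z => decide (z.2.1 < reps.length) &&
    evm σs z.2.2.1 (reps.getD z.2.1 []) == z.1 && evm σs z.2.2.2 z.1 == reps.getD z.2.1 []

/-- counting characters -/
def cnt (p k r : ℕ) (labs : List ℕ) (as : List (List ℕ)) (μ : List ℕ) : List ℕ :=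
  (List.range r).map fun i => (((allL p k).zip labs).filter fun z => mt p z.1 as μ && z.2 == i).length

theorem sum_lab {α : Type*} (P : α → Bool) (M : ℕ → ℕ) {r : ℕ} (Z : List (α × ℕ)) (h : ∀ z ∈ Z, z.2 < r) :
    (Z.map fun z => if P z.1 then M z.2 else 0).sum =
      ∑ i ∈ Finset.range r, (Z.filter fun z => P z.1 && z.2 == i).length * M i := by
  induction Z with
  | nil => simp
  | cons z Z ih =>
    rw [List.map_cons, List.sum_cons, ih fun y hy => h y (by simp [hy])]
    have e : ∀ i, ((z :: Z).filter fun z => P z.1 && z.2 == i).length * M i =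
        (if z.2 = i then (if P z.1 then M i else 0) else 0) + (Z.filter fun z => P z.1 && z.2 == i).length * M i :=
      fun i => by by_cases h1 : z.2 = i <;> by_cases h2 : P z.1 <;> simp [List.filter_cons, h1, h2, add_mul, add_comm]
    simp only [e, Finset.sum_add_distrib, Finset.sum_ite_eq, Finset.mem_range, h z (by simp), if_true]

/-- the labelled form of the multiplicities -/
structure Lab (p : ℕ) (ys : List Γ) (r : ℕ) (labs : List ℕ) (M : ℕ → ℕ) : Prop where
  ea : EA p ys
  len : labs.length = (allL p ys.length).length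
  ok : ∀ z ∈ (allL p ys.length).zip labs, z.2 < r ∧ mm p ys z.1 = M z.2

theorem EA.lab (h : EA p ys) {σs : List (List ℕ → List ℕ)} (hσ : ∀ σ ∈ σs, Mv p ys σ) {reps : List (List ℕ)}
    {T : List (ℕ × List ℕ × List ℕ)} {k : ℕ} (hk : ys.length = k) (hT : labChk p k σs reps T = true) :
    Lab p ys reps.length (T.map (·.1)) fun i => mm p ys (reps.getD i []) := by
  subst hk
  simp only [labChk, Bool.and_eq_true, beq_iff_eq, List.all_eq_true, decide_eq_true_eq] at hT
  refine ⟨h, by simpa using hT.1, fun z hz => ?_⟩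
  rw [List.zip_map_right, List.mem_map] at hz
  obtain ⟨z, hz, rfl⟩ := hz
  obtain ⟨⟨h1, h2⟩, h3⟩ := hT.2 z hz
  have h4 := mv_evm hσ z.2.2.2 z.1 (length_allL (List.of_mem_zip hz).1)
  rw [h3] at h4
  have h5 := mv_evm hσ z.2.2.1 _ h4.1
  rw [h2] at h5
  exact ⟨h1, le_antisymm h4.2 h5.2⟩

theorem Lab.eq {r : ℕ} {labs : List ℕ} {M : ℕ → ℕ} (h : Lab p ys r labs M) {k : ℕ} (hk : ys.length = k)
    (as : List (List ℕ)) (μ : List ℕ) {cs : List ℕ} (hc : cnt p k r labs as μ = cs) :
    mm p (as.map (pw ys)) μ = ∑ i ∈ Finset.range r, cs.getD i 0 * M i := by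
  subst hk hc
  rw [h.ea.restrict, ← List.map_fst_zip (l₁ := allL p ys.length) h.len.ge, List.map_map,
    List.map_congr_left (g := fun z => if mt p z.1 as μ then M z.2 else 0) fun z hz => by simp [(h.ok z hz).2],
    sum_lab (fun l => mt p l as μ) M _ fun z hz => (h.ok z hz).1]
  exact Finset.sum_congr rfl fun i hi => by simp [cnt, Finset.mem_range.1 hi]

end Cfsg.Agent.H6.Va
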