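import Cfsg.Agent.H6.Vb

/-!
Monomial elements of order three on the 56-dimensional module.
-/

set_option autoImplicit false
set_option linter.unusedSectionVars false
set_option linter.unusedSimpArgs false

namespace Cfsg.Agent.H6.Va

open Matrix Module Cfsg.Agent.H1.E8 Cfsg.Agent.H6.E7 Cfsg.Agent.H7.Ord Finset

attribute [-simp] zsmul_eq_mul Matrix.mulVec_mulVec
attribute [local simp] mul_mulVec'

theorem exists_trans {α : Type*} [Fintype α] [DecidableEq α] (σ : Equiv.Perm α) (h : ∀ t, σ (σ (σ t)) = t) :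
    ∃ R : Finset α, (∀ t, σ t ≠ t → t ∈ R ∨ σ t ∈ R ∨ σ (σ t) ∈ R) ∧ 3 * #R ≤ #{t | σ t ≠ t} := by
  let e := Fintype.equivFin α
  let R : Finset α := {t | e t < e (σ t) ∧ e t < e (σ (σ t))}
  have hR : ∀ t, t ∈ R ↔ e t < e (σ t) ∧ e t < e (σ (σ t)) := fun t => by simp [R]
  refine ⟨R, fun t ht => ?_, ?_⟩
  · have h1 : e (σ t) ≠ e t := e.injective.ne ht
    have h2 : e (σ (σ t)) ≠ e (σ t) := e.injective.ne (σ.injective.ne ht)
    have h3 : e t ≠ e (σ (σ t)) := fun c => ht (by rw [e.injective c, h, ← e.injective c])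
    simp only [hR, h]
    omega
  · have h1 : Disjoint R (R.map σ.toEmbedding) := disjoint_left.2 fun t ht ht' => by
      obtain ⟨u, hu, rfl⟩ := mem_map.1 ht'
      have := (hR _).1 ht
      have := (hR _).1 hu
      simp only [Equiv.coe_toEmbedding, h] at *
      omega
    have h2 : Disjoint (R ∪ R.map σ.toEmbedding) (R.map (σ * σ).toEmbedding) := disjoint_left.2 fun t ht ht' => by
      obtain ⟨u, hu, rfl⟩ := mem_map.1 ht'
      have h3 := (hR _).1 hu
      rcases mem_union.1 ht with ht | ht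
      · have := (hR _).1 ht
        simp only [Equiv.coe_toEmbedding, Equiv.Perm.mul_apply, h] at *
        omega
      · obtain ⟨v, hv, e1⟩ := mem_map.1 ht
        obtain rfl : v = σ u := σ.injective e1
        have := (hR _).1 hv
        simp only [h] at *
        omega
    have h3 := card_le_card (show R ∪ R.map σ.toEmbedding ∪ R.map (σ * σ).toEmbedding ⊆ ({t | σ t ≠ t} : Finset α) from
      fun t ht => by
        simp only [mem_union, mem_map, Equiv.coe_toEmbedding, Equiv.Perm.mul_apply] at ht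
        have h4 : ∀ u ∈ R, σ u ≠ u := fun u hu c => by simpa [c] using ((hR _).1 hu).1
        refine mem_filter.2 ⟨mem_univ _, ?_⟩
        rcases ht with (ht | ⟨u, ht, rfl⟩) | ⟨u, ht, rfl⟩
        exacts [h4 _ ht, σ.injective.ne (h4 _ ht), σ.injective.ne (σ.injective.ne (h4 _ ht))])
    rw [card_union_of_disjoint h2, card_union_of_disjoint h1, card_map, card_map] at h3
    omega

variable {K : Type*} [Field K] [CharP K 2] {g : GL Wt K} {w : L ≃+ L} {χ : L → K} {ω : K}

theorem act_apply (a : Act g w χ) (v : Wt → K) (b : Wt) : (g.1 *ᵥ v) (a.iso.perm b) = χ b.1 * v b := by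
  simp [mulVec, dotProduct, a.entry]

theorem act_three (a : Act g w χ) (h : g ^ 3 = 1) {t : L} (ht : IsW t) :
    w (w (w t)) = t ∧ χ (t + w t + w (w t)) = 1 := by
  have h1 : w (w (w t)) = t := a.iterate h ht
  have h2 := congrArg (fun z : GL Wt K => (z.1 *ᵥ e K t) ⟨t, ht⟩) h
  simp only [pow_succ, pow_zero, one_mul, Units.val_mul, mul_mulVec', a.he', mulVec_smul, h1, Units.val_one,
    one_mulVec, Pi.smul_apply, e, if_true, smul_eq_mul, mul_one] at h2
  exact ⟨h1, by rw [a.ch.add, a.ch.add, mul_assoc, h2]⟩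

open Classical in
theorem dm_mono_three (hω : IsPrimitiveRoot ω 3) (a : Act g w χ) (h : g ^ 3 = 1) :
    3 * dm (Ei g.1 1) = 3 * #{t : Wt | w t.1 = t.1 ∧ χ t.1 = 1} + #{t : Wt | w t.1 ≠ t.1} := by
  have h3 : ∀ t, a.iso.perm (a.iso.perm (a.iso.perm t)) = t := fun t => Subtype.ext (act_three a h t.2).1
  obtain ⟨R, hR, hc⟩ := exists_trans a.iso.perm h3
  have h1 : ∀ c : K, c ≠ 0 → dm (Ei g.1 c) ≤ #{t : Wt | w t.1 = t.1 ∧ χ t.1 = c} + #R := fun c hc => by
    let S : Finset Wt := ({t : Wt | w t.1 = t.1 ∧ χ t.1 = c} : Finset Wt) ∪ R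
    have := LinearMap.finrank_le_finrank_of_injective
      (f := (LinearMap.funLeft K K (Subtype.val : S → Wt)).domRestrict (Ei g.1 c))
      ((injective_iff_map_eq_zero _).2 fun v hv => Subtype.ext (funext fun t => by
        have h4 : ∀ t ∈ S, v.1 t = 0 := fun t ht => congrFun hv ⟨t, ht⟩
        have h5 : ∀ t, c * v.1 (a.iso.perm t) = χ t.1 * v.1 t := fun t => by
          rw [← act_apply a, mem_Ei.1 v.2]; rfl
        have h6 : ∀ t, v.1 (a.iso.perm t) = 0 → v.1 t = 0 := fun t ht => by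
          have := h5 t
          rw [ht, mul_zero] at this
          exact (mul_eq_zero.1 this.symm).resolve_left (a.ch.ne _)
        by_cases h7 : a.iso.perm t = t
        · by_cases h8 : χ t.1 = c
          · exact h4 t (mem_union_left _ (mem_filter.2 ⟨mem_univ _, congrArg Subtype.val h7, h8⟩))
          · have := h5 t
            rw [h7] at this
            exact of_not_not fun h9 => h8 (mul_right_cancel₀ h9 this).symm
        · rcases hR t h7 with h8 | h8 | h8
          · exact h4 _ (mem_union_right _ h8)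
          · exact h6 _ (h4 _ (mem_union_right _ h8))
          · exact h6 _ (h6 _ (h4 _ (mem_union_right _ h8)))))
    rw [finrank_fintype_fun_eq_card, Fintype.card_coe] at this
    exact this.trans (card_union_le _ _)
  have h2 := split hω (by norm_num) (A := g.1) (by rw [← Units.val_pow_eq_pow_val, h, Units.val_one]) (iv_top _)
  simp only [sum_range_succ, sum_range_zero, top_inf_eq, dm_top, pow_zero, zero_add] at h2
  have h0 := hω.ne_zero (by norm_num)
  have h4 := h1 1 one_ne_zero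
  have h5 := h1 (ω ^ 1) (pow_ne_zero _ h0)
  have h6 := h1 (ω ^ 2) (pow_ne_zero _ h0)
  have h7 := card_filter_add_card_filter_not (s := (univ : Finset Wt)) fun t => w t.1 = t.1
  have h8 : #{t : Wt | w t.1 = t.1 ∧ χ t.1 = 1} + #{t : Wt | w t.1 = t.1 ∧ χ t.1 = ω ^ 1} +
      #{t : Wt | w t.1 = t.1 ∧ χ t.1 = ω ^ 2} ≤ #{t : Wt | w t.1 = t.1} := by
    have e1 : (1 : K) ≠ ω ^ 1 := (hω.pow_ne_one_of_pos_of_lt (by omega) (by omega)).symm
    have e2 : (1 : K) ≠ ω ^ 2 := (hω.pow_ne_one_of_pos_of_lt (by omega) (by omega)).symm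
    have e3 : ω ^ 1 ≠ ω ^ 2 := fun e => by simpa using hω.pow_inj (by omega) (by omega) e
    rw [← card_union_of_disjoint (disjoint_filter.2 fun t _ h h' => e1 (h.2.symm.trans h'.2)),
      ← card_union_of_disjoint (disjoint_union_left.2 ⟨disjoint_filter.2 fun t _ h h' => e2 (h.2.symm.trans h'.2),
        disjoint_filter.2 fun t _ h h' => e3 (h.2.symm.trans h'.2)⟩)]
    refine card_le_card fun t ht => ?_
    simp only [mem_union, mem_filter, mem_univ, true_and] at ht ⊢
    tauto
  simp only [Subtype.ext_iff, IsIso.coe_perm, ne_eq] at hc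
  simp only [card_univ, ne_eq] at h7 ⊢
  omega

theorem exists_log3 (hω : IsPrimitiveRoot ω 3) (h : IsCh χ) (π : L →+ L)
    (hπ : ∀ S : AddSubgroup L, (∀ t, χ t ^ 3 = 1 → t ∈ S) → ∀ i, π (al i) ∈ S) :
    ∃ y : L →+ ZMod 3, ∀ v, χ (π v) = 1 ↔ y v = 0 := by
  have h0 : χ 0 = 1 := mul_left_cancel₀ (h.ne 0) (by rw [← h.add, add_zero, mul_one])
  let S : AddSubgroup L :=
    { carrier := {v | χ v ^ 3 = 1}
      zero_mem' := by simp [h0]
      add_mem' := fun {a b} ha hb => by
        simp only [Set.mem_ofPred_eq] at ha hb ⊢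
        rw [h.add, mul_pow, ha, hb, mul_one]
      neg_mem' := fun {a} ha => by
        simp only [Set.mem_ofPred_eq] at ha ⊢
        rw [← mul_one (χ (-a) ^ 3), ← ha, ← mul_pow, ← h.add, neg_add_cancel, h0, one_pow, ha] }
  have h1 : ∀ v, ∃ a : ZMod 3, ω ^ a.val = χ (π v) := fun v => by
    obtain ⟨i, hi, e⟩ := hω.eq_pow_of_pow_eq_one (span_al (S := S.comap π) (hπ S fun _ h => h) v)
    exact ⟨i, by rwa [ZMod.val_natCast, Nat.mod_eq_of_lt hi]⟩
  choose y hy using h1
  refine ⟨AddMonoidHom.mk' y fun u v => pow_val_inj hω ?_, fun v => ?_⟩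
  · simp only [pow_val_add hω, hy, h.add, map_add]
  · rw [← hy, AddMonoidHom.mk'_apply, ← (pow_val_inj hω).eq_iff]; simp

theorem mem_allL {p : ℕ} {l : List ℕ} (h : ∀ c ∈ l, c < p) : l ∈ allL p l.length := by
  induction l with
  | nil => simp [allL]
  | cons c l ih =>
    simp only [List.length_cons, allL, List.mem_flatMap, List.mem_range, List.mem_map]
    exact ⟨c, h c (by simp), l, ih fun d hd => h d (by simp [hd]), rfl⟩

/-- weights orthogonal to two simple roots -/
def F20 (t : L) : Prop := B (al 0) t = 0 ∧ B (al 2) t = 0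

instance instDecF20 : DecidablePred F20 := fun t => inferInstanceAs (Decidable (B (al 0) t = 0 ∧ B (al 2) t = 0))

/-- weights orthogonal to two simple roots -/
def t20 : List (List ℕ) := tbl.filter fun l => F20 (toL l)

theorem cntA_chk : (allL 3 8).all (fun a => !Nat.beq (dot [2, 3, 4, 6, 5, 4, 3, 2] a % 3) 0 ||
    [2, 14, 20, 32, 56].contains (tbl.countP fun l => Nat.beq (dot l a % 3) 0)) = true := by decide +kernel

theorem cntB_chk : (allL 3 8).all (fun a => !Nat.beq (dot [2, 3, 4, 6, 5, 4, 3, 2] a % 3) 0 ||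
    !Nat.beq (dot [5, 9, 10, 15, 12, 9, 6, 3] a % 3) 0 ||
    [2, 8, 20].contains (t20.countP fun l => Nat.beq (dot l a % 3) 0)) = true := by decide +kernel

theorem y_eq (y : L →+ ZMod 3) {l : List ℕ} (h : l.length = 8) :
    y (toL l) = 0 ↔ Nat.beq (dot l ((List.finRange 8).map fun i => (y (al i)).val) % 3) 0 = true := by
  rw [Nat.beq_eq, ← Nat.dvd_iff_mod_eq_zero, ← ZMod.natCast_eq_zero_iff, hom_apply, Fin.sum_univ_eight]
  match l, h with
  | [a, b, c, d, e, f, g, h], _ => simp [toL, dot, List.finRange, add_assoc]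

theorem len_tbl : ∀ l ∈ tbl, l.length = 8 := by decide +kernel

theorem card_filter_W (P : L → Prop) [DecidablePred P] : #{t : Wt | P t.1} = tbl.countP fun l => P (toL l) := by
  rw [card_filter, sum_W fun t => if P t then 1 else 0, sum_ite_eq_filter, List.countP_eq_length_filter]; simp

theorem mem_y (y : L →+ ZMod 3) : ((List.finRange 8).map fun i => (y (al i)).val) ∈ allL 3 8 := by
  simpa using mem_allL (p := 3) (l := (List.finRange 8).map fun i => (y (al i)).val) fun c hc => by
    obtain ⟨i, -, rfl⟩ := List.mem_map.1 hc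
    exact ZMod.val_lt _

theorem cntA (y : L →+ ZMod 3) (h : y θ = 0) : #{t : Wt | y t.1 = 0} ∈ [2, 14, 20, 32, 56] := by
  have h1 := List.all_eq_true.1 cntA_chk _ (mem_y y)
  rw [(y_eq y rfl).1 ((show toL [2, 3, 4, 6, 5, 4, 3, 2] = θ by decide +kernel) ▸ h)] at h1
  rw [← List.countP_congr (p := fun l => decide (y (toL l) = 0)) fun l hl => by
    rw [decide_eq_true_eq, y_eq y (len_tbl l hl)]] at h1
  rw [card_filter_W fun t => y t = 0]
  simpa using h1

theorem cntB (y : L →+ ZMod 3) (h : y θ = 0) (h' : y (toL [5, 9, 10, 15, 12, 9, 6, 3]) = 0) :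
    #{t : Wt | F20 t.1 ∧ y t.1 = 0} ∈ [2, 8, 20] := by
  have h1 := List.all_eq_true.1 cntB_chk _ (mem_y y)
  rw [(y_eq y rfl).1 ((show toL [2, 3, 4, 6, 5, 4, 3, 2] = θ by decide +kernel) ▸ h), (y_eq y rfl).1 h', t20,
    List.countP_filter] at h1
  rw [← List.countP_congr (p := fun l => decide (F20 (toL l) ∧ y (toL l) = 0)) fun l hl => by
    rw [decide_eq_true_eq, y_eq y (len_tbl l hl), and_comm, Bool.and_eq_true, decide_eq_true_eq]] at h1
  rw [card_filter_W fun t => F20 t ∧ y t = 0]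
  simpa using h1

end Cfsg.Agent.H6.Va
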