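import Cfsg.Agent.H6.Vc

/-!
Fixed spaces of the elements of order three of `E₇(2)` on the 56-dimensional module.
-/

set_option autoImplicit false
set_option linter.unusedSectionVars false
set_option linter.unusedSimpArgs false

namespace Cfsg.Agent.H6.Va

open Matrix Module Cfsg.Agent.H1.E8 Cfsg.Agent.H6.E7 Cfsg.Agent.H7.Ord Finset
open Cfsg.Agent.H7.Inq hiding F

attribute [-simp] zsmul_eq_mul Matrix.mulVec_mulVec
attribute [local simp] mul_mulVec'

variable {K : Type*} [Field K] [CharP K 2] {g : GL Wt K} {w : L ≃+ L} {χ : L → K} {ω : K}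

theorem orbit' {k : ℕ} (hk : k < 7) {v : L} (hv : IsW v) (hD : D k v) :
    ∃ (n : GL Wt K) (u : L ≃+ L) (ψ : L → K), Act n u ψ ∧ (∀ j < k, u (mu j) = mu j) ∧ u (mu k) = v := by
  have key : ∀ m : ℕ, ∀ v, IsW v → D k v → 28 - ht v = m →
      ∃ (n : GL Wt K) (u : L ≃+ L) (ψ : L → K), Act n u ψ ∧ (∀ j < k, u (mu j) = mu j) ∧ u (mu k) = v := fun m => by
    induction m using Nat.strong_induction_on with
    | _ m ih =>
      intro v hv hD hm
      obtain ⟨l, hl, rfl⟩ := List.mem_map.1 (mem_tbl hv)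
      rcases D_step k hk l hl hD with h | ⟨i, hi, h0, h1, h2⟩
      · exact ⟨1, _, _, Act.one, fun _ _ => rfl, h.symm⟩
      · have hv' := (isW_add (IsR.al hi) hv).2 h1
        have h3 : ht (al i + toL l) = ht (toL l) + 1 := by rw [ht_add, ht_al, add_comm]
        have h4 := ht_le hv'
        obtain ⟨n, u, ψ, hn, h5, h6⟩ := ih (28 - ht (al i + toL l)).toNat (by omega) _ hv' h2 (by omega)
        refine ⟨_, _, _, (act_N (IsR.al hi) one_ne_zero).mul hn, fun j hj => ?_, ?_⟩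
        · simp [h5 j hj, rf, h0 j hj]
        · simp [h6, rf, h1, B_al]
  have := ht_le hv
  exact key (28 - ht v).toNat v hv hD (by omega)

theorem dm_Ei_conj (n g : GL Wt K) (c : K) : dm (Ei (n * g * n⁻¹).1 c) = dm (Ei g.1 c) := by
  have key : ∀ n g : GL Wt K, dm (Ei g.1 c) ≤ dm (Ei (n * g * n⁻¹).1 c) := fun n g =>
    dm_le_of_mul n.inv_mul fun v hv => by
      rw [mem_Ei, ← mul_mulVec', ← Units.val_mul, inv_mul_cancel_right, Units.val_mul, mul_mulVec', mem_Ei.1 hv,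
        mulVec_smul]
  refine le_antisymm ?_ (key n g)
  have := key n⁻¹ (n * g * n⁻¹)
  rwa [show n⁻¹ * (n * g * n⁻¹) * n⁻¹⁻¹ = g by group] at this

variable (K) in
/-- the claim for the elements fixing the first weights -/
def P3 (k : ℕ) : Prop := ∀ (g : GL Wt K) w χ, Act g w χ → g ^ 3 = 1 → (∀ j < k, w (mu j) = mu j) →
  dm (Ei g.1 1) ∈ [2, 14, 20, 32, 56]

theorem P3.step {k : ℕ} (hk : k < 5) (h : P3 K (k + 1)) (a : Act g w χ) (h3 : g ^ 3 = 1)
    (h1 : ∀ j < k, w (mu j) = mu j) {t : L} (ht : IsW t) (hD : D0 k t) (h2 : w t = t) :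
    dm (Ei g.1 1) ∈ [2, 14, 20, 32, 56] := by
  obtain ⟨n, u, ψ, hn, h4, h5⟩ := orbit' (K := K) (k := k) (by omega) ht ⟨hD, by omega⟩
  rw [← dm_Ei_conj n⁻¹]
  refine h _ _ _ ((hn.inv.mul a).mul hn.inv.inv) (by rw [conj_pow, h3]; simp) fun j hj => ?_
  rcases Nat.lt_succ_iff_lt_or_eq.1 hj with hj | rfl
  · simp [h4 j hj, h1 j hj, AddEquiv.symm_apply_eq]
  · simp [h5, h2, AddEquiv.symm_apply_eq]

theorem exists_fix {α : Type*} [Fintype α] (σ : Equiv.Perm α) (P : α → Prop) [DecidablePred P]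
    (h : ∀ t, P (σ t) ↔ P t) (hc : ¬3 ∣ #{t | P t}) (h3 : ∀ t, σ (σ (σ t)) = t) : ∃ t, P t ∧ σ t = t := by
  have : Fact (Nat.Prime 3) := ⟨by norm_num⟩
  obtain ⟨t, ht⟩ := Equiv.Perm.exists_fixed_point_of_prime (p := 3) (n := 1) (σ := σ.subtypePerm h)
    (by rwa [Fintype.card_subtype]) (Equiv.ext fun t => Subtype.ext (h3 t))
  exact ⟨t, t.2, congrArg Subtype.val ht⟩

theorem P3.step' {k : ℕ} (hk : k < 5) (h : P3 K (k + 1)) (hc : ¬3 ∣ tbl.countP fun l => D0 k (toL l)) : P3 K k := by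
  intro g w χ a h3 h1
  have h2 : ∀ t : Wt, D0 k (a.iso.perm t).1 ↔ D0 k t.1 := fun t => forall₂_congr fun j hj => by
    rw [IsIso.coe_perm, ← a.iso.iso (mu j) t.1, h1 j hj]
  obtain ⟨t, ht, ht'⟩ := exists_fix a.iso.perm (fun t => D0 k t.1) h2 (by rwa [card_filter_W (D0 k)])
    fun t => Subtype.ext (act_three a h3 t.2).1
  exact h.step hk a h3 h1 t.2 ht (congrArg Subtype.val ht')

/-- an isometry fixing the first four weights -/
def W4 (x y z u v : L) : L := v 0 • (z - u) + v 1 • (x - y) + v 2 • (x - z) + v 3 • (mu 3 - x) + v 4 • al 4 +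
  v 5 • al 5 + v 6 • al 6 + v 7 • al 7

/-- the six next weights -/
def D6 : List L := [[1, 2, 3, 5, 4, 3, 2, 1], [2, 2, 3, 5, 4, 3, 2, 1], [1, 3, 3, 5, 4, 3, 2, 1],
  [2, 3, 3, 5, 4, 3, 2, 1], [2, 2, 4, 5, 4, 3, 2, 1], [2, 3, 4, 5, 4, 3, 2, 1]].map toL

theorem mem_D6 {t : L} (ht : IsW t) (h : D0 4 t) : t ∈ D6 := by
  obtain ⟨l, hl, rfl⟩ := List.mem_map.1 (mem_tbl ht)
  revert l
  decide +kernel

theorem W4_chk : ∀ x ∈ D6, ∀ y ∈ D6, B x y = 1 → ∀ z ∈ D6, B x z = 1 → B y z = 0 → ∀ u ∈ D6, B x u = 1 → B y u = 0 →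
    B z u = 1 → W4 x y z u (W4 x y z u x) = mu 4 → W4 x y z u (W4 x y z u z) = mu 6 →
    (∀ i, W4 x y z u (al i) = al i) ∨ ((∀ l ∈ tbl, W4 x y z u (toL l) = toL l ↔ F20 (toL l)) ∧
      mu 4 + x + W4 x y z u x = toL [5, 9, 10, 15, 12, 9, 6, 3]) := by decide +kernel

/-- a projection -/
def pr : L →+ L := AddMonoidHom.mk' (fun v => ![v 0, v 1, 2 * v 0, 3 * v 0, v 4, v 5, v 6, v 7]) fun u v => by
  funext i; fin_cases i <;> simp <;> ring

theorem pr_chk : (∀ l ∈ tbl, F20 (toL l) → pr (toL l) = toL l) ∧ pr θ = θ ∧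
    pr (toL [5, 9, 10, 15, 12, 9, 6, 3]) = toL [5, 9, 10, 15, 12, 9, 6, 3] ∧
    ∀ i, pr (al i) = 0 ∨ ∃ a ∈ t20, pr (al i) = toL a ∨ ∃ b ∈ t20, pr (al i) = toL a - toL b ∨
      pr (al i) = θ + toL a - toL b - toL [1, 2, 2, 3, 3, 2, 2, 1] - toL [1, 2, 2, 3, 3, 2, 1, 1] := by decide +kernel

theorem P3_four (hω : IsPrimitiveRoot ω 3) : P3 K 4 := by
  classical
  intro g w χ a h3 h1
  have hu : IsW (toL [1, 3, 3, 5, 4, 3, 2, 1]) := by decide +kernel
  have h2 : ∀ t, IsW t → D0 4 t → w t ∈ D6 := fun t ht h => mem_D6 (a.iso.isW.2 ht) fun j hj => by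
    rw [← h1 j hj, a.iso.iso, h j hj, h1 j hj]
  have h4 : ∀ v, W4 (w (mu 4)) (w (mu 5)) (w (mu 6)) (w (toL [1, 3, 3, 5, 4, 3, 2, 1])) v = w v := fun v => by
    conv_rhs => rw [pi_eq_sum_univ' v, map_sum, Fin.sum_univ_eight]
    simp only [map_zsmul]
    rw [W4, ← h1 3 (by omega), ← map_sub, ← map_sub, ← map_sub, ← map_sub]
    have e4 : w (al 4) = al 4 := by
      rw [show al 4 = mu 2 - mu 3 by decide +kernel, map_sub, h1 2 (by omega), h1 3 (by omega)]
    have e5 : w (al 5) = al 5 := by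
      rw [show al 5 = mu 1 - mu 2 by decide +kernel, map_sub, h1 2 (by omega), h1 1 (by omega)]
    have e6 : w (al 6) = al 6 := by
      rw [show al 6 = mu 0 - mu 1 by decide +kernel, map_sub, h1 0 (by omega), h1 1 (by omega)]
    have e7 : w (al 7) = al 7 := by
      rw [show al 7 = θ - mu 0 by decide +kernel, map_sub, h1 0 (by omega), a.iso.hθ]
    rw [← e4, ← e5, ← e6, ← e7, show mu 6 - toL [1, 3, 3, 5, 4, 3, 2, 1] = al 0 by decide +kernel,
      show mu 4 - mu 5 = al 1 by decide +kernel, show mu 4 - mu 6 = al 2 by decide +kernel,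
      show mu 3 - mu 4 = al 3 by decide +kernel]
    rfl
  have h5 := W4_chk _ (h2 _ (isW_mu 4 (by omega)) (by decide +kernel)) _ (h2 _ (isW_mu 5 (by omega)) (by decide +kernel))
    (by rw [a.iso.iso]; decide +kernel) _ (h2 _ (isW_mu 6 (by omega)) (by decide +kernel))
    (by rw [a.iso.iso]; decide +kernel) (by rw [a.iso.iso]; decide +kernel) _ (h2 _ hu (by decide +kernel))
    (by rw [a.iso.iso]; decide +kernel) (by rw [a.iso.iso]; decide +kernel) (by rw [a.iso.iso]; decide +kernel)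
    (by rw [h4, h4]; exact (act_three a h3 (isW_mu 4 (by omega))).1)
    (by rw [h4, h4]; exact (act_three a h3 (isW_mu 6 (by omega))).1)
  simp only [h4] at h5
  have h6 := dm_mono_three hω a h3
  have h7 : ∀ t, IsW t → w t = t → χ t ^ 3 = 1 := fun t ht e => by
    have := (act_three a h3 ht).2
    rwa [e, e, a.ch.add, a.ch.add, ← pow_two, ← pow_succ] at this
  rcases h5 with h5 | ⟨h5, h8⟩
  · have h8 : ∀ v, w v = v := span_al (S := w.toAddMonoidHom.eqLocus (AddMonoidHom.id L)) h5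
    obtain ⟨y, hy⟩ := exists_log3 hω a.ch (AddMonoidHom.id L) fun S hS i =>
      span_W (fun t ht => hS t (h7 t ht (h8 t))) _
    have h9 := cntA y ((hy θ).1 a.ch.hθ)
    simp only [AddMonoidHom.id_apply] at hy
    simp only [h8, true_and, hy, ne_eq, not_true, filter_false, card_empty] at h6
    rwa [show dm (Ei g.1 1) = #{t : Wt | y t.1 = 0} by omega]
  · obtain ⟨p1, p2, p3, p4⟩ := pr_chk
    have h9 : ∀ t : Wt, w t.1 = t.1 ↔ F20 t.1 := fun t => by
      obtain ⟨l, hl, e⟩ := List.mem_map.1 (mem_tbl t.2)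
      exact e ▸ h5 l hl
    obtain ⟨y, hy⟩ := exists_log3 hω a.ch pr fun S hS i => by
      have h10 : ∀ l ∈ t20, toL l ∈ S := fun l hl => by
        rw [t20, List.mem_filter, decide_eq_true_eq] at hl
        exact hS _ (h7 _ (tbl_isW l hl.1) ((h5 l hl.1).2 hl.2))
      rcases p4 i with e | ⟨l, hl, e | ⟨m, hm, e | e⟩⟩ <;> rw [e]
      exacts [zero_mem _, h10 l hl, sub_mem (h10 l hl) (h10 m hm),
        sub_mem (sub_mem (sub_mem (add_mem (hS _ (by rw [a.ch.hθ, one_pow])) (h10 l hl)) (h10 m hm))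
          (h10 _ (by decide +kernel))) (h10 _ (by decide +kernel))]
    have h10 := cntB y ((hy θ).1 (p2.symm ▸ a.ch.hθ)) ((hy _).1 (by
      rw [p3, ← h8]; exact (act_three a h3 (isW_mu 4 (by omega))).2))
    have h11 : ∀ t : Wt, (F20 t.1 ∧ χ t.1 = 1) ↔ (F20 t.1 ∧ y t.1 = 0) := fun t => and_congr_right fun h => by
      obtain ⟨l, hl, e⟩ := List.mem_map.1 (mem_tbl t.2)
      rw [← hy, ← e, p1 l hl (e ▸ h)]
    have h12 : #{t : Wt | ¬F20 t.1} = 36 := by rw [card_filter_W fun t => ¬F20 t]; decide +kernel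
    simp only [ne_eq, h9, h11, h12] at h6
    simp only [List.mem_cons, List.not_mem_nil, or_false] at h10 ⊢
    omega

/-- table -/
def UU (i : Fin 8) : L := toL ([[28, 39, 53, 78, 64, 50, 36, 18], [39, 60, 78, 117, 96, 75, 54, 27],
  [53, 78, 106, 156, 128, 100, 72, 36], [78, 117, 156, 234, 192, 150, 108, 54], [64, 96, 128, 192, 160, 125, 90, 45],
  [50, 75, 100, 150, 125, 100, 72, 36], [36, 54, 72, 108, 90, 72, 54, 27], [16, 24, 32, 48, 40, 32, 24, 12]].getD i [])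

theorem UU_chk : ∀ i : Fin 8, (tbl.map fun l => if D0 1 (toL l) then toL l i • toL l else 0).sum =
    (2 : ℤ) • UU i + if i = 7 then mu 0 + θ else 0 := by decide +kernel

theorem P3_one (hω : IsPrimitiveRoot ω 3) (h : P3 K 2) : P3 K 1 := by
  classical
  intro g w χ a h3 h1
  by_cases h2 : ∃ t, IsW t ∧ D0 1 t ∧ w t = t
  · obtain ⟨t, ht, h4, h5⟩ := h2
    exact h.step (by omega) a h3 h1 ht h4 h5
  push Not at h2
  have h0 := h1 0 (by omega)
  have hm := isW_mu 0 (by omega)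
  have e1 : ∀ t, D0 1 t ↔ B (mu 0) t = 1 := fun t => by
    simp [D0, show B (mu 0) (mu 1) = 1 by decide +kernel]
  have e2 : ∀ t, B (mu 0) (w t) = B (mu 0) t := fun t => by rw [← a.iso.iso (mu 0) t, h0]
  have e3 : ∀ t, IsW t → IsW (θ - t) := fun t ht =>
    ⟨by simp [B_θ, B_comm t θ, ht.1, ht.2, show θ 7 = 2 from rfl], by simp [ht.2, show θ 7 = 2 from rfl]⟩
  have e4 : ∀ s t, IsW s → IsW t → t = s ∨ t = θ - s ∨ B s t = 1 ∨ B s t = 0 := fun s t hs ht => by
    have h4 := B_le hs.1 ht.1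
    have h5 := B_le (e3 s hs).1 ht.1
    have h6 := eq_of_B hs.1 ht.1
    have h7 := eq_of_B (e3 s hs).1 ht.1
    rw [B_sub_left, B_θ, ht.2] at h5 h7
    by_cases h8 : B s t = 2
    · exact .inl (h6 h8)
    by_cases h9 : B s t = -1
    · exact .inr (.inl (h7 (by omega)))
    omega
  have h4 : ∃ t, IsW t ∧ D0 1 t ∧ B t (w t) = 0 := by
    by_contra! hc
    have h5 : ∀ t : Wt, D0 1 t.1 → B t.1 (w t.1) = 1 := fun t ht => by
      rcases e4 _ _ t.2 (a.iso.isW.2 t.2) with e | e | e | e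
      · exact absurd e (h2 _ t.2 ht)
      · have := e2 t.1
        rw [e, B_sub_right, (e1 _).1 ht, B_comm, B_θ, hm.2] at this
        omega
      · exact e
      · exact absurd e (hc _ t.2 ht)
    have h6 : ∑ t : Wt, (if D0 1 t.1 then B t.1 (w t.1) else 0) = 27 := by
      rw [sum_congr rfl fun t _ => if_ctx_congr Iff.rfl (h5 t) fun _ => rfl,
        sum_W fun t => if D0 1 t then (1 : ℤ) else 0]
      decide +kernel
    have h7 : ∀ t : Wt, (if D0 1 t.1 then B t.1 (w t.1) else 0) =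
        ∑ i, B (w (if D0 1 t.1 then t.1 i • t.1 else 0)) (al i) := fun t => by
      split_ifs
      · rw [B_comm, B_sum]; simp
      · simp
    have h8 : ∀ i, ∑ t : Wt, B (w (if D0 1 t.1 then t.1 i • t.1 else 0)) (al i) =
        2 * B (w (UU i)) (al i) := fun i => by
      have := map_sum ((AddMonoidHom.mk' (B · (al i)) fun u v => B_add_left u v _).comp w.toAddMonoidHom)
        (fun t : Wt => if D0 1 t.1 then t.1 i • t.1 else 0) univ
      rw [sum_W fun t => if D0 1 t then t i • t else 0, UU_chk] at this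
      refine this.symm.trans ?_
      by_cases hi : i = 7
      · subst hi
        simp [h0, a.iso.hθ, show B (mu 0) (al 7) = -1 by decide +kernel, show B θ (al 7) = 1 by decide +kernel]
      · simp [hi]
    simp only [h7] at h6
    rw [sum_comm] at h6
    simp only [h8, ← mul_sum] at h6
    omega
  obtain ⟨t, ht, h5, h6⟩ := h4
  obtain ⟨h7, h8⟩ := act_three a h3 ht
  have h9 : t + w t + w (w t) = θ + mu 0 := by
    have b1 : B (w t) (w (w t)) = 0 := by rw [a.iso.iso, h6]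
    have b2 : B (w (w t)) t = 0 := by rw [← b1, ← a.iso.iso (w t), h7]
    have b3 := (e1 _).1 h5
    have w1 := a.iso.isW.2 ht
    have w2 := a.iso.isW.2 w1
    refine sub_eq_zero.1 (eq_zero_of_B ?_)
    have c1 : ∀ v, B v θ = v 7 := fun v => by rw [B_comm, B_θ]
    have c2 := e2 t
    have c3 := e2 (w t)
    simp only [B_sub_left, B_add_left]
    simp only [B_sub_right, B_add_right]
    simp only [c1, B_comm t (mu 0), B_comm (w t) (mu 0),
      B_comm (w (w t)) (mu 0), B_θ, c2, c3, b3, ht.1, ht.2,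
      w1.1, w1.2, w2.1, w2.2, hm.1, hm.2, h6, b1, b2, B_comm (w t) t, B_comm (w (w t)) (w t), B_comm t (w (w t)),
      show θ 7 = 2 from rfl]
    omega
  rw [h9, a.ch.add, a.ch.hθ, one_mul] at h8
  have h10 : χ (θ - mu 0) = 1 := by
    have := a.ch.add (θ - mu 0) (mu 0)
    rwa [sub_add_cancel, a.ch.hθ, h8, mul_one, eq_comm] at this
  have h11 : ∀ t : Wt, w t.1 = t.1 ↔ t.1 = mu 0 ∨ t.1 = θ - mu 0 := fun t => ⟨fun e => by
    rcases e4 _ _ hm t.2 with e' | e' | e' | e'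
    · exact .inl e'
    · exact .inr e'
    · exact absurd e (h2 _ t.2 ((e1 _).2 e'))
    · exact absurd (by rw [map_sub, e, a.iso.hθ]) (h2 _ (e3 _ t.2) ((e1 _).2 (by
        rw [B_sub_right, e', B_comm, B_θ, hm.2, sub_zero]))), by
    rintro (e | e) <;> simp [e, h0, a.iso.hθ]⟩
  have h12 := dm_mono_three hω a h3
  have h13 : ∀ t : Wt, ((t.1 = mu 0 ∨ t.1 = θ - mu 0) ∧ χ t.1 = 1) ↔ (t.1 = mu 0 ∨ t.1 = θ - mu 0) := fun t =>
    and_iff_left_of_imp (by rintro (e | e) <;> rwa [e])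
  have h14 : #{t : Wt | t.1 = mu 0 ∨ t.1 = θ - mu 0} = 2 := by
    rw [card_filter_W fun t => t = mu 0 ∨ t = θ - mu 0]; decide +kernel
  have h15 : #{t : Wt | ¬(t.1 = mu 0 ∨ t.1 = θ - mu 0)} = 54 := by
    rw [card_filter_W fun t => ¬(t = mu 0 ∨ t = θ - mu 0)]; decide +kernel
  simp only [ne_eq, h11, h13, h14, h15] at h12
  rw [show dm (Ei g.1 1) = 20 by omega]; simp

theorem P3_zero (hω : IsPrimitiveRoot ω 3) : P3 K 0 :=
  (P3_one hω (((P3_four hω).step' (by omega) (by decide +kernel)).step' (by omega) (by decide +kernel))).step'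
    (by omega) (by decide +kernel)

end Cfsg.Agent.H6.Va
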