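import Cfsg.Agent.H6.Vd

/-!
Elements of order three of `E₇(2)`; the invariant form; the embedding of the adjoint group.
-/

set_option autoImplicit false
set_option linter.unusedSectionVars false
set_option linter.unusedSimpArgs false

namespace Cfsg.Agent.H6.Va

open Matrix Module Cfsg.Agent.H1.E8 Cfsg.Agent.H6.E7 Cfsg.Agent.H7.Ord Finset Cfsg.Lie
open Cfsg.Agent.H7.Inq hiding F

attribute [-simp] zsmul_eq_mul Matrix.mulVec_mulVec
attribute [local simp] mul_mulVec'

theorem pg_zpowers {Λ : Type*} [Group Λ] {p k : ℕ} {y : Λ} (hk : y ^ p ^ k = 1) : IsPGroup p (Subgroup.zpowers y) := by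
  rintro ⟨_, n, rfl⟩
  refine ⟨k, Subtype.ext ?_⟩
  change (y ^ n) ^ p ^ k = 1
  rw [← zpow_natCast, ← _root_.zpow_mul, mul_comm, _root_.zpow_mul, zpow_natCast, hk, _root_.one_zpow]

variable {K : Type*} [Field K] [CharP K 2]

theorem mem_mon_of_diag {g : GL Wt K} (hg : g ∈ G K) (h : ∀ a b : Wt, a ≠ b → ∃ t : GL Wt K,
    (∃ d, t.1 = diagonal d ∧ d a ≠ d b) ∧ (∃ d, (g * t * g⁻¹).1 = diagonal d) ∧ ∃ d, (g⁻¹ * t * g).1 = diagonal d) :
    g ∈ Mon K := by
  refine mem_mon hg (fun a a' b h1 h2 => of_not_not fun hne => ?_) fun a b b' h1 h2 => of_not_not fun hne => ?_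
  · obtain ⟨t, ⟨d, hd, ht⟩, -, d', hd'⟩ := h _ _ hne
    have e : g.1 * (g⁻¹ * t * g).1 = t.1 * g.1 := by rw [← Units.val_mul, ← Units.val_mul]; simp [mul_assoc]
    rw [hd, hd'] at e
    have e1 := congrFun (congrFun e a) b
    have e2 := congrFun (congrFun e a') b
    simp only [mul_diagonal, diagonal_mul] at e1 e2
    exact ht (((mul_right_cancel₀ h1 (e1.symm.trans (mul_comm ..))).trans
      (mul_right_cancel₀ h2 (e2.symm.trans (mul_comm ..))).symm))
  · obtain ⟨t, ⟨d, hd, ht⟩, ⟨d', hd'⟩, -⟩ := h _ _ hne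
    have e : (g * t * g⁻¹).1 * g.1 = g.1 * t.1 := by rw [← Units.val_mul, ← Units.val_mul]; simp [mul_assoc]
    rw [hd, hd'] at e
    have e1 := congrFun (congrFun e a) b
    have e2 := congrFun (congrFun e a) b'
    simp only [mul_diagonal, diagonal_mul] at e1 e2
    exact ht (((mul_left_cancel₀ h1 (e1.symm.trans (mul_comm ..))).trans
      (mul_left_cancel₀ h2 (e2.symm.trans (mul_comm ..))).symm))

theorem diag_of_mon {g : GL Wt K} (hg : g ∈ Mon K) (h : g ^ 81 = 1) : ∃ d, (g ^ 27).1 = diagonal d := by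
  obtain ⟨w, χ, a⟩ := hg
  have h5 : ∀ (t : Wt) n, ((a.iso.perm)^[n] t).1 = w^[n] t.1 := fun t n => by
    induction n with
    | zero => rfl
    | succ n ih => rw [Function.iterate_succ_apply', Function.iterate_succ_apply', ← ih]; rfl
  have h1 : ∀ t : Wt, w^[27] t.1 = t.1 := fun t => by
    have h6 : Function.IsPeriodicPt a.iso.perm (3 ^ 4) t := Subtype.ext ((h5 t _).trans (a.iterate h t.2))
    obtain ⟨j, hj, hj'⟩ := (Nat.dvd_prime_pow (by norm_num)).1 h6.minimalPeriod_dvd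
    have h7 := Function.minimalPeriod_le_card (f := a.iso.perm) (x := t)
    rw [card_W, hj'] at h7
    have h8 : Function.IsPeriodicPt a.iso.perm (3 ^ 3) t := Function.isPeriodicPt_iff_minimalPeriod_dvd.2
      (hj' ▸ pow_dvd_pow 3 (by rcases hj.eq_or_lt with rfl | h; · omega
                               · omega))
    exact (h5 t _).symm.trans (congrArg Subtype.val h8)
  have key : ∀ (t : L) (n : ℕ), ∃ c : K, (g ^ n).1 *ᵥ e K t = c • e K (w^[n] t) := fun t n => by
    induction n with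
    | zero => exact ⟨1, by simp⟩
    | succ n ih =>
      obtain ⟨c, hc⟩ := ih
      exact ⟨_, by rw [pow_succ', Units.val_mul, mul_mulVec', hc, mulVec_smul, a.he', smul_smul,
        Function.iterate_succ_apply']⟩
  choose c hc using fun t : Wt => key t.1 27
  refine ⟨c, Matrix.ext fun i j => ?_⟩
  rw [← mulVec_e (g ^ 27).1 i j, hc, h1, diagonal_apply, e_single]
  by_cases e : i = j <;> simp [e]

theorem conj_mon [Finite K] {ζ : K} (hζ : IsPrimitiveRoot ζ 81) {g : GL Wt K} (hg : g ∈ G K) (h3 : g ^ 3 = 1) :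
    ∃ c : GL Wt K, c * g * c⁻¹ ∈ Mon K := by
  have : Fact (Nat.Prime 3) := ⟨by norm_num⟩
  let M := Mon K ⊓ G K
  have hQ : IsPGroup 3 (TorP K 81) := fun g => ⟨4, Subtype.ext (by simpa using g.2.2)⟩
  obtain ⟨P, hP⟩ := (hQ.comap_subtype (K := M)).exists_le_sylow
  have h1 : ∀ t ∈ P.1.map M.subtype, t ∈ M := by
    rintro _ ⟨t, -, rfl⟩
    exact t.2
  obtain ⟨c, -, hc⟩ := conj_into (C := G K) (P := P.1.map M.subtype) (fun t ht => (h1 t ht).2) (P.2.map _)
    (fun x hx k hk hn => by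
      have h3 : x ∈ M := ⟨mem_mon_of_diag hx fun a b hab => by
        have h0 : ζ ≠ 0 := hζ.ne_zero (by omega)
        obtain ⟨j, hj, hj'⟩ : ∃ j, j ≠ 7 ∧ B (al j) a.1 ≠ B (al j) b.1 := by
          by_contra! hc
          refine hab (Subtype.ext (sub_eq_zero.1 (eq_zero_of_B ?_)))
          rw [B_sum]
          refine Finset.sum_eq_zero fun j _ => ?_
          by_cases hj : j = 7
          · simp [hj, a.2.2, b.2.2]
          · rw [B_comm, B_sub_right, hc j hj, sub_self, mul_zero]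
        obtain ⟨s, hs⟩ := exists_act (act_N (IsR.al hj) h0).ch
        have h4 : s ^ 81 = 1 := (hs.pow_eq_one_iff 81).2 fun t => by
          rw [← zpow_natCast, ← _root_.zpow_mul, mul_comm, _root_.zpow_mul, zpow_natCast, hζ.pow_eq_one,
            _root_.one_zpow]
        obtain ⟨h5, h6⟩ := hn s ⟨⟨s, ⟨_, _, hs⟩, tor_le ⟨_, hs⟩⟩, hP ⟨⟨_, hs⟩, h4⟩, rfl⟩
        refine ⟨s ^ 27, ⟨_, by rw [Units.val_pow_eq_pow_val, hs.diag, diagonal_pow], fun e => ?_⟩,
          conj_pow (a := x) ▸ diag_of_mon (h1 _ h5).1 (by rw [conj_pow, h4]; simp), ?_⟩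
        · simp only [Pi.pow_apply, ← zpow_natCast, ← _root_.zpow_mul] at e
          rw [← div_eq_one_iff_eq (zpow_ne_zero _ h0), ← zpow_sub₀ h0, hζ.zpow_eq_one_iff_dvd] at e
          have h1 := cases3 (IsR.al hj) a.2
          have h2 := cases3 (IsR.al hj) b.2
          omega
        · have := diag_of_mon (h1 _ h6).1 (by rw [← inv_inv x, inv_inv x⁻¹, conj_pow, h4]; simp)
          rwa [← inv_inv x, inv_inv x⁻¹, conj_pow, inv_inv] at this, hx⟩
      have h4 : ∀ t : M, t.1 ∈ P.1.map M.subtype ↔ t ∈ P.1 := fun t =>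
        Subgroup.mem_map_iff_mem (f := M.subtype) Subtype.val_injective
      have h5 : (⟨x, h3⟩ : M) ∈ Subgroup.normalizer (P : Set M) := Subgroup.mem_normalizer_fintype fun t ht =>
        (h4 _).1 (hn _ ((h4 t).2 ht)).1
      have h6 := (pg_zpowers (y := (⟨x, h3⟩ : M)) (k := k) (Subtype.ext hk)).inf_normalizer_sylow P
      exact (h4 ⟨x, h3⟩).2 (h6.le ⟨Subgroup.mem_zpowers _, h5⟩).2) hg (k := 1) (by simpa using h3)
  exact ⟨c, (h1 _ hc).1⟩

theorem G_eq : G F = gp F fun _ => True := by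
  refine sup_eq_left.2 fun g ⟨χ, h⟩ => ?_
  rw [show g = 1 from Units.ext (by rw [h.diag]; simp [one_of_ne (h.ch.ne _)])]
  exact one_mem _

theorem Γ_ind {M : Subgroup Γ} (h : ∀ r (hr : IsR r) (x : Γ), x.1 = X r 1 → x ∈ M) (g : Γ) : g ∈ M := by
  have : gp F (fun _ => True) ≤ M.map (G F).subtype := gp_le fun r a hr _ => by
    rcases zo a with rfl | rfl
    · rw [X_zero]; exact one_mem _
    · exact ⟨⟨_, G_eq.ge (X_mem hr trivial 1)⟩, h r hr _ rfl, rfl⟩
  obtain ⟨x, hx, e⟩ := this (G_eq.le g.2)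
  exact (Subtype.ext e : x = g) ▸ hx

theorem eq_one_of_fd {g : Γ} (h : 56 ≤ fd (ρV g)) : g = 1 := by
  have : fx (ρV g) = ⊤ := Submodule.eq_top_of_finrank_eq (le_antisymm (Submodule.finrank_le _) (by
    rwa [finrank_fintype_fun_eq_card, card_W]))
  exact ρV_inj (by rw [map_one]; exact mext fun t _ => by rw [one_mulVec]; exact (this ▸ Submodule.mem_top : _ ∈ fx _))

theorem three {g : Γ} (hg : g ^ 3 = 1) (h1 : g ≠ 1) :
    fd (ρV g) = 2 ∨ fd (ρV g) = 14 ∨ fd (ρV g) = 20 ∨ fd (ρV g) = 32 := by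
  let φ : GL Wt F →* GL Wt KK := GeneralLinearGroup.map (algebraMap F KK)
  have h2 : φ g.1 ∈ G KK := by
    refine Γ_ind (M := (G KK).comap (φ.comp (G F).subtype)) (fun r hr x hx => ?_) g
    have : φ (X r 1) = X r (algebraMap F KK 1) := Units.ext (by
      change (X r 1).1.map _ = _
      ext i j
      simp only [coe_X hr, E7.x, E, one_apply, apply_ite (algebraMap F KK), map_apply, Matrix.add_apply,
        Matrix.smul_apply, smul_eq_mul, of_apply, map_add, map_mul, map_one, map_zero])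
    change φ x.1 ∈ G KK
    rw [hx, this]
    exact le_sup_left (a := gp KK fun _ => True) (X_mem hr trivial _)
  have h3 : φ g.1 ^ 3 = 1 := by rw [← map_pow, ← Subgroup.coe_pow, hg]; exact φ.map_one
  obtain ⟨c, w, χ, a⟩ := conj_mon (om_prim (p := 81) (by norm_num)) h2 h3
  have h4 := P3_zero (om_prim (p := 3) (by norm_num)) _ _ _ a (by rw [conj_pow, h3]; simp) (by omega)
  rw [dm_Ei_conj, show dm (Ei (φ g.1).1 1) = fd (ρV g) from (fd_up _).symm] at h4
  have h5 : ¬56 ≤ fd (ρV g) := fun h => h1 (eq_one_of_fd h)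
  simp only [List.mem_cons, List.not_mem_nil, or_false] at h4
  omega

/-! ### The invariant form -/

theorem isW_op {t : L} (ht : IsW t) : IsW (θ - t) :=
  ⟨by simp [B_θ, B_comm t θ, ht.1, ht.2, show θ 7 = 2 from rfl], by simp [ht.2, show θ 7 = 2 from rfl]⟩

/-- opposite weights -/
def opW : Equiv.Perm Wt := Function.Involutive.toPerm (fun t => ⟨θ - t.1, isW_op t.2⟩) fun t => Subtype.ext (by simp)

theorem opW_opW (a : Wt) : opW (opW a) = a := Subtype.ext (sub_sub_cancel _ _)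

/-- the invariant form -/
noncomputable def β (u v : Wt → F) : F := u ⬝ᵥ (v ∘ opW)

theorem β_add_left (u u' v : Wt → F) : β (u + u') v = β u v + β u' v := add_dotProduct ..

theorem β_add_right (u v v' : Wt → F) : β u (v + v') = β u v + β u v' := dotProduct_add ..

theorem β_zero_left (v : Wt → F) : β 0 v = 0 := zero_dotProduct _

theorem eq_zero_of_β {u : Wt → F} (h : ∀ v, β u v = 0) : u = 0 := funext fun t => by
  have := h (Pi.single t 1 ∘ opW)
  rwa [β, show (Pi.single t (1 : F) ∘ opW) ∘ opW = Pi.single t 1 from funext fun a => congrArg (Pi.single t (1 : F))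
    (opW_opW a), dotProduct_single, mul_one] at this

theorem β_inv (g : Γ) (u v : Wt → F) : β (ρV g *ᵥ u) (ρV g *ᵥ v) = β u v := by
  let M : Subgroup Γ :=
    { carrier := {g | ∀ u v, β (ρV g *ᵥ u) (ρV g *ᵥ v) = β u v}
      one_mem' := fun u v => by simp
      mul_mem' := fun {a b} ha hb u v => by simp only [map_mul, mul_mulVec', ha _ _, hb _ _]
      inv_mem' := fun {a} ha u v => by rw [← ha]; simp [← mul_mulVec', ← map_mul] }
  refine Γ_ind (M := M) (fun r hr x hx u v => ?_) g u v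
  have h1 : ρV x = E7.x r 1 := by rw [← coe_X hr, ← hx]; rfl
  have h2 : ∀ u v, β (E F r *ᵥ u) v = β u (E F r *ᵥ v) := fun u v => by
    rw [β, β, dotProduct_comm, dotProduct_mulVec, dotProduct_comm]
    refine congrArg _ (funext fun a => ?_)
    simp only [vecMul, mulVec, dotProduct, Function.comp_apply]
    rw [← Equiv.sum_comp opW]
    refine sum_congr rfl fun b _ => ?_
    rw [mul_comm, opW_opW]
    refine congrArg (· * _) (if_congr ?_ rfl rfl)
    change θ - b.1 = r + a.1 ↔ θ - a.1 = r + b.1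
    rw [sub_eq_iff_eq_add, sub_eq_iff_eq_add, add_right_comm]
  rw [h1, E7.x, one_smul, add_mulVec, add_mulVec, one_mulVec, one_mulVec, β_add_left, β_add_right, β_add_right, h2, h2,
    ← mul_mulVec', E_E hr hr (by rw [hr.1]; omega), zero_mulVec, add_assoc, ← add_assoc (β u (E F r *ᵥ v)),
    CharTwo.add_self_eq_zero]
  simp [β]

/-! ### The embedding -/

theorem R_surj_chk : ∀ l ∈ tbl, ∀ l' ∈ tbl, IsR (toL l - toL l') → ∃ i < 126, R i = toL l - toL l' := by
  decide +kernel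

set_option maxRecDepth 10000 in
theorem exists_iso : Nonempty (chevE7.group F ≃* Γ) := by
  choose f h1 h2 using fun g : chevE7.group F => exists_lift g.2
  let ψ : chevE7.group F →* Γ := MonoidHom.mk' (fun g => ⟨f g, (le_sup_left : gp F _ ≤ G F) (h1 g)⟩) fun a b =>
    Subtype.ext (lift_uniq (h2 (a * b)) ((h2 a).mul (h2 b)))
  refine ⟨MulEquiv.ofBijective ψ ⟨fun a b h => Subtype.ext (Units.ext ?_), Γ_ind (M := ψ.range) fun r hr x hx => ?_⟩⟩
  · exact H7.Bit.Lift.uniq rho_inj (f a).isUnit (h2 a)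
      (by rw [show f a = f b from congrArg Subtype.val h]; exact h2 b)
  · obtain ⟨t, ht, h3⟩ := exists_W hr
    obtain ⟨l, hl, e1⟩ := List.mem_map.1 (mem_tbl ((isW_add hr ht).2 h3))
    obtain ⟨l', hl', e2⟩ := List.mem_map.1 (mem_tbl ht)
    have e3 : toL l - toL l' = r := by rw [e1, e2, add_sub_cancel_right]
    obtain ⟨i, hi, e4⟩ := R_surj_chk l hl l' hl' (e3 ▸ hr)
    rw [e3] at e4
    have h4 : H7.Bit.Lift (rho F) (chevE7.xMat F ⟨i, hi⟩ 1) (X r 1).1 := by
      rw [coe_X hr, ← e4]; exact lift_x ⟨i, hi⟩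
    have h5 : chevE7.xMat F ⟨i, hi⟩ 1 * chevE7.xMat F ⟨i, hi⟩ 1 = 1 :=
      H7.Bit.Lift.uniq rho_inj isUnit_one (by simpa [← Units.val_mul, X_X] using h4.mul h4) H7.Bit.Lift.one
    obtain ⟨g0, hg0⟩ : ∃ g0 : chevE7.group F, g0.1.1 = chevE7.xMat F ⟨i, hi⟩ 1 :=
      ⟨⟨⟨_, _, h5, h5⟩, Subgroup.subset_closure ⟨_, _, rfl⟩⟩, rfl⟩
    rw [← hg0] at h4
    have h6 : f g0 = X r 1 := lift_uniq (g := g0.1) (h2 g0) h4
    exact ⟨g0, Subtype.ext (h6.trans hx.symm)⟩

end Cfsg.Agent.H6.Va
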