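import Cfsg.Agent.H6.Ve
import Cfsg.Agent.H4.T8M

/-!
Words, Scott's inequality, and coset tables.
-/

set_option autoImplicit false
set_option linter.unusedSectionVars false
set_option linter.unusedSimpArgs false

namespace Cfsg.Agent.H6.Va

open Matrix Module Cfsg.Agent.H6.E7 Cfsg.Agent.H7.Ord Finset
open Cfsg.Agent.H7.Inq hiding F

attribute [-simp] zsmul_eq_mul Matrix.mulVec_mulVec
attribute [local simp] mul_mulVec'

section words
variable {M : Type*} [Monoid M] (g : ℕ → M)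

/-- the value of a word -/
def wp (w : List ℕ) : M := (w.map g).prod

@[simp] theorem wp_nil : wp g [] = 1 := rfl

@[simp] theorem wp_cons (j : ℕ) (w : List ℕ) : wp g (j :: w) = g j * wp g w := List.prod_cons

@[simp] theorem wp_append (v w : List ℕ) : wp g (v ++ w) = wp g v * wp g w := by simp [wp]

theorem map_wp {N : Type*} [Monoid N] (f : M →* N) (w : List ℕ) : f (wp g w) = wp (f ∘ g) w := by
  rw [wp, map_list_prod, List.map_map]; rfl

/-- a power of a word -/
def rp (n : ℕ) (w : List ℕ) : List ℕ := (List.replicate n w).flatten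

@[simp] theorem wp_rp (n : ℕ) (w : List ℕ) : wp g (rp n w) = wp g w ^ n := by
  induction n with
  | zero => simp [rp]
  | succ n ih => rw [rp, List.replicate_succ, List.flatten_cons, wp_append, pow_succ', ← ih]; rfl

/-- a product of powers of words -/
def pwW : List (List ℕ) → List ℕ → List ℕ
  | w :: ws, a :: as => rp a w ++ pwW ws as
  | _, _ => []

theorem wp_pwW (ws : List (List ℕ)) (as : List ℕ) : wp g (pwW ws as) = pw (ws.map (wp g)) as := by
  induction ws generalizing as with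
  | nil => simp [pwW, pw]
  | cons w ws ih => cases as <;> simp [pwW, pw, ih]

theorem wp_mem {S : Type*} [SetLike S M] [SubmonoidClass S M] {H : S} {w : List ℕ} (h : ∀ j ∈ w, g j ∈ H) :
    wp g w ∈ H := list_prod_mem (by simpa using h)

/-- relations hold -/
def WM (ev : List ℕ → ℕ) : Prop := ∀ v w, ev v = ev w → wp g v = wp g w

/-- the code of a word -/
noncomputable def evw (mu : ℕ → ℕ → ℕ) (e : ℕ) (X : ℕ → ℕ) (w : List ℕ) : ℕ :=
  List.rec (motive := fun _ => ℕ) e (fun j _ acc => mu (X j) acc) w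

open H4.T8 in
theorem evw_spec {G : Type*} [Group G] {mu : ℕ → ℕ → ℕ} {e : ℕ} {vb : ℕ → Bool} {Val : ℕ → Prop} {φ : ℕ → G}
    (h : Mdl mu e vb Val φ) {X : ℕ → ℕ} (hX : ∀ j, Val (X j)) (w : List ℕ) :
    Val (evw mu e X w) ∧ φ (evw mu e X w) = wp (φ ∘ X) w := by
  induction w with
  | nil => exact ⟨h.val_e, h.φ_e⟩
  | cons j w ih => exact ⟨h.val_mu _ _ (hX j) ih.1, (h.φ_mu _ _ (hX j) ih.1).trans (by rw [ih.2]; rfl)⟩

open H4.T8 in
theorem wm_of {G : Type*} [Group G] {mu : ℕ → ℕ → ℕ} {e : ℕ} {vb : ℕ → Bool} {Val : ℕ → Prop} {φ : ℕ → G}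
    (h : Mdl mu e vb Val φ) {X : ℕ → ℕ} (hX : ∀ j, Val (X j)) (ψ : G →* M) : WM (ψ ∘ φ ∘ X) (evw mu e X) :=
  fun v w e => by rw [← map_wp, ← map_wp, ← (evw_spec h hX v).2, ← (evw_spec h hX w).2, e]

theorem gt_all {α : Type} {P : α → Prop} {l : List α} {d : α} (h : ∀ a ∈ l, P a) (hd : P d) (j : ℕ) :
    P (H4.BP.gt l d j) := (H4.BP.gt_mem l d j).elim (fun e => e.symm ▸ hd) (h _)

variable {g} {ev : List ℕ → ℕ}

/-- check of a list of relations -/
def rels (ev : List ℕ → ℕ) (l : List (List ℕ × List ℕ)) : Bool := l.all fun p => Nat.beq (ev p.1) (ev p.2)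

theorem WM.rels (h : WM g ev) {l : List (List ℕ × List ℕ)} (hl : rels ev l = true) : ∀ p ∈ l, wp g p.1 = wp g p.2 :=
  fun p hp => h _ _ (Nat.eq_of_beq_eq_true (List.all_eq_true.1 hl p hp))

theorem WM.comp (h : WM g ev) (wd : ℕ → List ℕ) : WM (fun j => wp g (wd j)) fun w => ev (w.flatMap wd) := by
  have : ∀ w : List ℕ, wp (fun j => wp g (wd j)) w = wp g (w.flatMap wd) := fun w => by
    induction w with
    | nil => rfl
    | cons j w ih => simp [ih]
  exact fun v w e => by rw [this, this, h _ _ e]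

theorem fix_wp {ι K : Type*} [Fintype ι] [DecidableEq ι] [CommRing K] (ρ : M →* Matrix ι ι K) {v : ι → K}
    {w : List ℕ} (h : ∀ j ∈ w, ρ (g j) *ᵥ v = v) : ρ (wp g w) *ᵥ v = v := by
  induction w with
  | nil => simp
  | cons j w ih => simp [← mulVec_mulVec, ih fun i hi => h i (by simp [hi]), h j (by simp)]

end words

section lab
variable {g : ℕ → Γ} {ev : List ℕ → ℕ}

/-- check of an abelian group -/
def eaChk (ev : List ℕ → ℕ) (p : ℕ) : List (List ℕ) → Bool
  | [] => true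
  | w :: ws => Nat.beq (ev (rp p w)) (ev []) && (ws.all fun v => Nat.beq (ev (w ++ v)) (ev (v ++ w))) && eaChk ev p ws

theorem WM.ea (h : WM g ev) {p : ℕ} (hp : p ∣ 2 ^ 108 - 1) {ws : List (List ℕ)} (hc : eaChk ev p ws = true) :
    EA p (ws.map (wp g)) := by
  induction ws with
  | nil => exact ⟨hp, by simp, by simp⟩
  | cons w ws ih =>
    simp only [eaChk, Bool.and_eq_true, List.all_eq_true, Nat.beq_eq] at hc
    have := ih hc.2
    refine ⟨hp, List.forall_mem_cons.2 ⟨by simpa using h _ _ hc.1.1, this.pow⟩,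
      List.pairwise_cons.2 ⟨List.forall_mem_map.2 fun v hv => ?_, this.comm⟩⟩
    simpa [commute_iff_eq] using h _ _ (hc.1.2 v hv)

/-- check of a normalising element -/
def mvChk (ev : List ℕ → ℕ) (ws : List (List ℕ)) (c : List ℕ × List (List ℕ)) : Bool :=
  ws.length == c.2.length && (ws.zip c.2).all fun z => Nat.beq (ev (c.1 ++ z.1)) (ev (pwW ws z.2 ++ c.1))

theorem WM.conj (h : WM g ev) {c v w : List ℕ} (e : ev (c ++ v) = ev (w ++ c)) :
    wp g c * wp g v * (wp g c)⁻¹ = wp g w := by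
  rw [mul_inv_eq_iff_eq_mul, ← wp_append, h _ _ e, wp_append]

theorem WM.mv (h : WM g ev) {p : ℕ} {ws : List (List ℕ)} (hE : EA p (ws.map (wp g))) {c : List ℕ × List (List ℕ)}
    (hc : mvChk ev ws c = true) : Mv p (ws.map (wp g)) (tr p c.2) := by
  simp only [mvChk, Bool.and_eq_true, List.all_eq_true, Nat.beq_eq, beq_iff_eq] at hc
  refine hE.mv_tr (c := wp g c.1) (List.ext_getElem (by simpa using hc.1) fun i h1 h2 => ?_)
  simp only [List.getElem_map, ← wp_pwW]
  exact h.conj (hc.2 (_, _) (List.mem_iff_getElem.2 ⟨i, by simp at h1 h2 ⊢; omega, List.getElem_zip⟩))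

/-- check of the labels -/
def labW (ev : List ℕ → ℕ) (p : ℕ) (ws : List (List ℕ)) (cs : List (List ℕ × List (List ℕ))) (reps : List (List ℕ))
    (T : List (ℕ × List ℕ × List ℕ)) : Bool :=
  eaChk ev p ws && cs.all (mvChk ev ws) && labChk p ws.length (db p :: cs.map fun c => tr p c.2) reps T

theorem WM.lab (h : WM g ev) {p : ℕ} (hp : p ∣ 2 ^ 108 - 1) {ws : List (List ℕ)} {cs : List (List ℕ × List (List ℕ))}
    {reps : List (List ℕ)} {T : List (ℕ × List ℕ × List ℕ)} (hc : labW ev p ws cs reps T = true) :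
    ∃ M, Lab p (ws.map (wp g)) reps.length (T.map (·.1)) M := by
  simp only [labW, Bool.and_eq_true, List.all_eq_true] at hc
  have hE := h.ea hp hc.1.1
  exact ⟨_, hE.lab (List.forall_mem_cons.2 ⟨hE.mv_db, List.forall_mem_map.2 fun c h1 => h.mv hE (hc.1.2 c h1)⟩)
    (List.length_map _) hc.2⟩

theorem Lab.eqW {p r : ℕ} {ws : List (List ℕ)} {labs : List ℕ} {M : ℕ → ℕ} (h : Lab p (ws.map (wp g)) r labs M)
    (as : List (List ℕ)) (μ : List ℕ) {cs : List ℕ} (hc : cnt p ws.length r labs as μ = cs) :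
    mm p (as.map fun a => wp g (pwW ws a)) μ = ∑ i ∈ range r, cs.getD i 0 * M i := by
  simp only [wp_pwW]
  exact h.eq (List.length_map _) as μ hc

theorem Lab.fd {p r : ℕ} {ws : List (List ℕ)} {labs : List ℕ} {M : ℕ → ℕ} (h : Lab p (ws.map (wp g)) r labs M)
    (a : List ℕ) {cs : List ℕ} (hc : cnt p ws.length r labs [a] [0] = cs) :
    fd (ρV (wp g (pwW ws a))) = ∑ i ∈ range r, cs.getD i 0 * M i := (fd_eq p _).trans (h.eqW [a] [0] hc)

theorem Lab.tot {p r : ℕ} {ws : List (List ℕ)} {labs : List ℕ} {M : ℕ → ℕ} (h : Lab p (ws.map (wp g)) r labs M)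
    {cs : List ℕ} (hc : cnt p ws.length r labs [] [] = cs) : 56 = ∑ i ∈ range r, cs.getD i 0 * M i :=
  (mm_nil p).symm.trans (h.eqW [] [] hc)

theorem WM.fd (h : WM g ev) (c : List ℕ) {v w : List ℕ} (e : ev (c ++ v) = ev (w ++ c)) :
    fd (ρV (wp g w)) = fd (ρV (wp g v)) := by rw [← h.conj e, fd_conj]

end lab

/-! ### Scott's inequality -/

theorem add_self (v : Wt → F) : v + v = 0 := funext fun _ => CharTwo.add_self_eq_zero _

theorem le_perp (W T : Submodule F (Wt → F)) (h : ∀ v, (∀ w ∈ W, β v w = 0) → v ∈ T) : 56 ≤ dm W + dm T := by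
  let B : (Wt → F) →ₗ[F] (Wt → F) →ₗ[F] F := LinearMap.mk₂ F β β_add_left (fun c u v => smul_dotProduct ..) β_add_right
    fun c u v => dotProduct_smul ..
  have h1 := ((B.flip.domRestrict W).flip).finrank_range_add_finrank_ker
  rw [finrank_fintype_fun_eq_card, card_W] at h1
  have h2 := (Submodule.finrank_le (LinearMap.range (B.flip.domRestrict W).flip)).trans_eq
    (Subspace.dual_finrank_eq (K := F) (V := W))
  have h3 : dm (LinearMap.ker (B.flip.domRestrict W).flip) ≤ dm T :=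
    dm_mono fun v hv => h v fun w hw => LinearMap.congr_fun hv ⟨w, hw⟩
  unfold dm at *
  omega

/-- the commutator space -/
noncomputable def im (x : Γ) : Submodule F (Wt → F) := (⊤ : Submodule F (Wt → F)).map (toLin' (ρV x + 1))

theorem mem_im (x : Γ) (u : Wt → F) : ρV x *ᵥ u + u ∈ im x := ⟨u, trivial, by simp [add_mulVec]⟩

theorem mem_ker {x : Γ} {v : Wt → F} : v ∈ Ei (ρV x + 1) 0 ↔ v ∈ fx (ρV x) := by
  rw [mem_Ei, mem_fx, add_mulVec, one_mulVec, zero_smul]
  exact ⟨fun h => by rw [← add_zero (_ *ᵥ v), ← add_self v, ← add_assoc, h, zero_add], fun h => by rw [h, add_self]⟩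

theorem dm_im (x : Γ) : fd (ρV x) + dm (im x) = 56 := by
  rw [← card_W, ← dm_top (K := F), dm_map_add (ρV x + 1) ⊤, top_inf_eq, Submodule.ext fun _ => mem_ker]; rfl

theorem β_im {x : Γ} {v : Wt → F} (h : v ∈ fx (ρV x)) {w : Wt → F} (hw : w ∈ im x) : β w v = 0 := by
  obtain ⟨u, -, rfl⟩ := hw
  rw [toLin'_apply, add_mulVec, one_mulVec, β_add_left, ← β_inv x u, mem_fx.1 h, CharTwo.add_self_eq_zero]

theorem fx_of_perp {x : Γ} {v : Wt → F} (h : ∀ w ∈ im x, β v w = 0) : v ∈ fx (ρV x) := by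
  rw [← mem_ker, mem_Ei, zero_smul]
  refine eq_zero_of_β fun u => ?_
  have h1 := h _ (mem_im x (ρV x⁻¹ *ᵥ u))
  rw [β_add_right, ← β_inv x v (ρV x⁻¹ *ᵥ u), ← mul_mulVec', ← map_mul, mul_inv_cancel, map_one, one_mulVec] at h1
  rw [add_mulVec, one_mulVec, β_add_left, add_comm, h1]

theorem scott {x y z : Γ} (h : x * y * z = 1) :
    fd (ρV x) + fd (ρV y) + fd (ρV z) ≤ 56 + 2 * dm (fx (ρV x) ⊓ fx (ρV y)) := by
  have h0 : ∀ v ∈ fx (ρV z), ρV x *ᵥ ρV y *ᵥ v = v := fun v hv => by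
    conv_lhs => rw [← mem_fx.1 hv, ← mul_mulVec', ← mul_mulVec', ← map_mul, ← map_mul, h, map_one, one_mulVec]
  have h1 := dm_map_add (ρV y + 1) (fx (ρV z))
  have h2 : dm (fx (ρV z) ⊓ Ei (ρV y + 1) 0) ≤ dm (fx (ρV x) ⊓ fx (ρV y)) := dm_mono fun v hv =>
    ⟨by have := h0 v hv.1; rwa [mem_fx.1 (mem_ker.1 hv.2)] at this, mem_ker.1 hv.2⟩
  have h3 : dm ((fx (ρV z)).map (toLin' (ρV y + 1))) ≤ dm (im x ⊓ im y) := dm_mono (by
    rintro _ ⟨v, hv, rfl⟩
    refine ⟨?_, v, trivial, rfl⟩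
    have := mem_im x (ρV y *ᵥ v)
    rwa [h0 v hv, add_comm, ← one_mulVec v, ← mul_mulVec', mul_one, ← add_mulVec] at this)
  have h4 := dm_sup (im x) (im y)
  have h5 := le_perp (im x ⊔ im y) (fx (ρV x) ⊓ fx (ρV y)) fun v hv =>
    ⟨fx_of_perp fun w hw => hv w (Submodule.mem_sup_left hw), fx_of_perp fun w hw => hv w (Submodule.mem_sup_right hw)⟩
  have h6 := dm_im x
  have h7 := dm_im y
  change fd _ = _ at h1
  omega

theorem scottW {g : ℕ → Γ} {i j k : ℕ} (h : g i * g j * g k = 1) {w : List ℕ} (hw : ∀ l ∈ w, l = i ∨ l = j) :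
    fd (ρV (g i)) + fd (ρV (g j)) + fd (ρV (g k)) ≤ 56 + 2 * fd (ρV (wp g w)) :=
  (scott h).trans (Nat.add_le_add_left (Nat.mul_le_mul_left _ (dm_mono fun v hv => fix_wp ρV fun l hl => by
    rcases hw l hl with rfl | rfl
    exacts [hv.1, hv.2])) _)

theorem im_le {x : Γ} (h : x ^ 2 = 1) : im x ≤ fx (ρV x) := by
  rintro _ ⟨u, -, rfl⟩
  rw [mem_fx, toLin'_apply, ← mul_mulVec', mul_add, ← map_mul, ← pow_two, h, map_one, mul_one, add_comm]

theorem two {x : Γ} (h : x ^ 2 = 1) : 28 ≤ fd (ρV x) := by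
  have h1 := dm_im x
  have h2 : _ ≤ fd _ := dm_mono (im_le h)
  omega

theorem nd {c : Γ} {n : ℕ} (hc : c ^ n = 1) (hn : Odd n) {m : Wt → F} (hm : m ∈ fx (ρV c))
    (h : ∀ t ∈ fx (ρV c), β m t = 0) : m = 0 := eq_zero_of_β fun u => by
  have h1 : ∀ k : ℕ, β m (∑ i ∈ range k, ρV (c ^ i) *ᵥ u) = k * β m u := fun k => by
    induction k with
    | zero => simp [β]
    | succ k ih =>
      have := β_inv (c ^ k) m u
      rw [pow_mem (self_mem_cl ρV c) k m hm] at this
      rw [sum_range_succ, β_add_right, ih, this]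
      push_cast
      ring
  have h2 := h1 n
  rw [h _ (by
    rw [mem_fx, mulVec_sum]
    simp only [← mul_mulVec', ← map_mul, ← pow_succ']
    refine add_right_cancel (b := ρV (c ^ 0) *ᵥ u) ?_
    rw [← sum_range_succ' (fun i => ρV (c ^ i) *ᵥ u), sum_range_succ, hc, pow_zero]),
    (ZMod.natCast_eq_one_iff_odd).2 hn, one_mul] at h2
  exact h2.symm

/-! ### Coset tables -/

section ct
variable {Λ ι K : Type*} [Group Λ] [Fintype ι] [DecidableEq ι] [CommRing K] [CharP K 2] (ρ : Λ →* Matrix ι ι K)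
  {g : ℕ → Λ} {ev : List ℕ → ℕ}

/-- check of a coset table: words, then for each generator the images and correcting words -/
def ctW (ev : List ℕ → ℕ) (cs : List ℕ) (W : List (List ℕ)) (tb : List (List (ℕ × List ℕ))) : Bool :=
  (List.range tb.length).all fun s => (List.range W.length).all fun i =>
    ((tb.getD s []).getD i (0, [])).2.all (cs.contains ·) &&
      Nat.beq (ev (s :: W.getD i [])) (ev (W.getD ((tb.getD s []).getD i (0, [])).1 [] ++ ((tb.getD s []).getD i (0, [])).2))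

/-- the action on cosets; the value is the number of cosets when something is out of range -/
def acW (n : ℕ) (tb : List (List ℕ)) (w : List ℕ) (i : ℕ) : ℕ :=
  w.foldr (fun s j => if s < tb.length ∧ j < n then (tb.getD s []).getD j 0 else n) i

theorem acW_spec (h : WM g ev) {cs : List ℕ} {W : List (List ℕ)} {tb : List (List (ℕ × List ℕ))}
    (hc : ctW ev cs W tb = true) {v : ι → K} (hv : ∀ j ∈ cs, ρ (g j) *ᵥ v = v) (w : List ℕ) (i : ℕ)
    (hi : acW W.length (tb.map (List.map (·.1))) w i < W.length) :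
    ρ (wp g w) *ᵥ ρ (wp g (W.getD i [])) *ᵥ v =
      ρ (wp g (W.getD (acW W.length (tb.map (List.map (·.1))) w i) [])) *ᵥ v := by
  induction w with
  | nil => simp [acW]
  | cons s w ih =>
    rw [acW, List.foldr_cons, ← acW] at hi ⊢
    split_ifs at hi ⊢ with h1
    · simp only [ctW, List.all_eq_true, List.mem_range, Bool.and_eq_true, Nat.beq_eq] at hc
      obtain ⟨h2, h3⟩ := hc s (by simpa using h1.1) _ h1.2
      have e : ∀ j, ((tb.map (List.map (·.1))).getD s []).getD j 0 = ((tb.getD s []).getD j (0, [])).1 := fun j =>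
        (congrArg (List.getD · j 0) (List.getD_map (d := []) ..)).trans (List.getD_map (d := (0, [])) ..)
      rw [wp_cons, map_mul, ← mulVec_mulVec, ih h1.2, mulVec_mulVec, ← map_mul, ← wp_cons, h _ _ h3, wp_append, map_mul,
        ← mulVec_mulVec, fix_wp ρ fun j hj => hv j (by simpa using h2 j hj), e]
    · omega

/-- parity vector -/
def par (l : List ℕ) : ℕ := l.foldr (fun i a => Nat.xor (2 ^ i) a) 0

theorem sum_par (f : ℕ → ι → K) {n : ℕ} {l : List ℕ} (h : ∀ i ∈ l, i < n) :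
    (l.map f).sum = ∑ i ∈ range n, H7.Bit.bit K (par l) i • f i := by
  induction l with
  | nil => simp [par, H7.Bit.bit]
  | cons a l ih =>
    rw [List.map_cons, List.sum_cons, ih fun i hi => h i (by simp [hi]),
      show par (a :: l) = Nat.xor (2 ^ a) (par l) from rfl]
    simp only [H7.Bit.bit_xor, add_smul, sum_add_distrib]
    simp [H7.Bit.bit_pow, h a (by simp)]

/-- check of an identity in a permutation module -/
def idW (n : ℕ) (tb : List (List ℕ)) (A : List (List ℕ)) (l l' : List ℕ) : Bool :=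
  (A.flatMap fun w => l.map (acW n tb w)).all (· < n) && l'.all (· < n) &&
    Nat.beq (par (A.flatMap fun w => l.map (acW n tb w))) (par l')

theorem idW_spec (h : WM g ev) {cs : List ℕ} {W : List (List ℕ)} {tb : List (List (ℕ × List ℕ))}
    (hc : ctW ev cs W tb = true) {v : ι → K} (hv : ∀ j ∈ cs, ρ (g j) *ᵥ v = v) {A : List (List ℕ)} {l l' : List ℕ}
    (hi : idW W.length (tb.map (List.map (·.1))) A l l' = true) :
    (A.map fun w => ρ (wp g w) *ᵥ (l.map fun i => ρ (wp g (W.getD i [])) *ᵥ v).sum).sum =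
      (l'.map fun i => ρ (wp g (W.getD i [])) *ᵥ v).sum := by
  simp only [idW, Bool.and_eq_true, List.all_eq_true, decide_eq_true_eq, Nat.beq_eq] at hi
  rw [sum_par _ hi.1.2, ← hi.2, ← sum_par _ hi.1.1, List.map_flatMap, List.flatMap_def, List.sum_flatten, List.map_map]
  refine congrArg _ (List.map_congr_left fun w hw => ?_)
  rw [← toLin'_apply, map_list_sum, List.map_map, Function.comp_apply, List.map_map]
  exact congrArg _ (List.map_congr_left fun i h1 => acW_spec ρ h hc hv w i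
    (hi.1.1 _ (List.mem_flatMap.2 ⟨w, hw, List.mem_map_of_mem h1⟩)))

end ct

end Cfsg.Agent.H6.Va
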