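import Cfsg.Agent.H6.Vg
import Cfsg.Agent.H7.Ord6

/-!
Coded matrix groups; `J₂` and `L₂(19)` do not embed in `E₇(2)`.
-/

set_option autoImplicit false
set_option linter.unusedSectionVars false
set_option linter.unusedSimpArgs false
set_option maxRecDepth 100000

namespace Cfsg.Agent.H6.Va

open Matrix Module Cfsg.Agent.H6.E7 Cfsg.Agent.H7.Ord
open Cfsg.Agent.H7.Inq hiding F
open Cfsg.Agent.H4.T8 hiding mm dm fx

section model

/-- non-commuting codes -/
noncomputable def neM (w n : ℕ) (fa fm m : ℕ → ℕ → ℕ) (a b : ℕ) : Bool :=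
  H4.BP.force (m a b) fun x => H4.BP.force (m b a) fun y => (List.range n).any fun i => (List.range n).any fun j =>
    !Nat.beq (dg w y (n * i + j)) (dg w x (n * i + j)) && (List.range (2 ^ w)).any fun d =>
      Nat.beq (fa (dg w y (n * i + j)) d) (dg w x (n * i + j)) && (List.range (2 ^ w)).any fun c => Nat.beq (fm d c) 1

/-- recognisably non-trivial words -/
def NE {M : Type*} [Monoid M] (g : ℕ → M) (nc : List ℕ → List ℕ → Bool) : Prop := ∀ v u, nc v u = true → wp g v ≠ 1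

/-- scalar codes -/
def scM (w n a c : ℕ) : Bool := (List.range n).all fun i => (List.range n).all fun j =>
  Nat.beq (dg w a (n * i + j)) (if i = j then c else 0)

variable {K : Type*} [Field K] {ι : Type} [Fintype ι] [DecidableEq ι] {w n : ℕ} (e : ι ≃ Fin n) {t : ℕ → K}
  {fa fm : ℕ → ℕ → ℕ}

theorem toM_sc (h0 : t 0 = 0) {a c : ℕ} (h : scM w n a c = true) : toM e t w a = t c • 1 := by
  simp only [scM, List.all_eq_true, List.mem_range, Nat.beq_eq] at h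
  ext i j
  rw [toM, of_apply, h _ (e i).2 _ (e j).2]
  by_cases hij : i = j <;> simp [hij, h0, Fin.val_inj]

theorem model' {S G : Type*} [Group S] [Group G] (hc : Cod t w fa fm) (h1 : t 1 = 1) {j : S →* Matrix ι ι K}
    (hj : Function.Injective j) {π : S →* G} (hk : ∀ s, π s = 1 → s ∈ Subgroup.center S) {e1 : ℕ} {mu : ℕ → ℕ → ℕ}
    {vb : ℕ → Bool} (M : Mdl mu e1 vb (PV j (toM e t w)) (Pφ j π (toM e t w)))
    {X : ℕ → ℕ} (hX : ∀ i, PV j (toM e t w) (X i)) {ψ : G →* Γ} (hψ : Function.Injective ψ) :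
    WM (ψ ∘ Pφ j π (toM e t w) ∘ X) (evw mu e1 X) ∧ NE (ψ ∘ Pφ j π (toM e t w) ∘ X) fun v u =>
      neM w n fa fm (H4.T8.mm w n fa fm) (evw mu e1 X v) (evw mu e1 X u) := by
  refine ⟨wm_of M hX ψ, fun v u h => ?_⟩
  rw [← map_wp, map_ne_one_iff ψ hψ, ← (evw_spec M hX v).2]
  refine Pφ_ne hj (toM_mm e hc) hk (evw_spec M hX v).1 (evw_spec M hX u).1 fun e1 => ?_
  simp only [neM, H4.BP.force_eq, List.any_eq_true, List.mem_range, Bool.and_eq_true, Nat.beq_eq] at h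
  obtain ⟨a, ha, b, hb, -, d, h2, h3, c, h4, h7⟩ := h
  have h5 := congrFun (congrFun e1 (e.symm ⟨a, ha⟩)) (e.symm ⟨b, hb⟩)
  have h6 := (congrArg t h7).symm.trans (hc.mul _ h2 _ h4).2
  have h8 := (congrArg t h3).symm.trans (hc.add _ (dg_lt ..) _ h2).2
  simp only [toM, of_apply, Equiv.apply_symm_apply] at h5
  rw [h1, left_eq_add.1 (h5.symm.trans h8), zero_mul] at h6
  exact one_ne_zero h6

theorem model {S G : Type*} [Group S] [Group G] (hc : Cod t w fa fm) (h1 : t 1 = 1) {j : S →* Matrix ι ι K}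
    (hj : Function.Injective j) {π : S →* G} (hk : ∀ s, π s = 1 → s ∈ Subgroup.center S) {e1 : ℕ}
    (he : scM w n e1 1 = true) {zc : ℕ → ℕ} (hz : ∀ i, ∃ s, j s = toM e t w (zc i) ∧ π s = 1) (sel : ℕ → ℕ)
    {X : ℕ → ℕ} (hX : ∀ i, PV j (toM e t w) (X i)) {ψ : G →* Γ} (hψ : Function.Injective ψ) :
    WM (ψ ∘ Pφ j π (toM e t w) ∘ X) (evw (pmu (H4.T8.mm w n fa fm) zc sel) e1 X) ∧
      NE (ψ ∘ Pφ j π (toM e t w) ∘ X) fun v u => neM w n fa fm (H4.T8.mm w n fa fm)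
        (evw (pmu (H4.T8.mm w n fa fm) zc sel) e1 X v) (evw (pmu (H4.T8.mm w n fa fm) zc sel) e1 X u) :=
  model' e hc h1 hj hk (pmdl (π := π) hj (toM_mm e hc) (vb := fun _ => false)
    (by rw [toM_sc e hc.zero he, h1, one_smul]) (by simp) hz sel) hX hψ

theorem sl2_val (hc : Cod t w fa fm) (h1 : t 1 = 1) (hw : 0 < w) {a : ℕ}
    (h : fm (dg w a 0) (dg w a 3) = fa 1 (fm (dg w a 1) (dg w a 2))) :
    PV (SpecialLinearGroup.coeMonoidHom (ι := Fin 2)) (toM (Equiv.refl _) t w) a := by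
  refine ⟨⟨toM (Equiv.refl _) t w a, ?_⟩, rfl⟩
  have h2 := congrArg t h
  rw [(hc.mul _ (dg_lt ..) _ (dg_lt ..)).2, (hc.add _ (Nat.one_lt_two_pow hw.ne') _ (hc.mul _ (dg_lt ..) _ (dg_lt ..)).1).2,
    (hc.mul _ (dg_lt ..) _ (dg_lt ..)).2, h1] at h2
  rw [det_fin_two]
  exact sub_eq_of_eq_add h2

/-- sum modulo `p` -/
def faP (p a b : ℕ) : ℕ := Nat.mod (Nat.add a b) p

/-- product modulo `p` -/
def fmP (p a b : ℕ) : ℕ := Nat.mod (Nat.mul a b) p

theorem codP (p : ℕ) [CharP K p] (hp : 0 < p) (hw : p ≤ 2 ^ w) : Cod (Nat.cast : ℕ → K) w (faP p) (fmP p) where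
  zero := Nat.cast_zero
  add a _ b _ := ⟨(Nat.mod_lt _ hp).trans_le hw, ((CharP.cast_eq_mod K p (a + b)).symm.trans (Nat.cast_add ..))⟩
  mul a _ b _ := ⟨(Nat.mod_lt _ hp).trans_le hw, ((CharP.cast_eq_mod K p (a * b)).symm.trans (Nat.cast_mul ..))⟩

/-- the first non-zero digit -/
def low (w c : ℕ) : ℕ := dg w c (Nat.div (Nat.log2 (Nat.xor c (Nat.pred c))) w)

theorem mk_center {S : Type*} [Group S] (s : S) (h : QuotientGroup.mk' (Subgroup.center S) s = 1) :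
    s ∈ Subgroup.center S := (QuotientGroup.eq_one_iff s).1 h

theorem sl_hz (h0 : t 0 = 0) {zc : ℕ → ℕ} (h : ∀ i, ∃ c, scM w n (zc i) c = true ∧ t c ^ n = 1) (i : ℕ) :
    ∃ s : SpecialLinearGroup ι K, SpecialLinearGroup.coeMonoidHom s = toM e t w (zc i) ∧
      QuotientGroup.mk' (Subgroup.center _) s = 1 := by
  obtain ⟨c, h1, h2⟩ := h i
  rw [toM_sc e h0 h1]
  exact ⟨⟨t c • 1, by simp [Fintype.card_congr e, h2]⟩, rfl, (QuotientGroup.eq_one_iff _).2
    (Subgroup.mem_center_iff.2 fun g => Subtype.ext ((Matrix.mul_smul ..).trans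
      ((congrArg _ ((mul_one _).trans (one_mul _).symm)).trans (Matrix.smul_mul ..).symm)))⟩

end model

/-! ### `J₂` -/

/-- words in `J₂` -/
noncomputable def j2w : ℕ → List ℕ :=
  H4.BP.gt [[3, 1], [1, 4, 3, 2, 3, 4, 1, 2, 3, 4, 3, 2], [4, 3, 2, 3, 4], [4, 3, 2, 3, 4, 1]] []

theorem j2_chk : (∀ p ∈ [([0, 0, 0, 0, 0], []), ([1, 1, 1, 1, 1], []), ([0, 1], [1, 0]), ([2, 0], [1, 1, 1, 1, 2]),
    ([2, 1], [0, 0, 0, 0, 2]), ([3, 0], [1, 3]), ([3, 1], [0, 0, 0, 0, 1, 1, 1, 1, 3])],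
      H7.Ord.evw (p.1.flatMap j2w) = H7.Ord.evw (p.2.flatMap j2w)) ∧ H7.Ord.evw (j2w 0) < 2 ^ 72 ∧ H7.J2.X 0 < 2 ^ 72 ∧
      H7.Ord.evw (j2w 0) ≠ H7.J2.X 0 ∧ ∀ j < 4, ∀ i ∈ j2w j, H7.J2.k1.testBit i := by decide +kernel

open H7 J2 Cert in
theorem no_J2 (ψ : Spor.J2 →* Γ) : ¬Function.Injective ψ := fun hψ => by
  classical
  have := Fintype.ofFinite KK
  have h1 := om_prim (p := 3) (by norm_num)
  generalize om 3 = ω at h1
  have h3 : (2 : KK) = 0 := CharTwo.two_eq_zero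
  have hω : ω * ω = ω + 1 := by
    have := h1.geom_sum_eq_zero (by norm_num)
    simp only [Finset.sum_range_succ, Finset.sum_range_zero] at this
    grind
  obtain ⟨e⟩ := H_iso hω
  have h5 : ∀ w, f ω (H7.Ord.evw w) = (w.map fun j => f ω (J2.X j)).prod := fun w => by
    induction w with
    | nil => exact f0
    | cons j w ih => rw [List.map_cons, List.prod_cons, ← ih, ← hmu hω]; rfl
  have h6 : ∀ w : List ℕ, (∀ i ∈ w, k1.testBit i) → In (HH ω) (f ω (H7.Ord.evw w)) := fun w hw => by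
    induction w with
    | nil => exact ⟨1, one_mem _, f0.symm⟩
    | cons j w ih =>
      rw [show H7.Ord.evw (j :: w) = J2.mu (J2.X j) (H7.Ord.evw w) from rfl, hmu hω]
      exact (in_1 hω j (hw j (by simp))).mul (ih fun i hi => hw i (by simp [hi]))
  obtain ⟨r, h7, h8, h9, h10⟩ := j2_chk
  obtain ⟨a, ha, ea⟩ := h6 _ (h10 0 (by omega))
  obtain ⟨b, hb, eb⟩ := h6 _ (h10 1 (by omega))
  obtain ⟨s, hs, es⟩ := h6 _ (h10 2 (by omega))
  obtain ⟨t, ht, et⟩ := h6 _ (h10 3 (by omega))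
  replace r := fun p hp => congrArg (f ω) (r p hp)
  have h11 : ∀ v w, f ω (H7.Ord.evw (v ++ w)) = f ω (H7.Ord.evw v) * f ω (H7.Ord.evw w) := fun v w => by simp [h5]
  have h12 : f ω (H7.Ord.evw []) = 1 := f0
  simp only [List.forall_mem_cons, List.flatMap_cons, List.flatMap_nil, h11, h12, mul_one, ← ea, ← eb, ← es, ← et] at r
  obtain ⟨r1, r2, r3, r4, r5, r6, r7, -⟩ := r
  have := no_S3' ((Units.coeHom _).comp (HH ω).subtype) (fun _ _ h => Subtype.ext (Units.ext h))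
    (ψ.comp e.toMonoidHom) (a := ⟨a, ha⟩) (b := ⟨b, hb⟩) (s := ⟨s, hs⟩) (t := ⟨t, ht⟩)
    (by simpa [pow_succ, mul_assoc] using r1) (by simpa [pow_succ, mul_assoc] using r2) r3
    (by simpa [pow_succ, mul_assoc] using r4) (by simpa [pow_succ, mul_assoc] using r5) r6
    (by simpa [pow_succ, mul_assoc] using r7)
  have h13 : a = 1 := congrArg Subtype.val ((map_eq_one_iff (ψ.comp e.toMonoidHom) (hψ.comp e.injective)).1 this)
  exact h9 (toP_inj hω e6 e6 h7 h8 (ea.symm.trans ((congrArg Units.val h13).trans f0.symm)))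

/-! ### `L₂(19)` -/

theorem l19 {x y z c : Γ} (h : x * y * z = 1) (hx : x ^ 2 = 1) (hy : y ^ 5 = 1) (hy' : y ≠ 1) (hz : z ^ 5 = 1)
    (hz' : z ≠ 1) (hc : c ^ 19 = 1) (hc' : c ≠ 1) (hT : fx (ρV x) ⊓ fx (ρV y) ≤ fx (ρV c)) : False := by
  have h1 := scott h
  have h2 := two hx
  have h3 := f19 hc hc'
  have h4 : _ ≤ fd _ := dm_mono hT
  rw [five hy hy', five hz hz'] at h1
  have h5 := eq_of_dm hT (by change fd _ ≤ _; omega)
  have h6 : im x ⊓ fx (ρV c) = ⊥ := eq_bot_iff.2 fun m hm => nd hc (by decide) hm.2 fun t ht =>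
    β_im (h5.ge ht).1 hm.1
  have h7 := dm_sup (im x) (fx (ρV c))
  have h8 : _ ≤ fd _ := dm_mono (sup_le (im_le hx) (h5.ge.trans inf_le_left))
  have h9 := dm_im x
  rw [h6, dm_eq_zero.2 rfl, ← h5] at h7
  rw [← h5] at h8
  omega

theorem no_L19 {K : Type*} [Field K] [Fintype K] (h : Fintype.card K = 19)
    (ψ : ProjectiveSpecialLinearGroup (Fin 2) K →* Γ) : ¬Function.Injective ψ := fun hψ => by
  have : Fact (Nat.Prime 19) := ⟨by norm_num⟩
  have : CharP K 19 := charP_of_card_eq_prime h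
  have hc := codP (K := K) (w := 5) 19 (by norm_num) (by norm_num)
  obtain ⟨W, N⟩ := model (Equiv.refl (Fin 2)) hc Nat.cast_one (j := SpecialLinearGroup.coeMonoidHom)
    Subtype.val_injective mk_center (e1 := 32769) (by decide +kernel) (zc := H4.BP.gt [32769, 589842] 32769)
    (sl_hz _ hc.zero (gt_all (P := fun a => ∃ c, scM 5 2 a c = true ∧ (c : K) ^ 2 = 1) (by
      simp only [List.forall_mem_cons]
      exact ⟨⟨1, by decide +kernel, by simp⟩, ⟨18, by decide +kernel, by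
        linear_combination 17 * CharP.cast_eq_zero K 19⟩, by simp⟩) ⟨1, by decide +kernel, by simp⟩))
    (fun c => (Nat.blt 9 (low 5 c)).toNat) (X := H4.BP.gt [2336, 38147, 399651] 32769)
    (gt_all (fun a ha => sl2_val hc Nat.cast_one (by norm_num) (by revert a; decide +kernel))
      (sl2_val hc Nat.cast_one (by norm_num) (by decide +kernel))) hψ
  generalize (ψ ∘ _ ∘ _) = g at W N
  have r := W.rels (l := [([0, 1, 2], []), (rp 2 [0], []), (rp 5 [1], []), (rp 5 [2], []),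
    (rp 19 [1, 1, 1, 0, 1, 0], [])]) (by decide +kernel)
  simp only [List.forall_mem_cons, wp_rp, wp_nil] at r
  refine l19 (by simpa [mul_assoc] using r.1) r.2.1 r.2.2.1 (N _ [2, 1] (by decide +kernel)) r.2.2.2.1
    (N _ [1] (by decide +kernel)) r.2.2.2.2.1 (N _ [0] (by decide +kernel)) fun v hv => fix_wp ρV ?_
  have h1 := And.intro (mem_fx.1 hv.2) (mem_fx.1 hv.1)
  simp only [wp_cons, wp_nil, mul_one] at h1
  simp [h1]

end Cfsg.Agent.H6.Va
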