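import Cfsg.Agent.H6.Vh

/-!
`G₂(3)` and `Ω₇(3)` do not embed in `E₇(2)`.
-/

set_option autoImplicit false
set_option linter.unusedSectionVars false
set_option linter.unusedSimpArgs false
set_option maxRecDepth 100000

namespace Cfsg.Agent.H6.Va

open Matrix Module Cfsg.Agent.H6.E7 Cfsg.Agent.H7.Ord Finset Cfsg.Lie
open Cfsg.Agent.H7.Inq hiding F
open Cfsg.Agent.H4.T8 hiding mm dm fx
open scoped commutatorElement

section lab
variable {g : ℕ → Γ} {ev : List ℕ → ℕ} {p r : ℕ} {ws : List (List ℕ)} {labs : List ℕ} {M : ℕ → ℕ}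

theorem EA.pw_pow {ys : List Γ} (h : EA p ys) (a : List ℕ) : pw ys a ^ p = 1 := by
  induction ys generalizing a with
  | nil => simp [pw]
  | cons y ys ih =>
    cases a with
    | nil => simp [pw]
    | cons a as =>
      have hc := List.pairwise_cons.1 h.comm
      rw [pw, ((commute_pw hc.1 as).pow_left a).mul_pow, ih ⟨h.dvd, fun z hz => h.pow z (by simp [hz]), hc.2⟩,
        ← pow_mul, mul_comm a, pow_mul, h.pow y (by simp), one_pow, one_mul]

theorem Lab.three (h : Lab 3 (ws.map (wp g)) r labs M) (a : List ℕ) (h1 : wp g (pwW ws a) ≠ 1) {cs : List ℕ}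
    (hc : cnt 3 ws.length r labs [a] [0] = cs) : ∃ n, n = ∑ i ∈ range r, cs.getD i 0 * M i ∧
      (n = 2 ∨ n = 14 ∨ n = 20 ∨ n = 32) :=
  ⟨_, h.fd a hc, Va.three (by rw [wp_pwW]; exact h.ea.pw_pow a) h1⟩

theorem Lab.le (h : Lab p (ws.map (wp g)) r labs M) (W : WM g ev) (as : List (List ℕ)) (c : List ℕ × List (List ℕ))
    (μ : List ℕ) {cs cs' : List ℕ} (h1 : (eaChk ev p (as.map (pwW ws)) && mvChk ev (as.map (pwW ws)) c) = true)
    (h2 : μ.length = as.length ∧ cnt p ws.length r labs as μ = cs ∧ cnt p ws.length r labs as (tr p c.2 μ) = cs') :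
    ∑ i ∈ range r, cs.getD i 0 * M i ≤ ∑ i ∈ range r, cs'.getD i 0 * M i := by
  rw [Bool.and_eq_true] at h1
  rw [← h.eqW as _ h2.2.1, ← h.eqW as _ h2.2.2]
  simpa [Function.comp_def] using (W.mv (W.ea h.ea.dvd h1.1) h1.2 μ (by simpa using h2.1)).2

end lab

section chev
variable {K : Type*} [Field K] {w : ℕ} {t : ℕ → K} {fa fm : ℕ → ℕ → ℕ}

/-- a power of a code -/
noncomputable def pwC (mu : ℕ → ℕ → ℕ) (e a k : ℕ) : ℕ := evw mu e (fun _ => a) (List.replicate k 0)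

theorem pwC_spec {M : Type*} [Monoid M] {T : ℕ → M} {mu : ℕ → ℕ → ℕ} (h : ∀ a b, T (mu a b) = T a * T b) {e : ℕ}
    (he : T e = 1) (a k : ℕ) : T (pwC mu e a k) = T a ^ k := by
  induction k with
  | zero => exact he.trans (pow_zero _).symm
  | succ k ih => rw [pow_succ', ← ih, ← h]; rfl

/-- the code of an entry of a root element -/
def tvC (p : ℕ) (fa fm : ℕ → ℕ → ℕ) (c : ℕ) (l : List (ℕ × ℕ × ℤ)) (i : ℕ) : ℕ :=
  l.foldr (fun x acc => if x.1 = i then fa (fm (Int.toNat (x.2.2 % (p : ℤ))) ((fm c)^[x.2.1] 1)) acc else acc) 0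

theorem tvC_spec {p : ℕ} [CharP K p] (hc : Cod t w fa fm) (hp : ∀ a < p, a < 2 ^ w ∧ t a = a) (h1 : 1 < p) {c : ℕ}
    (h2 : c < 2 ^ w) (l : List (ℕ × ℕ × ℤ)) (i : ℕ) :
    tvC p fa fm c l i < 2 ^ w ∧ t (tvC p fa fm c l i) = H7.Bit.tval (t c) l i := by
  have h3 : ∀ k, (fm c)^[k] 1 < 2 ^ w ∧ t ((fm c)^[k] 1) = t c ^ k := fun k => by
    induction k with
    | zero => simpa using hp 1 h1
    | succ k ih => rw [Function.iterate_succ_apply', pow_succ', ← ih.2]; exact hc.mul _ h2 _ ih.1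
  induction l with
  | nil => exact ⟨by simp [tvC], by simp [tvC, H7.Bit.tval, hc.zero]⟩
  | cons x l ih =>
    rw [tvC, List.foldr_cons, ← tvC, H7.Bit.tval, List.map_cons, List.sum_cons, ← H7.Bit.tval]
    split_ifs
    · have h4 : 0 ≤ x.2.2 % p := Int.emod_nonneg _ (by omega)
      have h5 := hp (x.2.2 % p).toNat (by have := Int.emod_lt_of_pos x.2.2 (b := p) (by omega); omega)
      have h6 := hc.mul _ h5.1 _ (h3 x.2.1).1
      have h7 := hc.add _ h6.1 _ ih.1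
      refine ⟨h7.1, ?_⟩
      rw [h7.2, h6.2, h5.2, (h3 _).2, ih.2, CharP.intCast_eq_intCast_mod K p, ← Int.cast_natCast,
        Int.toNat_of_nonneg h4]
    · simpa using ih

/-- check of a root element of `G₂` -/
noncomputable def g2Chk (p w : ℕ) (fa fm : ℕ → ℕ → ℕ) (e : ℕ) (z : ℕ × ℕ × ℕ) : Bool :=
  Nat.blt z.2.1 12 && Nat.blt z.2.2 (2 ^ w) && Nat.beq (pwC (H4.T8.mm w 14 fa fm) e z.1 p) e &&
    (List.range 14).all fun i => (List.range 14).all fun j =>
      Nat.beq (dg w z.1 (14 * i + j)) (tvC p fa fm z.2.2 (H7.Bit.terms chevG2 z.2.1 j) i)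

/-- the embedding -/
abbrev jG (K : Type*) [Field K] : chevG2.group K →* Matrix chevG2.Idx chevG2.Idx K :=
  (Units.coeHom _).comp (Subgroup.subtype _)

/-- the coordinates -/
def e14 : chevG2.Idx ≃ Fin 14 := H7.Bit.enc chevG2

theorem g2_val {p : ℕ} [CharP K p] (hc : Cod t w fa fm) (hp : ∀ a < p, a < 2 ^ w ∧ t a = a) (h1 : 1 < p) {e : ℕ}
    (h3 : toM e14 t w e = 1) {l : List (ℕ × ℕ × ℕ)} (hl : l.all (g2Chk p w fa fm e) = true) :
    ∀ i, PV (jG K) (toM e14 t w) (H4.BP.gt (l.map (·.1)) e i) := by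
  refine gt_all (List.forall_mem_map.2 fun z hz => ?_) ⟨1, h3.symm⟩
  have h := List.all_eq_true.1 hl z hz
  simp only [g2Chk, Bool.and_eq_true, Nat.blt_eq, Nat.beq_eq, List.all_eq_true, List.mem_range] at h
  have h4 := congrArg (toM e14 t w) h.1.2
  rw [pwC_spec (toM_mm e14 hc) h3, h3] at h4
  refine ⟨⟨Units.ofPowEqOne _ p h4 (by omega), Subgroup.subset_closure ⟨⟨z.2.1, h.1.1.1⟩, t z.2.2, ?_⟩⟩, rfl⟩
  ext i j
  rw [H7.Bit.xMat_terms, ← (tvC_spec hc hp h1 h.1.1.2 _ _).2]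
  exact congrArg t (h.2 _ (e14 i).2 _ (e14 j).2)

theorem pv_lev {S M : Type*} [Group S] [Monoid M] {j : S →* M} {T : ℕ → M} {mu : ℕ → ℕ → ℕ}
    (hm : ∀ a b, T (mu a b) = T a * T b) {e : ℕ} (he : T e = 1) {X : ℕ → ℕ} (hX : ∀ i, PV j T (X i))
    {l : List (List ℕ × ℕ)} (hl : (l.all fun z => Nat.beq (evw mu e X z.1) z.2) = true) :
    ∀ i, PV j T (H4.BP.gt (l.map (·.2)) e i) := by
  refine gt_all (List.forall_mem_map.2 fun z hz => ?_) ⟨1, j.map_one.trans he.symm⟩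
  rw [← Nat.eq_of_beq_eq_true (List.all_eq_true.1 hl z hz)]
  induction z.1 with
  | nil => exact ⟨1, j.map_one.trans he.symm⟩
  | cons i w ih =>
    obtain ⟨x, hx⟩ := hX i
    obtain ⟨y, hy⟩ := ih
    exact ⟨x * y, by rw [map_mul, hx, hy, ← hm]; rfl⟩

theorem g2_model (hc : Cod t w fa fm) (h2 : t 1 = 1) {e : ℕ} (he : scM w 14 e 1 = true) {X : ℕ → ℕ}
    (hX : ∀ i, PV (jG K) (toM e14 t w) (X i)) {ψ : chevG2.group K →* Γ} (hψ : Function.Injective ψ) : ∃ g : ℕ → Γ,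
    WM g (evw (pmu (H4.T8.mm w 14 fa fm) (fun _ => e) fun _ => 0) e X) ∧
      NE g fun v u => neM w 14 fa fm (H4.T8.mm w 14 fa fm) (evw (pmu (H4.T8.mm w 14 fa fm) (fun _ => e) fun _ => 0) e X v)
        (evw (pmu (H4.T8.mm w 14 fa fm) (fun _ => e) fun _ => 0) e X u) :=
  ⟨_, model e14 hc h2 (j := jG K) (fun _ _ h => Subtype.ext (Units.ext h)) (π := .id _)
    (fun s (h : s = 1) => h ▸ one_mem _) he (fun _ => ⟨1, by rw [toM_sc _ hc.zero he, h2, one_smul, map_one], rfl⟩) _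
    hX hψ⟩

end chev

/-- the labels -/
def g23T : List (ℕ × List ℕ × List ℕ) := [(0, [], []), (1, [], []), (1, [0], [0]), (2, [], []), (1, [2], [2, 2]), (1, [2, 2, 0], [2, 0]), (2, [0],
  [0]), (1, [2, 2], [2]), (1, [2, 0], [2, 2, 0]), (3, [], []), (4, [], []), (4, [4], [4]), (5, [], []), (4,
  [2], [2, 2]), (4, [3, 2, 0], [4, 2]), (5, [4], [4]), (4, [2, 2], [2]), (4, [4, 2], [2, 3, 0]), (3, [0],
  [0]), (4, [3], [3]), (4, [0], [0]), (5, [4, 0], [4, 0]), (4, [2, 3], [2, 3]), (4, [2, 2, 0], [2, 0]), (5,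
  [0], [0]), (4, [3, 2], [3, 2]), (4, [2, 0], [2, 2, 0]), (6, [], []), (7, [], []), (7, [3, 0], [3, 0]), (8,
  [], []), (7, [2], [2, 2]), (7, [3, 2, 0], [3, 2, 0]), (9, [], []), (7, [2, 2], [2]), (7, [2, 3, 0], [2, 3,
  0]), (3, [1], [1, 1]), (4, [1], [1, 1]), (4, [1, 4], [1, 4]), (5, [1], [1, 1]), (4, [2, 1], [2, 2, 1, 1]),
  (4, [3, 2, 1, 0], [1, 4, 2]), (5, [1, 4], [1, 4]), (4, [2, 2, 1], [2, 1, 1]), (4, [1, 4, 2], [1, 4, 2, 2]),
  (3, [1, 1, 0], [1, 0]), (4, [4, 1, 0], [3, 1]), (4, [1, 1, 0], [1, 0]), (5, [4, 1, 0], [4, 1, 0]), (4, [4,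
  2, 1, 0], [2, 3, 1]), (4, [4, 3, 2, 1], [2, 1, 0]), (5, [1, 1, 0], [1, 0]), (4, [3, 2, 1, 1], [3, 2, 1]),
  (4, [2, 1, 1, 0], [2, 2, 1, 0]), (6, [0], [0]), (7, [3], [3]), (7, [0], [0]), (9, [0], [0]), (7, [2, 3], [2,
  3]), (7, [2, 2, 0], [2, 0]), (8, [0], [0]), (7, [3, 2], [3, 2]), (7, [2, 0], [2, 2, 0]), (3, [1, 1], [1]),
  (4, [1, 1], [1]), (4, [4, 1], [4, 1]), (5, [1, 1], [1]), (4, [2, 1, 1], [2, 2, 1]), (4, [4, 2, 2, 1], [4, 2,
  1]), (5, [4, 1], [4, 1]), (4, [2, 2, 1, 1], [2, 1]), (4, [4, 2, 1], [2, 3, 1, 0]), (3, [1, 0], [1, 1, 0]),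
  (4, [3, 1], [1, 4, 0]), (4, [1, 0], [1, 1, 0]), (5, [1, 4, 0], [1, 4, 0]), (4, [2, 3, 1], [2, 3, 1, 1]), (4,
  [2, 2, 1, 0], [2, 1, 1, 0]), (5, [1, 0], [1, 1, 0]), (4, [3, 2, 1], [1, 4, 2, 0]), (4, [2, 1, 0], [1, 4, 2,
  3])]

/-- the relations -/
def g23Chk (ev : List ℕ → ℕ) : Bool := labW ev 3 [[0], [1], [2], [3]]
  [([4], [[1, 1, 0, 0], [0, 1, 0, 0], [0, 0, 1, 0], [0, 0, 0, 1]]), ([5], [[1, 0, 0, 0], [0, 1, 0, 0], [0, 0, 1,
  1], [0, 0, 0, 1]]), ([4, 6, 6, 4, 4, 6, 6, 4], [[2, 0, 0, 0], [0, 2, 0, 0], [0, 0, 2, 0], [0, 0, 0, 1]]),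
  ([5, 7, 7, 5, 5, 7, 7, 5], [[2, 0, 0, 0], [0, 1, 0, 0], [0, 0, 2, 0], [0, 0, 0, 2]])]
  [[0, 0, 0, 0], [0, 0, 0, 1], [0, 0, 1, 0], [0, 1, 0, 0], [0, 1, 0, 1], [0, 1, 1, 0], [1, 0, 0, 0], [1, 0, 0,
  1], [1, 0, 1, 0], [1, 0, 2, 0]] g23T &&
  (eaChk ev 3 ([[1, 0, 0, 0], [0, 1, 0, 0], [0, 0, 0, 1]].map (pwW [[0], [1], [2], [3]])) &&
    mvChk ev ([[1, 0, 0, 0], [0, 1, 0, 0], [0, 0, 0, 1]].map (pwW [[0], [1], [2], [3]]))
      ([4, 6, 6, 4], [[0, 1, 0], [2, 0, 0], [0, 0, 1]])) &&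
  (eaChk ev 3 ([[0, 1, 0, 0], [0, 0, 1, 0], [0, 0, 0, 1]].map (pwW [[0], [1], [2], [3]])) &&
    mvChk ev ([[0, 1, 0, 0], [0, 0, 1, 0], [0, 0, 0, 1]].map (pwW [[0], [1], [2], [3]]))
      ([5, 7, 7, 5], [[1, 0, 0], [0, 0, 1], [0, 2, 0]]))

theorem g23 {g : ℕ → Γ} {ev : List ℕ → ℕ} (W : WM g ev) (h : g23Chk ev = true) (h1 : wp g [1] ≠ 1) (h2 : wp g [3] ≠ 1)
    (h3 : wp g [1, 3] ≠ 1) : False := by
  rw [g23Chk, Bool.and_eq_true, Bool.and_eq_true] at h
  obtain ⟨M, L⟩ := W.lab (by norm_num) h.1.1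
  have e0 := L.tot (cs := [1, 6, 2, 6, 36, 12, 2, 12, 2, 2]) (by decide +kernel)
  have e1 := L.le W _ _ [0, 1, 1] (cs := [0, 0, 0, 0, 3, 0, 0, 0, 0, 0]) (cs' := [0, 0, 0, 0, 0, 0, 0, 3, 0, 0]) h.1.2
    (by decide +kernel)
  have e2 := L.le W _ _ [1, 0, 1] (cs := [0, 0, 0, 0, 3, 0, 0, 0, 0, 0]) (cs' := [0, 0, 0, 0, 0, 3, 0, 0, 0, 0]) h.2
    (by decide +kernel)
  obtain ⟨_, e3, e4⟩ := L.three [0, 1, 0, 0] h1 (cs := [1, 6, 2, 0, 0, 0, 2, 12, 2, 2]) (by decide +kernel)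
  obtain ⟨_, e5, e6⟩ := L.three [0, 0, 0, 1] h2 (cs := [1, 0, 2, 6, 0, 12, 2, 0, 2, 2]) (by decide +kernel)
  obtain ⟨_, e7, e8⟩ := L.three [0, 1, 0, 1] h3 (cs := [1, 0, 2, 0, 18, 0, 2, 0, 2, 2]) (by decide +kernel)
  simp only [List.length_cons, List.length_nil, sum_range_succ, sum_range_zero, List.getD_cons_succ,
    List.getD_cons_zero] at e0 e1 e2 e3 e5 e7
  omega

theorem no_G23 (ψ : chevG2.group (ZMod 3) →* Γ) : ¬Function.Injective ψ := fun hψ => by
  have hc := codP (K := ZMod 3) (w := 2) 3 (by norm_num) (by norm_num)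
  have he : scM 2 14
      0x40000001000000040000001000000040000001000000040000001000000040000001000000040000001000000040000001 1 = true := by
    decide +kernel
  obtain ⟨g, W, N⟩ := g2_model hc Nat.cast_one he (g2_val hc (p := 3) (fun a h => ⟨by omega, rfl⟩) (by norm_num)
    (by rw [toM_sc _ hc.zero he, Nat.cast_one, one_smul]) (l := [(0x40080001000000048800001008090048000001001000040000001110000040000001200000040000001000000040000401, 8, 1),
      (0x40000801000010040020201020400040420001000000040000001040000041000001000000040000001000000040000201,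
      9, 1),
      (0x40200001000084040200001000000040100001000000040100001000000040000001000000040000001000000440000041,
      10, 1),
      (0x40000281008000040080001001000040000001004000040000001000000040000001000000040000001000000240000011,
      11, 1),
      (0x40000001010000051000001200000042005001000000040800001000000068000001800000040000001000000040001001,
      7, 1),
      (0x50000001000000040000001400000040000001800400040000001800000040000001000000060000001000040040000001,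
      6, 1),
      (0x4000000100000014000002500000004000010100000004000008100a000440000049000008040000001000000040080001,
      4, 1),
      (0x40000005000000040000001000000140000001000000240080001000000240000001000000040000009000200040000001,
      5, 1)])
    (by decide +kernel)) hψ
  exact g23 W (by decide +kernel) (N _ [6] (by decide +kernel)) (N _ [7] (by decide +kernel))
    (N _ [6] (by decide +kernel))

/-- the coordinates -/
def e7 : Unit ⊕ (Fin 3 ⊕ Fin 3) ≃ Fin 7 where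
  toFun := Sum.elim (fun _ => 0) (Sum.elim ![1, 2, 3] ![4, 5, 6])
  invFun := ![.inl (), .inr (.inl 0), .inr (.inl 1), .inr (.inl 2), .inr (.inr 0), .inr (.inr 1), .inr (.inr 2)]
  left_inv := by decide
  right_inv := by decide

/-- matrix product -/
noncomputable def m7 : ℕ → ℕ → ℕ := H4.T8.mm 2 7 (faP 3) (fmP 3)

theorem iso7 {a k : ℕ} (h : (Nat.beq (pwC m7 0x1000100010001000100010001 a (k + 1)) 0x1000100010001000100010001 &&
    Nat.beq (m7 (ct 2 7 id a) (m7 0x40004000440004000400002 a)) 0x40004000440004000400002) = true) :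
    ∃ x : isometryGroup (ZMod 3) (quadFormOdd 3 (ZMod 3)), x.1.1 = toM e7 Nat.cast 2 a := by
  have hc := codP (K := ZMod 3) (w := 2) 3 (by norm_num) (by norm_num)
  simp only [Bool.and_eq_true, Nat.beq_eq] at h
  have h3 : toM e7 (Nat.cast : ℕ → ZMod 3) 2 0x1000100010001000100010001 = 1 := by
    rw [toM_sc _ hc.zero (c := 1) (by decide +kernel), Nat.cast_one, one_smul]
  have h4 := congrArg (toM e7 (Nat.cast : ℕ → ZMod 3) 2) h.1
  have h5 := congrArg (toM e7 (Nat.cast : ℕ → ZMod 3) 2) h.2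
  rw [m7, pwC_spec (toM_mm e7 hc) h3, h3] at h4
  rw [m7, toM_mm e7 hc, toM_mm e7 hc, toM_ct e7 (t := (Nat.cast : ℕ → ZMod 3)) (σ := id) (cj := id) fun a h => ⟨h, rfl⟩, Matrix.map_id] at h5
  have h6 : ∀ u, quadFormOdd 3 (ZMod 3) u = -(u ⬝ᵥ toM e7 Nat.cast 2 0x40004000440004000400002 *ᵥ u) := fun u => by
    rw [show toM e7 (Nat.cast : ℕ → ZMod 3) 2 0x40004000440004000400002 =
      fromBlocks 2 0 0 (fromBlocks 0 1 1 0) by decide +kernel]
    simp [quadFormOdd, dotProduct, mulVec, Fin.sum_univ_three, one_apply, ofNat_apply]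
    grind
  refine ⟨⟨Units.ofPowEqOne _ _ h4 (by omega), fun u _ => ?_⟩, rfl⟩
  change quadFormOdd 3 (ZMod 3) (toM e7 Nat.cast 2 a *ᵥ u) = quadFormOdd 3 (ZMod 3) u
  rw [h6, h6, mulVec_mulVec, ← vecMul_transpose _ u, ← dotProduct_mulVec, mulVec_mulVec, h5]

theorem no_O7 (ψ : Omega (ZMod 3) (quadFormOdd 3 (ZMod 3)) →* Γ) : ¬Function.Injective ψ := fun hψ => by
  have hc := codP (K := ZMod 3) (w := 2) 3 (by norm_num) (by norm_num)
  have h3 : toM e7 (Nat.cast : ℕ → ZMod 3) 2 0x1000100010001000100010001 = 1 := by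
    rw [toM_sc _ hc.zero (c := 1) (by decide +kernel), Nat.cast_one, one_smul]
  let l : List (ℕ × ℕ) := [(0x1008100014001008110010401, 0x2000200010002000200010001), (0x1082100010001002101010081,
    0x2000200010002000200010001), (0x1200100010001000100110001, 0x2000100010002000100010001),
    (0x1800100010001000500010001, 0x2000100010002000100010001), (0x1010120010001000100814101,
    0x2000100020002000100020001), (0x1000100090001000140010001, 0x1000200010001000200010001),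
    (0x1000100010a21010100010009, 0x2000100020002000100020001), (0x1000180010001000100050001,
    0x1000200010001000200010001)]
  obtain ⟨W, N⟩ := model e7 hc Nat.cast_one
    (j := ((Units.coeHom _).comp (Subgroup.subtype _)).comp (Omega (ZMod 3) (quadFormOdd 3 (ZMod 3))).subtype)
    (fun _ _ h => Subtype.ext (Subtype.ext (Units.ext h))) (π := .id _) (fun s (h : s = 1) => h ▸ one_mem _)
    (e1 := 0x1000100010001000100010001) (by decide +kernel) (zc := fun _ => 0x1000100010001000100010001)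
    (fun _ => ⟨1, h3.symm, rfl⟩) (fun _ => 0) (X := H4.BP.gt (l.map (·.1)) 0x1000100010001000100010001)
    (gt_all (List.forall_mem_map.2 fun z hz => by
      have h4 := congrArg (toM e7 (Nat.cast : ℕ → ZMod 3) 2)
        (show m7 z.2 (m7 z.1 z.1) = m7 z.1 z.2 by revert z; decide +kernel)
      obtain ⟨⟨x, hx⟩, y, hy⟩ := And.intro (iso7 (a := z.1) (k := 2) (by clear h4; revert z; decide +kernel))
        (iso7 (a := z.2) (k := 1) (by clear h4; revert z; decide +kernel))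
      rw [m7, toM_mm e7 hc, toM_mm e7 hc, toM_mm e7 hc, ← hx, ← hy] at h4
      have h5 : y * (x * x) = x * y := Subtype.ext (Units.ext h4)
      refine ⟨⟨x, ?_⟩, hx⟩
      rw [show x = ⁅y⁻¹, x⁆ by rw [commutatorElement_def, inv_inv, mul_assoc y⁻¹, ← h5]; group]
      exact Subgroup.commutator_mem_commutator trivial trivial) ⟨1, h3.symm⟩) hψ
  exact g23 W (by decide +kernel) (N _ [6] (by decide +kernel)) (N _ [7] (by decide +kernel))
    (N _ [6] (by decide +kernel))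

end Cfsg.Agent.H6.Va
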