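import Cfsg.Agent.H6.Vi
import Cfsg.Agent.H4.T8U

/-!
`U₄(3)` does not embed in `E₇(2)`.
-/

set_option autoImplicit false
set_option linter.unusedSectionVars false
set_option linter.unusedSimpArgs false
set_option maxRecDepth 100000

namespace Cfsg.Agent.H6.Va

open Matrix Module Cfsg.Agent.H7.Ord Finset
open Cfsg.Agent.H7.Inq hiding F
open Cfsg.Agent.H4.T8 hiding mm dm fx

theorem eng {Λ ι K : Type*} [Group Λ] [Fintype ι] [DecidableEq ι] [Field K] [CharP K 2] (ρ : Λ →* Matrix ι ι K)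
    {g : ℕ → Λ} {ev : List ℕ → ℕ} (h : WM g ev) {cs : List ℕ} {W : List (List ℕ)} {tb : List (List (ℕ × List ℕ))}
    (hc : ctW ev cs ([] :: W) tb = true) {s : ℕ} {A : List (List ℕ)} {l : List ℕ}
    (h1 : idW (W.length + 1) (tb.map (List.map (·.1))) [[s]] l l = true)
    (h2 : idW (W.length + 1) (tb.map (List.map (·.1))) A l [0] = true) {U : Submodule K (ι → K)}
    (hU : ∀ v ∈ U, ∀ j ∈ cs, ρ (g j) *ᵥ v = v) : dm U ≤ dm (Ei (ρ (g s)) 1) := by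
  have h3 : ∀ v, toLin' (l.map fun i => ρ (wp g (([] :: W).getD i []))).sum v =
      (l.map fun i => ρ (wp g (([] :: W).getD i [])) *ᵥ v).sum := fun v => by
    clear h1 h2
    induction l with
    | nil => simp
    | cons a l ih => rw [List.map_cons, List.sum_cons, map_add, LinearMap.add_apply, ih]; rfl
  refine LinearMap.finrank_le_finrank_of_injective (f := (toLin' (l.map fun i =>
    ρ (wp g (([] :: W).getD i []))).sum).restrict (p := U) (q := Ei (ρ (g s)) 1) fun v hv => ?_)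
    ((injective_iff_map_eq_zero _).2 fun v hv => Subtype.ext ?_)
  · rw [h3, mem_Ei, one_smul]
    simpa using idW_spec ρ h hc (hU v hv) h1
  · have h4 := idW_spec ρ h hc (hU v v.2) h2
    rw [← h3, show toLin' _ v.1 = 0 from congrArg Subtype.val hv] at h4
    simpa using h4.symm

/-- the labels -/
def u43T : List (ℕ × List ℕ × List ℕ) := [(0, [], []), (1, [], []), (1, [0], [0]), (1, [3, 3, 1, 0], [3, 1, 1, 3, 3]), (2, [], []), (2, [1, 1, 3],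
  [3]), (1, [3, 3, 1], [3, 1, 3, 3, 2]), (2, [1, 1, 3, 0], [3, 0]), (2, [0], [0]), (3, [], []), (1, [1], [1,
  1]), (1, [3], [1, 0]), (1, [3, 3, 3, 1, 0], [3, 1, 1, 3]), (2, [1], [2]), (2, [1, 3], [3, 1]), (1, [2, 3, 3,
  1], [3, 1, 3, 3]), (2, [3, 0], [3, 1, 1, 0]), (2, [2, 0], [1, 0]), (3, [0], [0]), (1, [3, 0], [1]), (1, [1,
  0], [1, 1, 0]), (1, [2, 3, 3, 1, 0], [3, 1, 3, 3, 0]), (2, [2], [1]), (2, [3], [3, 1, 1]), (1, [3, 3, 3, 1],
  [1, 1, 3, 3]), (2, [1, 3, 0], [3, 1, 0]), (2, [1, 0], [2, 0]), (3, [2, 1, 3], [3]), (1, [2, 1, 3, 3], [3, 1,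
  1]), (1, [2, 3, 3], [3]), (1, [2, 2, 3, 1], [3, 3, 1]), (2, [3, 3, 3], [3, 3]), (2, [3, 2, 0], [2, 3]), (1,
  [3, 1], [3, 2, 1]), (2, [3, 3, 1], [1, 3, 0]), (2, [2, 3, 2, 0], [1, 3, 1, 0]), (2, [3, 1], [1, 3, 3, 0]),
  (3, [2, 3], [3, 1]), (3, [3, 3, 0], [3, 1, 1]), (3, [2, 2, 1, 3], [3, 2, 2]), (1, [1, 3, 3, 3], [3, 1, 3]),
  (1, [3, 3, 3], [3, 3]), (3, [1, 3], [3, 2]), (1, [1, 3, 3], [3, 2, 1, 1]), (1, [3, 3], [3, 2]), (1, [2, 3,
  1], [3, 1]), (2, [1, 1, 3, 1], [3, 3, 2]), (2, [1, 3, 1], [2, 3, 2]), (2, [3, 3, 0], [2, 3, 1]), (3, [3, 1,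
  3], [3, 2, 2, 1]), (3, [2, 3, 3, 0], [3, 3, 2, 0]), (2, [2, 3, 3, 0], [1, 3, 1, 1, 0]), (3, [3], [3, 2, 1]),
  (3, [1, 1, 3], [3, 3, 0]), (3, [2, 1, 3, 0], [3, 0]), (1, [2, 3, 3, 0], [3, 0]), (1, [2, 1, 3, 3, 0], [1, 1,
  3]), (1, [3, 1, 0], [3, 2, 1, 0]), (2, [2, 3, 2], [1, 3, 1]), (2, [3, 3, 1, 0], [1, 3]), (1, [2, 2, 3, 1,
  0], [3, 3, 1, 0]), (2, [3, 2], [2, 3, 0]), (2, [1, 3, 2], [3, 3, 0]), (1, [2, 3, 1, 0], [3, 1, 0]), (2, [1,
  3, 1, 0], [2, 3, 2, 0]), (2, [1, 1, 3, 1, 0], [3, 3, 2, 0]), (2, [2, 3, 3], [1, 3, 1, 1]), (3, [3, 3, 3],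
  [3, 3]), (3, [3, 0], [3, 2, 1, 0]), (2, [3, 3], [3, 3, 3]), (3, [2, 3, 3], [3, 3, 2]), (3, [3, 1, 3, 0], [3,
  2, 2, 1, 0]), (2, [3, 1, 0], [1, 3, 3]), (3, [3, 3], [3, 3, 3]), (3, [2, 3, 0], [3, 1, 0]), (3, [1, 3, 0],
  [3, 2, 0]), (1, [3, 3, 0], [3, 2, 0]), (1, [1, 3, 3, 0], [1, 1, 3, 2]), (3, [2, 2, 1, 3, 0], [3, 2, 2, 0]),
  (1, [3, 3, 3, 0], [3, 3, 0]), (1, [1, 3, 3, 3, 0], [3, 1, 3, 0])]

/-- the coset table -/
def u43tb : List (List (ℕ × List ℕ)) := [[(0, [0]), (2, []), (5, []), (6, []), (9, []), (1, []), (12, []), (15, []), (14, []), (18, []), (19, []),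
  (21, []), (3, []), (23, []), (22, []), (27, []), (28, []), (29, []), (4, []), (31, []), (11, [1, 1]), (20,
  [1]), (8, []), (34, []), (17, [0, 0, 1, 1]), (25, [1, 1]), (37, []), (7, []), (38, []), (24, [0, 1]), (36,
  [0, 0]), (10, []), (32, [1]), (26, [0, 1]), (13, []), (30, [0, 0, 1, 1]), (35, [0, 0, 1]), (33, [0, 0, 1,
  1]), (16, []), (39, [0, 0])], [(0, [1]), (3, []), (6, []), (8, []), (10, []), (12, []), (14, []), (16, []),
  (1, []), (19, []), (11, [1]), (4, [1, 1]), (22, []), (24, []), (2, []), (28, []), (26, [1]), (30, []), (31,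
  []), (21, [1]), (18, [1]), (9, [1, 1]), (5, []), (17, [0, 0, 1, 1]), (35, []), (25, [0]), (7, [1, 1]), (38,
  []), (37, [1]), (36, [0, 0]), (23, [0, 1]), (20, [1, 1]), (32, [0, 0]), (27, [0]), (29, [0, 0, 1, 1]), (13,
  []), (34, [0, 0, 1]), (15, [1, 1]), (33, [0, 0]), (39, [1, 1])], [(1, []), (4, []), (7, []), (2, [0]), (11,
  []), (13, []), (0, [0, 0, 1, 1]), (10, [0, 0, 1, 1]), (17, []), (20, []), (15, []), (6, [0, 1]), (5, [0,
  0]), (25, []), (26, []), (3, [1]), (23, []), (14, [0, 1]), (32, []), (22, []), (29, [0]), (33, []), (31, [0,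
  0, 1]), (30, [0, 0]), (9, []), (36, []), (28, [0, 0, 1, 1]), (24, [0, 1, 1]), (8, []), (27, [0, 1]), (37,
  []), (34, []), (21, [0]), (38, [0, 0]), (35, [1, 1]), (19, [0]), (12, [0]), (39, []), (18, []), (16, [0])]]

/-- the generators -/
noncomputable def u43X : ℕ → ℕ := H4.BP.gt [1164745180642840833, 1191485056134195201, 10457438607967256853, 10808732564178599937, 1152922604128305237,
  1163337801464308225, 1190640614024172545, 9314676591909310992, 9313912776070092385, 10452895422435559493,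
  4686633283946562128] 1152922604119523329

/-- words -/
noncomputable def u43ev : List ℕ → ℕ := evw U4.mu 1152922604119523329 u43X

theorem u43_lab : labW u43ev 3 [[3], [4], [5], [6]]
  [([0], [[1, 0, 0, 0], [1, 1, 0, 1], [0, 0, 1, 0], [2, 0, 0, 1]]), ([1], [[1, 0, 0, 0], [1, 1, 2, 0], [1, 0, 1,
  0], [0, 0, 0, 1]]), ([2], [[0, 1, 0, 0], [1, 2, 1, 1], [0, 2, 1, 0], [0, 1, 0, 2]])]
  [[0, 0, 0, 0], [0, 0, 0, 1], [0, 0, 1, 1], [0, 1, 0, 0]] u43T = true := by decide +kernel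

theorem u43_ct : ctW u43ev [0, 1] [[], [2], [0, 2], [1, 2], [2, 2], [0, 0, 2], [1, 0, 2], [2, 0, 2], [1, 1, 2], [0, 2, 2], [1, 2, 2], [2, 2, 2],
  [1, 0, 0, 2], [2, 0, 0, 2], [1, 1, 0, 2], [0, 2, 0, 2], [1, 2, 0, 2], [2, 1, 1, 2], [0, 0, 2, 2], [1, 0, 2,
  2], [2, 0, 2, 2], [0, 2, 2, 2], [1, 1, 0, 0, 2], [0, 2, 0, 0, 2], [1, 2, 0, 0, 2], [2, 2, 0, 0, 2], [2, 1,
  1, 0, 2], [0, 0, 2, 0, 2], [1, 0, 2, 0, 2], [0, 2, 1, 1, 2], [1, 2, 1, 1, 2], [1, 0, 0, 2, 2], [2, 0, 0, 2,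
  2], [2, 0, 2, 2, 2], [0, 0, 2, 0, 0, 2], [1, 1, 2, 0, 0, 2], [2, 2, 2, 0, 0, 2], [0, 2, 1, 1, 0, 2], [1, 0,
  0, 2, 0, 2], [2, 0, 2, 1, 1, 0, 2]] u43tb = true := by decide +kernel

theorem u43 {g : ℕ → Γ} (W : WM g u43ev) (h1 : wp g [6] ≠ 1) (h2 : wp g [5, 6] ≠ 1) (h3 : wp g [4] ≠ 1)
    (h4 : wp g [2] ≠ 1) : False := by
  obtain ⟨M, L⟩ := W.lab (by norm_num) u43_lab
  have e0 := L.tot (cs := [1, 30, 30, 20]) (by decide +kernel)
  obtain ⟨_, e1, e2⟩ := L.three [0, 0, 0, 1] h1 (cs := [1, 12, 6, 8]) (by decide +kernel)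
  obtain ⟨_, e3, e4⟩ := L.three [0, 0, 1, 1] h2 (cs := [1, 6, 12, 8]) (by decide +kernel)
  obtain ⟨_, e5, e6⟩ := L.three [0, 1, 0, 0] h3 (cs := [1, 12, 12, 2]) (by decide +kernel)
  obtain ⟨M', L'⟩ := W.lab (p := 3) (ws := [[0], [1]]) (cs := []) (reps := [[0, 0], [0, 1], [1, 0], [1, 1], [1, 2]]) (T :=
    [(0, [], []), (1, [], []), (1, [0], [0]), (2, [], []), (3, [], []), (4, [], []), (2, [0], [0]), (4, [0], [0]),
    (3, [0], [0])]) (by norm_num) (by decide +kernel)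
  have a0 := L'.tot (cs := [1, 2, 2, 2, 2]) (by decide +kernel)
  have a1 := (L'.fd [1, 0] (cs := [1, 2, 0, 0, 0]) (by decide +kernel)).symm.trans ((W.fd [7] (by decide +kernel)).trans
    (L.fd [1, 0, 0, 1] (cs := [1, 12, 6, 8]) (by decide +kernel)))
  have a2 := (L'.fd [0, 1] (cs := [1, 0, 2, 0, 0]) (by decide +kernel)).symm.trans ((W.fd [8] (by decide +kernel)).trans
    (L.fd [2, 2, 1, 1] (cs := [1, 12, 6, 8]) (by decide +kernel)))
  have a3 := (L'.fd [1, 1] (cs := [1, 0, 0, 0, 2]) (by decide +kernel)).symm.trans ((W.fd [9] (by decide +kernel)).trans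
    (L.fd [1, 0, 1, 1] (cs := [1, 6, 12, 8]) (by decide +kernel)))
  have a4 := (L'.fd [1, 2] (cs := [1, 0, 0, 2, 0]) (by decide +kernel)).symm.trans ((W.fd [10] (by decide +kernel)).trans
    (L.fd [2, 1, 2, 0] (cs := [1, 6, 12, 8]) (by decide +kernel)))
  have a5 := L'.eqW [[1, 0], [0, 1]] [0, 0] (cs := [1, 0, 0, 0, 0]) (by decide +kernel)
  have a6 : mm 3 ([[1, 0], [0, 1]].map fun a => wp g (pwW [[0], [1]] a)) [0, 0] ≤ _ :=
    eng τ W u43_ct (s := 2) (l := [0, 1, 4, 6, 11]) (A := [[1, 1, 0], [0, 0], [2, 1, 0], [1, 1], [1, 0, 0], [1], [1, 0], [0], []])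
      (by decide +kernel) (by decide +kernel) fun v hv => by simpa [Eg, pwW, rp, mem_Ei] using hv
  have a7 := five (g := wp g [2]) (by simpa using W (rp 5 [2]) [] (by decide +kernel)) h4
  rw [wp_cons, wp_nil, mul_one, fd_up] at a7
  rw [a5, show dm (Ei (τ (g 2)) 1) = 16 from a7] at a6
  simp only [List.length_cons, List.length_nil, sum_range_succ, sum_range_zero, List.getD_cons_succ,
    List.getD_cons_zero] at e0 e1 e3 e5 a0 a1 a2 a3 a4 a6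
  omega

open Polynomial in
theorem no_U43 {K : Type*} [Field K] [Fintype K] (hK : Fintype.card K = 9) (ψ : PSU 4 K 3 →* Γ) :
    ¬Function.Injective ψ := fun hψ => by
  have : CharP K 3 := charP_of_card_eq_prime_pow (p := 3) (f := 2) hK
  obtain ⟨θ, hθ⟩ := H4.T8.exists_root (F := K) (X ^ 2 + 1) (X ^ 7 - X ^ 5 + X ^ 3 - X)
    (by monicity!) (lt_of_le_of_lt (show _ ≤ 7 by compute_degree) (by omega)) fun x => by
      simp only [hK, eval_add, eval_sub, eval_pow, eval_X, eval_one]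
      ring
  simp only [eval_add, eval_pow, eval_X, eval_one] at hθ
  let f := ZMod.castHom (dvd_refl 3) K
  have M := U4.mdl f hθ
  obtain ⟨W, N⟩ := model' (Equiv.refl (Fin 4)) (U4.cod f hθ) (U4.t_one f θ) U4.jj_inj mk_center M (X := u43X)
    (gt_all (fun a ha => M.vb a (by revert a; decide +kernel)) M.val_e) hψ
  exact u43 W (N _ [0, 2] (by decide +kernel)) (N _ [2] (by decide +kernel)) (N _ [2] (by decide +kernel))
    (N _ [3] (by decide +kernel))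

end Cfsg.Agent.H6.Va
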