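import Cfsg.Agent.H6.Vi

/-!
Modules of Clifford algebras in characteristic two, and commutator spaces of elements of order three.
-/

set_option autoImplicit false
set_option linter.unusedSectionVars false
set_option linter.unusedSimpArgs false
set_option linter.unusedTactic false
set_option linter.unreachableTactic false

namespace Cfsg.Agent.H6.Va

open Matrix Module Cfsg.Agent.H6.E7 Cfsg.Agent.H7.Ord Finset
open Cfsg.Agent.H7.Inq hiding F

attribute [-simp] zsmul_eq_mul Matrix.mulVec_mulVec
attribute [local simp] mul_mulVec'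

/-- the final constant -/
def fin2 : ℕ → F → F → F
  | 0, _, c => c
  | k + 1, Q, c => fin2 k (Q + 1) (c + Q)

theorem cliff (k : ℕ) : ∀ {W : Type} [AddCommGroup W] [Module F W] [FiniteDimensional F W] (Q c : F) (α : End F W)
    (D : ℕ → End F W), (∀ i < 2 * k, D i * D i = Q • 1) → (∀ i < 2 * k, ∀ j < 2 * k, i ≠ j → D i * D j + D j * D i = 1) →
    (∀ i < 2 * k, α * D i + D i * α = D i) → α * α + α = c • 1 → fin2 k Q c = 1 → 2 ^ (k + 1) ∣ finrank F W := by
  induction k with
  | zero =>
    rintro W _ _ _ Q _ α D - - - h rfl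
    classical
    have := Module.finite_of_finite F (M := W)
    have := Fintype.ofFinite W
    have := Fact.mk Nat.prime_three
    have h0 : α * α * α = 1 := by
      linear_combination (norm := skip) h * α + h
      simp only [mul_add, add_mul, smul_mul_assoc, one_mul]
      refine (one_smul F _).symm.trans ?_
      match_scalars <;> decide
    have h1 := Equiv.Perm.card_fixedPoints_modEq (α := W) (f := fun v => α v) (p := 3) (n := 1)
      (funext fun v => LinearMap.congr_fun h0 v)
    rw [(Fintype.card_eq_one_iff (α := Function.fixedPoints fun v => α v)).2 ⟨⟨0, α.map_zero⟩, fun v => Subtype.ext (by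
      have h2 := LinearMap.congr_fun h v.1
      have h3 : α v.1 = v.1 := v.2
      simpa [h3] using h2)⟩, Module.card_eq_pow_finrank (K := F), ZMod.card] at h1
    generalize finrank F W = n at h1
    obtain ⟨m, rfl | rfl⟩ := Nat.even_or_odd' n
    · simp
    · have : 2 ^ (2 * m) ≡ 1 ^ m [MOD 3] := by rw [pow_mul]; exact Nat.ModEq.pow m (by decide)
      rw [pow_succ, one_pow] at *
      exact absurd ((this.mul_right 2).symm.trans h1) (by decide)
  | succ k ih =>
    intro W _ _ _ Q c α D h1 h2 h3 h4 h5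
    have hx := h1 0 (by omega)
    have hy := h1 1 (by omega)
    have hxy := h2 0 (by omega) 1 (by omega) (by omega)
    have hax := h3 0 (by omega)
    have hay := h3 1 (by omega)
    have hxz := fun i (hi : i < 2 * k) => h2 0 (by omega) (i + 2) (by omega) (by omega)
    have hyz := fun i (hi : i < 2 * k) => h2 1 (by omega) (i + 2) (by omega) (by omega)
    obtain ⟨e, he⟩ : ∃ e, e = D 0 + Q • 1 := ⟨_, rfl⟩
    have a1 : e * e = 0 := by
      linear_combination (norm := skip) hx
      simp only [he, mul_add, add_mul, smul_mul_assoc, mul_smul_comm, one_mul, mul_one, mul_assoc]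
      match_scalars <;> (clear * -; decide +revert)
    have a2 : e * D 1 + D 1 * e = 1 := by
      linear_combination (norm := skip) hxy
      simp only [he, mul_add, add_mul, smul_mul_assoc, mul_smul_comm, one_mul, mul_one, mul_assoc]
      match_scalars <;> (clear * -; decide +revert)
    have a3 : e * (α + D 0 * D 1) = (α + D 0 * D 1) * e := by
      linear_combination (norm := skip) hax + D 0 * hxy
      simp only [he, mul_add, add_mul, smul_mul_assoc, mul_smul_comm, one_mul, mul_one, mul_assoc]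
      match_scalars <;> (clear * -; decide +revert)
    have a4 : ∀ i < 2 * k, e * (D (i + 2) + D 0 + D 1) = (D (i + 2) + D 0 + D 1) * e := fun i hi => by
      linear_combination (norm := skip) hxz i hi + hxy
      simp only [he, mul_add, add_mul, smul_mul_assoc, mul_smul_comm, one_mul, mul_one, mul_assoc]
      match_scalars <;> (clear * -; decide +revert)
    have a5 : LinearMap.range e = LinearMap.ker e := le_antisymm (LinearMap.range_le_ker_iff.2 a1) fun v hv =>
      ⟨D 1 v, by simpa [LinearMap.mem_ker.1 hv] using LinearMap.congr_fun a2 v⟩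
    have a6 := e.finrank_range_add_finrank_ker
    have res : ∀ x : End F W, e * x = x * e → ∀ v ∈ LinearMap.ker e, x v ∈ LinearMap.ker e := fun x hx v hv => by
      simpa [LinearMap.mem_ker.1 hv] using LinearMap.congr_fun hx v
    rw [← a6, a5, ← two_mul, pow_succ']
    refine Nat.mul_dvd_mul_left 2 (ih (Q + 1) (c + Q) ((α + D 0 * D 1).restrict (res _ a3))
      (fun i => if h : i < 2 * k then (D (i + 2) + D 0 + D 1).restrict (res _ (a4 i h)) else 0) (fun i hi => ?_)
      (fun i hi j hj hij => ?_) (fun i hi => ?_) ?_ h5)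
    · have : (D (i + 2) + D 0 + D 1) * (D (i + 2) + D 0 + D 1) = (Q + 1) • 1 := by
        linear_combination (norm := skip) h1 (i + 2) (by omega) + hx + hy + hxz i hi + hyz i hi + hxy
        simp only [mul_add, add_mul]
        match_scalars <;> (clear * -; decide +revert)
      simp only [dif_pos hi]
      exact LinearMap.ext fun v => Subtype.ext (LinearMap.congr_fun this v.1)
    · have : (D (i + 2) + D 0 + D 1) * (D (j + 2) + D 0 + D 1) + (D (j + 2) + D 0 + D 1) * (D (i + 2) + D 0 + D 1) =
          1 := by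
        linear_combination (norm := skip) h2 (i + 2) (by omega) (j + 2) (by omega) (by omega) + hxz i hi + hyz i hi +
          hxz j hj + hyz j hj
        simp only [mul_add, add_mul]
        refine (one_smul F _).symm.trans ?_
        match_scalars <;> (clear * -; decide +revert)
      simp only [dif_pos hi, dif_pos hj]
      exact LinearMap.ext fun v => Subtype.ext (LinearMap.congr_fun this v.1)
    · have : (α + D 0 * D 1) * (D (i + 2) + D 0 + D 1) + (D (i + 2) + D 0 + D 1) * (α + D 0 * D 1) =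
          D (i + 2) + D 0 + D 1 := by
        linear_combination (norm := skip) h3 (i + 2) (by omega) + hax + hay + D 0 * hyz i hi + hxz i hi * D 1 +
          D 0 * hxy + hxy * D 1
        simp only [mul_add, add_mul, one_mul, mul_one, mul_assoc]
        refine (one_smul F _).symm.trans ?_
        match_scalars <;> (clear * -; decide +revert)
      simp only [dif_pos hi]
      exact LinearMap.ext fun v => Subtype.ext (LinearMap.congr_fun this v.1)
    · have : (α + D 0 * D 1) * (α + D 0 * D 1) + (α + D 0 * D 1) = (c + Q) • 1 := by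
        linear_combination (norm := skip) h4 + hax * D 1 + D 0 * hay + D 0 * hxy * D 1 + hx * (D 1 * D 1) +
          (Q • 1 : End F W) * hy
        simp only [mul_add, add_mul, smul_mul_assoc, mul_smul_comm, one_mul, mul_one, mul_assoc]
        match_scalars <;> (clear * -; decide +revert)
      exact LinearMap.ext fun v => Subtype.ext (LinearMap.congr_fun this v.1)

theorem cliff13 {W : Type} [AddCommGroup W] [Module F W] [FiniteDimensional F W] (A : ℕ → End F W)
    (h1 : ∀ i < 11, A i + A i * A i = 1) (h2 : ∀ i < 11, ∀ j < 11, i ≠ j → A i * A j = A j * (A j * (A i * A i))) :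
    64 ∣ finrank F W := by
  have h3 : ∀ i < 11, ∀ j < 11, i ≠ j → A i * A j + A j * A i = A i + A j + 1 := fun i hi j hj hij => by
    linear_combination (norm := skip) h2 i hi j hj hij + h1 j hj * (A i * A i) + (A j + 1) * h1 i hi
    simp only [mul_add, add_mul, one_mul, mul_one, mul_assoc]
    refine (one_smul F _).symm.trans ?_
    match_scalars <;> (clear * -; decide +revert)
  refine cliff 5 0 1 (A 0) (fun i => A (i + 1) + A 0 + 1) (fun i hi => ?_) (fun i hi j hj hij => ?_) (fun i hi => ?_)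
    ?_ (by decide)
  · linear_combination (norm := skip) h1 (i + 1) (by omega) + h1 0 (by omega) + h3 0 (by omega) (i + 1) (by omega) (by omega)
    simp only [mul_add, add_mul, one_mul, mul_one, mul_assoc]
    match_scalars <;> (clear * -; decide +revert)
  · linear_combination (norm := skip) h3 (i + 1) (by omega) (j + 1) (by omega) (by omega) +
      h3 0 (by omega) (i + 1) (by omega) (by omega) + h3 0 (by omega) (j + 1) (by omega) (by omega)
    simp only [mul_add, add_mul, one_mul, mul_one, mul_assoc]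
    refine (one_smul F _).symm.trans ?_
    match_scalars <;> (clear * -; decide +revert)
  · linear_combination (norm := skip) h3 0 (by omega) (i + 1) (by omega) (by omega)
    simp only [mul_add, add_mul, one_mul, mul_one, mul_assoc]
    refine (one_smul F _).symm.trans ?_
    match_scalars <;> (clear * -; decide +revert)
  · rw [add_comm, one_smul, h1 0 (by omega)]

/-- the commutator space of an element of order three -/
noncomputable def kr (c : Γ) : Submodule F (Wt → F) := fx (ρV c + ρV c * ρV c)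

theorem mem_kr {c : Γ} {v : Wt → F} : v ∈ kr c ↔ ρV c *ᵥ v + ρV c *ᵥ ρV c *ᵥ v = v := by
  rw [kr, mem_fx, add_mulVec, mul_mulVec']

theorem comm_mulVec {a b : Γ} (h : Commute a b) (v : Wt → F) : ρV a *ᵥ ρV b *ᵥ v = ρV b *ᵥ ρV a *ᵥ v := by
  rw [← mul_mulVec', (h.map ρV).eq, mul_mulVec']

theorem iv_kr {a c : Γ} (h : Commute a c) : Iv (ρV a) (kr c) := fun v hv => by
  rw [mem_kr, ← comm_mulVec h, ← comm_mulVec h, ← mulVec_add, mem_kr.1 hv]

theorem up_mulVec (A : Matrix Wt Wt F) (u : Wt → F) : up A *ᵥ (algebraMap F KK ∘ u) = algebraMap F KK ∘ (A *ᵥ u) :=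
  funext fun i => (RingHom.map_mulVec _ A u i).symm

theorem cube_mulVec {c : Γ} (h : c ^ 3 = 1) (v : Wt → F) : ρV c *ᵥ ρV c *ᵥ ρV c *ᵥ v = v := by
  rw [← mul_mulVec', ← mul_mulVec', ← map_mul, ← map_mul, ← pow_three', h, map_one, one_mulVec]

theorem star {a b c : Γ} (h : EA 3 [a, b, c]) (h0 : ∀ i < 3, ∀ j < 3, i ≠ 0 → j ≠ 0 → mm 3 [a, b, c] [i, j, 0] = 0) :
    kr a ⊓ kr b ≤ kr c := fun v hv => by
  have hc := h.comm
  simp only [List.pairwise_cons, List.forall_mem_cons] at hc
  obtain ⟨⟨hab, hac, -⟩, ⟨hbc, -⟩, -⟩ := hc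
  have h2 : EA 3 [a, b] := ⟨h.dvd, fun y hy => h.pow y (List.mem_append_left [c] hy), by simpa using hab⟩
  let U := Ei (τ a + τ a * τ a) 1 ⊓ Ei (τ b + τ b * τ b) 1 ⊓ Ei (τ c) 1
  have h1 : ∀ {x y : Γ}, Commute x y → Iv (τ x) (Ei (τ y + τ y * τ y) 1) := fun h =>
    iv_Ei ((h.map τ).add_right ((h.map τ).mul_right (h.map τ))) 1
  have h3 : ∀ {x : Γ} {v}, v ∈ Ei (τ x + τ x * τ x) 1 → v ∈ Ei (τ x) (om 3 ^ 0) → v = 0 := fun h h' => by
    rw [mem_Ei, pow_zero, one_smul] at h'
    rw [mem_Ei, add_mulVec, mul_mulVec', h', h', one_smul] at h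
    simpa using h
  have h4 : dm U = 0 := by
    rw [splitL (om_prim h.dvd) h.pos h2.pow' h2.comm' (by
      simpa using ⟨((h1 (.refl a)).inf (h1 hab)).inf (iv_Ei (hac.map τ) 1),
        ((h1 hab.symm).inf (h1 (.refl b))).inf (iv_Ei (hbc.map τ) 1)⟩)]
    refine List.sum_eq_zero (List.forall_mem_map.2 fun l hl => dm_eq_zero.2 (eq_bot_iff.2 fun u hu => ?_))
    obtain ⟨i, hi, j, hj, rfl⟩ : ∃ i < 3, ∃ j < 3, l = [i, j] :=
      (by decide : ∀ l ∈ allL 3 2, ∃ i < 3, ∃ j < 3, l = [i, j]) l hl
    by_cases e1 : i = 0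
    · exact h3 hu.1.1.1 (e1 ▸ hu.2.1)
    by_cases e2 : j = 0
    · exact h3 hu.1.1.2 (e2 ▸ hu.2.2.1)
    exact (dm_eq_zero.1 (h0 i hi j hj e1 e2)).le ⟨hu.2.1, hu.2.2.1, by simpa using hu.1.2, trivial⟩
  have h5 : ∀ {x : Γ}, Commute x c → v ∈ kr x → ρV c *ᵥ v + ρV c *ᵥ ρV c *ᵥ v + v ∈ kr x := fun h hv =>
    add_mem (add_mem (iv_kr h.symm _ hv) (iv_kr h.symm _ (iv_kr h.symm _ hv))) hv
  have h6 : ∀ {A : Matrix Wt Wt F} {u}, u ∈ fx A → algebraMap F KK ∘ u ∈ Ei (up A) 1 := fun h => by
    rw [mem_Ei, up_mulVec, mem_fx.1 h, one_smul]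
  have h7 : algebraMap F KK ∘ (ρV c *ᵥ v + ρV c *ᵥ ρV c *ᵥ v + v) = 0 := (dm_eq_zero.1 h4).le
    ⟨⟨by simpa [τ] using h6 (h5 hac hv.1), by simpa [τ] using h6 (h5 hbc hv.2)⟩, h6 (by
      rw [mem_fx, mulVec_add, mulVec_add, cube_mulVec (h.pow c (by simp))]; abel)⟩
  have h8 : ρV c *ᵥ v + ρV c *ᵥ ρV c *ᵥ v + v = 0 :=
    funext fun i => (algebraMap F KK).injective ((congrFun h7 i).trans (map_zero _).symm)
  rw [mem_kr, ← add_zero (_ + _), ← add_self v, ← add_assoc, h8, zero_add]

theorem star2 {a b : Γ} (h : EA 3 [a, b]) (h0 : kr a ⊓ kr b = ⊥) : mm 3 [a, b] [1, 1] = 0 := by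
  have hab : Commute a b := by simpa using h.comm
  have h1 : ∀ {x : Γ}, x ^ 3 = 1 → ∀ v, ρV x *ᵥ v + ρV x *ᵥ ρV x *ᵥ v ∈ kr x := fun h v => by
    rw [mem_kr, mulVec_add, mulVec_add, cube_mulVec h, add_assoc, ← add_assoc v, add_self, zero_add, add_comm]
  have h2 : (ρV a + ρV a * ρV a) * (ρV b + ρV b * ρV b) = 0 := mext fun t _ => by
    rw [zero_mulVec, mul_mulVec', add_mulVec, add_mulVec, mul_mulVec', mul_mulVec']
    have := h1 (h.pow b (by simp)) (e F t)
    exact h0.le ⟨h1 (h.pow a (by simp)) _, add_mem (iv_kr hab _ this) (iv_kr hab _ (iv_kr hab _ this))⟩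
  have h3 : om 3 + om 3 * om 3 = 1 := by
    have := (om_prim h.dvd).geom_sum_eq_zero (by norm_num)
    have h3 : (2 : KK) = 0 := CharTwo.two_eq_zero
    simp only [Finset.sum_range_succ, Finset.sum_range_zero] at this
    grind
  have h4 : ∀ {x : Γ} {v}, v ∈ Ei (τ x) (om 3 ^ 1) → (τ x + τ x * τ x) *ᵥ v = v := fun h => by
    rw [mem_Ei, pow_one] at h
    rw [add_mulVec, mul_mulVec', h, mulVec_smul, h, smul_smul, ← add_smul, h3, one_smul]
  refine dm_eq_zero.2 (eq_bot_iff.2 fun v hv => ?_)
  have h5 := congrArg (up · *ᵥ v) h2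
  simp only [map_mul, map_add, map_zero, zero_mulVec, mul_mulVec'] at h5
  exact (h4 hv.1).symm.trans ((congrArg _ (h4 hv.2.1).symm).trans h5)

end Cfsg.Agent.H6.Va
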