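import Cfsg.Agent.H6.Vl

/-!
`A₁₃` does not embed in `E₇(2)`.
-/

set_option autoImplicit false
set_option linter.unusedSectionVars false
set_option linter.unusedSimpArgs false
set_option maxRecDepth 100000

namespace Cfsg.Agent.H6.Va

open Matrix Module Cfsg.Agent.H6.E7 Cfsg.Agent.H7.Ord Finset
open Cfsg.Agent.H7.Inq hiding F
open Cfsg.Agent.H4.T8 hiding mm dm fx

attribute [-simp] zsmul_eq_mul Matrix.mulVec_mulVec
attribute [local simp] mul_mulVec'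

/-- composition of coded maps -/
noncomputable def pm13 (a b : ℕ) : ℕ := H4.BP.force a fun a => H4.BP.force b fun b =>
  pk 4 (fun i => dg 4 a (Nat.mod (dg 4 b i) 13)) 13 0

/-- the coded map -/
def T13 (a : ℕ) : Function.End (Fin 13) := fun i => ⟨dg 4 a i % 13, Nat.mod_lt _ (by norm_num)⟩

theorem T13_mul (a b : ℕ) : T13 (pm13 a b) = T13 a * T13 b := funext fun i => Fin.ext (by
  change dg 4 (pm13 a b) i % 13 = _
  simp only [pm13, H4.BP.force_eq]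
  rw [dg_pk (fun _ => dg_lt ..) i.2, zero_add]
  rfl)

theorem T13_one : T13 3582863703552528 = 1 :=
  funext fun i => Fin.ext ((by decide +kernel : ∀ i < 13, dg 4 3582863703552528 i % 13 = i) i i.2)

/-- elements -/
def a13L : List (List ℕ × ℕ) := [([0, 0, 0, 0], 3582863703552033), ([0, 0, 1, 1, 0, 0], 3582863703540273), ([0, 0, 2, 2, 0, 0],
    3582863703290433), ([0, 0, 3, 3, 0, 0], 3582863698309713), ([0, 0, 10, 10, 0, 0], 205163983024833), ([4,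
    4, 0, 0, 10, 10, 0, 0, 5, 5, 0, 0, 4, 4, 0, 0], 1894015202243088), ([4, 4, 0, 0, 10, 10, 0, 0, 6, 6, 0, 0,
    4, 4, 0, 0], 1894031056712208), ([4, 4, 0, 0, 10, 10, 0, 0, 7, 7, 0, 0, 4, 4, 0, 0], 1894220052050448),
    ([4, 4, 0, 0, 10, 10, 0, 0, 8, 8, 0, 0, 4, 4, 0, 0], 1896212933653008), ([4, 4, 0, 0, 10, 10, 0, 0, 9, 9,
    0, 0, 4, 4, 0, 0], 1911606113219088), ([1, 1, 0, 0, 3, 3, 0, 0, 2, 2, 0, 0, 1, 1, 0, 0],
    3582863701525008), ([4, 4, 0, 0, 6, 6, 0, 0, 5, 5, 0, 0, 4, 4, 0, 0], 3582855398830608), ([7, 7, 0, 0, 9,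
    9, 0, 0, 8, 8, 0, 0, 7, 7, 0, 0], 3548847562568208), ([0, 0, 0, 0, 6, 6, 5, 5, 0, 0, 0, 0, 4, 4, 3, 3, 0,
    0, 0, 0, 2, 2, 1, 1], 3582836225828163), ([3, 3, 0, 0, 9, 9, 2, 2, 0, 0, 8, 8, 1, 1, 0, 0, 7, 7, 6, 6, 0,
    0, 0, 0, 5, 5, 4, 4, 0, 0, 0, 0, 3, 3, 2, 2, 0, 0, 0, 0, 1, 1], 3470314944553488), ([2, 2, 0, 0, 3, 3, 0,
    0, 2, 2, 0, 0, 0, 0], 3582863702569248), ([5, 5, 0, 0, 6, 6, 0, 0, 5, 5, 0, 0, 0, 0, 3, 3, 0, 0, 0, 0, 2,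
    2, 1, 1], 3582859673666883), ([4, 4, 0, 0, 8, 8, 0, 0, 7, 7, 0, 0, 6, 6, 0, 0, 5, 5, 0, 0, 4, 4],
    3578538956697633), ([9, 9, 0, 0, 10, 10, 0, 0, 9, 9, 7, 7, 0, 0, 8, 8, 5, 5, 0, 0, 7, 7, 0, 0, 0, 0, 6, 6,
    0, 0, 5, 5, 0, 0, 0, 0], 3317752820675088), ([9, 9, 0, 0, 10, 10, 0, 0, 9, 9, 0, 0, 0, 0],
    3318980912886048), ([9, 9, 0, 0, 10, 10, 0, 0, 9, 9, 2, 2, 0, 0, 3, 3, 0, 0, 2, 2], 3318980911903248),
    ([9, 9, 0, 0, 10, 10, 0, 0, 9, 9, 0, 0, 0, 0, 3, 3, 0, 0, 0, 0, 2, 2, 1, 1], 3318980909532483), ([8, 8, 0,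
    0, 10, 10, 5, 5, 0, 0, 9, 9, 2, 2, 0, 0, 8, 8, 0, 0, 7, 7, 6, 6, 0, 0, 5, 5, 3, 3, 0, 0, 4, 4, 0, 0, 0, 0,
    3, 3, 0, 0, 2, 2, 0, 0, 0, 0, 1, 1, 0, 0], 2942411314337328), ([0, 0, 10, 10, 8, 8, 0, 0, 9, 9, 5, 5, 0,
    0, 8, 8, 2, 2, 0, 0, 7, 7, 5, 5, 0, 0, 6, 6, 0, 0, 4, 4, 0, 0, 0, 0, 2, 2, 0, 0, 1, 1], 183900707146083),
    ([7, 7, 0, 0, 10, 10, 4, 4, 0, 0, 9, 9, 1, 1, 0, 0, 8, 8, 1, 1, 0, 0, 7, 7, 0, 0, 0, 0, 6, 6, 2, 2, 0, 0,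
    4, 4, 3, 3, 0, 0, 0, 0, 1, 1], 2642171339179308), ([0, 0, 10, 10, 6, 6, 0, 0, 8, 8, 5, 5, 0, 0, 7, 7, 0,
    0, 0, 0, 6, 6, 5, 5, 2, 2, 0, 0, 4, 4, 0, 0, 2, 2, 0, 0, 1, 1, 0, 0], 202837419501873), ([3, 3, 0, 0, 10,
    10, 8, 8, 0, 0, 9, 9, 0, 0, 8, 8, 5, 5, 0, 0, 7, 7, 2, 2, 0, 0, 6, 6, 0, 0, 0, 0, 5, 5, 4, 4, 0, 0, 0, 0,
    3, 3, 0, 0, 0, 0, 2, 2, 0, 0, 0, 0, 1, 1, 0, 0], 1595892046371888), ([5, 5, 0, 0, 10, 10, 4, 4, 0, 0, 9,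
    9, 0, 0, 8, 8, 2, 2, 0, 0, 7, 7, 0, 0, 0, 0, 6, 6, 0, 0, 5, 5, 1, 1, 0, 0, 4, 4, 1, 1, 0, 0, 3, 3, 0, 0,
    0, 0], 2088292616766753), ([0, 0, 0, 0], 3582863703552033), ([0, 0, 1, 1, 0, 0], 3582863703540273), ([0,
    0, 2, 2, 0, 0], 3582863703290433), ([0, 0, 3, 3, 0, 0], 3582863698309713), ([0, 0, 4, 4, 0, 0],
    3582863602889313), ([0, 0, 5, 5, 0, 0], 3582861824504433), ([0, 0, 6, 6, 0, 0], 3582829343814273), ([0, 0,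
    7, 7, 0, 0], 3582245228262033), ([0, 0, 8, 8, 0, 0], 3571868587274913), ([0, 0, 9, 9, 0, 0],
    3389349657064113), ([0, 0, 10, 10, 0, 0], 205163983024833)]

/-- words -/
noncomputable def a13ev : List ℕ → ℕ :=
  evw (pmu pm13 (fun _ => 3582863703552528) fun _ => 0) 3582863703552528 (H4.BP.gt (a13L.map (·.2)) 3582863703552528)

/-- the labels -/
def a13T : List (ℕ × List ℕ × List ℕ) := [(0, [], []), (1, [], []), (1, [0], [0]), (1, [2], [2, 1]), (2, [], []), (2, [4, 0], [4, 0]), (1, [2, 0], [2,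
    1, 0]), (2, [4], [4]), (2, [0], [0]), (1, [1, 2], [2]), (2, [1], [2]), (2, [3, 1, 0], [4, 2]), (2, [2],
    [2, 2]), (3, [], []), (3, [2, 3], [4, 2, 1]), (2, [3, 2, 0], [2, 3, 2]), (3, [4, 1, 1], [3, 2]), (3, [3,
    0], [3, 0]), (1, [1, 2, 0], [2, 0]), (2, [3, 1], [2, 3]), (2, [1, 0], [2, 0]), (2, [3, 2], [4, 2, 2]), (3,
    [3], [3]), (3, [3, 2, 3], [3, 2, 0]), (2, [2, 0], [2, 2, 0]), (3, [2, 3, 0], [3, 2, 3]), (3, [0], [0]),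
    (1, [1, 1, 2], [2, 4]), (2, [1, 1], [1]), (2, [3, 1, 1, 0], [4, 1, 0]), (2, [2, 1, 1], [2, 2, 1]), (3, [1,
    1], [1]), (3, [4, 3, 0], [4, 3, 0]), (2, [4, 2], [2, 2, 4]), (3, [4], [4]), (3, [4, 2, 3], [1, 3, 0]), (2,
    [1, 2], [1, 2]), (3, [1], [1, 1]), (3, [3, 1, 0], [4, 2]), (3, [2, 1, 1], [1, 1, 2]), (4, [], []), (4, [4,
    3, 0], [4, 2]), (3, [2, 4, 3, 0], [4, 2, 2, 1]), (4, [4], [4]), (4, [3, 0], [3, 0]), (2, [2, 4, 2], [4, 1,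
    2, 0]), (3, [3, 1, 3], [1, 3, 1]), (3, [1, 3, 0], [4, 1, 0]), (3, [2, 4], [4, 2, 2]), (4, [1, 4], [4, 1,
    1]), (4, [1, 3, 0], [3, 2, 0]), (3, [1, 2, 4, 0], [4, 1, 2, 0]), (4, [2, 3, 0], [3, 1]), (4, [4, 2, 3],
    [4, 1, 0]), (1, [1, 1, 2, 0], [2, 4, 0]), (2, [3, 1, 1], [4, 1]), (2, [1, 1, 0], [1, 0]), (2, [4, 2, 0],
    [2, 2, 4, 0]), (3, [3, 1, 1], [1, 3]), (3, [4, 0], [4, 0]), (2, [4, 3, 2], [2, 2, 1, 0]), (3, [4, 3], [4,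
    3]), (3, [1, 1, 0], [1, 0]), (2, [1, 3, 2], [4, 1, 2]), (3, [1, 3], [4, 1]), (3, [3, 1, 3, 0], [4, 3, 2]),
    (3, [1, 2, 4], [4, 1, 2]), (4, [1, 1, 4], [4, 1]), (4, [2, 3], [3, 1, 0]), (3, [2, 4, 0], [4, 2, 2, 0]),
    (4, [1, 3], [3, 2]), (4, [1, 4, 0], [4, 3, 2]), (2, [1, 2, 0], [1, 2, 0]), (3, [3, 1], [4, 2, 0]), (3, [1,
    0], [1, 1, 0]), (3, [2, 4, 3], [4, 3, 2, 2]), (4, [3], [3]), (4, [4, 0], [4, 0]), (3, [2, 1, 1, 0], [1, 1,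
    2, 0]), (4, [4, 3], [4, 3]), (4, [0], [0])]

/-- the labels -/
def a13T' : List (ℕ × List ℕ × List ℕ) := [(0, [], []), (1, [], []), (1, [0], [0, 0, 0]), (2, [], []), (1, [0, 0], [0, 0]), (3, [], []), (2, [0], [0, 0,
    0]), (4, [], []), (1, [0, 0, 0], [0]), (2, [0, 0, 0], [0]), (3, [0], [0]), (4, [0, 0, 0], [0]), (2, [0,
    0], [0, 0]), (4, [0, 0], [0, 0]), (4, [0], [0, 0, 0]), (5, [], []), (6, [], []), (6, [3], [3, 3, 3]), (7,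
    [], []), (6, [3, 3], [3, 3]), (8, [], []), (7, [3], [3, 3, 3]), (9, [], []), (6, [3, 3, 3], [3]), (7, [3,
    3, 3], [3]), (8, [3], [3]), (9, [3, 3, 3], [3]), (7, [3, 3], [3, 3]), (9, [3, 3], [3, 3]), (9, [3], [3, 3,
    3]), (5, [0], [0, 0, 0]), (6, [2, 1], [3, 0, 0, 0]), (6, [0], [0, 0, 0]), (7, [2, 1], [3, 0, 0, 0]), (6,
    [3, 0], [2, 1, 0, 0]), (8, [3, 0], [3, 0, 0, 0]), (7, [0], [0, 0, 0]), (9, [2, 1], [3, 0, 0, 0]), (6, [3,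
    3, 0], [1, 1, 0]), (7, [3, 3, 0], [1, 1, 0]), (8, [0], [0, 0, 0]), (9, [3, 3, 0], [1, 1, 0]), (7, [3, 0],
    [2, 1, 0, 0]), (9, [3, 0], [2, 1, 0, 0]), (9, [0], [0, 0, 0]), (10, [], []), (11, [], []), (11, [3], [3,
    3, 3]), (12, [], []), (11, [3, 3], [3, 3]), (5, [4, 0, 0, 0], [4, 0]), (12, [3], [3, 3, 3]), (13, [], []),
    (11, [3, 3, 3], [3]), (12, [3, 3, 3], [3]), (5, [4, 1, 0, 0], [4, 1]), (13, [3, 3, 3], [3]), (12, [3, 3],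
    [3, 3]), (13, [3, 3], [3, 3]), (13, [3], [3, 3, 3]), (5, [0, 0], [0, 0]), (6, [1, 1], [1, 1]), (6, [2, 1,
    0], [3, 0, 0]), (7, [1, 1], [1, 1]), (6, [0, 0], [0, 0]), (8, [0, 0], [0, 0]), (7, [2, 1, 0], [3, 0, 0]),
    (9, [1, 1], [1, 1]), (6, [3, 0, 0], [2, 1, 0]), (7, [3, 0, 0], [2, 1, 0]), (8, [3, 0, 0], [3, 0, 0]), (9,
    [3, 0, 0], [2, 1, 0]), (7, [0, 0], [0, 0]), (9, [0, 0], [0, 0]), (9, [2, 1, 0], [3, 0, 0]), (3, [4], [4]),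
    (14, [], []), (14, [3], [3, 0, 0]), (15, [], []), (14, [0, 0], [0, 0]), (16, [], []), (15, [3], [3, 0,
    0]), (17, [], []), (14, [3, 0, 0], [3]), (15, [3, 0, 0], [3]), (16, [3], [3]), (17, [3, 0, 0], [3]), (15,
    [0, 0], [0, 0]), (17, [0, 0], [0, 0]), (17, [3], [3, 0, 0]), (10, [0], [0, 0, 0]), (11, [1], [1, 1, 1]),
    (11, [0], [0, 0, 0]), (12, [1], [1, 1, 1]), (11, [3, 0], [1, 0, 0]), (5, [4, 2], [4, 3]), (12, [0], [0, 0,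
    0]), (13, [1], [1, 1, 1]), (11, [3, 3, 0], [1, 1, 0]), (12, [3, 3, 0], [1, 1, 0]), (5, [4], [4]), (13, [3,
    3, 0], [1, 1, 0]), (12, [3, 0], [1, 0, 0]), (13, [3, 0], [1, 0, 0]), (13, [0], [0, 0, 0]), (5, [1], [1, 0,
    0]), (6, [1], [1, 1, 1]), (6, [2, 0], [2, 0, 0, 0]), (7, [1], [1, 1, 1]), (6, [3, 2, 0], [1, 0, 0]), (8,
    [1], [1, 0, 0]), (7, [2, 0], [2, 0, 0, 0]), (9, [1], [1, 1, 1]), (6, [3, 3, 2, 0], [2, 1, 1, 0]), (7, [3,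
    3, 2, 0], [2, 1, 1, 0]), (8, [2, 0], [2, 0, 0, 0]), (9, [3, 3, 2, 0], [2, 1, 1, 0]), (7, [3, 2, 0], [1, 0,
    0]), (9, [3, 2, 0], [1, 0, 0]), (9, [2, 0], [2, 0, 0, 0]), (5, [0, 0, 0], [0]), (6, [3, 0, 0, 0], [2, 1]),
    (6, [1, 1, 0], [3, 3, 0]), (7, [3, 0, 0, 0], [2, 1]), (6, [2, 1, 0, 0], [3, 0]), (8, [3, 0, 0, 0], [3,
    0]), (7, [1, 1, 0], [3, 3, 0]), (9, [3, 0, 0, 0], [2, 1]), (6, [0, 0, 0], [0]), (7, [0, 0, 0], [0]), (8,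
    [0, 0, 0], [0]), (9, [0, 0, 0], [0]), (7, [2, 1, 0, 0], [3, 0]), (9, [2, 1, 0, 0], [3, 0]), (9, [1, 1, 0],
    [3, 3, 0]), (10, [0, 0, 0], [0]), (11, [1, 1, 1], [1]), (11, [1, 1, 0], [3, 3, 0]), (12, [1, 1, 1], [1]),
    (11, [1, 0, 0], [3, 0]), (5, [4, 1, 0], [4, 1, 0]), (12, [1, 1, 0], [3, 3, 0]), (13, [1, 1, 1], [1]), (11,
    [0, 0, 0], [0]), (12, [0, 0, 0], [0]), (5, [4, 0, 0], [4, 0, 0]), (13, [0, 0, 0], [0]), (12, [1, 0, 0],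
    [3, 0]), (13, [1, 0, 0], [3, 0]), (13, [1, 1, 0], [3, 3, 0]), (3, [4, 0], [4, 0]), (14, [2], [2]), (14,
    [0], [0, 0, 0]), (15, [2], [2]), (14, [3, 0], [3, 0]), (16, [2], [2]), (15, [0], [0, 0, 0]), (17, [2],
    [2]), (14, [0, 0, 0], [0]), (15, [0, 0, 0], [0]), (16, [0], [0]), (17, [0, 0, 0], [0]), (15, [3, 0], [3,
    0]), (17, [3, 0], [3, 0]), (17, [0], [0, 0, 0]), (5, [2], [2]), (6, [2], [2]), (6, [3, 2], [1, 0, 0, 0]),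
    (7, [2], [2]), (6, [3, 3, 2], [3, 3, 2]), (8, [2], [2]), (7, [3, 2], [1, 0, 0, 0]), (9, [2], [2]), (6, [1,
    0, 0, 0], [3, 2]), (7, [1, 0, 0, 0], [3, 2]), (8, [4], [4]), (9, [1, 0, 0, 0], [3, 2]), (7, [3, 3, 2], [3,
    3, 2]), (9, [3, 3, 2], [3, 3, 2]), (9, [3, 2], [1, 0, 0, 0]), (10, [0, 0], [0, 0]), (11, [1, 1], [1, 1]),
    (11, [1, 0], [3, 0, 0]), (12, [1, 1], [1, 1]), (11, [0, 0], [0, 0]), (5, [4, 0], [4, 0, 0, 0]), (12, [1,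
    0], [3, 0, 0]), (13, [1, 1], [1, 1]), (11, [3, 0, 0], [1, 0]), (12, [3, 0, 0], [1, 0]), (5, [4, 1], [4, 1,
    0, 0]), (13, [3, 0, 0], [1, 0]), (12, [0, 0], [0, 0]), (13, [0, 0], [0, 0]), (13, [1, 0], [3, 0, 0]), (5,
    [1, 0, 0], [1]), (6, [1, 1, 1], [1]), (6, [2, 1, 1, 0], [3, 3, 2, 0]), (7, [1, 1, 1], [1]), (6, [1, 0, 0],
    [3, 2, 0]), (8, [1, 0, 0], [1]), (7, [2, 1, 1, 0], [3, 3, 2, 0]), (9, [1, 1, 1], [1]), (6, [2, 0, 0, 0],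
    [2, 0]), (7, [2, 0, 0, 0], [2, 0]), (8, [2, 0, 0, 0], [2, 0]), (9, [2, 0, 0, 0], [2, 0]), (7, [1, 0, 0],
    [3, 2, 0]), (9, [1, 0, 0], [3, 2, 0]), (9, [2, 1, 1, 0], [3, 3, 2, 0]), (5, [1, 0], [1, 0]), (6, [2, 1,
    1], [2, 1, 1]), (6, [1, 0], [3, 2, 0, 0]), (7, [2, 1, 1], [2, 1, 1]), (6, [2, 0, 0], [2, 0, 0]), (8, [2,
    0, 0], [2, 0, 0]), (7, [1, 0], [3, 2, 0, 0]), (9, [2, 1, 1], [2, 1, 1]), (6, [3, 2, 0, 0], [1, 0]), (7,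
    [3, 2, 0, 0], [1, 0]), (8, [1, 0], [1, 0]), (9, [3, 2, 0, 0], [1, 0]), (7, [2, 0, 0], [2, 0, 0]), (9, [2,
    0, 0], [2, 0, 0]), (9, [1, 0], [3, 2, 0, 0])]

/-- conjugating words -/
def a13cw : List (List ℕ) := [[], [0, 2, 2, 1], [1, 0, 2, 1], [1, 0, 3, 1], [5, 1, 0, 4, 1], [5, 5, 1, 0, 4, 1], [6, 5, 1, 0, 4, 1], [7, 5,
    1, 0, 4, 1], [8, 5, 1, 0, 4, 1], [9, 5, 1, 0, 4, 1], [1, 0, 4, 1]]

theorem a13_lab : labW a13ev 3 [[0], [10], [11], [12]] [([13], [[0, 1, 0, 0], [0, 0, 1, 0], [1, 0, 0, 0], [0, 0, 0, 1]]), ([14], [[1, 0, 0, 0], [0, 0, 1, 0], [0, 0,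
    0, 1], [0, 1, 0, 0]]), ([15], [[2, 0, 0, 0], [0, 2, 0, 0], [0, 0, 1, 0], [0, 0, 0, 1]]), ([16], [[0, 1, 0,
    0], [1, 0, 0, 0], [0, 0, 2, 0], [0, 0, 0, 1]])]
    [[0, 0, 0, 0], [0, 0, 0, 1], [0, 0, 1, 1], [0, 1, 1, 1], [1, 1, 1, 1]] a13T = true := by decide +kernel

theorem a13_lab' : labW a13ev 15 [[17], [10]] [([18], [[7, 0], [0, 1]]), ([19], [[11, 0], [0, 1]]), ([20], [[1, 0], [0, 2]]), ([21], [[6, 1], [10, 0]])]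
    [[0, 0], [0, 1], [0, 3], [0, 5], [0, 7], [1, 0], [1, 1], [1, 3], [1, 5], [1, 7], [3, 0], [3, 1], [3, 3], [3,
    7], [5, 1], [5, 3], [5, 5], [5, 7]] a13T' = true := by decide +kernel

theorem a13_rel : (∀ j < 5, ∀ c ∈ [11, 12], a13ev [j, c] = a13ev [c, j]) ∧
    (∀ j < 10, 5 ≤ j → ∀ c ∈ [0, 10], a13ev [j, c] = a13ev [c, j]) ∧
    (∀ i < 11, (∀ j ∈ a13cw.getD i [], j < 10) ∧ a13ev (a13cw.getD i [] ++ [0]) = a13ev ([28 + i] ++ a13cw.getD i [])) ∧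
    ∀ i < 11, ∀ j < 11, i ≠ j → a13ev [28 + i, 28 + j] = a13ev [28 + j, 28 + j, 28 + i, 28 + i] := by decide +kernel

theorem a13_cl {g : ℕ → Γ} (W : WM g a13ev) (h : kr (g 0) ⊓ kr (g 10) = kr (g 11) ⊓ kr (g 12)) :
    kr (g 0) ⊓ kr (g 10) = ⊥ := by
  obtain ⟨r1, r2, r3, r4⟩ := a13_rel
  have cm : ∀ {i j}, a13ev [i, j] = a13ev [j, i] → Commute (g i) (g j) := fun h => by
    simpa [commute_iff_eq] using W _ _ h
  obtain ⟨U, hU⟩ : ∃ U, U = kr (g 0) ⊓ kr (g 10) := ⟨_, rfl⟩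
  rw [← hU]
  let M : Subgroup Γ := subOfFin
    { carrier := {x | Iv (ρV x) U}
      one_mem' := fun v hv => by simpa using hv
      mul_mem' := fun {a b} ha hb v hv => by simpa using ha _ (hb v hv) }
  have h1 : ∀ j < 10, g j ∈ M := fun j hj => by
    change Iv (ρV (g j)) U
    rcases lt_or_ge j 5 with h5 | h5
    · rw [hU, h]
      exact (iv_kr (cm (r1 j h5 _ (by simp)))).inf (iv_kr (cm (r1 j h5 _ (by simp))))
    · rw [hU]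
      exact (iv_kr (cm (r2 j hj h5 _ (by simp)))).inf (iv_kr (cm (r2 j hj h5 _ (by simp))))
  have h2 : ∀ i < 11, g (28 + i) ∈ M ∧ U ≤ kr (g (28 + i)) := fun i hi => by
    have e := W.conj (r3 i hi).2
    have m : wp g (a13cw.getD i []) ∈ M := wp_mem g fun j hj => h1 j ((r3 i hi).1 j hj)
    simp only [wp_cons, wp_nil, mul_one] at e
    rw [← e]
    refine ⟨mul_mem (mul_mem m (h1 0 (by omega))) (inv_mem m), fun v hv => ?_⟩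
    have := congrArg (ρV (wp g (a13cw.getD i [])) *ᵥ ·) (mem_kr.1 (hU ▸ (inv_mem m : _ ∈ M) v hv).1)
    simpa [mem_kr, mulVec_add, ← mul_mulVec', ← map_mul, mul_assoc] using this
  have h3 := cliff13 (W := U) (fun i => if hi : i < 11 then (toLin' (ρV (g (28 + i)))).restrict (h2 i hi).1 else 0)
    (fun i hi => by
      simp only [dif_pos hi]
      exact LinearMap.ext fun v => Subtype.ext (mem_kr.1 ((h2 i hi).2 v.2)))
    fun i hi j hj hij => by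
      simp only [dif_pos hi, dif_pos hj]
      refine LinearMap.ext fun v => Subtype.ext ?_
      have := congrArg (fun x => ρV x *ᵥ v.1) (W _ _ (r4 i hi j hj hij))
      simp only [wp_cons, wp_nil, mul_one, map_mul, mul_mulVec'] at this
      exact this
  have h4 := dm_le U
  rw [card_W] at h4
  exact dm_eq_zero.1 (Nat.eq_zero_of_dvd_of_lt h3 (h4.trans_lt (by norm_num)))

theorem a13_ar {m0 m1 m2 m3 m4 f1 f2 f3 f4 : ℕ} (e0 : 56 = m0 + 8 * m1 + 24 * m2 + 32 * m3 + 16 * m4)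
    (e1 : f1 = m0 + 6 * m1 + 12 * m2 + 8 * m3) (e2 : f2 = m0 + 4 * m1 + 6 * m2 + 8 * m3 + 8 * m4)
    (e3 : f3 = m0 + 2 * m1 + 6 * m2 + 14 * m3 + 4 * m4) (e4 : f4 = m0 + 12 * m2 + 8 * m3 + 6 * m4)
    (h1 : f1 = 2 ∨ f1 = 14 ∨ f1 = 20 ∨ f1 = 32) (h2 : f2 = 2 ∨ f2 = 14 ∨ f2 = 20 ∨ f2 = 32)
    (h3 : f3 = 2 ∨ f3 = 14 ∨ f3 = 20 ∨ f3 = 32) (h4 : f4 = 2 ∨ f4 = 14 ∨ f4 = 20 ∨ f4 = 32)
    (h5 : m2 = 0 → m3 = 0 → m4 = 0) (h6 : f4 ≤ 24) : (f1 = 20 ∧ f2 = 14) ∨ (f1 = 14 ∧ f2 = 20) := by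
  have : m2 ≤ 2 := by omega
  have : m3 ≤ 1 := by omega
  have : m4 ≤ 3 := by omega
  have : m1 ≤ 7 := by omega
  interval_cases m2 <;> interval_cases m3 <;> interval_cases m4 <;> interval_cases m1 <;> omega

theorem a13 {g : ℕ → Γ} (W : WM g a13ev) (N : ∀ v, (∃ i < 13, dg 4 (a13ev v) i % 13 ≠ i) → wp g v ≠ 1) : False := by
  obtain ⟨M, L⟩ := W.lab (by norm_num) a13_lab
  have e0 := L.tot (cs := [1, 8, 24, 32, 16]) (by decide +kernel)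
  obtain ⟨_, e1, e1'⟩ := L.three [1, 0, 0, 0] (N _ (by decide +kernel)) (cs := [1, 6, 12, 8, 0]) (by decide +kernel)
  obtain ⟨_, e2, e2'⟩ := L.three [1, 1, 0, 0] (N _ (by decide +kernel)) (cs := [1, 4, 6, 8, 8]) (by decide +kernel)
  obtain ⟨_, e3, e3'⟩ := L.three [1, 1, 1, 0] (N _ (by decide +kernel)) (cs := [1, 2, 6, 14, 4]) (by decide +kernel)
  obtain ⟨_, e4, e4'⟩ := L.three [1, 1, 1, 1] (N _ (by decide +kernel)) (cs := [1, 0, 12, 8, 6]) (by decide +kernel)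
  have f1 := L.fd [1, 0, 0, 0] (cs := [1, 6, 12, 8, 0]) (by decide +kernel)
  have f2 := L.fd [1, 1, 0, 0] (cs := [1, 4, 6, 8, 8]) (by decide +kernel)
  have f4 := L.fd [1, 1, 1, 1] (cs := [1, 0, 12, 8, 6]) (by decide +kernel)
  obtain ⟨M', L'⟩ := W.lab (by norm_num) a13_lab'
  have k0 := L'.tot (cs := [1, 4, 4, 4, 4, 16, 32, 32, 16, 32, 4, 16, 16, 16, 8, 8, 4, 8]) (by decide +kernel)
  have k1 := L'.fd [0, 3] (cs := [1, 0, 0, 4, 0, 16, 0, 0, 16, 0, 4, 0, 0, 0, 0, 0, 4, 0]) (by decide +kernel)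
  have k2 := L'.fd [10, 0] (cs := [1, 4, 4, 2, 4, 8, 0, 0, 0, 0, 4, 16, 16, 16, 0, 0, 0, 0]) (by decide +kernel)
  have k3 := L'.fd [10, 1] (cs := [1, 0, 0, 0, 0, 0, 0, 0, 8, 0, 4, 0, 0, 0, 0, 0, 2, 0]) (by decide +kernel)
  have k4 := L'.fd [6, 0] (cs := [1, 4, 4, 4, 4, 0, 0, 0, 0, 0, 0, 0, 0, 0, 8, 8, 4, 8]) (by decide +kernel)
  rw [W _ [] (by decide +kernel), wp_nil, map_one, fd_one, card_W] at k1
  rw [W _ (pwW [[0], [10], [11], [12]] [1, 0, 0, 0]) (by decide +kernel), f1] at k2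
  rw [W _ (pwW [[0], [10], [11], [12]] [1, 1, 0, 0]) (by decide +kernel), f2] at k3
  rw [five (by rw [← wp_rp]; exact W _ [] (by decide +kernel)) (N _ (by decide +kernel))] at k4
  have s1 := scottW (g := g) (i := 22) (j := 23) (k := 24)
    (by simpa [mul_assoc] using W [22, 23, 24] [] (by decide +kernel)) (w := [22, 22, 23]) (by decide)
  have s2 := f13 (g := wp g [22, 22, 23]) (by rw [← wp_rp]; exact W _ [] (by decide +kernel)) (N _ (by decide +kernel))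
  have s3 := (W.fd [25] (w := [22]) (by decide +kernel)).trans f4
  have s4 := (W.fd [26] (w := [23]) (by decide +kernel)).trans f4
  have s5 := (W.fd [27] (w := [24]) (by decide +kernel)).trans f4
  have key : M 2 = 0 → M 3 = 0 → M 4 = 0 := fun h2 h3 => by
    have st : ∀ as ∈ [[[1, 0, 0, 0], [0, 1, 0, 0], [0, 0, 1, 0]], [[1, 0, 0, 0], [0, 1, 0, 0], [0, 0, 0, 1]],
        [[0, 0, 1, 0], [0, 0, 0, 1], [1, 0, 0, 0]], [[0, 0, 1, 0], [0, 0, 0, 1], [0, 1, 0, 0]]],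
        ∀ i < 3, ∀ j < 3, i ≠ 0 → j ≠ 0 →
          mm 3 (as.map fun a => wp g (pwW [[0], [10], [11], [12]] a)) [i, j, 0] = 0 := fun as ha i hi j hj h0 h1 => by
      rw [L.eqW as _ (cs := [0, 0, 1, 2, 0]) (by revert as i j; decide +kernel)]
      simp [sum_range_succ, h2, h3]
    simp only [List.forall_mem_cons, List.map_cons, List.map_nil, pwW, wp_append, wp_rp, wp_cons, wp_nil, pow_zero,
      pow_one, mul_one, one_mul] at st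
    have ea : ∀ ws ∈ [[[0], [10], [11]], [[0], [10], [12]], [[11], [12], [0]], [[11], [12], [10]], [[0], [10]]],
        EA 3 (ws.map (wp g)) := fun ws h => W.ea (by norm_num) (by revert ws; decide +kernel)
    simp only [List.forall_mem_cons, List.map_cons, List.map_nil, wp_cons, wp_nil, mul_one] at ea
    have h4 := star2 ea.2.2.2.2.1 (a13_cl W (le_antisymm (le_inf (star ea.1 st.1) (star ea.2.1 st.2.1))
      (le_inf (star ea.2.2.1 st.2.2.1) (star ea.2.2.2.1 st.2.2.2.1))))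
    have h5 := L.eqW [[1, 0, 0, 0], [0, 1, 0, 0]] [1, 1] (cs := [0, 0, 1, 4, 4]) (by decide +kernel)
    simp [pwW, h4, sum_range_succ] at h5
    clear * - h5
    omega
  simp only [List.length_cons, List.length_nil, sum_range_succ, sum_range_zero, List.getD_cons_succ,
    List.getD_cons_zero, wp_cons, wp_nil, mul_one] at e0 e1 e2 e3 e4 k0 k1 k2 k3 k4 s1 s2 s3 s4 s5
  have h := a13_ar (m0 := M 0) (m1 := M 1) (m2 := M 2) (m3 := M 3) (m4 := M 4) (by clear * - e0; omega)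
    (by clear * - e1; omega) (by clear * - e2; omega) (by clear * - e3; omega) (by clear * - e4; omega) e1' e2' e3' e4'
    key (by clear * - e4 s1 s2 s3 s4 s5; omega)
  have h' : M' 1 = 0 ∧ M' 2 = 0 ∧ M' 4 = 0 ∧ M' 11 = 0 ∧ M' 12 = 0 ∧ M' 13 = 0 ∧ M' 14 = 0 ∧ M' 15 = 0 ∧ M' 17 = 0 := by
    clear * - k0 k1
    omega
  rw [← e1] at k2
  rw [← e2] at k3
  clear * - h h' k1 k2 k3 k4
  omega

theorem no_A13 (ψ : alternatingGroup (Fin 13) →* Γ) : ¬Function.Injective ψ := fun hψ => by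
  let j : alternatingGroup (Fin 13) →* Function.End (Fin 13) := MulAction.toEndHom
  have hj : Function.Injective j := fun a b h => Subtype.ext (Equiv.ext (congrFun h))
  have M := pmdl (π := .id _) hj T13_mul T13_one (vb := fun _ => false) (by simp) (zc := fun _ => 3582863703552528)
    (fun _ => ⟨1, j.map_one.trans T13_one.symm, rfl⟩) fun _ => 0
  have hX := pv_lev T13_mul T13_one (j := j) (X := H4.BP.gt [3582863703552033, 3582863703540273, 3582863703290433, 3582863698309713, 3582863602889313, 3582861824504433,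
    3582829343814273, 3582245228262033, 3571868587274913, 3389349657064113, 205163983024833] 3582863703552528)
    (gt_all (fun a ha => by
      have h := congrArg T13 (show pm13 a (pm13 a a) = 3582863703552528 by revert a; decide +kernel)
      rw [T13_mul, T13_mul, T13_one] at h
      let σ : Equiv.Perm (Fin 13) := ⟨T13 a, T13 a * T13 a, congrFun h, congrFun h⟩
      have h1 := congrArg Equiv.Perm.sign (show σ * (σ * σ) = 1 from Equiv.ext (congrFun h))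
      exact ⟨⟨σ, by simpa using h1⟩, rfl⟩) ⟨1, j.map_one.trans T13_one.symm⟩) (l := a13L) (by decide +kernel)
  refine a13 (wm_of M hX ψ) fun v ⟨i, hi, hv⟩ e => hv ?_
  rw [← map_wp, map_eq_one_iff ψ hψ, ← (evw_spec M hX v).2] at e
  obtain ⟨s, hs⟩ := (evw_spec M hX v).1
  rw [Pφ_eq hj hs] at e
  rw [show s = 1 from e, map_one] at hs
  exact (congrArg Fin.val (congrFun hs ⟨i, hi⟩)).symm

end Cfsg.Agent.H6.Va
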