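import Cfsg.Agent.H6.Vh
import Cfsg.Agent.H5.Core

/-!
Maximal subgroups of `E₇(2)` with a self-centralising normal subgroup.
-/

set_option autoImplicit false
set_option linter.unusedSectionVars false
set_option linter.unusedSimpArgs false

namespace Cfsg.Agent.H6.Va

open Matrix Module Cfsg.Agent.H6.E7 Cfsg.Agent.H7.Ord Cfsg.Lie
open Cfsg.Agent.H7.Inq hiding F
open scoped Pointwise

attribute [-simp] zsmul_eq_mul Matrix.mulVec_mulVec
attribute [local simp] mul_mulVec'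

section fstar
variable {G : Type*} [Group G]

theorem qs_equiv {A B : Type*} [Group A] [Group B] (e : A ≃* B) (h : IsQuasisimple A) : IsQuasisimple B := by
  obtain ⟨h1, h2⟩ := h
  refine ⟨.ofSurjective (f := e.toMonoidHom) e.surjective, (QuotientGroup.congr (Subgroup.center A) _ e ?_).symm.isSimpleGroup⟩
  ext x
  simp only [Subgroup.mem_map, Subgroup.mem_center_iff]
  refine ⟨?_, fun h => ⟨e.symm x, fun g => e.injective (by simp [h]), by simp⟩⟩
  rintro ⟨y, hy, rfl⟩ g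
  obtain ⟨g, rfl⟩ := e.surjective g
  exact (map_mul e ..).symm.trans ((congrArg e (hy g)).trans (map_mul e ..))

theorem gf_normal : (generalizedFittingSubgroup G).Normal := by
  have h1 : (layer G).Normal := ⟨fun n hn g => by
    refine (show layer G ≤ (layer G).comap (MulAut.conj g).toMonoidHom from sSup_le fun K hK x hx => ?_) hn
    exact le_sSup (s := {K : Subgroup G | IsComponent K}) (a := K.map (MulAut.conj g).toMonoidHom)
      ⟨hK.1.map (MulAut.conj g).surjective, qs_equiv ((MulAut.conj g).subgroupMap K) hK.2⟩ ⟨x, hx, rfl⟩⟩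
  have h2 : (fittingSubgroup G).Normal := Subgroup.sSup_normal _ fun _ h => h.1
  exact Subgroup.sup_normal _ _

open H5.Core in
theorem gf_cent [Finite G] (hZ : ∀ z ∈ generalizedFittingSubgroup G,
    (∀ s ∈ generalizedFittingSubgroup G, s * z = z * s) → z = 1) {m : G}
    (hm : ∀ s ∈ generalizedFittingSubgroup G, s * m = m * s) : m = 1 := by
  by_contra h0
  have := gf_normal (G := G)
  obtain ⟨K, hK⟩ := (Set.toFinite {K : Subgroup G | K.IsSubnormal ∧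
    K ≤ Subgroup.centralizer (generalizedFittingSubgroup G : Set G) ∧ K ≠ ⊥}).exists_minimal
    ⟨_, Subgroup.Normal.isSubnormal inferInstance, le_rfl, fun h => h0 (h.le hm)⟩
  obtain ⟨h1, h2, h3⟩ := hK.prop
  have h4 : Nontrivial K := (Subgroup.nontrivial_iff_ne_bot K).2 h3
  have h5 : IsSimpleGroup K := ⟨fun N hN => or_iff_not_imp_left.2 fun h => eq_top_iff.2 fun x _ => by
    obtain ⟨y, hy, e⟩ := hK.le_of_le ⟨hN.isSubnormal.trans' h1, (Subgroup.map_subtype_le N).trans h2,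
      by rwa [Ne, Subgroup.map_eq_bot_iff_of_injective _ K.subtype_injective]⟩ (Subgroup.map_subtype_le N) x.2
    rwa [← Subtype.ext e]⟩
  refine h3 (eq_bot_iff.2 fun x hx => hZ x ((?_ : K ≤ _) hx) (h2 hx))
  by_cases hc : IsMulCommutative K
  · have := Fact.mk (@IsSimpleGroup.prime_card K { mul_comm := hc.1.1 } h5)
    exact (subnormal_le_Opi h1 (isPi_singleton_iff.2 (IsPGroup.of_card (pow_one _).symm))).trans
      (le_sup_of_le_right (le_sSup ⟨inferInstance, (isPi_singleton_iff.1 isPi_Opi).isNilpotent⟩))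
  · have h6 : Subgroup.center K = ⊥ := (h5.eq_bot_or_eq_top_of_normal _ inferInstance).resolve_right fun h =>
      hc ⟨⟨fun a b => Subgroup.mem_center_iff.1 (h.ge trivial : b ∈ _) a⟩⟩
    refine le_sup_of_le_left (le_sSup ⟨h1, ⟨(h5.eq_bot_or_eq_top_of_normal _ inferInstance).resolve_left fun h =>
      hc ⟨⟨fun a b => commutatorElement_eq_one_iff_mul_comm.1 (h.le (Subgroup.commutator_mem_commutator trivial trivial))⟩⟩⟩,
      ((QuotientGroup.quotientMulEquivOfEq h6).trans QuotientGroup.quotientBot).isSimpleGroup⟩)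

/-- a maximal subgroup with a self-centralising normal subgroup -/
structure Mx (S M : Subgroup G) : Prop where
  co : IsCoatom M
  le : S ≤ M
  nm : ∀ m ∈ M, ∀ s ∈ S, m * s * m⁻¹ ∈ S
  ct : ∀ m ∈ M, (∀ s ∈ S, s * m = m * s) → m = 1

theorem empty_of_mx' {A T : Type*} [Group A] [Group T] [Finite G] (f : A ≃* G) (hZ : ∀ z : T, (∀ t, t * z = z * t) → z = 1)
    (h : ∀ ψ : T →* G, Function.Injective ψ → ∀ M, ¬Mx ψ.range M) {H : Subgroup A} (hH : IsCoatom H) :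
    IsEmpty (generalizedFittingSubgroup H ≃* T) := ⟨fun e => by
  have := Finite.of_equiv _ f.symm.toEquiv
  have := gf_normal (G := H)
  refine h (f.toMonoidHom.comp (H.subtype.comp ((Subgroup.subtype _).comp e.symm.toMonoidHom)))
    (f.injective.comp (H.subtype_injective.comp ((Subgroup.subtype_injective _).comp e.symm.injective)))
    (H.map f.toMonoidHom) ⟨(f.mapSubgroup.isCoatom_iff H).2 hH, ?_, ?_, ?_⟩
  · rintro _ ⟨t, rfl⟩
    exact ⟨_, (e.symm t).1.2, rfl⟩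
  · rintro _ ⟨m, hm, rfl⟩ _ ⟨t, rfl⟩
    exact ⟨e ⟨_, this.conj_mem _ (e.symm t).2 ⟨m, hm⟩⟩, by simp⟩
  · rintro _ ⟨m, hm, rfl⟩ h1
    have := gf_cent (m := (⟨m, hm⟩ : H)) (fun z hz h2 => congrArg Subtype.val (e.injective
      ((hZ (e ⟨z, hz⟩) fun t => by
        obtain ⟨t, rfl⟩ := e.surjective t
        rw [← map_mul, ← map_mul, show t * ⟨z, hz⟩ = ⟨z, hz⟩ * t from Subtype.ext (h2 t t.2)]).trans
          e.map_one.symm))) fun s hs => Subtype.ext (f.injective (by simpa using h1 _ ⟨e ⟨s, hs⟩, rfl⟩))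
    rw [show m = 1 from congrArg Subtype.val this, map_one]⟩

end fstar

theorem empty_of_mx {T : Type*} [Group T] (hZ : ∀ z : T, (∀ t, t * z = z * t) → z = 1)
    (h : ∀ ψ : T →* Γ, Function.Injective ψ → ∀ M, ¬Mx ψ.range M) {H : Subgroup (chevE7.group F)} (hH : IsCoatom H) :
    IsEmpty (generalizedFittingSubgroup H ≃* T) := exists_iso.elim fun f => @empty_of_mx' _ (Subgroup.toGroup _) _ _ (Subgroup.toGroup _) _ _ f hZ h _ hH

section frat
variable {G : Type*} [Group G] {S M : Subgroup G} {a u l x y z m : G}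

/-- conjugates of powers -/
def In (a x y : G) : Prop := ∃ j e : ℕ, y = a ^ j * x ^ e * (a ^ j)⁻¹

/-- commuting conjugates -/
def Cc (a x : G) : Prop := x ^ 3 = 1 ∧ ∀ j : ℕ, Commute x (a ^ j * x * (a ^ j)⁻¹)

theorem conj_cj (h : Commute m a) (j : ℕ) (x : G) :
    m * (a ^ j * x * (a ^ j)⁻¹) * m⁻¹ = a ^ j * (m * x * m⁻¹) * (a ^ j)⁻¹ := by
  rw [← mul_assoc m, ← mul_assoc m, (h.pow_right j).eq, mul_assoc _ _ m⁻¹, (h.pow_right j).inv_inv.symm.eq]
  simp only [mul_assoc]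

theorem Cc.conj (h : Commute m a) (hx : Cc a x) : Cc a (m * x * m⁻¹) :=
  ⟨by rw [conj_pow, hx.1]; simp, fun j => conj_cj h j x ▸ (hx.2 j).map (MulAut.conj m)⟩

theorem In.conj (h : Commute m a) (hx : In a x y) : In a (m * x * m⁻¹) (m * y * m⁻¹) := by
  obtain ⟨j, e, rfl⟩ := hx
  exact ⟨j, e, by rw [conj_cj h, conj_pow]⟩

theorem In.refl (a x : G) : In a x x := ⟨0, 1, by simp⟩

theorem In.trans (h : In a x y) (h' : In a y z) : In a x z := by
  obtain ⟨j, e, rfl⟩ := h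
  obtain ⟨i, d, rfl⟩ := h'
  exact ⟨i + j, e * d, by rw [conj_pow, pow_add, pow_mul]; group⟩

theorem In.comm (ha : a ^ 13 = 1) (hx : Cc a x) (h : In a x y) (h' : In a x z) : Commute y z := by
  obtain ⟨j, e, rfl⟩ := h
  obtain ⟨i, d, rfl⟩ := h'
  have h1 : a ^ i = a ^ j * a ^ (i + 12 * j) := by
    rw [← pow_add, show j + (i + 12 * j) = i + 13 * j by ring, pow_add, pow_mul, ha, one_pow, mul_one]
  rw [h1, ← conj_pow, ← conj_pow, _root_.mul_inv_rev]
  simpa only [MulAut.conj_apply, mul_assoc] using ((hx.2 (i + 12 * j)).map (MulAut.conj (a ^ j))).pow_pow e d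

/-- the configuration -/
structure Cfg (S : Subgroup G) (a u l : G) : Prop where
  ha : a ∈ S
  hu : u ∈ S
  hl : l ∈ S
  a13 : a ^ 13 = 1
  a1 : a ≠ 1
  cu : Cc a u
  cl : Cc a l
  nc : ¬Commute u l
  X : ∀ x ∈ S, Cc a x → In a u x ∨ In a l x
  Y : ∀ y, In a l y → y ≠ 1 →
    (∀ i n : ℕ, (a ^ i * u * (a ^ i)⁻¹ * l) ^ n = 1 → (a ^ i * u * (a ^ i)⁻¹ * y) ^ n = 1) → y = l
  gen : ∀ P : Subgroup G, a ∈ P → u ∈ P → l ∈ P → S ≤ P

theorem conj_comm (h : Commute (m * x * m⁻¹) (m * y * m⁻¹)) : Commute x y := by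
  simpa [mul_assoc] using h.map (MulAut.conj m⁻¹)

theorem Cfg.one (c : Cfg S a u l) (x : Mx S M) (hm : m ∈ M) (h1 : Commute m a) (h2 : Commute m u) : m = 1 := by
  have h3 : m * u * m⁻¹ = u := by rw [h2.eq, mul_inv_cancel_right]
  have h4 := (c.X _ (x.nm m hm l c.hl) (c.cl.conj h1)).resolve_left fun h =>
    c.nc (conj_comm (h3.symm ▸ (In.refl a u).comm c.a13 c.cu h))
  have h5 := c.Y _ h4 (fun h => c.nc (conj_eq_one_iff.1 h ▸ Commute.one_right u)) fun i n h => by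
    rw [← h3, ← conj_cj h1, conj_mul, conj_pow, h]; simp
  exact x.ct m hm fun s hs => Subgroup.mem_centralizer_singleton_iff.1 (c.gen (Subgroup.centralizer {m})
    (Subgroup.mem_centralizer_singleton_iff.2 h1.symm) (Subgroup.mem_centralizer_singleton_iff.2 h2.symm)
    (Subgroup.mem_centralizer_singleton_iff.2 (mul_inv_eq_iff_eq_mul.1 h5).symm) hs)

theorem Cfg.four (c : Cfg S a u l) (x : Mx S M) (hm : m ∈ M) (h1 : Commute m a) : m ^ 4 ∈ S := by
  have key : ∀ m ∈ M, Commute m a → In a u (m * u * m⁻¹) → m ^ 2 ∈ S := fun m hm h1 ⟨j, e, h⟩ => by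
    have h2 : (a ^ j)⁻¹ * m * u = u ^ e * ((a ^ j)⁻¹ * m) := by
      rw [mul_assoc, mul_inv_eq_iff_eq_mul.1 h]; group
    have h3 : u ^ e ^ 2 = u := by
      have : e % 3 ≠ 0 := fun h0 => by
        rw [pow_eq_pow_mod e c.cu.1, h0, pow_zero, one_mul, mul_eq_left] at h2
        exact c.nc (h2 ▸ Commute.one_left l)
      rw [pow_eq_pow_mod _ c.cu.1, Nat.pow_mod, show (e % 3) ^ 2 % 3 = 1 by
        rcases (by omega : e % 3 = 1 ∨ e % 3 = 2) with h | h <;> simp [h], pow_one]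
    have h4 := c.one x (pow_mem (mul_mem (inv_mem (pow_mem (x.le c.ha) j)) hm) 2)
      ((((Commute.refl a).pow_left j).inv_left.mul_left h1).pow_left 2)
      (mul_inv_eq_iff_eq_mul.1 ((conj_pow_pow h2 2).trans h3))
    rw [(h1.pow_right j).symm.inv_left.mul_pow, inv_pow, inv_mul_eq_one] at h4
    exact h4 ▸ pow_mem (pow_mem c.ha j) 2
  rw [show m ^ 4 = (m ^ 2) ^ 2 by rw [← pow_mul]]
  rcases c.X _ (x.nm m hm u c.hu) (c.cu.conj h1) with h | h
  · exact pow_mem (key m hm h1 h) 2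
  · have h2 := (c.X _ (x.nm m hm l c.hl) (c.cl.conj h1)).resolve_right fun h' => c.nc (conj_comm (h.comm c.a13 c.cl h'))
    exact key _ (pow_mem hm 2) (h1.pow_left 2) (by simpa [pow_two, mul_assoc] using h2.trans (h.conj h1))

theorem Cfg.card [Finite G] (c : Cfg S a u l) (x : Mx S M) : Nat.card M ≤ Nat.card S * 78 := by
  let f : Fin 13 × Fin 3 × Bool → G := fun p => a ^ p.1.1 * (if p.2.2 then u else l) ^ p.2.1.1 * (a ^ p.1.1)⁻¹
  have h1 : ∀ m : (Subgroup.centralizer {a}).subgroupOf M, ∃ p, f p = m.1.1 * u * m.1.1⁻¹ := fun m => by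
    rcases c.X _ (x.nm _ m.1.2 u c.hu) (c.cu.conj (Subgroup.mem_centralizer_singleton_iff.1 m.2)) with
      ⟨j, e, h⟩ | ⟨j, e, h⟩
    · exact ⟨(⟨j % 13, by omega⟩, ⟨e % 3, by omega⟩, true), by
        rw [h, pow_eq_pow_mod j c.a13, pow_eq_pow_mod e c.cu.1]; rfl⟩
    · exact ⟨(⟨j % 13, by omega⟩, ⟨e % 3, by omega⟩, false), by
        rw [h, pow_eq_pow_mod j c.a13, pow_eq_pow_mod e c.cl.1]; rfl⟩
  choose g hg using h1
  have h2 := Nat.card_le_card_of_injective g fun m m' h => Subtype.ext (Subtype.ext (inv_mul_eq_one.1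
    (c.one x (m⁻¹ * m').1.2 (Subgroup.mem_centralizer_singleton_iff.1 (m⁻¹ * m').2) (by
      have := (hg m).symm.trans (h ▸ hg m')
      change m.1.1⁻¹ * m'.1.1 * u = u * (m.1.1⁻¹ * m'.1.1)
      rw [mul_assoc, ← inv_mul_cancel_right (m'.1.1 * u) m'.1.1, ← this]; group))))
  have h3 := Nat.card_le_card_of_injective (β := S) (Quotient.lift (s := QuotientGroup.leftRel
    ((Subgroup.centralizer {a}).subgroupOf M)) (fun m => ⟨_, x.nm _ m.2 a c.ha⟩) fun m m' h => Subtype.ext (by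
      have : m.1⁻¹ * m'.1 * a = a * (m.1⁻¹ * m'.1) :=
        Subgroup.mem_centralizer_singleton_iff.1 (QuotientGroup.leftRel_apply (s := Subgroup.subgroupOf _ M) |>.1 h)
      change m.1 * a * m.1⁻¹ = m'.1 * a * m'.1⁻¹
      rw [← mul_inv_cancel_left m.1 (m'.1 * a), ← mul_assoc m.1⁻¹, this]; group))
    (Quotient.ind₂ fun m m' h => Quotient.sound (QuotientGroup.leftRel_apply.2
      (Subgroup.mem_centralizer_singleton_iff.2 (by
        have : m.1 * a * m.1⁻¹ = m'.1 * a * m'.1⁻¹ := congrArg Subtype.val h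
        change m.1⁻¹ * m'.1 * a = a * (m.1⁻¹ * m'.1)
        rw [mul_assoc, ← inv_mul_cancel_right (m'.1 * a) m'.1, ← this]; group))))
  rw [Subgroup.card_eq_card_quotient_mul_card_subgroup ((Subgroup.centralizer {a}).subgroupOf M)]
  exact Nat.mul_le_mul h3 (by simpa using h2)

theorem Cfg.frat [Finite G] (c : Cfg S a u l) (x : Mx S M) (h : ¬13 ^ 2 ∣ Nat.card G) (hm : m ∈ M) :
    ∃ s ∈ S, ∃ k : ℕ, s * m * a = a ^ k * (s * m) := by
  have := Fact.mk (show Nat.Prime 13 by norm_num)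
  have h1 : orderOf (⟨a, c.ha⟩ : S) = 13 := orderOf_eq_prime (Subtype.ext c.a13) fun h => c.a1 (congrArg Subtype.val h)
  obtain ⟨P, hP⟩ := exists_sylow (p := 13) (n := 1) (Subgroup.zpowers (⟨a, c.ha⟩ : S)).subtype Subtype.val_injective
    (by simp [h1]) fun h2 => h (h2.trans S.card_subgroup_dvd_card)
  obtain ⟨s, hs⟩ := conj_mem P (g := ⟨_, x.nm m hm a c.ha⟩) (Subtype.ext (by simp [conj_pow, c.a13]))
  rw [hP, Subgroup.range_subtype, ← mem_powers_iff_mem_zpowers] at hs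
  obtain ⟨k, hk⟩ := hs
  exact ⟨s, s.2, k, by rw [show a ^ k = s * (m * a * m⁻¹) * s.1⁻¹ from congrArg Subtype.val hk]; group⟩

end frat

section fix
variable {S M : Subgroup Γ} {a u l : Γ}

/-- the action on the module -/
@[reducible] noncomputable def actV : MulAction Γ (Wt → F) where
  smul g v := ρV g *ᵥ v
  one_smul v := by change ρV 1 *ᵥ v = v; simp
  mul_smul g h v := by change ρV (g * h) *ᵥ v = ρV g *ᵥ ρV h *ᵥ v; simp

theorem card_le_of {G α β : Type*} [Group G] [Finite G] [MulAction G α] [Finite β] {M : Subgroup G} (hM : IsCoatom M)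
    {x : α} (h : M ≤ MulAction.stabilizer G x) (h' : MulAction.stabilizer G x ≠ ⊤) (f : β → α)
    (hf : ∀ g : G, ∃ b, f b = g • x) : Nat.card G ≤ Nat.card β * Nat.card M := by
  rw [← M.index_mul_card, (hM.le_iff.1 h).resolve_left h' |>.symm, MulAction.index_stabilizer]
  refine Nat.mul_le_mul_right _ ((Set.ncard_le_ncard (t := Set.range f) ?_).trans ?_)
  · rintro _ ⟨g, rfl⟩
    exact hf g
  · rw [← Set.image_univ, ← Set.ncard_univ]
    exact Set.ncard_image_le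

theorem card_V : Nat.card (Wt → F) = 2 ^ 56 := by simp [card_W]

theorem ρV_cancel (g : Γ) {v w : Wt → F} (h : ρV g *ᵥ v = ρV g *ᵥ w) : v = w := by
  simpa [← mul_mulVec', ← map_mul] using congrArg (ρV g⁻¹ *ᵥ ·) h

theorem card_fix (hM : IsCoatom M) {v : Wt → F} (hv : v ≠ 0) (h : ∀ m ∈ M, ρV m *ᵥ v = v) :
    Nat.card Γ ≤ 2 ^ 56 * Nat.card M := by
  let _ := actV
  obtain ⟨c, hc⟩ := no_fix
  exact card_V ▸ card_le_of hM (x := v) h (fun e => hv (hc v (e.ge trivial : _ ∈ MulAction.stabilizer Γ v))) id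
    fun g => ⟨_, rfl⟩

theorem card_fix2 (hM : IsCoatom M) {v w : Wt → F} (hv : v ≠ 0)
    (h : ∀ m ∈ M, ∀ z ∈ ({v, w, v + w} : Set (Wt → F)), ρV m *ᵥ z ∈ ({v, w, v + w} : Set (Wt → F))) :
    Nat.card Γ ≤ 2 ^ 112 * Nat.card M := by
  let _ := actV
  obtain ⟨c, hc⟩ := no_fix
  have := card_le_of hM (x := ({v, w, v + w} : Set (Wt → F))) (fun m hm =>
    (MulAction.mem_stabilizer_set_iff_smul_set_subset (Set.toFinite _)).2 (by
      rintro _ ⟨z, hz, rfl⟩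
      exact h m hm z hz)) (fun e => hv (hc v ?_)) (fun p : (Wt → F) × (Wt → F) => {p.1, p.2, p.1 + p.2})
    fun g => ⟨(ρV g *ᵥ v, ρV g *ᵥ w), by
      rw [Set.smul_set_insert, Set.smul_set_insert, Set.smul_set_singleton, ← mulVec_add]; rfl⟩
  · rwa [Nat.card_prod, card_V, ← pow_add] at this
  have h1 : ∀ g : Γ, ρV g *ᵥ v = v ∨ ρV g *ᵥ v = w ∨ ρV g *ᵥ v = v + w := fun g =>
    (e.ge trivial : g ∈ MulAction.stabilizer Γ _).le (Set.smul_mem_smul_set (.inl rfl))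
  have h2 := h1 c
  have h3 := h1 (c * c)
  have h4 := h1 (c * (c * c))
  have h5 := fun v w => ρV_cancel c (v := v) (w := w)
  simp only [pow_succ, pow_zero, one_mul, map_mul, mul_mulVec'] at h3 h4 ⊢
  generalize v + w = z at *
  grind

/-- the fixed space of a subgroup -/
noncomputable def fS (S : Subgroup Γ) : Submodule F (Wt → F) := ⨅ s ∈ S, fx (ρV s)

theorem mem_fS {v : Wt → F} : v ∈ fS S ↔ ∀ s ∈ S, ρV s *ᵥ v = v := by simp [fS, mem_fx]

theorem Mx.iv (x : Mx S M) {m : Γ} (hm : m ∈ M) {v : Wt → F} (hv : v ∈ fS S) : ρV m *ᵥ v ∈ fS S :=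
  mem_fS.2 fun s hs => by
    have := mem_fS.1 hv _ (x.nm _ (inv_mem hm) s hs)
    rw [inv_inv, map_mul, map_mul, mul_mulVec', mul_mulVec'] at this
    exact ρV_cancel m⁻¹ (by rw [this, ← mul_mulVec', ← map_mul]; simp)

theorem Cfg.fix (c : Cfg S a u l) (x : Mx S M) (h : fS S ≠ ⊥) : ∃ v ∈ fS S, v ≠ 0 ∧
    ∀ n ∈ M, ∀ k : ℕ, n * a = a ^ k * n → k ^ 4 % 13 = 1 → ρV n *ᵥ v = v := by
  let N : Subgroup M :=
    { carrier := {n | ∃ k : ℕ, n.1 * a = a ^ k * n.1 ∧ k ^ 4 % 13 = 1}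
      one_mem' := ⟨1, by simp⟩
      mul_mem' := fun {m n} ⟨j, h1, h2⟩ ⟨k, h3, h4⟩ => ⟨j * k, by
        rw [Subgroup.coe_mul, mul_assoc, h3, ← mul_assoc, ← mul_assoc, pow_mul, ← mul_inv_eq_iff_eq_mul.2 h1, conj_pow,
          inv_mul_cancel_right], by rw [mul_pow, Nat.mul_mod, h2, h4]⟩
      inv_mem' := fun {n} ⟨k, h1, h2⟩ => ⟨k ^ 3, by
        rw [Subgroup.coe_inv, eq_mul_inv_iff_mul_eq, mul_assoc, inv_mul_eq_iff_eq_mul, ← mul_inv_eq_iff_eq_mul.1 (by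
          rw [← conj_pow, mul_inv_eq_iff_eq_mul.2 h1, ← pow_mul, ← pow_succ', pow_eq_pow_mod _ c.a13, h2, pow_one] :
            n.1 * a ^ k ^ 3 * n.1⁻¹ = a)], by rw [← pow_mul, mul_comm, pow_mul, Nat.pow_mod, h2]⟩ }
  let _ : MulAction N (fS S) :=
    { smul := fun n v => ⟨_, x.iv n.1.2 v.2⟩
      one_smul := fun v => Subtype.ext (by change ρV 1 *ᵥ v.1 = v.1; simp)
      mul_smul := fun m n v => Subtype.ext (by
        change ρV (m.1.1 * n.1.1) *ᵥ v.1 = ρV m.1.1 *ᵥ ρV n.1.1 *ᵥ v.1; simp) }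
  have h1 : IsPGroup 2 (MulAction.toPermHom N (fS S)).range := by
    rintro ⟨_, n, rfl⟩
    refine ⟨4, Subtype.ext ((map_pow _ n _).symm.trans (Equiv.ext fun v => Subtype.ext ?_))⟩
    obtain ⟨k, h1, h2⟩ := n.2
    have := c.four x (pow_mem n.1.2 4) (mul_inv_eq_iff_eq_mul.1 (by
      rw [conj_pow_pow h1, pow_eq_pow_mod _ c.a13, h2, pow_one]))
    rw [← pow_mul] at this
    exact mem_fS.1 v.2 _ this
  obtain ⟨v, hv, h0⟩ := h1.exists_fixed_point_of_prime_dvd_card_of_fixed_point (fS S) (a := 0) (by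
    rw [natCard_eq_pow_finrank (K := F), Nat.card_zmod]
    exact dvd_pow_self 2 fun e => h (dm_eq_zero.1 e)) (by
      rintro ⟨_, n, rfl⟩
      exact Subtype.ext (mulVec_zero _))
  exact ⟨v, v.2, fun e => h0 (Subtype.ext e.symm), fun n hn k h1 h2 =>
    congrArg Subtype.val (hv ⟨_, ⟨⟨n, hn⟩, k, h1, h2⟩, rfl⟩)⟩

theorem Cfg.exp (c : Cfg S a u l) {n : Γ} {k : ℕ} (h : n * a = a ^ k * n) :
    k ^ 4 % 13 = 1 ∨ k ^ 4 % 13 = 3 ∨ k ^ 4 % 13 = 9 := by
  have h1 : k % 13 ≠ 0 := fun e => by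
    rw [pow_eq_pow_mod _ c.a13, e, pow_zero, one_mul, mul_eq_left] at h
    exact c.a1 h
  have := Nat.mod_lt k (show 0 < 13 by norm_num)
  rw [Nat.pow_mod]
  generalize k % 13 = j at *
  interval_cases j <;> simp at h1 ⊢

theorem mul_exp {m n : Γ} {j k : ℕ} (h1 : m * a = a ^ j * m) (h2 : n * a = a ^ k * n) :
    m * n * a = a ^ (j * k) * (m * n) := by
  rw [mul_assoc, h2, ← mul_assoc, ← mul_assoc, pow_mul, ← mul_inv_eq_iff_eq_mul.2 h1, conj_pow, inv_mul_cancel_right]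

theorem Cfg.frat' (c : Cfg S a u l) (x : Mx S M) {m : Γ} (hm : m ∈ M) :
    ∃ n ∈ M, ∃ k : ℕ, n * a = a ^ k * n ∧ ∀ v ∈ fS S, ρV m *ᵥ v = ρV n *ᵥ v := by
  obtain ⟨s, hs, k, h⟩ := c.frat x not_dvd'.1 hm
  exact ⟨_, mul_mem (x.le hs) hm, k, h, fun v hv => by rw [map_mul, mul_mulVec', mem_fS.1 (x.iv hm hv) s hs]⟩

theorem Cfg.big (c : Cfg S a u l) (x : Mx S M) (h : fS S ≠ ⊥) {b : Γ} (hb : b ∈ S) (h1 : b * a = a ^ 3 * b) :
    ¬Nat.card S ≤ 3 ^ 16 := fun h2 => by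
  obtain ⟨v, hv, h0, h3⟩ := c.fix x h
  have h4 := card_fix x.co h0 fun m hm => by
    obtain ⟨n, hn, k, h4, h5⟩ := c.frat' x hm
    have h6 := mem_fS.1 (x.iv hn hv) b hb
    rw [h5 v hv]
    rcases c.exp h4 with e | e | e
    · exact h3 n hn k h4 e
    · have := h3 _ (mul_mem (x.le hb) (mul_mem (x.le hb) hn)) _ (mul_exp h1 (mul_exp h1 h4))
        (by rw [mul_pow, mul_pow, ← mul_assoc, Nat.mul_mod, e]; rfl)
      simpa [h6] using this
    · have := h3 _ (mul_mem (x.le hb) hn) _ (mul_exp h1 h4) (by rw [mul_pow, Nat.mul_mod, e]; rfl)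
      simpa [h6] using this
  have h5 := c.card x
  have h6 := card_ge
  omega

theorem Cfg.small (c : Cfg S a u l) (x : Mx S M) (h : fS S ≠ ⊥) : ¬Nat.card S ≤ 27 ^ 3 := fun h2 => by
  obtain ⟨v, hv, h0, h3⟩ := c.fix x h
  have h5 := c.card x
  have h6 := card_ge
  by_cases h7 : ∀ n ∈ M, ∀ k, n * a = a ^ k * n → k ^ 4 % 13 = 1
  · have := card_fix x.co h0 fun m hm => by
      obtain ⟨n, hn, k, h4, h5⟩ := c.frat' x hm
      rw [h5 v hv, h3 n hn k h4 (h7 n hn k h4)]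
    omega
  push Not at h7
  obtain ⟨b, hb, j, h1, h7⟩ := h7
  have h8 : ρV b *ᵥ ρV b *ᵥ ρV b *ᵥ v = v := by
    have := h3 _ (mul_mem hb (mul_mem hb hb)) _ (mul_exp h1 (mul_exp h1 h1)) (by
      rw [mul_pow, mul_pow, Nat.mul_mod, Nat.mul_mod (j ^ 4)]
      rcases c.exp h1 with e | e | e <;> rw [e])
    simpa using this
  have h9 : ∀ n ∈ M, ∀ k, n * a = a ^ k * n → ρV n *ᵥ v = v ∨ ρV n *ᵥ v = ρV b *ᵥ v ∨
      ρV n *ᵥ v = ρV b *ᵥ ρV b *ᵥ v := fun n hn k h4 => by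
    have e1 := h3 n hn k h4
    have e2 := h3 _ (mul_mem hb hn) _ (mul_exp h1 h4)
    have e3 := h3 _ (mul_mem hb (mul_mem hb hn)) _ (mul_exp h1 (mul_exp h1 h4))
    have e4 := c.exp h1
    have e5 := c.exp h4
    simp only [map_mul, mul_mulVec', mul_pow, Nat.mul_mod (j ^ 4), Nat.mod_mod] at e2 e3
    have e6 := fun v w => ρV_cancel b (v := v) (w := w)
    grind
  have h10 : ∀ m ∈ M, ∀ z, z = v ∨ z = ρV b *ᵥ v ∨ z = ρV b *ᵥ ρV b *ᵥ v →
      ρV m *ᵥ z = v ∨ ρV m *ᵥ z = ρV b *ᵥ v ∨ ρV m *ᵥ z = ρV b *ᵥ ρV b *ᵥ v := fun m hm z hz => by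
    obtain ⟨n, hn, k, h4, h5⟩ := c.frat' x hm
    rcases hz with rfl | rfl | rfl
    · rw [h5 _ hv]; exact h9 n hn k h4
    · rw [h5 _ (x.iv hb hv)]; simpa using h9 _ (mul_mem hn hb) _ (mul_exp h4 h1)
    · rw [h5 _ (x.iv hb (x.iv hb hv))]; simpa using h9 _ (mul_mem hn (mul_mem hb hb)) _ (mul_exp h4 (mul_exp h1 h1))
  by_cases h11 : v + ρV b *ᵥ v = ρV b *ᵥ ρV b *ᵥ v
  · have := card_fix2 x.co (w := ρV b *ᵥ v) h0 (by rw [h11]; exact h10)
    omega
  have := card_fix x.co (v := v + ρV b *ᵥ v + ρV b *ᵥ ρV b *ᵥ v) (fun e => h11 (by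
    rw [← add_zero (_ + _), ← add_self (ρV b *ᵥ ρV b *ᵥ v), ← add_assoc, e, zero_add])) fun m hm => by
    have e1 := h10 m hm _ (.inl rfl)
    have e2 := h10 m hm _ (.inr (.inl rfl))
    have e3 := h10 m hm _ (.inr (.inr rfl))
    rw [mulVec_add, mulVec_add]
    by_cases d1 : v = ρV b *ᵥ v
    · simp only [← d1, or_self] at e1 ⊢
      rw [e1]
    have d2 : ρV b *ᵥ v ≠ ρV b *ᵥ ρV b *ᵥ v := fun e => d1 (ρV_cancel b e)
    have d3 : v ≠ ρV b *ᵥ ρV b *ᵥ v := fun e => d1 (h8.symm.trans (by rw [← e]))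
    generalize ρV b *ᵥ ρV b *ᵥ v = z at *
    generalize ρV b *ᵥ v = w at *
    rcases e1 with e1 | e1 | e1 <;> rcases e2 with e2 | e2 | e2 <;> rcases e3 with e3 | e3 | e3 <;>
      first | exact absurd (ρV_cancel m (e1.trans e2.symm)) d1 | exact absurd (ρV_cancel m (e2.trans e3.symm)) d2 |
        exact absurd (ρV_cancel m (e1.trans e3.symm)) d3 | (rw [e1, e2, e3]; try abel)
  omega

end fix

end Cfsg.Agent.H6.Va
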