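import Cfsg.Agent.H6.Vo

/-!
No maximal subgroup of `E₇(2)` has generalized Fitting subgroup `L₂(27)`.
-/

set_option autoImplicit false
set_option linter.unusedSectionVars false
set_option linter.unusedSimpArgs false

namespace Cfsg.Agent.H6.Va

open Matrix Module Cfsg.Agent.H6.E7 Cfsg.Agent.H7.Ord Cfsg.Lie MatrixGroups
open Cfsg.Agent.H7.Inq hiding F

section lift
variable {S G : Type*} [Group S] [Group G] {φ : S →* G} (hk : ∀ s, φ s = 1 → s ∈ Subgroup.center S ∧ s ^ 2 = 1)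
include hk

theorem liftc {s t : S} (h3 : s ^ 3 = 1) (h : Commute (φ s) (φ t)) : Commute s t := by
  obtain ⟨h1, h2⟩ := hk (t * s * t⁻¹ * s⁻¹) (by simp [← h.eq])
  have h4 : (t * s * t⁻¹ * s⁻¹ * s) ^ 3 = 1 := by rw [inv_mul_cancel_right, conj_pow, h3]; simp
  rw [(show Commute _ s from (Subgroup.mem_center_iff.1 h1 s).symm).mul_pow, h3, mul_one, pow_succ, h2, one_mul,
    mul_inv_eq_one, mul_inv_eq_iff_eq_mul] at h4
  exact h4.symm

theorem liftX {A : S} {u l : G} (h : ∀ s, Cc A s → In (φ A) u (φ s) ∨ In (φ A) l (φ s)) :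
    ∀ x ∈ φ.range, Cc (φ A) x → In (φ A) u x ∨ In (φ A) l x := by
  rintro _ ⟨s, rfl⟩ ⟨h1, h2⟩
  have h3 : φ (s ^ 4) = φ s := by rw [map_pow, pow_succ, h1, one_mul]
  have h4 : (s ^ 4) ^ 3 = 1 := by
    rw [← pow_mul, show 4 * 3 = 3 * 2 * 2 from rfl, pow_mul, pow_mul, (hk (s ^ 3) (by rw [map_pow, h1])).2, one_pow]
  exact h3 ▸ h _ ⟨h4, fun j => liftc hk h4 (by simpa only [map_mul, map_inv, h3, map_pow φ A] using h2 j)⟩

end lift

theorem psl_empty {n : Type} {K : Type*} [Fintype n] [DecidableEq n] [Field K] [CharP K 3]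
    (hc : ∀ r : K, r ^ Fintype.card n = 1 → r ^ 2 = 1)
    (h : ∀ φ : SpecialLinearGroup n K →* Γ, (∀ s, φ s = 1 → s ∈ Subgroup.center _ ∧ s ^ 2 = 1) →
      (∀ s ∈ Subgroup.center _, φ s = 1) → ∀ M, ¬Mx φ.range M) {H : Subgroup (chevE7.group F)} (hH : IsCoatom H) :
    IsEmpty (generalizedFittingSubgroup H ≃* ProjectiveSpecialLinearGroup n K) := by
  have h1 : ∀ s, QuotientGroup.mk' (Subgroup.center (SpecialLinearGroup n K)) s = 1 →
      s ∈ Subgroup.center _ ∧ s ^ 2 = 1 := fun s hs => ⟨mk_center s hs, by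
    obtain ⟨r, h2, h3⟩ := Matrix.SpecialLinearGroup.mem_center_iff.1 (mk_center s hs)
    exact SpecialLinearGroup.coeMonoidHom_injective (by
      rw [map_pow, SpecialLinearGroup.coeMonoidHom_apply, ← h3, ← map_pow, hc r h2, map_one, map_one])⟩
  refine empty_of_mx (fun z hz => ?_) (fun ψ hψ M x => h (ψ.comp (QuotientGroup.mk' _))
    (fun s hs => h1 s ((map_eq_one_iff ψ hψ).1 hs)) (fun s hs => ?_) M ?_) hH
  · obtain ⟨s, rfl⟩ := QuotientGroup.mk'_surjective _ z
    obtain ⟨r, hr⟩ := mem_range_scalar_of_commute_transvectionStruct (M := s.1) fun t =>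
      (liftc h1 (s := t.toSpecialLinearGroup) (by
        rw [t.toSpecialLinearGroup_def, pow_three, ← SpecialLinearGroup.transvection_add,
          ← SpecialLinearGroup.transvection_add, ← SpecialLinearGroup.transvection_coeff_zero t.hij]
        congr 1
        linear_combination t.c * CharP.cast_eq_zero K 3) (hz _)).map SpecialLinearGroup.coeMonoidHom
    exact (QuotientGroup.eq_one_iff s).2 (Subgroup.mem_center_iff.2 fun g => Subtype.ext
      (hr ▸ (scalar_commute r (Commute.all r) g.1).symm.eq : g.1 * s.1 = s.1 * g.1))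
  · rw [MonoidHom.comp_apply, show QuotientGroup.mk' _ s = 1 from (QuotientGroup.eq_one_iff s).2 hs, map_one]
  · rwa [MonoidHom.range_comp, MonoidHom.range_eq_top.2 (QuotientGroup.mk'_surjective _), ← MonoidHom.range_eq_map]

theorem conj_iter {G K : Type*} [Group G] [Monoid K] {a : G} {f : K → G} {ν : K} (h : ∀ t, a * f t * a⁻¹ = f (ν * t))
    (j : ℕ) (t : K) : a ^ j * f t * (a ^ j)⁻¹ = f (ν ^ j * t) := by
  induction j with
  | zero => simp
  | succ j ih => rw [pow_succ' ν, mul_assoc ν, ← h, ← ih, pow_succ']; group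

theorem pow_addhom {G K : Type*} [Group G] [Semiring K] {f : K → G} (h : ∀ s t, f (s + t) = f s * f t) (e : ℕ) (t : K) :
    f t ^ e = f (e * t) := by
  induction e with
  | zero => simpa using (mul_eq_left.1 ((h 0 0).symm.trans (by rw [add_zero]))).symm
  | succ e ih => rw [pow_succ, ih, ← h, Nat.cast_succ, add_mul, one_mul]

section sl2
variable {K : Type*} [Field K]

/-- upper unitriangular matrices -/
def uu (t : K) : SL(2, K) := ⟨!![1, t; 0, 1], by simp⟩

/-- lower unitriangular matrices -/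
def ll (t : K) : SL(2, K) := ⟨!![1, 0; t, 1], by simp⟩

/-- the Weyl element -/
def ww : SL(2, K) := ⟨!![0, 1; -1, 0], by simp⟩

/-- diagonal matrices -/
def dd (t : K) (h : t ≠ 0) : SL(2, K) := ⟨!![t, 0; 0, t⁻¹], by simp [h]⟩

@[simp] theorem uu_coe (t : K) : ((uu t : SL(2, K)) : Matrix _ _ K) = !![1, t; 0, 1] := rfl

@[simp] theorem ll_coe (t : K) : ((ll t : SL(2, K)) : Matrix _ _ K) = !![1, 0; t, 1] := rfl

@[simp] theorem ww_coe : ((ww : SL(2, K)) : Matrix _ _ K) = !![0, 1; -1, 0] := rfl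

@[simp] theorem dd_coe (t : K) (h : t ≠ 0) : ((dd t h : SL(2, K)) : Matrix _ _ K) = !![t, 0; 0, t⁻¹] := rfl

theorem ext2 {s t : SL(2, K)} (h : s 0 0 = t 0 0 ∧ s 0 1 = t 0 1 ∧ s 1 0 = t 1 0 ∧ s 1 1 = t 1 1) : s = t := by
  ext i j
  fin_cases i <;> fin_cases j <;> simp [h]

theorem cent2 {s : SL(2, K)} : s ∈ Subgroup.center _ ↔ s 0 0 = s 1 1 ∧ s 0 1 = 0 ∧ s 1 0 = 0 := by
  refine ⟨fun h => ?_, fun h => Subgroup.mem_center_iff.2 fun g => ext2 (by simp [mul_apply, h, mul_comm])⟩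
  obtain ⟨r, -, h⟩ := Matrix.SpecialLinearGroup.mem_center_iff.1 h
  simp [← h]

theorem dd_pow {t : K} (h : t ≠ 0) (j : ℕ) : dd t h ^ j = dd (t ^ j) (pow_ne_zero j h) := by
  induction j with
  | zero => exact ext2 (by simp)
  | succ j ih => exact (pow_succ ..).trans (ih ▸ ext2 (by simp [pow_succ, mul_comm]))

theorem card_sl2 [Finite K] : Nat.card SL(2, K) ≤ Nat.card K ^ 3 := by
  classical
  rw [pow_three, ← Nat.card_prod, ← Nat.card_prod]
  refine Nat.card_le_card_of_injective (fun s => (s 0 0, s 0 1, if s 0 0 = 0 then s 1 1 else s 1 0)) fun s t h => ext2 ?_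
  have h1 := s.2
  have h2 := t.2
  simp only [det_fin_two, Prod.mk.injEq] at h h1 h2
  grind

theorem sl2_X (h3 : (3 : K) = 0) {x : K} (x0 : x ≠ 0) (hx : x ^ 4 ≠ 1) {s : SL(2, K)} (h : Cc (dd x x0) s) :
    uu (s 0 1) = s ∨ ll (s 1 0) = s := by
  have e1 := congrArg (· 0 0) h.1
  have e2 := congrArg (· 1 1) h.1
  have e3 := congrArg (· 0 0) (h.2 1).eq
  simp [pow_succ, mul_apply, det_fin_two, adjugate_fin_two, vecMul, dotProduct] at e1 e2 e3
  have e5 : s 0 1 * s 1 0 = 0 := by grind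
  have e6 : s 0 0 = 1 ∧ s 1 1 = 1 := by
    rw [← sub_eq_zero, ← pow_eq_zero_iff (n := 3) (by omega), ← sub_eq_zero (a := s 1 1),
      ← pow_eq_zero_iff (a := s 1 1 - 1) (n := 3) (by omega)]
    grind
  exact (mul_eq_zero.1 e5).symm.imp (fun h => ext2 (by simp [h, e6])) fun h => ext2 (by simp [h, e6])

theorem no_L27 [Fintype K] (hK : Fintype.card K = 27) (φ : SL(2, K) →* Γ)
    (hk : ∀ s, φ s = 1 → s ∈ Subgroup.center _ ∧ s ^ 2 = 1) (hz : ∀ s ∈ Subgroup.center _, φ s = 1) (M : Subgroup Γ) :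
    ¬Mx φ.range M := fun m => by
  have : CharP K 3 := charP_of_card_eq_prime_pow (p := 3) (f := 3) hK
  have h3 : (3 : K) = 0 := CharP.cast_eq_zero K 3
  obtain ⟨x, hx⟩ := exists_lam hK
  have x0 : x ≠ 0 := fun e => by grind
  have hU : ∀ s t : K, φ (uu (s + t)) = φ (uu s) * φ (uu t) := fun s t => by
    rw [← map_mul]; exact congrArg φ (ext2 (by simp [add_comm]))
  have hL : ∀ s t : K, φ (ll (s + t)) = φ (ll s) * φ (ll t) := fun s t => by
    rw [← map_mul]; exact congrArg φ (ext2 (by simp))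
  have aU : ∀ t, φ (dd x x0) * φ (uu t) * (φ (dd x x0))⁻¹ = φ (uu (x ^ 2 * t)) := fun t => by
    rw [mul_inv_eq_iff_eq_mul, ← map_mul, ← map_mul]; exact congrArg φ (ext2 (by simp; grind))
  have aL : ∀ t, φ (dd x x0) * φ (ll t) * (φ (dd x x0))⁻¹ = φ (ll (x ^ 11 * t)) := fun t => by
    rw [mul_inv_eq_iff_eq_mul, ← map_mul, ← map_mul]; exact congrArg φ (ext2 (by simp; grind))
  have a13 : φ (dd x x0) ^ 13 = 1 := by rw [← map_pow, dd_pow]; exact hz _ (cent2.2 (by simp [hx]))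
  have a1 : φ (dd x x0) ≠ 1 := fun e => by
    have := cent2.1 (hk _ e).1
    simp at this
    grind
  have iU : ∀ t, In (φ (dd x x0)) (φ (uu 1)) (φ (uu t)) := fun t => by
    obtain ⟨j, e, rfl⟩ := exists_pw hK (ν := x ^ 2) (by grind) (by grind) t
    exact ⟨j, e, by rw [pow_addhom (f := fun t => φ (uu t)) hU, conj_iter (f := fun t => φ (uu t)) aU, mul_one]⟩
  have iL : ∀ t, In (φ (dd x x0)) (φ (ll (-1))) (φ (ll t)) := fun t => by
    obtain ⟨j, e, h⟩ := exists_pw hK (ν := x ^ 11) (by grind) (by grind) (-t)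
    exact ⟨j, e, by
      rw [pow_addhom (f := fun t => φ (ll t)) hL, conj_iter (f := fun t => φ (ll t)) aL, mul_neg_one, mul_neg, ← h, neg_neg]⟩
  have gen : ∀ P : Subgroup Γ, (∀ t, φ (uu t) ∈ P) → (∀ t, φ (ll t) ∈ P) → φ.range ≤ P := fun P h1 h2 => by
    rintro _ ⟨s, rfl⟩
    refine SL2.transvection_induction (fun s => φ s ∈ P) (fun i j hij c => ?_) (fun a b ha hb => ?_) s
    · fin_cases i <;> fin_cases j
      · exact absurd rfl hij
      · convert h1 c using 2
        exact ext2 (by simp [SpecialLinearGroup.transvection_coe])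
      · convert h2 c using 2
        exact ext2 (by simp [SpecialLinearGroup.transvection_coe])
      · exact absurd rfl hij
    · rw [map_mul]; exact mul_mem ha hb
  have key : ∀ {f : K → Γ} {ν : K}, (∀ s t, f (s + t) = f s * f t) →
      (∀ t, φ (dd x x0) * f t * (φ (dd x x0))⁻¹ = f (ν * t)) → ∀ t, Cc (φ (dd x x0)) (f t) := fun h1 h2 t =>
    ⟨by rw [pow_addhom h1, Nat.cast_ofNat, h3, ← Nat.cast_zero, ← pow_addhom h1, pow_zero], fun j => by
      rw [conj_iter h2, commute_iff_eq, ← h1, ← h1, add_comm]⟩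
  have c : Cfg φ.range (φ (dd x x0)) (φ (uu 1)) (φ (ll (-1))) := ⟨⟨_, rfl⟩, ⟨_, rfl⟩, ⟨_, rfl⟩, a13, a1, key hU aU _,
    key hL aL _, fun h => by
      have := congrArg (· 0 0) (liftc hk (ext2 (by simp [pow_succ]; grind)) h).eq
      simp at this, liftX hk fun s hs => (sl2_X h3 x0 hx.2.2 hs).imp (fun h => by rw [← h]; exact iU _) fun h => by rw [← h]; exact iL _, fun y ⟨j, e, h1⟩ h2 h4 => by
      rw [pow_addhom (f := fun t => φ (ll t)) hL, conj_iter (f := fun t => φ (ll t)) aL] at h1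
      generalize _ * (_ * (-1 : K)) = t at h1
      subst h1
      have h5 := h4 0 3 (by
        simp only [pow_zero, inv_one, mul_one, one_mul, ← map_mul, ← map_pow]
        exact hz _ (cent2.2 (by simp [pow_succ])))
      simp only [pow_zero, inv_one, mul_one, one_mul, ← map_mul, ← map_pow] at h5
      have h6 := (cent2.1 (hk _ h5).1).2.1
      have h7 : t ≠ 0 := fun e => h2 (hz _ (cent2.2 (by simp [e])))
      simp [pow_succ] at h6
      rw [show t = -1 by grind], fun P h1 h2 h4 => gen P (fun t => by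
        obtain ⟨j, e, h⟩ := iU t
        exact h ▸ mul_mem (mul_mem (pow_mem h1 j) (pow_mem h2 e)) (inv_mem (pow_mem h1 j))) fun t => by
        obtain ⟨j, e, h⟩ := iL t
        exact h ▸ mul_mem (mul_mem (pow_mem h1 j) (pow_mem h4 e)) (inv_mem (pow_mem h1 j))⟩
  refine c.small m (l27 hK hx (w := φ ww) hU (fun e => by simpa [uu] using cent2.1 (hk _ e).1) aU a13 a1 ?_ ?_
    (fun t ht => ?_) fun P h1 h2 => gen P h2 fun t => ?_) ?_
  · rw [← map_mul, ← map_mul]; exact congrArg φ (ext2 (by simp [x0]))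
  · rw [← map_mul]; exact hz _ (cent2.2 (by simp))
  · obtain ⟨j, e, h⟩ := exists_pw hK hx.2.1 (by grind) (-t)
    have h4 : (e : K) * e = 1 := by
      have h5 : (e : K) ^ 3 = e := map_natCast (frobenius K 3) e
      grind
    have h5 : φ (dd x x0) ^ j = φ (dd (-t) (neg_ne_zero.2 ht)) := by
      rw [← map_pow, dd_pow, ← mul_one (φ _), ← hz (dd e (by grind)) (cent2.2 (by simp; grind)), ← map_mul]
      exact congrArg φ (ext2 (by simp [h, mul_comm]))
    refine ⟨j, ?_⟩
    simp only [h5, ← map_mul]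
    exact congrArg φ (ext2 (by simp [ht]))
  · rw [show ll t = ww * uu (-t) * ww⁻¹ from eq_mul_inv_of_mul_eq (ext2 (by simp)), map_mul, map_mul, map_inv]
    exact mul_mem (mul_mem h1 (h2 _)) (inv_mem h1)
  · refine (Nat.card_le_card_of_surjective _ φ.rangeRestrict_surjective).trans (card_sl2.trans ?_)
    rw [Nat.card_eq_fintype_card, hK]

end sl2

end Cfsg.Agent.H6.Va
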