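import Cfsg.Agent.H6.Vp

/-!
No maximal subgroup of `E₇(2)` has generalized Fitting subgroup `L₄(3)`.
-/

set_option autoImplicit false
set_option linter.unusedSectionVars false
set_option linter.unusedSimpArgs false
set_option maxRecDepth 100000

namespace Cfsg.Agent.H6.Va

open Matrix Module Cfsg.Agent.H6.E7 Cfsg.Agent.H7.Ord Cfsg.Lie MatrixGroups
open Cfsg.Agent.H7.Inq hiding F
open Cfsg.Agent.H4.T8 hiding mm dm fx

theorem conj_iter' {G K : Type*} [Group G] {a : G} {f : K → G} {σ : K → K} (h : ∀ t, a * f t * a⁻¹ = f (σ t))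
    (j : ℕ) (t : K) : a ^ j * f t * (a ^ j)⁻¹ = f (σ^[j] t) := by
  induction j with
  | zero => simp
  | succ j ih => rw [Function.iterate_succ_apply', ← h, ← ih, pow_succ']; group

theorem pow_add' {G K : Type*} [Group G] [AddMonoid K] {f : K → G} (h : ∀ s t, f (s + t) = f s * f t) (e : ℕ) (t : K) :
    f t ^ e = f (e • t) := by
  induction e with
  | zero => simpa using (mul_eq_left.1 ((h 0 0).symm.trans (by rw [add_zero]))).symm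
  | succ e ih => rw [pow_succ, ih, ← h, succ_nsmul]

/-- triples -/
abbrev V3 := ZMod 3 × ZMod 3 × ZMod 3

/-- the vector of a triple -/
def iv (t : V3) : Fin 4 → ZMod 3 := ![t.1, t.2.1, t.2.2, 0]

section rep
variable {S : Type*} [Group S] (ρ : S →* Matrix (Fin 4) (Fin 4) (ZMod 3)) {A s : S} (ha : A ^ 13 = 1) (h : Cc A s)
include ha h

theorem ck (P : (Fin 4 → ZMod 3) → Prop) (hP : ∀ i v, P v → P (ρ (A ^ i * s * (A ^ i)⁻¹) *ᵥ v - v))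
    (h0 : ∃ v ≠ 0, P v) : ∃ v ≠ 0, P v ∧ ∀ i < 14, ρ s *ᵥ ρ (A ^ i) *ᵥ v = ρ (A ^ i) *ᵥ v := by
  have key : ∀ n, ∃ v ≠ 0, P v ∧ ∀ i < n, (ρ (A ^ i * s * (A ^ i)⁻¹) - 1) *ᵥ v = 0 := fun n => by
    induction n with
    | zero => simpa using h0
    | succ n ih =>
      obtain ⟨v, h1, h2, h3⟩ := ih
      simp only [Nat.forall_lt_succ_right]
      generalize hN : ρ (A ^ n * s * (A ^ n)⁻¹) - 1 = N
      have h4 : N * N * N = 0 := by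
        rw [← pow_three', ← hN, sub_pow_char_of_commute _ (Commute.one_right _), ← map_pow, conj_pow, h.1]; simp
      have h5 : ∀ v, (P v ∧ ∀ i < n, (ρ (A ^ i * s * (A ^ i)⁻¹) - 1) *ᵥ v = 0) →
          P (N *ᵥ v) ∧ ∀ i < n, (ρ (A ^ i * s * (A ^ i)⁻¹) - 1) *ᵥ N *ᵥ v = 0 := fun v hv =>
        ⟨by simpa [← hN, sub_mulVec] using hP n v hv.1, fun i hi => by
          have : Commute (A ^ i * s * (A ^ i)⁻¹) (A ^ n * s * (A ^ n)⁻¹) :=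
            In.comm ha h ⟨i, 1, by rw [pow_one]⟩ ⟨n, 1, by rw [pow_one]⟩
          rw [mulVec_mulVec, ← hN, (((this.map ρ).sub_right (Commute.one_right _)).sub_left (Commute.one_left _)).eq,
            ← mulVec_mulVec, hv.2 i hi, mulVec_zero]⟩
      by_cases e1 : N *ᵥ v = 0
      · exact ⟨v, h1, h2, h3, e1⟩
      by_cases e2 : N *ᵥ N *ᵥ v = 0
      · exact ⟨_, e1, (h5 v ⟨h2, h3⟩).1, (h5 v ⟨h2, h3⟩).2, e2⟩
      exact ⟨_, e2, (h5 _ (h5 v ⟨h2, h3⟩)).1, (h5 _ (h5 v ⟨h2, h3⟩)).2, by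
        rw [mulVec_mulVec, mulVec_mulVec, h4, zero_mulVec]⟩
  obtain ⟨v, h1, h2, h3⟩ := key 200
  refine ⟨v, h1, h2, fun i hi => ?_⟩
  have h4 : A ^ i * A ^ (12 * i) = 1 := by rw [← pow_add, show i + 12 * i = 13 * i by ring, pow_mul, ha, one_pow]
  have h5 := congrArg (ρ (A ^ i) *ᵥ ·) (h3 (12 * i) (by omega))
  simp only [sub_mulVec, mulVec_sub, one_mulVec, mulVec_zero, sub_eq_zero, mulVec_mulVec, ← map_mul, ← mul_assoc, h4,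
    one_mul, inv_eq_of_mul_eq_one_left h4] at h5
  rwa [mulVec_mulVec, ← map_mul]

omit ha h in
theorem sp {σ : V3 → V3} (hσ : ∀ t, ρ A *ᵥ iv t = iv (σ t)) {t₀ : V3}
    (tr : ∀ t, ∃ j < 13, ∃ e < 3, t = e • σ^[j] t₀)
    (h1 : ∀ i < 13, ρ s *ᵥ ρ (A ^ i) *ᵥ iv t₀ = ρ (A ^ i) *ᵥ iv t₀) (t : V3) : ρ s *ᵥ iv t = iv t := by
  have h2 : ∀ i, ρ (A ^ i) *ᵥ iv t₀ = iv (σ^[i] t₀) := fun i => by
    induction i with
    | zero => simp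
    | succ i ih => rw [pow_succ', map_mul, ← mulVec_mulVec, ih, hσ, Function.iterate_succ_apply']
  obtain ⟨j, hj, e, -, rfl⟩ := tr t
  have h3 : ∀ t, iv (e • t) = e • iv t := fun t => by ext i; fin_cases i <;> simp [iv]
  rw [h3, mulVec_smul, ← h2, h1 j hj]

end rep

/-- first family -/
def U4 (t : V3) : SL(4, ZMod 3) := ⟨!![1, 0, 0, t.1; 0, 1, 0, t.2.1; 0, 0, 1, t.2.2; 0, 0, 0, 1], by
  revert t; decide +kernel⟩

/-- second family -/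
def L4 (t : V3) : SL(4, ZMod 3) := ⟨!![1, 0, 0, 0; 0, 1, 0, 0; 0, 0, 1, 0; t.1, t.2.1, t.2.2, 1], by
  revert t; decide +kernel⟩

/-- an element of order thirteen -/
def A4 : SL(4, ZMod 3) := ⟨!![0, 0, 1, 0; 1, 0, 1, 0; 0, 1, 0, 0; 0, 0, 0, 1], by decide +kernel⟩

/-- a normalising element -/
def B4 : SL(4, ZMod 3) := ⟨!![1, 1, 1, 0; 0, 1, 2, 0; 0, 0, 1, 0; 0, 0, 0, 1], by decide +kernel⟩

/-- action on columns -/
def sU (t : V3) : V3 := (t.2.2, t.1 + t.2.2, t.2.1)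

/-- action on rows -/
def sL (t : V3) : V3 := (t.2.2 - t.1, t.1, t.2.1)

theorem l4_chk : (∀ s t, U4 (s + t) = U4 s * U4 t) ∧ (∀ s t, L4 (s + t) = L4 s * L4 t) ∧
    (∀ t, A4 * U4 t = U4 (sU t) * A4) ∧ (∀ t, A4 * L4 t = L4 (sL t) * A4) ∧ B4 * A4 = A4 ^ 3 * B4 ∧
    (∀ t, A4.1 *ᵥ iv t = iv (sU t)) ∧ (∀ t, A4.1ᵀ *ᵥ iv (sL t) = iv t) ∧ U4 (1, 0, 0) * L4 (1, 0, 0) ≠
    L4 (1, 0, 0) * U4 (1, 0, 0) ∧ A4 * U4 (1, 0, 0) ≠ U4 (1, 0, 0) * A4 ∧ U4 0 = 1 ∧ L4 0 = 1 := by decide +kernel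

theorem tr_chk : ∀ t₀ ≠ 0, ∀ t, (∃ j < 13, ∃ e < 3, t = e • sU^[j] t₀) ∧ ∃ j < 13, ∃ e < 3, t = e • sL^[j] t₀ := by
  decide +kernel

theorem y_chk : (U4 (1, 0, 0) * L4 (1, 0, 0)) ^ 4 = 1 ∧ (U4 (0, 1, 0) * L4 (1, 0, 0)) ^ 3 = 1 ∧
    (U4 (0, 0, 1) * L4 (1, 0, 0)) ^ 3 = 1 ∧ ∀ t, ((U4 (1, 0, 0) * L4 t) ^ 4).1 0 3 = 0 →
      ((U4 (1, 0, 0) * L4 t) ^ 4).1 0 0 = ((U4 (1, 0, 0) * L4 t) ^ 4).1 1 1 → ((U4 (0, 1, 0) * L4 t) ^ 3).1 1 1 =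
      ((U4 (0, 1, 0) * L4 t) ^ 3).1 0 0 → ((U4 (0, 1, 0) * L4 t) ^ 3).1 1 3 = 0 → ((U4 (0, 0, 1) * L4 t) ^ 3).1 2 2 =
      ((U4 (0, 0, 1) * L4 t) ^ 3).1 0 0 → ((U4 (0, 0, 1) * L4 t) ^ 3).1 2 3 = 0 → t = (1, 0, 0) := by decide +kernel

/-- unit triples -/
def e3 (i : Fin 4) (c : ZMod 3) : V3 := (if i = 0 then c else 0, if i = 1 then c else 0, if i = 2 then c else 0)

theorem gen_chk : (∀ i j : Fin 4, i ≠ j → ∀ c, transvection i j c = (if j = 3 then U4 (e3 i c) else if i = 3 then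
      L4 (e3 j c) else U4 (e3 i c) * L4 (e3 j 1) * U4 (e3 i (-c)) * L4 (e3 j (-1))).1) ∧ ∀ i j : Fin 4, i ≠ j →
      diagonal (fun k => if k = i then 2 else if k = j then 2 else 1) = transvection i j (1 : ZMod 3) *
        transvection j i 1 * (transvection i j 1 * transvection j i 1) := by decide +kernel

end Cfsg.Agent.H6.Va
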