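import Cfsg.Agent.H6.Vq

/-!
No maximal subgroup of `E₇(2)` has generalized Fitting subgroup `L₄(3)`.
-/

set_option autoImplicit false
set_option linter.unusedSectionVars false
set_option linter.unusedSimpArgs false
set_option maxRecDepth 100000

namespace Cfsg.Agent.H6.Va

open Matrix Module Cfsg.Agent.H6.E7 Cfsg.Agent.H7.Ord Cfsg.Lie MatrixGroups
open Cfsg.Agent.H7.Inq hiding F
open Cfsg.Agent.H4.T8 hiding mm dm fx

theorem A4_pow : A4 ^ 13 = 1 := by
  have hc := codP (K := ZMod 3) (w := 2) 3 (by norm_num) (by norm_num)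
  have h1 : toM (Equiv.refl (Fin 4)) (Nat.cast : ℕ → ZMod 3) 2 0x40100401 = 1 := by decide +kernel
  refine SpecialLinearGroup.coeMonoidHom_injective ?_
  rw [map_pow, map_one, show SpecialLinearGroup.coeMonoidHom A4 = toM (Equiv.refl (Fin 4)) Nat.cast 2 0x40041110 by
    decide +kernel, ← pwC_spec (toM_mm _ hc) h1, ← h1]
  exact congrArg _ (by decide +kernel)

/-- the contragredient representation -/
def dual : SL(4, ZMod 3) →* Matrix (Fin 4) (Fin 4) (ZMod 3) where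
  toFun s := (SpecialLinearGroup.coeMonoidHom s⁻¹)ᵀ
  map_one' := by rw [inv_one, map_one, transpose_one]
  map_mul' s t := by rw [_root_.mul_inv_rev, map_mul, transpose_mul]

theorem dual_col {g : SL(4, ZMod 3)} (h : g ∈ MulAction.stabilizer SL(4, ZMod 3) (Pi.single 3 1 : Fin 4 → ZMod 3))
    (w : Fin 4 → ZMod 3) : (dual g *ᵥ w) 3 = w 3 := by
  have h1 : (SpecialLinearGroup.coeMonoidHom g⁻¹) *ᵥ Pi.single 3 1 = Pi.single 3 1 := inv_mem h
  change (SpecialLinearGroup.coeMonoidHom g⁻¹)ᵀ 3 ⬝ᵥ w = _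
  generalize SpecialLinearGroup.coeMonoidHom g⁻¹ = B at *
  rw [mulVec_single_one] at h1
  rw [show Bᵀ 3 = Pi.single 3 1 from h1]
  simp

theorem dual_iff (s : SL(4, ZMod 3)) (v w : Fin 4 → ZMod 3) : dual s *ᵥ v = w ↔ s.1ᵀ *ᵥ w = v := by
  have h1 : s.1ᵀ = dual s⁻¹ := congrArg (fun x => (SpecialLinearGroup.coeMonoidHom x)ᵀ) (inv_inv s).symm
  rw [h1]
  constructor <;> rintro rfl <;> simp [mulVec_mulVec, ← map_mul]

theorem vec_chk : ∀ p q r z : ZMod 3, ![p, q, r, z] ≠ 0 → (![p, q, r, z] = z • Pi.single 3 1 ∧ z * z = 1) ∨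
    ∃ t ≠ 0, A4.1 *ᵥ ![p, q, r, z] - ![p, q, r, z] = iv t := by decide +kernel

theorem sl4_X {s : SL(4, ZMod 3)} (h : Cc A4 s) : (∃ t, U4 t = s) ∨ ∃ t, L4 t = s := by
  obtain ⟨v, h0, -, h1⟩ := ck SpecialLinearGroup.coeMonoidHom A4_pow h (fun _ => True) (fun _ _ _ => trivial)
    ⟨1, by decide, trivial⟩
  have e0 : ![v 0, v 1, v 2, v 3] = v := by ext i; fin_cases i <;> rfl
  have hd := s.2
  rcases vec_chk (v 0) (v 1) (v 2) (v 3) (by rwa [e0]) with ⟨h2, h3⟩ | ⟨t, ht, h2⟩ <;> rw [e0] at h2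
  · have h4 : s.1 *ᵥ Pi.single 3 1 = Pi.single 3 1 := by
      have := congrArg (v 3 • ·) (h1 0 (by omega))
      rw [h2] at this
      simpa [mulVec_smul, smul_smul, h3, -mulVec_single] using this
    have h9 : A4 ∈ MulAction.stabilizer SL(4, ZMod 3) (Pi.single 3 1 : Fin 4 → ZMod 3) := by
      change A4.1 *ᵥ _ = _
      decide +kernel
    obtain ⟨w, h5, h6, h7⟩ := ck dual A4_pow h (· 3 = 0) (fun i w hw => by
      simp only [Pi.sub_apply, dual_col (mul_mem (mul_mem (pow_mem h9 i) h4) (inv_mem (pow_mem h9 i))) w, sub_self]) ⟨Pi.single 0 1, by decide, by decide⟩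
    have e1 : iv (w 0, w 1, w 2) = w := by ext i; fin_cases i <;> simp [iv, h6]
    have h8 := fun t => (dual_iff ..).1 (sp dual (fun t => (dual_iff ..).2 (l4_chk.2.2.2.2.2.2.1 t)) (t₀ := (w 0, w 1, w 2))
      (fun t => (tr_chk _ (fun e => h5 (by rw [← e1, e]; decide)) t).2) (fun i hi => e1.symm ▸ h7 i (by omega)) t)
    have k0 := h8 (1, 0, 0)
    have k1 := h8 (0, 1, 0)
    have k2 := h8 (0, 0, 1)
    simp [funext_iff, Fin.forall_fin_succ, mulVec, dotProduct, Fin.sum_univ_succ, iv] at k0 k1 k2 h4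
    refine .inr ⟨(s 3 0, s 3 1, s 3 2), Subtype.ext ?_⟩
    ext i j
    fin_cases i <;> fin_cases j <;> simp [L4, k0, k1, k2, h4]
  · have h8 := sp SpecialLinearGroup.coeMonoidHom (A := A4) l4_chk.2.2.2.2.2.1 (fun t' => (tr_chk t ht t').1) (s := s)
        fun i hi => by
      have := h1 (i + 1) (by omega)
      rw [pow_succ, map_mul, ← mulVec_mulVec] at this
      rw [← h2, mulVec_sub, mulVec_sub, h1 i (by omega)]
      exact congrArg (· - _) this
    have k0 := h8 (1, 0, 0)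
    have k1 := h8 (0, 1, 0)
    have k2 := h8 (0, 0, 1)
    simp [funext_iff, Fin.forall_fin_succ, mulVec, dotProduct, Fin.sum_univ_succ, iv] at k0 k1 k2
    rw [det_succ_column_zero] at hd
    simp [det_fin_three, Fin.sum_univ_succ, k0, k1, k2, Fin.succAbove] at hd
    refine .inl ⟨(s 0 3, s 1 3, s 2 3), Subtype.ext ?_⟩
    ext i j
    fin_cases i <;> fin_cases j <;> simp [U4, k0, k1, k2, hd]

theorem no_L43 (φ : SL(4, ZMod 3) →* Γ) (hk : ∀ s, φ s = 1 → s ∈ Subgroup.center _ ∧ s ^ 2 = 1)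
    (hz : ∀ s ∈ Subgroup.center _, φ s = 1) (M : Subgroup Γ) : ¬Mx φ.range M := fun m => by
  obtain ⟨r1, r2, r3, r4, r5, -, -, r6, r7, r8, r9⟩ := l4_chk
  have hU : ∀ s t, φ (U4 (s + t)) = φ (U4 s) * φ (U4 t) := fun s t => by rw [r1, map_mul]
  have hL : ∀ s t, φ (L4 (s + t)) = φ (L4 s) * φ (L4 t) := fun s t => by rw [r2, map_mul]
  have aU : ∀ t, φ A4 * φ (U4 t) * (φ A4)⁻¹ = φ (U4 (sU t)) := fun t => by
    rw [mul_inv_eq_iff_eq_mul, ← map_mul, r3, map_mul]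
  have aL : ∀ t, φ A4 * φ (L4 t) * (φ A4)⁻¹ = φ (L4 (sL t)) := fun t => by
    rw [mul_inv_eq_iff_eq_mul, ← map_mul, r4, map_mul]
  have key : ∀ {f : V3 → Γ} {σ : V3 → V3}, (∀ s t, f (s + t) = f s * f t) → (∀ t, φ A4 * f t * (φ A4)⁻¹ = f (σ t)) →
      (∀ t, ∃ j < 13, ∃ e < 3, t = e • σ^[j] (1, 0, 0)) → Cc (φ A4) (f (1, 0, 0)) ∧ ∀ t, In (φ A4) (f (1, 0, 0)) (f t) :=
    fun h1 h2 h3 => ⟨⟨by rw [pow_add' h1, show 3 • ((1, 0, 0) : V3) = 0 • 0 by decide, ← pow_add' h1, pow_zero],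
      fun j => by rw [conj_iter' h2, commute_iff_eq, ← h1, ← h1, add_comm]⟩, fun t => by
        obtain ⟨j, -, e, -, rfl⟩ := h3 t
        exact ⟨j, e, by rw [← conj_pow, conj_iter' h2, pow_add' h1]⟩⟩
  obtain ⟨cU, iU⟩ := key hU aU fun t => (tr_chk _ (by decide) t).1
  obtain ⟨cL, iL⟩ := key hL aL fun t => (tr_chk _ (by decide) t).2
  have c : Cfg φ.range (φ A4) (φ (U4 (1, 0, 0))) (φ (L4 (1, 0, 0))) := ⟨⟨_, rfl⟩, ⟨_, rfl⟩, ⟨_, rfl⟩,
    by rw [← map_pow, A4_pow, map_one], fun e => r7 (Subgroup.mem_center_iff.1 (hk _ e).1 _).symm, cU, cL,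
    fun h => r6 (liftc hk (by decide +kernel) h), liftX hk fun s hs => (sl4_X hs).imp
      (fun ⟨t, h⟩ => by rw [← h]; exact iU _) fun ⟨t, h⟩ => by rw [← h]; exact iL _, fun y ⟨j, e, h1⟩ h2 h4 => by
      rw [pow_add' (f := fun t => φ (L4 t)) hL, conj_iter' (f := fun t => φ (L4 t)) aL] at h1
      generalize sL^[j] _ = t at h1
      subst h1
      have h5 : ∀ i n t₀, sU^[i] (1, 0, 0) = t₀ → (U4 t₀ * L4 (1, 0, 0)) ^ n = 1 →
          ∃ r, scalar _ r = ((U4 t₀ * L4 t) ^ n).1 := fun i n t₀ e1 e2 => by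
        have := h4 i n
        rw [conj_iter' (f := fun t => φ (U4 t)) aU, e1, ← map_mul, ← map_mul, ← map_pow, ← map_pow, e2, map_one] at this
        exact (Matrix.SpecialLinearGroup.mem_center_iff.1 (hk _ (this rfl)).1).imp fun _ h => h.2
      obtain ⟨y1, y2, y3, y4⟩ := y_chk
      obtain ⟨a, ha⟩ := h5 0 4 (1, 0, 0) rfl y1
      obtain ⟨b, hb⟩ := h5 1 3 _ (by decide) y2
      obtain ⟨c, hc⟩ := h5 2 3 _ (by decide) y3
      have := y4 t
      rw [← ha, ← hb, ← hc] at this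
      rw [this] <;> simp, fun P h1 h2 h4 => by
      have k : ∀ {x y}, x ∈ P → In (φ A4) x y → y ∈ P := fun hx ⟨j, e, h⟩ =>
        h ▸ mul_mem (mul_mem (pow_mem h1 j) (pow_mem hx e)) (inv_mem (pow_mem h1 j))
      have k1 : ∀ t, U4 t ∈ P.comap φ := fun t => k h2 (iU t)
      have k2 : ∀ t, L4 t ∈ P.comap φ := fun t => k h4 (iL t)
      have k3 : ∀ i j (h : i ≠ j) c, SpecialLinearGroup.transvection h c ∈ P.comap φ := fun i j h c => by
        rw [show SpecialLinearGroup.transvection h c = _ from Subtype.ext (gen_chk.1 i j h c)]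
        split_ifs
        exacts [k1 _, k2 _, mul_mem (mul_mem (mul_mem (k1 _) (k2 _)) (k1 _)) (k2 _)]
      rintro _ ⟨s, rfl⟩
      refine SpecialLinearGroup.diagonal_transvection_induction' (· ∈ P.comap φ) s (fun i j h c hc => ?_) k3
        fun _ _ => mul_mem
      rcases (by revert c; decide : c = 1 ∨ c = 2) with rfl | rfl
      · rw [show SpecialLinearGroup.diag2n h 1 hc = 1 from Subtype.ext (by simp [SpecialLinearGroup.diag2n_coe])]
        exact one_mem _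
      · rw [show SpecialLinearGroup.diag2n h 2 hc = SpecialLinearGroup.transvection h 1 *
          SpecialLinearGroup.transvection h.symm 1 * (SpecialLinearGroup.transvection h 1 *
          SpecialLinearGroup.transvection h.symm 1) from Subtype.ext (by
            rw [SpecialLinearGroup.diag2n_coe, show (2 : ZMod 3)⁻¹ = 2 from inv_eq_of_mul_eq_one_right (by decide)]
            exact gen_chk.2 i j h)]
        exact mul_mem (mul_mem (k3 ..) (k3 ..)) (mul_mem (k3 ..) (k3 ..))⟩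
  refine c.big m ?_ ⟨B4, rfl⟩ (by rw [← map_mul, r5, map_mul, map_pow]) ?_
  · have hc := codP (K := ZMod 3) (w := 2) 3 (by norm_num) (by norm_num)
    have h1 : toM (Equiv.refl (Fin 4)) (Nat.cast : ℕ → ZMod 3) 2 0x40100401 = 1 := by decide +kernel
    have h2 : ∀ a, pwC (H4.T8.mm 2 4 (faP 3) (fmP 3)) 0x40100401 a 5 = 0x40100401 →
        PV SpecialLinearGroup.coeMonoidHom (toM (Equiv.refl (Fin 4)) (Nat.cast : ℕ → ZMod 3) 2) a := fun a h => by
      have h3 := congrArg (fun a => (toM (Equiv.refl (Fin 4)) (Nat.cast : ℕ → ZMod 3) 2 a).det) h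
      simp only [pwC_spec (toM_mm _ hc) h1, h1, det_pow, det_one] at h3
      exact ⟨⟨_, (by decide : ∀ d : ZMod 3, d ^ 5 = 1 → d = 1) _ h3⟩, rfl⟩
    have e2 : SpecialLinearGroup.coeMonoidHom A4 = toM (Equiv.refl (Fin 4)) Nat.cast 2 0x40041110 := by decide +kernel
    have e3 : SpecialLinearGroup.coeMonoidHom (U4 (1, 0, 0)) = toM (Equiv.refl (Fin 4)) Nat.cast 2 0x40100441 := by
      decide +kernel
    have e4 : SpecialLinearGroup.coeMonoidHom (L4 (1, 0, 0)) = toM (Equiv.refl (Fin 4)) Nat.cast 2 0x41100401 := by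
      decide +kernel
    obtain ⟨W, N⟩ := model (Equiv.refl (Fin 4)) hc Nat.cast_one (j := SpecialLinearGroup.coeMonoidHom)
      Subtype.val_injective (π := φ) (fun s h => (hk s h).1) (e1 := 0x40100401) (by decide +kernel)
      (zc := H4.BP.gt [0x40100401, 0x80200802] 0x40100401)
      (fun i => (sl_hz _ hc.zero (gt_all (P := fun a => ∃ c, scM 2 4 a c = true ∧ (c : ZMod 3) ^ 4 = 1) (by
        simp only [List.forall_mem_cons]
        exact ⟨⟨1, by decide +kernel⟩, ⟨2, by decide +kernel⟩, by simp⟩) ⟨1, by decide +kernel⟩) i).imp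
          fun s h => ⟨h.1, hz s (mk_center s h.2)⟩)
      (fun c => (Nat.beq (low 2 c) 2).toNat)
      (X := H4.BP.gt [0x69140a59, 0x6a461225, 0x40041110, 0x40100441, 0x41100401] 0x40100401)
      (gt_all (by
        simp only [List.forall_mem_cons]
        exact ⟨h2 _ (by decide +kernel), h2 _ (by decide +kernel), ⟨_, e2⟩, ⟨_, e3⟩, ⟨_, e4⟩, by simp⟩)
        (h2 _ (by decide +kernel))) (ψ := .id _) Function.injective_id
    generalize hg : (_ ∘ _ ∘ _ : ℕ → Γ) = g at W N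
    have g2 : g 2 = φ A4 := hg ▸ Pφ_eq Subtype.val_injective e2
    have g3 : g 3 = φ (U4 (1, 0, 0)) := hg ▸ Pφ_eq Subtype.val_injective e3
    have g4 : g 4 = φ (L4 (1, 0, 0)) := hg ▸ Pφ_eq Subtype.val_injective e4
    have r := W.rels (l := [([0, 1, 0, 1], []), (rp 5 [0], []), (rp 5 [1], []),
      ([2], [1, 0, 0, 1, 1, 0, 0, 0, 1, 0, 0, 1, 1, 1, 0, 0, 0, 1, 1, 0, 0, 1, 1, 1, 0, 1, 1, 0, 0, 0, 1, 1, 1, 0]),
      ([3], [1, 1, 1, 0, 1, 1, 0, 0, 0, 1, 1, 1, 0, 1, 1, 1, 0, 0, 1, 0, 0, 0, 1, 0, 0, 0, 1, 0]),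
      ([4], [0, 0, 1, 1, 0, 0, 1, 1, 1, 0, 0, 1, 1, 1, 0, 0, 0, 1, 1, 1, 0, 1, 1, 0, 0, 0, 1, 1, 1, 0, 0, 0])])
      (by decide +kernel)
    simp only [List.forall_mem_cons, wp_rp, wp_nil] at r
    obtain ⟨s1, s2, s3, s4, s5, s6, -⟩ := r
    have h3 := scott (x := wp g [0]) (y := wp g [1]) (z := wp g [0, 1]) (by simpa [mul_assoc] using s1)
    have h4 := two (x := wp g [0, 1]) (by simpa [mul_assoc, pow_two] using s1)
    rw [five s2 (N _ [1] (by decide +kernel)), five s3 (N _ [0] (by decide +kernel))] at h3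
    refine fun h0 => (show dm (fx (ρV (wp g [0])) ⊓ fx (ρV (wp g [1]))) ≠ 0 by omega) (dm_eq_zero.2 (eq_bot_iff.2
      fun v hv => h0.le (mem_fS.2 ?_)))
    have h5 : ∀ j ∈ [0, 1], ρV (g j) *ᵥ v = v := by simpa [H7.Inq.mem_fx] using hv
    have h6 : ∀ {j w}, wp g [j] = wp g w → w.all (· ∈ [0, 1]) = true → ρV (g j) *ᵥ v = v := fun e h => by
      rw [wp_cons, wp_nil, mul_one] at e
      exact e ▸ fix_wp ρV fun j hj => h5 j (by simpa using List.all_eq_true.1 h j hj)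
    let _ := actV
    exact c.gen (MulAction.stabilizer Γ v) (g2 ▸ h6 s4 rfl) (g3 ▸ h6 s5 rfl) (g4 ▸ h6 s6 rfl)
  · refine (Nat.card_le_card_of_surjective _ φ.rangeRestrict_surjective).trans
      ((Nat.card_le_card_of_injective _ Subtype.val_injective).trans ?_)
    simp [Matrix]

end Cfsg.Agent.H6.Va
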